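import Cfsg.Agent.Fgs1.PrimLin
import Cfsg.Agent.BG2.Rep

/-! The average dimension of fixed spaces of a solvable irreducible linear group is at most half the degree. -/

set_option autoImplicit false

open Subgroup Module
open scoped commutatorElement

namespace CF.Fgs1.PrimLin

variable {F G V : Type*} [Field F] [Group G] [AddCommGroup V] [Module F V]

/-- Fixed space of an operator permuting a direct decomposition. -/
theorem finrank_ker_perm_le [FiniteDimensional F V] {t m : ℕ} (D : Fin t → Submodule F V)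
    (hm : ∀ i, finrank F (D i) = m) (hind : iSupIndep D) (htop : iSup D = ⊤)
    (h : Module.End F V) (σ : Equiv.Perm (Fin t)) (hσ : ∀ i, ∀ v ∈ D i, h v ∈ D (σ i)) :
    2 * finrank F (LinearMap.ker (h - 1)) ≤
      2 * ∑ i ∈ Finset.univ.filter (fun i => σ i = i),
        finrank F (LinearMap.ker (h - 1) ⊓ D i : Submodule F V) +
      (Finset.univ.filter (fun i => σ i ≠ i)).card * m := by
  classical
  have hint : DirectSum.IsInternal D :=
    (DirectSum.isInternal_submodule_iff_iSupIndep_and_iSup_eq_top D).mpr ⟨hind, htop⟩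
  let E : (DirectSum (Fin t) fun i => D i) ≃ₗ[F] V := LinearEquiv.ofBijective (DirectSum.coeLinearMap D) hint
  let π : ∀ i, V →ₗ[F] D i := fun i => (DirectSum.component F (Fin t) (fun i => D i) i).comp E.symm.toLinearMap
  have hsum : ∀ v, ∑ i, (π i v : V) = v := by
    intro v
    have e1 : E (E.symm v) = v := E.apply_symm_apply v
    conv_rhs => rw [← e1, ← DirectSum.sum_univ_of (E.symm v), map_sum]
    refine Finset.sum_congr rfl fun i _ => ?_
    exact (DirectSum.coeLinearMap_of D i _).symm
  have huniq := (iSupIndep_iff_finset_sum_eq_zero_imp_eq_zero D).mp hind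
  have hcomm : ∀ v, h v = v → ∀ i, (π (σ i) v : V) = h (π i v) := by
    intro v hv i
    have := huniq Finset.univ (fun j => (π j v : V) - h (π (σ.symm j) v)) (fun j _ => by
      refine Submodule.sub_mem _ (π j v).2 ?_
      have := hσ (σ.symm j) _ (π (σ.symm j) v).2
      rwa [Equiv.apply_symm_apply] at this) (by
      rw [Finset.sum_sub_distrib, hsum, ← map_sum,
        Equiv.sum_comp σ.symm (fun j => (π j v : V)), hsum, hv, sub_self]) (σ i) (Finset.mem_univ _)
    rw [Equiv.symm_apply_apply] at this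
    exact sub_eq_zero.mp this
  set W := LinearMap.ker (h - 1) with hW
  have hmemW : ∀ v, v ∈ W ↔ h v = v := by
    intro v; simp [hW, sub_eq_zero]
  let S0 := Finset.univ.filter (fun i => σ i = i)
  let T := Finset.univ.filter (fun i => σ i ≠ i ∧ ∀ k : ℕ, i ≤ (σ ^ k) i)
  let Φ : W →ₗ[F] ((i : S0) → (W ⊓ D i : Submodule F V)) × ((i : T) → D i) :=
    LinearMap.prod
      (LinearMap.pi fun i => LinearMap.codRestrict _ ((D i).subtype ∘ₗ π i ∘ₗ W.subtype) (fun w => by
        refine ⟨?_, (π i w).2⟩
        have h1 := hcomm w ((hmemW w).mp w.2) i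
        rw [(Finset.mem_filter.mp i.2).2] at h1
        exact (hmemW _).mpr h1.symm))
      (LinearMap.pi fun i => π i ∘ₗ W.subtype)
  have hΦ : Function.Injective Φ := by
    rw [injective_iff_map_eq_zero]
    intro w hw
    have h0 : ∀ i ∈ S0, (π i w : V) = 0 := fun i hi =>
      congrArg Subtype.val (congrFun (congrArg Prod.fst hw) ⟨i, hi⟩)
    have h1 : ∀ i ∈ T, (π i w : V) = 0 := fun i hi =>
      congrArg Subtype.val (congrFun (congrArg Prod.snd hw) ⟨i, hi⟩)
    have hiter : ∀ i, (π i w : V) = 0 → ∀ k : ℕ, (π ((σ ^ k) i) w : V) = 0 := by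
      intro i hi k
      induction k with
      | zero => exact hi
      | succ k ih =>
        rw [pow_succ', Equiv.Perm.mul_apply, hcomm w ((hmemW w).mp w.2), ih, map_zero]
    have hall : ∀ j, (π j w : V) = 0 := by
      intro j
      by_cases hj : σ j = j
      · exact h0 j (Finset.mem_filter.mpr ⟨Finset.mem_univ _, hj⟩)
      obtain ⟨i, ⟨k, hk⟩, hmin⟩ := Set.Finite.exists_minimal
        (s := {i | ∃ k : ℕ, (σ ^ k) j = i}) (Set.toFinite _) ⟨j, 0, rfl⟩
      have hback : ∃ l : ℕ, (σ ^ l) i = j := by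
        refine ⟨(orderOf σ - 1) * k, ?_⟩
        rw [← hk, ← Equiv.Perm.mul_apply, ← pow_add]
        have : (orderOf σ - 1) * k + k = orderOf σ * k := by
          have := orderOf_pos σ
          obtain ⟨c, hc⟩ : ∃ c, orderOf σ = c + 1 := ⟨orderOf σ - 1, by omega⟩
          rw [hc]; simp [add_mul]
        rw [this, pow_mul, pow_orderOf_eq_one, one_pow]; rfl
      obtain ⟨l, hl⟩ := hback
      have hiT : i ∈ T := by
        refine Finset.mem_filter.mpr ⟨Finset.mem_univ _, ?_, fun k' => ?_⟩
        · intro hi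
          apply hj
          rw [← hl, ← Equiv.Perm.mul_apply, ← pow_succ', pow_succ, Equiv.Perm.mul_apply, hi]
        · by_contra hlt
          push Not at hlt
          have := hmin (y := (σ ^ k') i) ⟨k' + k, by rw [pow_add, Equiv.Perm.mul_apply, hk]⟩ hlt.le
          exact absurd this (not_le.mpr hlt)
      rw [← hl]
      exact hiter i (h1 i hiT) l
    apply Subtype.ext
    rw [← hsum w]
    simp [hall]
  have hle := LinearMap.finrank_le_finrank_of_injective hΦ
  rw [Module.finrank_prod, Module.finrank_pi_fintype, Module.finrank_pi_fintype] at hle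
  have e1 : ∑ i : T, finrank F (D i) = T.card * m := by simp [hm]
  have e2 : ∑ i : S0, finrank F (W ⊓ D i : Submodule F V) =
      ∑ i ∈ S0, finrank F (W ⊓ D i : Submodule F V) :=
    Finset.sum_coe_sort S0 (fun i => finrank F (W ⊓ D i : Submodule F V))
  have hT : 2 * T.card ≤ (Finset.univ.filter (fun i => σ i ≠ i)).card := by
    have hd : Disjoint T (T.image σ) := by
      rw [Finset.disjoint_left]
      intro i hi hi'
      obtain ⟨j, hj, rfl⟩ := Finset.mem_image.mp hi'
      obtain ⟨-, hj1, hj2⟩ := Finset.mem_filter.mp hj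
      obtain ⟨-, -, hi2⟩ := Finset.mem_filter.mp hi
      have a1 := hj2 1
      have a2 := hi2 (orderOf σ - 1)
      rw [← Equiv.Perm.mul_apply, ← pow_succ, Nat.sub_add_cancel (orderOf_pos σ),
        pow_orderOf_eq_one] at a2
      exact hj1 (le_antisymm a2 (by simpa using a1))
    have hc := Finset.card_union_of_disjoint hd
    rw [Finset.card_image_of_injective _ σ.injective] at hc
    have : T ∪ T.image σ ⊆ Finset.univ.filter (fun i => σ i ≠ i) := by
      intro i hi
      rcases Finset.mem_union.mp hi with h1 | h1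
      · exact Finset.mem_filter.mpr ⟨Finset.mem_univ _, (Finset.mem_filter.mp h1).2.1⟩
      · obtain ⟨j, hj, rfl⟩ := Finset.mem_image.mp h1
        exact Finset.mem_filter.mpr ⟨Finset.mem_univ _,
          fun h2 => (Finset.mem_filter.mp hj).2.1 (σ.injective h2)⟩
    have := Finset.card_le_card this
    omega
  rw [e1, e2] at hle
  have := Nat.mul_le_mul_right m hT
  nlinarith

/-- The decomposition attached to an abelian normal subgroup. -/
theorem exists_decomp [Finite G] [FiniteDimensional F V] [Nontrivial V] (ρ : Representation F G V)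
    (hirr : ∀ W : Submodule F V, (∀ g, W.map (ρ g) ≤ W) → W = ⊥ ∨ W = ⊤)
    (A : Subgroup G) (hAn : A.Normal) (hAc : ∀ a ∈ A, ∀ b ∈ A, a * b = b * a) :
    ∃ (t m : ℕ) (B : Fin t → Subgroup G), (∀ i, B i ≤ A) ∧
      (∀ i, Module.finrank F (fxs ρ (B i)) = m) ∧ iSupIndep (fun i => fxs ρ (B i)) ∧
      iSup (fun i => fxs ρ (B i)) = ⊤ ∧ (∀ i, fxs ρ (B i) ≠ ⊥) ∧
      (∀ i, ∀ a ∈ A, ∀ v ∈ fxs ρ (B i), ρ a v = v → v = 0 ∨ a ∈ B i) ∧
      ∀ g, ∃ σ : Equiv.Perm (Fin t), ∀ i, ∀ a ∈ A, ∀ v ∈ fxs ρ (B i),
        ρ (g * a) v ∈ fxs ρ (B (σ i)) := by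
  classical
  obtain ⟨B, ⟨hBA, hB0⟩, hmax⟩ := Set.Finite.exists_maximal
    (s := {B : Subgroup G | B ≤ A ∧ fxs ρ B ≠ ⊥}) (Set.toFinite _)
    ⟨⊥, bot_le, by
      intro h
      obtain ⟨v, hv⟩ := exists_ne (0 : V)
      apply hv
      have : v ∈ fxs ρ ⊥ := by
        intro b hb
        rw [mem_bot.mp hb, map_one]; rfl
      rw [h] at this
      exact this⟩
  let S : Set (Subgroup G) := {B' | ∃ g : G, B' = B.map (MulAut.conj g).toMonoidHom}
  haveI : Fintype S := Fintype.ofFinite S
  let e := Fintype.equivFin S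
  have hcardS : ∀ B' ∈ S, Nat.card B' = Nat.card B := by
    rintro _ ⟨g, rfl⟩
    exact Subgroup.card_map_of_injective (MulAut.conj g).injective
  have hBS : B ∈ S := ⟨1, by ext; simp⟩
  have hact : ∀ g : G, ∀ B' ∈ S, B'.map (MulAut.conj g).toMonoidHom ∈ S := by
    rintro g _ ⟨h, rfl⟩
    refine ⟨g * h, ?_⟩
    rw [Subgroup.map_map]
    congr 1
    ext x
    simp [mul_assoc]
  have hmax' : ∀ a ∈ A, ∀ v ∈ fxs ρ B, ρ a v = v → v = 0 ∨ a ∈ B := by
    intro c hc v hv hcv
    by_cases hv0 : v = 0
    · exact Or.inl hv0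
    right
    have : B ⊔ zpowers c ≤ B := by
      apply hmax
      · refine ⟨sup_le hBA (zpowers_le.mpr hc), ?_⟩
        intro h
        apply hv0
        have : v ∈ fxs ρ (B ⊔ zpowers c) := by
          have : B ⊔ zpowers c ≤ (MulAction.stabilizer (Module.End F V)ˣ v).comap ρ.asGroupHom := by
            refine sup_le (fun b hb => hv b hb) ?_
            rw [zpowers_le]
            exact hcv
          exact fun b hb => this hb
        rw [h] at this
        exact this
      · exact le_sup_left
    exact this (mem_sup_right (mem_zpowers c))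
  have hD : iSup (fun i => fxs ρ (e.symm i : Subgroup G)) = ⊤ := by
    refine (hirr (iSup (fun i => fxs ρ (e.symm i : Subgroup G))) ?_).resolve_left ?_
    swap
    · intro h
      apply hB0
      rw [eq_bot_iff, ← h]
      have := le_iSup (fun i => fxs ρ (e.symm i : Subgroup G)) (e ⟨B, hBS⟩)
      simpa using this
    · intro g
      rw [Submodule.map_iSup]
      refine iSup_le fun i => ?_
      rw [← fxs_conj]
      have := le_iSup (fun i => fxs ρ (e.symm i : Subgroup G)) (e ⟨_, hact g _ (e.symm i).2⟩)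
      simpa using this
  have hle : ∀ i, (e.symm i : Subgroup G) ≤ A := by
    intro i
    obtain ⟨g, hg⟩ := (e.symm i).2
    rw [hg]
    rintro _ ⟨b, hb, rfl⟩
    exact hAn.conj_mem b (hBA hb) g
  have hmx : ∀ i, ∀ a ∈ A, ∀ v ∈ fxs ρ (e.symm i : Subgroup G), ρ a v = v →
      v = 0 ∨ a ∈ (e.symm i : Subgroup G) := by
    intro i c hc v hv hcv
    obtain ⟨g, hg⟩ := (e.symm i).2
    rw [hg] at hv ⊢
    rw [fxs_conj] at hv
    obtain ⟨w, hw, rfl⟩ := hv
    have h1 : ρ (g⁻¹ * c * g⁻¹⁻¹) w = w := by
      rw [inv_inv, rho_mul_apply, rho_mul_apply, hcv, rho_inv_apply]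
    rcases hmax' _ (hAn.conj_mem c hc g⁻¹) w hw h1 with h | h
    · left; rw [h, map_zero]
    · right
      exact ⟨_, h, by simp [mul_assoc]⟩
  have hdim : ∀ i, Module.finrank F (fxs ρ (e.symm i : Subgroup G)) =
      Module.finrank F (fxs ρ B) := by
    intro i
    obtain ⟨g, hg⟩ := (e.symm i).2
    rw [hg, fxs_conj]
    exact (Submodule.equivMapOfInjective _ (rho_inj ρ g) _).finrank_eq.symm
  refine ⟨Fintype.card S, Module.finrank F (fxs ρ B), fun i => (e.symm i : Subgroup G),
    hle, hdim, ?_, hD, ?_, hmx, ?_⟩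
  · apply indep_fxs ρ A hAc (fun i => (e.symm i : Subgroup G)) hle _ hmx
    intro i j hij hle
    apply hij
    apply e.symm.injective
    apply Subtype.ext
    exact Subgroup.eq_of_le_of_card_ge hle (by rw [hcardS _ (e.symm i).2, hcardS _ (e.symm j).2])
  · intro i h
    have := hdim i
    rw [h, finrank_bot] at this
    exact hB0 (Submodule.finrank_eq_zero.mp this.symm)
  · intro g
    let f : S → S := fun B' => ⟨_, hact g _ B'.2⟩
    have hfi : Function.Injective f := by
      intro B1 B2 h
      apply Subtype.ext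
      exact Subgroup.map_injective (MulAut.conj g).injective (congrArg Subtype.val h)
    let σ : Equiv.Perm S := Equiv.ofBijective f (Finite.injective_iff_bijective.mp hfi)
    refine ⟨e.symm.trans (σ.trans e), fun i a ha v hv => ?_⟩
    have e1 : (e.symm ((e.symm.trans (σ.trans e)) i) : Subgroup G) =
        (e.symm i : Subgroup G).map (MulAut.conj g).toMonoidHom := by simp [σ, f]
    change _ ∈ fxs ρ (e.symm ((e.symm.trans (σ.trans e)) i) : Subgroup G)
    rw [e1, fxs_conj, rho_mul_apply]
    refine Submodule.mem_map_of_mem ?_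
    intro b hb
    rw [← rho_mul_apply, hAc b (hle i hb) a ha, rho_mul_apply, hv b hb]

theorem avg_of_faithful [Fintype G] [Nontrivial G] [Group.IsSolvable G] [FiniteDimensional F V]
    (ρ : Representation F G V) (hf : Function.Injective ρ)
    (hirr : ∀ W : Submodule F V, (∀ g, W.map (ρ g) ≤ W) → W = ⊥ ∨ W = ⊤) :
    2 * ∑ g, finrank F (fx ρ g) ≤ Fintype.card G * finrank F V := by
  classical
  rcases subsingleton_or_nontrivial V with hV | hV
  · have : ∀ g, finrank F (fx ρ g) = 0 := fun g => Module.finrank_zero_of_subsingleton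
    simp [this]
  obtain ⟨A, hAn, hA0, hAc⟩ : ∃ A : Subgroup G, A.Normal ∧ A ≠ ⊥ ∧
      ∀ a ∈ A, ∀ b ∈ A, a * b = b * a := by
    have hex : ∃ n, derivedSeries G n = ⊥ := ‹Group.IsSolvable G›.solvable
    have h0 : Nat.find hex ≠ 0 := by
      intro h
      have := Nat.find_spec hex
      rw [h, derivedSeries_zero] at this
      exact top_ne_bot this
    obtain ⟨k, hk⟩ := Nat.exists_eq_succ_of_ne_zero h0
    refine ⟨derivedSeries G k, inferInstance, Nat.find_min hex (by omega), fun a ha b hb => ?_⟩
    have := Nat.find_spec hex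
    rw [hk, derivedSeries_succ] at this
    have h2 := commutator_mem_commutator ha hb
    rw [this, mem_bot] at h2
    exact commutatorElement_eq_one_iff_mul_comm.mp h2
  obtain ⟨t, m, B, hBA, hm, hind, htop, hne, hmx, hperm⟩ := exists_decomp ρ hirr A hAn hAc
  have hfxA : fxs ρ A = ⊥ := by
    refine (hirr (fxs ρ A) ?_).resolve_right ?_
    · intro g
      rw [← fxs_conj]
      intro v hv a ha
      exact hv a ⟨g⁻¹ * a * g⁻¹⁻¹, hAn.conj_mem a ha g⁻¹, by simp [mul_assoc]⟩
    · intro h
      apply hA0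
      rw [eq_bot_iff]
      intro a ha
      rw [mem_bot]
      apply hf
      rw [map_one]
      ext v
      have : v ∈ fxs ρ A := by rw [h]; trivial
      exact this a ha
  have hex : ∀ i, ∃ a ∈ A, a ∉ B i := by
    intro i
    by_contra h
    push Not at h
    apply hne i
    rw [eq_bot_iff, ← hfxA]
    exact fun v hv a ha => hv a (h a ha)
  have hdimV : finrank F V = t * m := by
    have hint : DirectSum.IsInternal (fun i => fxs ρ (B i)) :=
      (DirectSum.isInternal_submodule_iff_iSupIndep_and_iSup_eq_top _).mpr ⟨hind, htop⟩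
    rw [← (LinearEquiv.ofBijective (DirectSum.coeLinearMap (fun i => fxs ρ (B i))) hint).finrank_eq,
      Module.finrank_directSum]
    simp [hm]
  haveI : Fintype A := Fintype.ofFinite A
  have key : ∀ g, 2 * ∑ a : A, finrank F (fx ρ (g * a)) ≤ Fintype.card A * finrank F V := by
    intro g
    obtain ⟨σ, hσ⟩ := hperm g
    have h1 : ∀ a : A, _ := fun a => finrank_ker_perm_le (fun i => fxs ρ (B i)) hm hind htop
      (ρ (g * a)) σ (fun i v hv => hσ i a a.2 v hv)
    have h2 : ∀ i, 2 * ∑ a : A, finrank F (fx ρ (g * a) ⊓ fxs ρ (B i) : Submodule F V) ≤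
        Fintype.card A * m := by
      intro i
      obtain ⟨c, hc, hcB⟩ := hex i
      have e1 := Equiv.sum_comp (Equiv.mulRight (⟨c, hc⟩ : A))
        (fun a : A => finrank F (fx ρ (g * a) ⊓ fxs ρ (B i) : Submodule F V))
      rw [two_mul]
      nth_rw 1 [← e1]
      rw [← Finset.sum_add_distrib, ← smul_eq_mul, ← Finset.card_univ, ← Finset.sum_const]
      refine Finset.sum_le_sum fun a _ => ?_
      rw [← Submodule.finrank_sup_add_finrank_inf_eq]
      have h3 : (fx ρ (g * ((Equiv.mulRight (⟨c, hc⟩ : A)) a : A)) ⊓ fxs ρ (B i)) ⊓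
          (fx ρ (g * a) ⊓ fxs ρ (B i)) = ⊥ := by
        rw [eq_bot_iff]
        rintro v ⟨⟨h4, h5⟩, h6, -⟩
        have h4' : ρ (g * (a * c)) v = v := mem_fx.mp h4
        have h6' : ρ (g * a) v = v := mem_fx.mp h6
        have : ρ c v = v := by
          apply rho_inj ρ (g * a)
          rw [← rho_mul_apply, mul_assoc, h4', h6']
        exact (hmx i c hc v h5 this).resolve_right hcB
      rw [h3, finrank_bot, add_zero, ← hm i]
      exact Submodule.finrank_mono (sup_le inf_le_right inf_le_right)
    have h3 := Finset.sum_le_sum (s := Finset.univ) fun a _ => h1 a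
    rw [← Finset.mul_sum, Finset.sum_add_distrib, ← Finset.mul_sum, Finset.sum_comm,
      Finset.sum_const, Finset.card_univ, smul_eq_mul] at h3
    have h4 := Finset.sum_le_sum (s := Finset.univ.filter (fun i => σ i = i)) fun i _ => h2 i
    rw [Finset.sum_const, smul_eq_mul, ← Finset.mul_sum] at h4
    have h5 := Finset.card_filter_add_card_filter_not (s := Finset.univ) (fun i => σ i = i)
    rw [Finset.card_univ, Fintype.card_fin] at h5
    rw [hdimV, ← h5]
    refine h3.trans ?_
    change 2 * ∑ i ∈ _, ∑ a : A, finrank F (fx ρ (g * a) ⊓ fxs ρ (B i) : Submodule F V) + _ ≤ _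
    nlinarith
  have hsum := Finset.sum_le_sum (s := Finset.univ) fun g _ => key g
  rw [← Finset.mul_sum, Finset.sum_comm, Finset.sum_const, Finset.card_univ, smul_eq_mul] at hsum
  have e2 : ∀ a : A, ∑ g, finrank F (fx ρ (g * a)) = ∑ g, finrank F (fx ρ g) := fun a =>
    Equiv.sum_comp (Equiv.mulRight (a : G)) (fun g => finrank F (fx ρ g))
  rw [Finset.sum_congr rfl fun a _ => e2 a, Finset.sum_const, Finset.card_univ, smul_eq_mul] at hsum
  have hpos : 0 < Fintype.card A := Fintype.card_pos
  nlinarith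

theorem sum_comp_hom {H : Type*} [Group H] [Fintype G] [Fintype H] (f : G →* H)
    (hf : Function.Surjective f) (φ : H → ℕ) :
    ∑ g, φ (f g) = Nat.card f.ker * ∑ h, φ h := by
  classical
  rw [← Finset.sum_fiberwise (s := Finset.univ) (g := f), Finset.mul_sum]
  refine Finset.sum_congr rfl fun h _ => ?_
  rw [Finset.sum_congr rfl (g := fun _ => φ h) (fun g hg => by rw [(Finset.mem_filter.mp hg).2]),
    Finset.sum_const, smul_eq_mul]
  congr 1
  obtain ⟨x, rfl⟩ := hf h
  rw [← Fintype.card_subtype, ← Nat.card_eq_fintype_card]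
  refine Nat.card_congr ⟨fun g => ⟨x⁻¹ * g, ?_⟩, fun k => ⟨x * k, ?_⟩, fun g => ?_, fun k => ?_⟩
  · rw [MonoidHom.mem_ker, map_mul, map_inv, g.2, inv_mul_cancel]
  · rw [map_mul, MonoidHom.mem_ker.mp k.2, mul_one]
  · exact Subtype.ext (mul_inv_cancel_left _ _)
  · exact Subtype.ext (inv_mul_cancel_left _ _)

/-- The average fixed space dimension of a nontrivial irreducible solvable group is at most half the degree. -/
theorem avg_fix [Fintype G] [Group.IsSolvable G] [FiniteDimensional F V]
    (ρ : Representation F G V) (hne : ∃ g, ρ g ≠ 1)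
    (hirr : ∀ W : Submodule F V, (∀ g, W.map (ρ g) ≤ W) → W = ⊥ ∨ W = ⊤) :
    2 * ∑ g, finrank F (fx ρ g) ≤ Fintype.card G * finrank F V := by
  classical
  let K : Subgroup G := MonoidHom.ker (ρ : G →* Module.End F V)
  let σ : Representation F (G ⧸ K) V :=
    QuotientGroup.lift K (ρ : G →* Module.End F V) (fun x hx => hx)
  have hσ : ∀ g : G, σ (g : G ⧸ K) = ρ g := fun g => rfl
  have hσi : Function.Injective σ := by
    intro x y hxy
    obtain ⟨a, rfl⟩ := QuotientGroup.mk_surjective x
    obtain ⟨b, rfl⟩ := QuotientGroup.mk_surjective y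
    rw [hσ, hσ] at hxy
    rw [QuotientGroup.eq]
    change ρ (a⁻¹ * b) = 1
    rw [map_mul, ← hxy, ← map_mul, inv_mul_cancel, map_one]
  haveI : Fintype (G ⧸ K) := Fintype.ofFinite _
  haveI : Nontrivial (G ⧸ K) := by
    obtain ⟨g, hg⟩ := hne
    exact ⟨⟨g, 1, fun h => hg ((QuotientGroup.eq_one_iff g).mp h)⟩⟩
  have h := avg_of_faithful σ hσi (fun W hW => hirr W fun g => hW g)
  have e := sum_comp_hom (QuotientGroup.mk' K) (QuotientGroup.mk'_surjective K)
    (fun x => finrank F (fx σ x))
  have e2 : ∑ g, finrank F (fx ρ g) = ∑ g, finrank F (fx σ (QuotientGroup.mk' K g)) := rfl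
  rw [e2, e, QuotientGroup.ker_mk']
  have e3 : Fintype.card G = Nat.card K * Fintype.card (G ⧸ K) := by
    rw [← Nat.card_eq_fintype_card, ← Nat.card_eq_fintype_card, ← K.card_mul_index]; rfl
  rw [e3]
  nlinarith

/-- Group form: a noncyclic elementary abelian minimal normal subgroup. -/
theorem avg_group {X : Type*} [Group X] [Finite X] [Fintype G] [Group.IsSolvable G] {p n : ℕ}
    [Fact p.Prime] (ψ : G →* X) (hψ : Function.Surjective ψ) (U : Subgroup X) [hU : U.Normal]
    (hel : Cfsg.IsElementaryAbelian p U) (hcard : Nat.card U = p ^ n) (hn : 2 ≤ n)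
    (hmin : ∀ M : Subgroup X, M.Normal → M ≤ U → M = ⊥ ∨ M = U) :
    Fintype.card G * n ≤
      2 * ∑ g, ((centralizer ({ψ g} : Set X)).relIndex U).factorization p := by
  obtain ⟨n', e, f, h1, h2, h3⟩ := CF.BG2.exists_zmod_rep_ambient U hel ψ
    (fun g => le_normalizer_of_normal (mem_top _))
  have hp : p.Prime := Fact.out
  have hnn : n' = n := Nat.pow_right_injective hp.two_le (h1.symm.trans hcard)
  subst hnn
  let ρ : Representation (ZMod p) G (Fin n' → ZMod p) := CF.BG2.matRep (ZMod p) f
  have hρ : ∀ g v, ρ g v = (f g).mulVec v := by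
    intro g v
    change CF.BG2.matRep (ZMod p) f g v = _
    rw [CF.BG2.matRep_apply]; simp
  have he1 : e 1 = 0 := by
    have := h2 1 1
    rw [one_mul] at this
    exact left_eq_add.mp this
  have heinv : ∀ x, e x⁻¹ = - e x := by
    intro x
    have := h2 x⁻¹ x
    rw [inv_mul_cancel, he1] at this
    exact eq_neg_of_add_eq_zero_left this.symm
  have hact : ∀ g (x : U), ρ g (e x) = e ⟨ψ g * x * (ψ g)⁻¹, hU.conj_mem _ x.2 _⟩ := by
    intro g x
    rw [hρ]
    exact (h3 g x _ rfl).symm
  let sub : Submodule (ZMod p) (Fin n' → ZMod p) → Subgroup U := fun W =>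
    { carrier := {x | e x ∈ W}
      one_mem' := by simp [he1]
      mul_mem' := fun {a b} ha hb => by
        change e (a * b) ∈ W
        rw [h2]; exact W.add_mem ha hb
      inv_mem' := fun {a} ha => by
        change e a⁻¹ ∈ W
        rw [heinv]; exact W.neg_mem ha }
  have hirr : ∀ W : Submodule (ZMod p) (Fin n' → ZMod p), (∀ g, W.map (ρ g) ≤ W) →
      W = ⊥ ∨ W = ⊤ := by
    intro W hW
    have hn : ((sub W).map U.subtype).Normal := by
      refine ⟨?_⟩
      rintro _ ⟨x, hx, rfl⟩ y
      obtain ⟨g, rfl⟩ := hψ y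
      refine ⟨⟨ψ g * x * (ψ g)⁻¹, hU.conj_mem _ x.2 _⟩, ?_, rfl⟩
      change e _ ∈ W
      rw [← hact]
      exact hW g (Submodule.mem_map_of_mem hx)
    rcases hmin _ hn (map_subtype_le _) with h | h
    · left
      rw [eq_bot_iff]
      intro v hv
      obtain ⟨x, rfl⟩ := e.surjective v
      have : (x : X) ∈ (sub W).map U.subtype := ⟨x, hv, rfl⟩
      rw [h, mem_bot] at this
      rw [show x = 1 from Subtype.ext this, he1]
      exact Submodule.zero_mem _
    · right
      rw [eq_top_iff]
      intro v _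
      obtain ⟨x, rfl⟩ := e.surjective v
      have : (x : X) ∈ (sub W).map U.subtype := by rw [h]; exact x.2
      obtain ⟨y, hy, hyx⟩ := this
      rw [← Subtype.ext hyx]
      exact hy
  have hne : ∃ g, ρ g ≠ 1 := by
    by_contra h
    push Not at h
    let v : Fin n' → ZMod p := Pi.single ⟨0, by omega⟩ 1
    have hv : v ≠ 0 := by
      intro h
      have := congrFun h ⟨0, by omega⟩
      simp [v] at this
    rcases hirr (Submodule.span (ZMod p) {v}) (fun g => by
      rw [h g]; exact (Submodule.map_id _).le) with h' | h'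
    · exact hv (Submodule.span_singleton_eq_bot.mp h')
    · have := finrank_span_singleton (K := ZMod p) hv
      rw [h', finrank_top, Module.finrank_fin_fun] at this
      omega
  have h := avg_fix ρ hne hirr
  rw [Module.finrank_fin_fun] at h
  have hfac : ∀ g, ((centralizer ({ψ g} : Set X)).relIndex U).factorization p +
      finrank (ZMod p) (fx ρ g) = n' := by
    intro g
    have e1 : Nat.card ((centralizer ({ψ g} : Set X)).subgroupOf U) =
        p ^ finrank (ZMod p) (fx ρ g) := by
      rw [← CF.BG2.card_submodule_zmod]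
      refine Nat.card_congr (e.subtypeEquiv fun x => ?_)
      rw [mem_fx, hact, e.injective.eq_iff, mem_subgroupOf, mem_centralizer_singleton_iff,
        Subtype.ext_iff]
      change _ ↔ ψ g * x * (ψ g)⁻¹ = x
      rw [mul_inv_eq_iff_eq_mul, eq_comm]
    have e2 := ((centralizer ({ψ g} : Set X)).subgroupOf U).card_mul_index
    rw [e1, h1] at e2
    have e3 := congrArg (fun x => x.factorization p) e2
    rw [Nat.factorization_mul (pow_ne_zero _ hp.ne_zero) index_ne_zero_of_finite] at e3
    simp only [Finsupp.add_apply, Nat.Prime.factorization_pow hp, Finsupp.single_eq_same] at e3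
    rw [add_comm]
    exact e3
  have := Finset.sum_congr rfl (s₁ := Finset.univ) fun g _ => hfac g
  rw [Finset.sum_add_distrib, Finset.sum_const, Finset.card_univ, smul_eq_mul] at this
  omega

end CF.Fgs1.PrimLin
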