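/-
Involutions with small negative space acting on a finite symplectic group of odd order.
-/
import Mathlib
set_option autoImplicit false
set_option linter.unusedSectionVars false

namespace CF.Bk
open Subgroup
open scoped commutatorElement

variable {G V Z : Type*} [Group G] [AddCommGroup V] [AddCommGroup Z] [DistribMulAction G V]

/-- `G` acts by isometries of the non-degenerate alternating form `β` -/
structure Sy (G : Type*) [Group G] [DistribMulAction G V] (β : V →+ V →+ Z) : Prop where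
  alt : ∀ a, β a a = 0
  nd : ∀ a, (∀ b, β a b = 0) → a = 0
  iso : ∀ (g : G) a b, β (g • a) (g • b) = β a b
  odd : ∀ a : V, a + a = 0 → a = 0

/-- vectors inverted by `s` -/
def Ng (V : Type*) [AddCommGroup V] [DistribMulAction G V] (s : G) : AddSubgroup V where
  carrier := {v | s • v = -v}
  zero_mem' := by simp
  add_mem' := fun {a b} (ha : s • a = -a) (hb : s • b = -b) => by
    show s • (a + b) = -(a + b)
    rw [smul_add, ha, hb, neg_add]
  neg_mem' := fun {a} (ha : s • a = -a) => by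
    show s • (-a) = -(-a)
    rw [smul_neg, ha]

theorem mem_ng {s : G} {v : V} : v ∈ Ng V s ↔ s • v = -v := Iff.rfl

theorem ng_conj {s g : G} {v : V} : v ∈ Ng V (g * s * g⁻¹) ↔ g⁻¹ • v ∈ Ng V s := by
  rw [mem_ng, mem_ng, mul_smul, mul_smul, smul_eq_iff_eq_inv_smul, smul_neg]

theorem smul_mem_ng {s g : G} {v : V} (h : v ∈ Ng V s) : g • v ∈ Ng V (g * s * g⁻¹) :=
  ng_conj.2 (by rwa [inv_smul_smul])

theorem ng_of_comm {s g : G} (c : Commute g s) {v : V} (h : v ∈ Ng V s) : g • v ∈ Ng V s := by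
  rw [mem_ng, ← mul_smul, ← c.eq, mul_smul, mem_ng.1 h, smul_neg]

theorem card_ng_conj (s g : G) : Nat.card (Ng V (g * s * g⁻¹)) = Nat.card (Ng V s) :=
  Nat.card_congr
    { toFun := fun v => ⟨g⁻¹ • v.1, ng_conj.1 v.2⟩
      invFun := fun v => ⟨g • v.1, smul_mem_ng v.2⟩
      left_inv := fun v => Subtype.ext (smul_inv_smul g v.1)
      right_inv := fun v => Subtype.ext (inv_smul_smul g v.1) }

/-- an involution whose negative space is a plane -/
def Pn (V : Type*) [AddCommGroup V] [DistribMulAction G V] (s : G) : Prop :=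
  s * s = 1 ∧ ∃ q : ℕ, q.Prime ∧ Nat.card (Ng V s) = q ^ 2

/-- a square root of a plane involution with the same fixed points -/
def IsW (V : Type*) [AddCommGroup V] [DistribMulAction G V] (w : G) : Prop :=
  Pn V (w * w) ∧ ∀ v : V, (w * w) • v = v → w • v = v

/-- the negative space of `s'` is fixed by `s` -/
def Or' (V : Type*) [AddCommGroup V] [DistribMulAction G V] (s s' : G) : Prop :=
  ∀ v ∈ Ng V s', s • v = v

theorem Pn.conj {s : G} (h : Pn V s) (g : G) : Pn V (g * s * g⁻¹) :=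
  ⟨by rw [conj_mul, h.1, mul_one, mul_inv_cancel], by rw [card_ng_conj]; exact h.2⟩

theorem IsW.conj {w : G} (h : IsW V w) (g : G) : IsW V (g * w * g⁻¹) := by
  refine ⟨by rw [conj_mul]; exact h.1.conj g, fun v hv => ?_⟩
  rw [conj_mul, mul_smul, mul_smul, smul_eq_iff_eq_inv_smul] at hv
  rw [mul_smul, mul_smul, h.2 _ hv, smul_inv_smul]

theorem Pn.exists_ne {s : G} (h : Pn V s) : ∃ a ∈ Ng V s, a ≠ 0 := by
  obtain ⟨q, hq, e⟩ := h.2
  by_contra! a
  rw [(AddSubgroup.eq_bot_iff_forall _).2 a, AddSubgroup.card_bot] at e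
  exact (Nat.one_lt_pow two_ne_zero hq.one_lt).ne e

theorem inv_of_sq {s : G} (h : s * s = 1) : s⁻¹ = s := inv_eq_of_mul_eq_one_left h

theorem smul_smul_of_sq {s : G} (h : s * s = 1) (v : V) : s • s • v = v := by
  rw [← mul_smul, h, one_smul]

variable [Finite V] {β : V →+ V →+ Z}

namespace Sy

theorem skew (y : Sy G β) (a b : V) : β a b = - β b a := by
  have := y.alt (a + b)
  simp only [map_add, AddMonoidHom.add_apply, y.alt, zero_add, add_zero] at this
  exact eq_neg_of_add_eq_zero_right this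

theorem symm (y : Sy G β) {a b : V} (h : β a b = 0) : β b a = 0 := by rw [y.skew, h, neg_zero]

theorem dbl (y : Sy G β) {a b : V} (h : a + a = b + b) : a = b :=
  sub_eq_zero.1 (y.odd _ (by rw [← sub_eq_zero] at h; rw [← h]; abel))

theorem half (y : Sy G β) (v : V) : ∃ h, h + h = v :=
  (Finite.injective_iff_surjective (f := fun h : V => h + h)).1 (fun _ _ e => y.dbl e) v

theorem eq_zero (y : Sy G β) {s : G} {a : V} (h : a ∈ Ng V s) (h' : s • a = a) : a = 0 :=
  y.odd _ (by rw [← eq_neg_iff_add_eq_zero, ← mem_ng.1 h, h'])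

theorem half_ng (y : Sy G β) {s : G} {h : V} (e : h + h ∈ Ng V s) : h ∈ Ng V s :=
  y.dbl (by rw [← smul_add, mem_ng.1 e, neg_add])

theorem orth (y : Sy G β) {s : G} {a c : V} (hc : s • c = c) (ha : a ∈ Ng V s) : β c a = 0 := by
  obtain ⟨h, rfl⟩ := y.half a
  have := y.iso s c h
  rw [hc, mem_ng.1 (y.half_ng ha), map_neg] at this
  rw [map_add]
  exact neg_eq_iff_add_eq_zero.1 this

theorem dec (y : Sy G β) {s : G} (hs : s * s = 1) (v : V) :
    ∃ a ∈ Ng V s, ∃ c, s • c = c ∧ v = a + c := by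
  obtain ⟨h, rfl⟩ := y.half v
  refine ⟨h - s • h, ?_, h + s • h, ?_, by abel⟩
  · rw [mem_ng, smul_sub, smul_smul_of_sq hs, neg_sub]
  · rw [smul_add, smul_smul_of_sq hs, add_comm]

theorem nd_ng (y : Sy G β) {s : G} (hs : s * s = 1) {a : V} (ha : a ∈ Ng V s)
    (h : ∀ b ∈ Ng V s, β a b = 0) : a = 0 := y.nd a fun v => by
  obtain ⟨b, hb, c, hc, rfl⟩ := y.dec hs v
  rw [map_add, h b hb, y.symm (y.orth hc ha), add_zero]

theorem fix_of_orth (y : Sy G β) {s : G} (hs : s * s = 1) {c : V}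
    (h : ∀ b ∈ Ng V s, β c b = 0) : s • c = c := by
  obtain ⟨a, ha, c, hc, rfl⟩ := y.dec hs c
  rw [y.nd_ng hs ha fun b hb => by
    simpa only [map_add, AddMonoidHom.add_apply, y.orth hc hb, add_zero] using h b hb, zero_add, hc]

theorem or_symm (y : Sy G β) {s s' : G} (hs : s' * s' = 1) (h : Or' V s s') : Or' V s' s :=
  fun _ hv => y.fix_of_orth hs fun b hb => y.symm (y.orth (h b hb) hv)

/-- an isometry of order two of a plane is `± 1` -/
theorem pm (y : Sy G β) {s u : G} (h : Pn V s) (h1 : ∀ a ∈ Ng V s, u • a ∈ Ng V s)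
    (h2 : ∀ a ∈ Ng V s, u • u • a = a) :
    (∀ a ∈ Ng V s, u • a = a) ∨ ∀ a ∈ Ng V s, u • a = -a := by
  obtain ⟨q, hq, e⟩ := h.2
  let X : AddSubgroup V := Ng V s ⊓ (DistribSMul.toAddMonoidHom V u).eqLocus (AddMonoidHom.id V)
  have hX : ∀ x, x ∈ X ↔ x ∈ Ng V s ∧ u • x = x := fun x => Iff.rfl
  have hm : ∀ a ∈ Ng V s, a + u • a ∈ X := fun a ha =>
    (hX _).2 ⟨add_mem ha (h1 a ha), by rw [smul_add, h2 a ha, add_comm]⟩
  have hd : Nat.card X ∣ q ^ 2 := e ▸ AddSubgroup.card_dvd_of_le inf_le_left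
  obtain ⟨i, hi, ei⟩ := (Nat.dvd_prime_pow hq).1 hd
  interval_cases i
  · right
    rw [pow_zero, AddSubgroup.card_eq_one] at ei
    exact fun a ha => eq_neg_of_add_eq_zero_right (AddSubgroup.mem_bot.1 (ei ▸ hm a ha))
  · exfalso
    haveI := Fact.mk hq
    haveI : IsAddCyclic X := isAddCyclic_of_prime_card (ei.trans (pow_one q))
    obtain ⟨g, hg⟩ := IsAddCyclic.exists_zsmul_surjective (G := X)
    have iso : ∀ x ∈ X, β g x = 0 := fun x hx => by
      obtain ⟨n, hn⟩ := hg ⟨x, hx⟩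
      rw [show x = n • (g : V) from (congrArg Subtype.val hn).symm, map_zsmul, y.alt, smul_zero]
    have h0 : (g : V) = 0 := y.nd_ng h.1 g.2.1 fun b hb => by
      obtain ⟨c, rfl⟩ := y.half b
      have hc := y.half_ng hb
      have e1 := y.iso u g c
      rw [((hX _).1 g.2).2] at e1
      have e2 := iso _ (hm c hc)
      rw [map_add, e1] at e2
      rw [map_add, e2]
    have : X = ⊥ := (AddSubgroup.eq_bot_iff_forall _).2 fun x hx => by
      obtain ⟨n, hn⟩ := hg ⟨x, hx⟩
      rw [show x = n • (g : V) from (congrArg Subtype.val hn).symm, h0, smul_zero]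
    rw [this, AddSubgroup.card_bot, pow_one] at ei
    exact hq.one_lt.ne ei
  · left
    have : X = Ng V s := AddSubgroup.eq_of_le_of_card_ge inf_le_left (by rw [e, ei])
    exact fun a ha => ((hX a).1 (this ▸ ha)).2

variable [FaithfulSMul G V]

theorem ext_ng (y : Sy G β) {s g g' : G} (hs : s * s = 1) (h1 : ∀ a ∈ Ng V s, g • a = g' • a)
    (h2 : ∀ c : V, s • c = c → g • c = g' • c) : g = g' :=
  eq_of_smul_eq_smul fun v : V => by
    obtain ⟨a, ha, c, hc, rfl⟩ := y.dec hs v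
    rw [smul_add, smul_add, h1 a ha, h2 c hc]

theorem eq_of_ng (y : Sy G β) {s s' : G} (hs : s * s = 1) (hs' : s' * s' = 1)
    (h : Ng V s = Ng V s') : s = s' :=
  y.ext_ng hs (fun a ha => by rw [mem_ng.1 ha, mem_ng.1 (h ▸ ha)]) fun c hc => by
    rw [hc, y.fix_of_orth hs' fun b hb => y.orth hc (h ▸ hb)]

theorem eq_of_le (y : Sy G β) {s s' : G} (h : Pn V s) (h' : Pn V s') (l : Ng V s ≤ Ng V s') :
    s = s' := by
  obtain ⟨q, hq, e⟩ := h.2
  obtain ⟨q', hq', e'⟩ := h'.2
  have hd := AddSubgroup.card_dvd_of_le l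
  rw [e, e', Nat.pow_dvd_pow_iff two_ne_zero, Nat.prime_dvd_prime_iff_eq hq hq'] at hd
  exact y.eq_of_ng h.1 h'.1 (AddSubgroup.eq_of_le_of_card_ge l (by rw [e, e', hd]))

/-- `u` preserves the fixed space of `s` when it preserves the negative space -/
theorem fix_of_ng (y : Sy G β) {s u : G} (hs : s * s = 1) (h : ∀ a ∈ Ng V s, u⁻¹ • a ∈ Ng V s)
    {c : V} (hc : s • c = c) : s • u • c = u • c :=
  y.fix_of_orth hs fun b hb => by
    rw [← smul_inv_smul u b, y.iso, y.orth hc (h b hb)]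

theorem comm_of_ng (y : Sy G β) {s u : G} (hs : s * s = 1) (h : ∀ a ∈ Ng V s, u • a ∈ Ng V s) :
    Commute u s := by
  have e : Ng V s = Ng V (u⁻¹ * s * u⁻¹⁻¹) := AddSubgroup.eq_of_le_of_card_ge
    (fun a ha => ng_conj.2 (by rw [inv_inv]; exact h a ha)) (card_ng_conj s u⁻¹).le
  have := y.eq_of_ng hs (by rw [conj_mul, hs, mul_one, mul_inv_cancel]) e
  rw [inv_inv, mul_assoc, eq_inv_mul_iff_mul_eq] at this
  exact this

theorem eq_or (y : Sy G β) {s s' : G} (h : Pn V s) (h' : Pn V s')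
    (l : ∀ a ∈ Ng V s', s • a ∈ Ng V s') : s = s' ∨ Or' V s s' :=
  (y.pm h' l fun a _ => smul_smul_of_sq h.1 a).symm.imp
    (fun a => (y.eq_of_le h' h a).symm) id

theorem comm_of_pm (y : Sy G β) {w u : G} (h : IsW V w)
    (e : (∀ a ∈ Ng V (w * w), u • a = a) ∨ ∀ a ∈ Ng V (w * w), u • a = -a) : Commute u w := by
  have c : Commute u (w * w) := y.comm_of_ng h.1.1 fun a ha => by
    rcases e with e | e <;> rw [e a ha]
    exacts [ha, neg_mem ha]
  have hw : ∀ a ∈ Ng V (w * w), w • a ∈ Ng V (w * w) := fun a ha =>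
    ng_of_comm ((Commute.refl w).mul_right (Commute.refl w)) ha
  refine y.ext_ng h.1.1 (fun a ha => ?_) fun c' hc => ?_
  · rcases e with e | e <;> rw [mul_smul, mul_smul, e a ha, e _ (hw a ha)]
    rw [smul_neg]
  · rw [mul_smul, mul_smul, h.2 _ hc, h.2]
    rw [← mul_smul, ← c.eq, mul_smul, hc]

theorem comm_of_or (y : Sy G β) {s s' : G} (hs : s' * s' = 1) (h : Or' V s s') : Commute s s' :=
  y.comm_of_ng hs fun a ha => by rwa [h a ha]

end Sy
end CF.Bk
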