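/-
The `2`-group generated by plane involutions.
-/
import Cfsg.Agent.Fgs1.BkLoc
set_option autoImplicit false
set_option linter.unusedSectionVars false

namespace CF.Bk
open Subgroup
open scoped commutatorElement

variable {G V Z : Type*} [Group G] [AddCommGroup V] [AddCommGroup Z] [DistribMulAction G V]
  [Finite V] {β : V →+ V →+ Z} [FaithfulSMul G V] [Finite G]

theorem exists_max_normal {S X : Subgroup G} (hS : IsPGroup 2 S) (hX : ¬ S ≤ X) :
    ∃ N : Subgroup G, N < S ∧ X ⊓ S ≤ N ∧ ∀ g ∈ S, ∀ x ∈ N, g * x * g⁻¹ ∈ N := by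
  haveI := Fact.mk Nat.prime_two
  haveI := hS.isNilpotent
  obtain ⟨M, hM, l⟩ := (eq_top_or_exists_le_coatom (X.subgroupOf S)).resolve_left
    fun e => hX (subgroupOf_eq_top.1 e)
  haveI := NormalizerCondition.normal_of_coatom M normalizerCondition_of_isNilpotent hM
  refine ⟨M.map S.subtype, lt_of_le_of_ne (map_subtype_le M) fun e => hM.1 ?_,
    fun x hx => ⟨⟨x, hx.2⟩, l hx.1, rfl⟩, ?_⟩
  · refine top_le_iff.1 fun x _ => ?_
    obtain ⟨m, hm, e'⟩ := e.ge x.2
    exact (Subtype.ext e' : m = x) ▸ hm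
  · rintro g hg _ ⟨x, hx, rfl⟩
    exact ⟨_, Normal.conj_mem inferInstance x hx ⟨g, hg⟩, rfl⟩

namespace Sy

theorem sub_mem (y : Sy G β) {w : G} (h : IsW V w) (v : V) : w • v - v ∈ Ng V (w * w) := by
  obtain ⟨a, ha, c, hc, rfl⟩ := y.dec h.1.1 v
  rw [smul_add, h.2 c hc, add_sub_add_right_eq_sub]
  exact AddSubgroup.sub_mem _ (ng_of_comm ((Commute.refl w).mul_right (Commute.refl w)) ha) ha

theorem eq_or_comm (y : Sy G β) {s s' : G} (h : Pn V s) (h' : Pn V s') (c : Commute s s') :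
    s = s' ∨ Or' V s s' := y.eq_or h h' fun _ ha => ng_of_comm c ha

theorem factM (y : Sy G β) (n : ℕ) : ∀ S : Subgroup G, Nat.card S ≤ n → IsPGroup 2 S →
    ∀ g ∈ S, ∀ w ∈ S, IsW V g → IsW V w → g * g = w * w ∨ Or' V (g * g) (w * w) := by
  induction n with
  | zero => exact fun S h => absurd (Nat.card_pos (α := S)) (by omega)
  | succ n ih =>
    intro S hn hS g hg w hw h' h
    by_cases hz : S ≤ zpowers w
    · obtain ⟨i, rfl⟩ := hz hg
      have c := Commute.zpow_self w i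
      exact y.eq_or_comm h'.1 h.1 ((c.mul_left c).mul_right (c.mul_left c))
    obtain ⟨N, hN, l, n⟩ := exists_max_normal hS hz
    have hw' := l ⟨mem_zpowers w, hw⟩
    have key := fun u hu => ih N (Nat.le_of_lt_succ (lt_of_lt_of_le (lt_of_le_of_ne
      (card_le_of_le hN.le) fun e => hN.ne (eq_of_le_of_card_ge hN.le e.ge)) hn)) (hS.to_le hN.le) _
      (n u hu w hw') w hw' (h.conj u) h
    simp only [conj_mul, mul_inv_eq_iff_eq_mul] at key
    rcases key g hg with e | e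
    · exact y.eq_or_comm h'.1 h.1 (Commute.mul_left e e)
    rcases key _ (mul_mem hg hg) with e' | e'
    · exact y.eq_or_comm h'.1 h.1 e'
    obtain ⟨a, ha, a0⟩ := h.1.exists_ne
    refine absurd (y.nd_ng h.1.1 ha fun b hb => ?_) a0
    have h1 := y.orth (e b hb) (smul_mem_ng ha)
    have h2 := y.orth (e' b hb) (smul_mem_ng ha)
    have h3 := y.orth (e a ha) (smul_mem_ng hb)
    have h4 := congrArg (β (g • b)) (mem_ng.1 (y.sub_mem h' a))
    rw [smul_sub, map_sub, map_neg, map_sub, y.iso, y.symm h3, ← mul_smul, mul_assoc, mul_smul,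
      y.iso, h2, mul_smul, y.iso, h1, sub_zero, sub_zero, zero_eq_neg] at h4
    exact y.symm h4

theorem gross (y : Sy G β) {S : Subgroup G} (hS : IsPGroup 2 S) {w u : G} (hw : w ∈ S)
    (hu : u ∈ S) (h : IsW V w) : ⁅u, w * w⁆ = 1 ∨ ⁅u, w * w⁆ = ⁅u, w⁆ * ⁅u, w⁆ := by
  refine (y.factM _ S le_rfl hS _ (mul_mem (mul_mem hu hw) (inv_mem hu)) w hw (h.conj u) h).imp
    (fun e => ?_) fun e => ?_
  · rw [commutatorElement_def, ← conj_mul, e, mul_inv_cancel]
  · have c := y.comm_of_pm h (Or.inl fun a ha => (h.conj u).2 a (e a ha))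
    rw [commutatorElement_def, commutatorElement_def, ← conj_mul, mul_inv_rev,
      c.inv_right.symm.mul_mul_mul_comm]

end Sy

/-- the roots adapted to `D` -/
def Wd (V : Type*) [AddCommGroup V] [DistribMulAction G V] (D : Subgroup G) (w : G) : Prop :=
  IsW V w ∧ w ∈ normalizer (D : Set G) ∧ w * w ∈ D

/-- `D` is a `2`-group generated by plane involutions -/
structure LD (β : V →+ V →+ Z) (D : Subgroup G) : Prop where
  sy : Sy G β
  two : IsPGroup 2 D
  gen : D ≤ closure {t | ∃ w, Wd V D w ∧ t = w * w}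

variable {D : Subgroup G}

theorem Wd.conj {w d : G} (h : Wd V D w) (hd : d ∈ D) : Wd V D (d * w * d⁻¹) :=
  ⟨h.1.conj d, mul_mem (mul_mem (le_normalizer hd) h.2.1) (inv_mem (le_normalizer hd)),
    by rw [conj_mul]; exact mul_mem (mul_mem hd h.2.2) (inv_mem hd)⟩

namespace LD

theorem f2 (l : LD β D) {w d : G} (h : Wd V D w) (hd : d ∈ D) :
    d * (w * w) * d⁻¹ = w * w ∨ Or' V (d * (w * w) * d⁻¹) (w * w) := by
  have h1 : IsPGroup 2 (zpowers w) := by
    rintro ⟨_, i, rfl⟩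
    refine ⟨2, Subtype.ext ?_⟩
    have : w ^ 2 ^ 2 = 1 := by
      rw [← h.1.1.1, show 2 ^ 2 = 4 from rfl]; simp only [pow_succ, pow_zero, one_mul, mul_assoc]
    show (w ^ i) ^ 2 ^ 2 = 1
    rw [← zpow_natCast, ← zpow_mul, mul_comm, zpow_mul, zpow_natCast, this, one_zpow]
  have h2 := h1.to_sup_of_normal_right' l.two (zpowers_le.2 h.2.1)
  have hw := mem_sup_left (T := D) (mem_zpowers w)
  have hd' := mem_sup_right (S := zpowers w) hd
  rw [← conj_mul]
  exact l.sy.factM _ _ le_rfl h2 _ (mul_mem (mul_mem hd' hw) (inv_mem hd')) w hw (h.1.conj d) h.1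

theorem f2c (l : LD β D) {w d : G} (h : Wd V D w) (hd : d ∈ D) :
    Commute (d * (w * w) * d⁻¹) (w * w) := by
  rcases l.f2 h hd with e | e
  · rw [e]
  · exact l.sy.comm_of_or h.1.1.1 e

theorem f3o (l : LD β D) {w t' : G} (h : Wd V D w) (h' : t' ∈ D) (c : ¬ Commute t' (w * w)) :
    Or' V (t' * (w * w) * t'⁻¹) (w * w) :=
  (l.f2 h h').resolve_left fun e => c (mul_inv_eq_iff_eq_mul.1 e)

theorem sq_z (l : LD β D) {w d : G} (h : Wd V D w) (hd : d ∈ D) :
    ⁅d, w * w⁆ * ⁅d, w * w⁆ = 1 := by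
  rw [commutatorElement_def, inv_of_sq h.1.1.1, (l.f2c h hd).symm.mul_mul_mul_comm, conj_mul,
    h.1.1.1, mul_one, mul_one, mul_inv_cancel]

theorem f3 (l : LD β D) {w w' : G} (h : Wd V D w) (h' : Wd V D w')
    (c : ¬ Commute (w' * w') (w * w)) : ∀ a ∈ Ng V (w' * w'), ⁅w' * w', w * w⁆ • a = -a := by
  have o := l.f3o h h'.2.2 c
  have o' := l.sy.or_symm h.1.1.1 o
  have c1 := l.f2c h h'.2.2
  have hz := l.sq_z h h'.2.2
  have s := h.1.1.1
  have s' := h'.1.1.1
  have p' := h'.1.1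
  obtain ⟨a, ha, a0⟩ := h.1.1.exists_ne
  generalize w * w = t at *
  generalize w' * w' = t' at *
  have c2 : Commute ⁅t', t⁆ t' := by
    rw [commutatorElement_def, inv_of_sq s]
    refine c1.eq ▸ ?_
    rw [inv_of_sq s'] at c1 ⊢
    show _ * _ = _ * _
    calc t * (t' * t * t') * t' = t' * t' * (t * t' * t) * (t' * t') := by
          simp only [mul_assoc, s', one_mul]
      _ = t' * (t' * t * t' * t) := by rw [s', mul_one, one_mul, ← mul_assoc, ← mul_assoc,
          ← mul_assoc, s', one_mul]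
      _ = _ := by rw [c1.eq]
  refine (l.sy.pm p' (fun a ha => ng_of_comm c2 ha) fun a _ => smul_smul_of_sq hz a).resolve_left
    fun e => a0 ?_
  have m1 := smul_mem_ng (g := t') ha
  have h1 : a - t' • a ∈ Ng V t' := by rw [mem_ng, smul_sub, smul_smul_of_sq s', neg_sub]
  have h2 := e _ h1
  rw [commutatorElement_def, inv_of_sq s, mul_smul, smul_sub, smul_sub, mem_ng.1 ha, o' _ m1,
    smul_neg, o a ha, mem_ng.1 m1] at h2
  have h3 : a - t' • a = 0 := l.sy.odd _ (by nth_rewrite 1 [← h2]; abel)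
  rw [sub_eq_zero] at h3
  exact l.sy.eq_zero (h3 ▸ m1) (o a ha)

theorem f4a (l : LD β D) {w w' w'' : G} (h : Wd V D w) (h' : Wd V D w') (h'' : Wd V D w'')
    (c : ¬ Commute (w' * w') (w * w)) (c' : ¬ Commute (w'' * w'') (w * w)) :
    ⁅w' * w', w * w⁆ = ⁅w'' * w'', w * w⁆ := by
  have o1 := l.sy.or_symm h.1.1.1 (l.f3o h h'.2.2 c)
  have o2 := l.sy.or_symm h.1.1.1 (l.f3o h h''.2.2 c')
  have z1 := l.f3 h h' c
  have z2 := l.f3 h h'' c'
  have c1 := l.f2c h' h''.2.2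
  have k := l.f2 (h.conj h'.2.2) (mul_mem h''.2.2 (inv_mem h'.2.2))
  have s := h.1.1.1
  have s' := h'.1.1.1
  have s'' := h''.1.1.1
  obtain ⟨a, ha, a0⟩ := h.1.1.exists_ne
  rw [conj_mul] at k
  generalize w * w = t at *
  generalize w' * w' = t' at *
  generalize w'' * w'' = t'' at *
  rw [show t'' * t'⁻¹ * (t' * t * t'⁻¹) * (t'' * t'⁻¹)⁻¹ = t'' * t * t''⁻¹ by group] at k
  rcases k with k | k
  · rw [commutatorElement_def, commutatorElement_def, k]
  have k' := l.sy.or_symm (by rw [conj_mul, s, mul_one, mul_inv_cancel]) k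
  have m1 := smul_mem_ng (g := t') ha
  have m2 := smul_mem_ng (g := t'') ha
  have f1 : t'' • t' • a = t' • a := l.sy.fix_of_orth s'' fun b hb => l.sy.orth (s := ⁅t'', t⁆)
    (by rw [commutatorElement_def, inv_of_sq s, mul_smul, o1 _ m1, k _ m1]) (z2 b hb)
  have f2 : t' • t'' • a = t'' • a := l.sy.fix_of_orth s' fun b hb => l.sy.orth (s := ⁅t', t⁆)
    (by rw [commutatorElement_def, inv_of_sq s, mul_smul, o2 _ m2, k' _ m2]) (z1 b hb)
  have e := congrArg (· • a) c1.eq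
  simp only [mul_smul, inv_of_sq s'', f1, f2, smul_smul_of_sq s', smul_smul_of_sq s''] at e
  have := l.sy.eq_zero m2 (e ▸ k _ m1)
  exact absurd ((smul_eq_zero_iff_eq _).1 this) a0

theorem f5 (l : LD β D) {w w' w'' : G} (h : Wd V D w) (h' : Wd V D w') (h'' : Wd V D w'') :
    Commute ⁅w' * w', w * w⁆ w'' := by
  by_cases c : Commute (w' * w') (w * w)
  · rw [commutatorElement_eq_one_iff_commute.2 c]; exact Commute.one_left _
  refine l.sy.comm_of_pm h''.1 ?_
  by_cases c1 : Commute (w'' * w'') (w * w)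
  swap
  · rw [l.f4a h h' h'' c c1]; exact Or.inr (l.f3 h h'' c1)
  have h1 := h.conj h'.2.2
  by_cases c2 : Commute (w'' * w'') (w' * w' * w * (w' * w')⁻¹ * (w' * w' * w * (w' * w')⁻¹))
  · rw [conj_mul] at c2
    exact l.sy.pm h''.1.1 (fun a ha => ng_of_comm (c2.mul_right c1.inv_right).symm ha)
      fun a _ => smul_smul_of_sq (l.sq_z h h'.2.2) a
  have c3 : ¬ Commute (w' * w') (w' * w' * w * (w' * w')⁻¹ * (w' * w' * w * (w' * w')⁻¹)) := by
    rw [conj_mul]
    intro e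
    have := e.conj (w' * w')⁻¹
    rw [inv_inv, inv_mul_cancel, one_mul] at this
    exact c (by convert this using 1; group)
  have e := l.f4a h1 h' h'' c3 c2
  have z := l.f3 h1 h'' c2
  rw [← e, conj_mul] at z
  have s' := h'.1.1.1
  have hz := inv_of_sq (l.sq_z h h'.2.2)
  generalize w * w = t at *
  generalize w' * w' = t' at *
  rw [show ⁅t', t' * t * t'⁻¹⁆ = (t' * t') * (t * (t' * t')⁻¹ * t⁻¹) * ⁅t', t⁆⁻¹ by
    simp only [commutatorElement_def]; group, s', hz] at z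
  exact Or.inr (by simpa using z)

theorem comm_of (l : LD β D) {d e : G} (h : ∀ w, Wd V D w → Commute d w) (he : e ∈ D) :
    Commute d e := by
  refine (mem_centralizer_singleton_iff.1 ((closure_le (centralizer {d})).2 ?_ (l.gen he))).symm
  rintro _ ⟨w, hw, rfl⟩
  exact mem_centralizer_singleton_iff.2 ((h w hw).mul_right (h w hw)).symm

/-- the involutions of `D` commuting with all roots -/
def Z1 (l : LD β D) : Subgroup G where
  carrier := {d | d ∈ D ∧ d * d = 1 ∧ ∀ w, Wd V D w → Commute d w}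
  one_mem' := ⟨D.one_mem, mul_one 1, fun _ _ => Commute.one_left _⟩
  mul_mem' := fun {a b} ha hb => ⟨D.mul_mem ha.1 hb.1, by
    rw [(l.comm_of ha.2.2 hb.1).symm.mul_mul_mul_comm, ha.2.1, hb.2.1, mul_one],
    fun w hw => (ha.2.2 w hw).mul_left (hb.2.2 w hw)⟩
  inv_mem' := fun {a} ha => by rwa [inv_of_sq ha.2.1]

theorem ind (l : LD β D) {P : G → Prop} (h1 : P 1) (hm : ∀ a ∈ D, ∀ b ∈ D, P a → P b → P (a * b))
    (hw : ∀ w, Wd V D w → P (w * w)) {d : G} (hd : d ∈ D) : P d := by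
  have key : ∀ d ∈ closure {t | ∃ w, Wd V D w ∧ t = w * w}, d ∈ D ∧ P d := fun d hd => by
    induction hd using closure_induction_left with
    | one => exact ⟨D.one_mem, h1⟩
    | mul_left x hx y _ ih =>
      obtain ⟨w, h, rfl⟩ := hx
      exact ⟨D.mul_mem h.2.2 ih.1, hm _ h.2.2 _ ih.1 (hw w h) ih.2⟩
    | inv_mul_cancel x hx y _ ih =>
      obtain ⟨w, h, rfl⟩ := hx
      rw [inv_of_sq h.1.1.1]
      exact ⟨D.mul_mem h.2.2 ih.1, hm _ h.2.2 _ ih.1 (hw w h) ih.2⟩
  exact (key d (l.gen hd)).2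

theorem der_le (l : LD β D) : ⁅D, D⁆ ≤ l.Z1 := by
  have hm : ∀ {a b c : G}, a ∈ D → ⁅a, c⁆ ∈ l.Z1 → ⁅b, c⁆ ∈ l.Z1 → ⁅a * b, c⁆ ∈ l.Z1 :=
    fun {a b c} ha h1 h2 => by
      rw [show ⁅a * b, c⁆ = a * ⁅b, c⁆ * a⁻¹ * ⁅a, c⁆ by simp only [commutatorElement_def]; group,
        ← (l.comm_of h2.2.2 ha).eq, mul_inv_cancel_right]
      exact mul_mem h2 h1
  have sw : ∀ {a b : G}, ⁅a, b⁆ ∈ l.Z1 → ⁅b, a⁆ ∈ l.Z1 := fun h => by
    rw [← commutatorElement_inv]; exact inv_mem h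
  refine commutator_le.2 fun a ha b hb => l.ind (P := fun a => ⁅a, b⁆ ∈ l.Z1)
    (by rw [commutatorElement_one_left]; exact one_mem _) (fun _ h _ _ => hm h)
    (fun w hw => sw (l.ind (P := fun b => ⁅b, w * w⁆ ∈ l.Z1)
      (by rw [commutatorElement_one_left]; exact one_mem _) (fun _ h _ _ => hm h)
      (fun w' hw' => ⟨?_, l.sq_z hw hw'.2.2, fun _ => l.f5 hw hw'⟩) hb)) ha
  rw [commutatorElement_def]
  exact mul_mem (mul_mem (mul_mem hw'.2.2 hw.2.2) (inv_mem hw'.2.2)) (inv_mem hw.2.2)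

theorem sq_mem (l : LD β D) {d : G} (hd : d ∈ D) : d * d ∈ ⁅D, D⁆ :=
  l.ind (P := fun d => d * d ∈ ⁅D, D⁆) (by rw [mul_one]; exact one_mem _)
    (fun a ha b hb h1 h2 => by
      rw [show a * b * (a * b) = a * a * ⁅a⁻¹, b⁆ * (b * b) by
        simp only [commutatorElement_def]; group]
      exact mul_mem (mul_mem h1 (commutator_mem_commutator (inv_mem ha) hb)) h2)
    (fun w hw => by rw [hw.1.1.1]; exact one_mem _) hd

theorem l2 (l : LD β D) {w d : G} (h : Wd V D w) (hd : d ∈ D)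
    (hs : w * d * (w * d) = 1 ∨ Pn V (w * d * (w * d))) : w * w * (w * d * (w * d)) ∈ ⁅D, D⁆ := by
  have y := l.sy
  have z := l.der_le (l.sq_mem hd)
  have s := h.1.1.1
  have hw : ∀ a ∈ Ng V (w * w), w • a ∈ Ng V (w * w) := fun a ha =>
    ng_of_comm ((Commute.refl w).mul_right (Commute.refl w)) ha
  have ww : ∀ a ∈ Ng V (w * w), w • w • a = -a := fun a ha => by rw [← mul_smul, mem_ng.1 ha]
  have hs2 : w * d * (w * d) * (w * d * (w * d)) = 1 :=
    hs.elim (fun e => by rw [e, mul_one]) fun e => e.1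
  have cz := (z.2.2 w h).mul_right (z.2.2 w h)
  have c : Commute d (w * w) := by
    rcases l.f2 h hd with e | e
    · exact mul_inv_eq_iff_eq_mul.1 e
    exfalso
    have o := y.or_symm s e
    have f : ∀ a ∈ Ng V (w * w), w • d • a = d • a := fun a ha =>
      h.1.2 _ (o _ (smul_mem_ng ha))
    have g : ∀ a ∈ Ng V (w * w), (w * d * (w * d)) • d • a = d • (d * d) • w • a := fun a ha => by
      have m := ng_of_comm cz ha
      rw [mul_smul, mul_smul, mul_smul, ← mul_smul d d, f _ (hw _ m), ← mul_smul w,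
        ← (z.2.2 w h).eq, mul_smul]
    obtain ⟨a, ha, a0⟩ := h.1.1.exists_ne
    have e1 := smul_smul_of_sq hs2 (d • a)
    rw [g a ha, g _ (ng_of_comm cz (hw a ha)), ← mul_smul w, ← (z.2.2 w h).eq, mul_smul (d * d),
      smul_smul_of_sq z.2.1, ww a ha, smul_left_cancel_iff] at e1
    exact a0 (y.odd a (neg_eq_iff_add_eq_zero.1 e1))
  have hwd : ∀ a ∈ Ng V (w * w), (w * d) • a ∈ Ng V (w * w) := fun a ha => by
    rw [mul_smul]; exact hw _ (ng_of_comm c ha)
  rcases y.pm h.1.1 (u := w * d * (w * d)) (fun a ha => by rw [mul_smul]; exact hwd _ (hwd a ha))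
    (fun a _ => smul_smul_of_sq hs2 a) with e | e
  · convert l.sq_mem hd using 1
    refine y.ext_ng s (fun a ha => ?_) fun v hv => ?_
    · rw [mul_smul, e a ha, mem_ng.1 ha, eq_comm, ← smul_left_cancel_iff (w * w), smul_neg,
        mem_ng.1 ha, neg_neg, mul_smul, mul_smul]
      rcases y.pm h.1.1 hwd (fun a ha => by rw [← mul_smul, e a ha]) with e' | e'
      · rw [← mul_smul w d, e' _ (ng_of_comm c ha), ← mul_smul, e' a ha]
      · rw [← mul_smul w d, e' _ (ng_of_comm c ha), smul_neg, ← mul_smul, e' a ha, neg_neg]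
    · have k : ∀ v : V, (w * w) • v = v → (w * w) • d • v = d • v := fun v hv => by
        rw [← mul_smul, ← c.eq, mul_smul, hv]
      simp only [mul_smul (w * w), mul_smul (w * d), mul_smul w d, mul_smul d d]
      rw [h.1.2 _ (k v hv), h.1.2 _ (k _ (k v hv)), k _ (k v hv)]
  · rcases hs with hs | hs
    · obtain ⟨a, ha, a0⟩ := h.1.1.exists_ne
      have := e a ha
      rw [hs, one_smul] at this
      exact absurd (y.odd a (eq_neg_iff_add_eq_zero.1 this)) a0
    · rw [← y.eq_of_le h.1.1 hs e, s]; exact one_mem _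

end LD
end CF.Bk
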