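/-
The symplectic group attached to a type.
-/
import Cfsg.Agent.Fgs1.BkLoc2
import Cfsg.Agent.Fgs2.HHExp
set_option autoImplicit false
set_option linter.unusedSectionVars false

namespace CF.Bk
open Subgroup Cfsg CF.BG CF.Fgs1 CF.Fgs2
open scoped commutatorElement

variable {Γ : Type*} [Group Γ] [Finite Γ] {k : Type*} [Field k] {Q R : Subgroup Γ} {η : Γ → k}

theorem nrm (t : IsType Q R η) : (R.subgroupOf Q).Normal := (normalIn_of_der_le t.le t.der).normal

/-- the quotient of `Q` by the radical, written additively -/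
def TV (_ : IsType Q R η) : Type _ := Additive (Q ⧸ R.subgroupOf Q)

instance (t : IsType Q R η) : Finite (TV t) := inferInstanceAs (Finite (Q ⧸ R.subgroupOf Q))

instance (t : IsType Q R η) : AddCommGroup (TV t) :=
  haveI := nrm t
  { (inferInstance : AddGroup (Additive (Q ⧸ R.subgroupOf Q))) with
    add_comm := fun a b => by
      obtain ⟨a, rfl⟩ := QuotientGroup.mk_surjective (s := R.subgroupOf Q) a
      obtain ⟨b, rfl⟩ := QuotientGroup.mk_surjective (s := R.subgroupOf Q) b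
      refine QuotientGroup.eq.2 (mem_subgroupOf.2 ?_)
      have := t.comm_mem (inv_mem b.2) (inv_mem a.2)
      simpa [commutatorElement_def, mul_assoc] using this }

open Classical in
/-- the class of an element of `Q` -/
noncomputable def mk (t : IsType Q R η) (a : Γ) : TV t :=
  if h : a ∈ Q then Additive.ofMul ((⟨a, h⟩ : Q) : Q ⧸ R.subgroupOf Q) else 0

variable (t : IsType Q R η)

theorem mk_eq {a : Γ} (h : a ∈ Q) :
    mk t a = Additive.ofMul ((⟨a, h⟩ : Q) : Q ⧸ R.subgroupOf Q) := dif_pos h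

theorem mk_mul {a b : Γ} (ha : a ∈ Q) (hb : b ∈ Q) : mk t (a * b) = mk t a + mk t b := by
  rw [mk_eq t ha, mk_eq t hb, mk_eq t (mul_mem ha hb)]; rfl

theorem mk_eq_zero {a : Γ} (ha : a ∈ Q) : mk t a = 0 ↔ a ∈ R := by
  haveI := nrm t
  rw [mk_eq t ha]
  exact (QuotientGroup.eq_one_iff (N := R.subgroupOf Q) _).trans mem_subgroupOf

theorem mk_one : mk t 1 = 0 := (mk_eq_zero t Q.one_mem).2 R.one_mem

theorem mk_inv {a : Γ} (ha : a ∈ Q) : mk t a⁻¹ = - mk t a :=
  eq_neg_of_add_eq_zero_left (by rw [← mk_mul t (inv_mem ha) ha, inv_mul_cancel, mk_one])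

theorem mk_eq_iff {a b : Γ} (ha : a ∈ Q) (hb : b ∈ Q) : mk t a = mk t b ↔ a⁻¹ * b ∈ R := by
  rw [← mk_eq_zero t (mul_mem (inv_mem ha) hb), mk_mul t (inv_mem ha) hb, mk_inv t ha,
    neg_add_eq_zero]

theorem mk_surj (v : TV t) : ∃ a ∈ Q, mk t a = v := by
  obtain ⟨a, rfl⟩ := QuotientGroup.mk_surjective (s := R.subgroupOf Q) v
  exact ⟨a, a.2, mk_eq t a.2⟩

theorem card_tv : Nat.card (TV t) = R.relIndex Q := rfl

include t in
theorem eta_mul_right {a b c : Γ} (ha : a ∈ Q) (hb : b ∈ Q) (hc : c ∈ Q) :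
    η ⁅a, b * c⁆ = η ⁅a, b⁆ * η ⁅a, c⁆ := by
  rw [← commutatorElement_inv, t.char.inv (t.comm_mem (mul_mem hb hc) ha), eta_mul_left t hb hc ha,
    mul_inv, ← t.char.inv (t.comm_mem hb ha), ← t.char.inv (t.comm_mem hc ha),
    commutatorElement_inv, commutatorElement_inv]

theorem eta_congr {a a' b b' : Γ} (ha : a ∈ Q) (ha' : a' ∈ Q) (hb : b ∈ Q) (hb' : b' ∈ Q)
    (e : mk t a = mk t a') (e' : mk t b = mk t b') : η ⁅a, b⁆ = η ⁅a', b'⁆ := by
  rw [mk_eq_iff t ha ha'] at e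
  rw [mk_eq_iff t hb hb'] at e'
  rw [← mul_inv_cancel_left a a', ← mul_inv_cancel_left b b', eta_mul_left t ha (t.le e)
    (mul_mem hb (t.le e')), (t.rad _ (t.le e)).1 e _ (mul_mem hb (t.le e')), mul_one,
    eta_mul_right t ha hb (t.le e'), eta_symm t (t.le e') ha ((t.rad _ (t.le e')).1 e' _ ha),
    mul_one]

/-- a representative -/
noncomputable def out (v : TV t) : Γ := (mk_surj t v).choose

theorem out_mem (v : TV t) : out t v ∈ Q := (mk_surj t v).choose_spec.1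

theorem mk_out (v : TV t) : mk t (out t v) = v := (mk_surj t v).choose_spec.2

/-- the commutator form -/
noncomputable def form : TV t →+ TV t →+ Additive kˣ :=
  AddMonoidHom.mk' (fun a => AddMonoidHom.mk' (fun b => Additive.ofMul (Units.mk0
    (η ⁅out t a, out t b⁆) (t.char.ne_zero (t.comm_mem (out_mem t a) (out_mem t b)))))
    fun b c => Units.ext (by
      show η _ = η _ * η _
      rw [← eta_mul_right t (out_mem t a) (out_mem t b) (out_mem t c)]
      exact eta_congr t (out_mem t a) (out_mem t a) (out_mem t _)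
        (mul_mem (out_mem t b) (out_mem t c)) rfl
        (by rw [mk_mul t (out_mem t b) (out_mem t c), mk_out, mk_out, mk_out])))
    fun a b => AddMonoidHom.ext fun c => Units.ext (by
      show η _ = η _ * η _
      rw [← eta_mul_left t (out_mem t a) (out_mem t b) (out_mem t c)]
      exact eta_congr t (out_mem t _) (mul_mem (out_mem t a) (out_mem t b)) (out_mem t c)
        (out_mem t c) (by rw [mk_mul t (out_mem t a) (out_mem t b), mk_out, mk_out, mk_out]) rfl)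

theorem form_mk {a b : Γ} (ha : a ∈ Q) (hb : b ∈ Q) :
    ((form t (mk t a) (mk t b)).toMul : k) = η ⁅a, b⁆ :=
  eta_congr t (out_mem t _) ha (out_mem t _) hb (mk_out t _) (mk_out t _)

theorem form_eq_zero {a b : Γ} (ha : a ∈ Q) (hb : b ∈ Q) :
    form t (mk t a) (mk t b) = 0 ↔ η ⁅a, b⁆ = 1 := by
  rw [← form_mk t ha hb, Units.val_eq_one, toMul_eq_one]

/-- the stabilizer of the type -/
def TL (_ : IsType Q R η) : Subgroup Γ := 𝐍 Q ⊓ StabCh R η

theorem mk_conj {g a b : Γ} (hg : g ∈ TL t) (ha : a ∈ Q) (hb : b ∈ Q) (e : mk t a = mk t b) :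
    mk t (g * a * g⁻¹) = mk t (g * b * g⁻¹) := by
  rw [mk_eq_iff t ha hb] at e
  rw [mk_eq_iff t (conj_mem_of_norm hg.1 ha) (conj_mem_of_norm hg.1 hb)]
  convert conj_mem_of_norm hg.2.1 e using 1
  group

noncomputable instance : SMul (TL t) (TV t) := ⟨fun g v => mk t (g * out t v * (g : Γ)⁻¹)⟩

theorem smul_mk (g : TL t) {a : Γ} (ha : a ∈ Q) : g • mk t a = mk t (g * a * (g : Γ)⁻¹) :=
  mk_conj t g.2 (out_mem t _) ha (mk_out t _)

noncomputable instance : DistribMulAction (TL t) (TV t) where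
  one_smul v := by
    obtain ⟨a, ha, rfl⟩ := mk_surj t v
    rw [smul_mk t _ ha]; simp
  mul_smul g h v := by
    obtain ⟨a, ha, rfl⟩ := mk_surj t v
    rw [smul_mk t _ ha, smul_mk t _ ha, smul_mk t _ (conj_mem_of_norm h.2.1 ha)]
    simp [mul_assoc]
  smul_zero g := by rw [← mk_one t, smul_mk t _ Q.one_mem]; simp
  smul_add g v w := by
    obtain ⟨a, ha, rfl⟩ := mk_surj t v
    obtain ⟨b, hb, rfl⟩ := mk_surj t w
    rw [← mk_mul t ha hb, smul_mk t _ ha, smul_mk t _ hb, smul_mk t _ (mul_mem ha hb),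
      ← mk_mul t (conj_mem_of_norm g.2.1 ha) (conj_mem_of_norm g.2.1 hb), conj_mul]

/-- the group induced by the stabilizer -/
abbrev TG : Type _ := (DistribMulAction.toModuleAut ℤ (TV t) : TL t →* _).range

/-- the projection onto the induced group -/
noncomputable def ph : TL t →* TG t := (DistribMulAction.toModuleAut ℤ (TV t)).rangeRestrict

theorem ph_surj : Function.Surjective (ph t) := MonoidHom.rangeRestrict_surjective _

instance : Finite (TG t) := Finite.of_surjective _ (ph_surj t)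

open Classical in
/-- the projection as a total function -/
noncomputable def ps (g : Γ) : TG t := if h : g ∈ TL t then ph t ⟨g, h⟩ else 1

theorem ps_eq {g : Γ} (h : g ∈ TL t) : ps t g = ph t ⟨g, h⟩ := dif_pos h

theorem ps_mk {g a : Γ} (h : g ∈ TL t) (ha : a ∈ Q) : ps t g • mk t a = mk t (g * a * g⁻¹) := by
  rw [ps_eq t h]; exact smul_mk t ⟨g, h⟩ ha

theorem ps_mul {g h : Γ} (hg : g ∈ TL t) (hh : h ∈ TL t) : ps t (g * h) = ps t g * ps t h := by
  rw [ps_eq t hg, ps_eq t hh, ps_eq t (mul_mem hg hh), ← map_mul]; rfl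

theorem ps_one : ps t 1 = 1 := by rw [ps_eq t (one_mem _)]; exact map_one _

theorem ps_inv {g : Γ} (hg : g ∈ TL t) : ps t g⁻¹ = (ps t g)⁻¹ :=
  eq_inv_of_mul_eq_one_left (by rw [← ps_mul t (inv_mem hg) hg, inv_mul_cancel, ps_one])

theorem ps_pow {g : Γ} (hg : g ∈ TL t) (n : ℕ) : ps t (g ^ n) = ps t g ^ n := by
  rw [ps_eq t hg, ps_eq t (pow_mem hg n), ← map_pow]; rfl

theorem ps_conj {g h : Γ} (hg : g ∈ TL t) (hh : h ∈ TL t) :
    ps t (g * h * g⁻¹) = ps t g * ps t h * (ps t g)⁻¹ := by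
  rw [ps_mul t (mul_mem hg hh) (inv_mem hg), ps_mul t hg hh, ps_inv t hg]

theorem ps_comm {g h : Γ} (hg : g ∈ TL t) (hh : h ∈ TL t) : ps t ⁅g, h⁆ = ⁅ps t g, ps t h⁆ := by
  rw [commutatorElement_def, commutatorElement_def,
    ps_mul t (mul_mem (mul_mem hg hh) (inv_mem hg)) (inv_mem hh), ps_conj t hg hh, ps_inv t hh]

theorem ps_surj (x : TG t) : ∃ g ∈ TL t, ps t g = x := by
  obtain ⟨g, rfl⟩ := ph_surj t x
  exact ⟨g, g.2, ps_eq t g.2⟩

theorem ps_eq_one {g : Γ} (hg : g ∈ TL t) : ps t g = 1 ↔ ∀ a ∈ Q, ⁅g, a⁆ ∈ R := by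
  have key : ∀ a ∈ Q, ps t g • mk t a = mk t a ↔ ⁅g, a⁆ ∈ R := fun a ha => by
    rw [ps_mk t hg ha, ← sub_eq_zero, sub_eq_add_neg, ← mk_inv t ha, ← mk_mul t
      (conj_mem_of_norm hg.1 ha) (inv_mem ha), mk_eq_zero t (mul_mem (conj_mem_of_norm hg.1 ha)
      (inv_mem ha)), commutatorElement_def]
  refine ⟨fun e a ha => (key a ha).1 (by rw [e, one_smul]), fun h => eq_of_smul_eq_smul
    fun v : TV t => ?_⟩
  obtain ⟨a, ha, rfl⟩ := mk_surj t v
  rw [(key a ha).2 (h a ha), one_smul]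

theorem sy (o : Odd (♯Q)) : Sy (TG t) (form t) where
  alt v := by
    obtain ⟨a, ha, rfl⟩ := mk_surj t v
    rw [form_eq_zero t ha ha, commutatorElement_self, t.char.one]
  nd v h := by
    obtain ⟨a, ha, rfl⟩ := mk_surj t v
    exact (mk_eq_zero t ha).2 ((t.rad a ha).2 fun b hb => (form_eq_zero t ha hb).1 (h _))
  iso x v w := by
    obtain ⟨a, ha, rfl⟩ := mk_surj t v
    obtain ⟨b, hb, rfl⟩ := mk_surj t w
    obtain ⟨g, hg, rfl⟩ := ps_surj t x
    rw [ps_mk t hg ha, ps_mk t hg hb]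
    refine Additive.toMul.injective (Units.ext ?_)
    rw [form_mk t ha hb, form_mk t (conj_mem_of_norm hg.1 ha) (conj_mem_of_norm hg.1 hb),
      ← conjugate_commutatorElement, eta_conj t.char hg.2 (t.comm_mem ha hb)]
  odd v h := by
    have h1 : Odd (Nat.card (TV t)) := o.of_dvd_nat (relIndex_dvd_card R Q)
    obtain ⟨c, hc⟩ := h1
    have := card_nsmul_eq_zero' (x := v)
    rwa [hc, add_nsmul, mul_nsmul, two_nsmul, h, nsmul_zero, zero_add, one_nsmul] at this

/-- the image of a subgroup -/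
noncomputable def im (X : Subgroup Γ) : Subgroup (TG t) := (X.subgroupOf (TL t)).map (ph t)

theorem mem_im {X : Subgroup Γ} {x : TG t} : x ∈ im t X ↔ ∃ g ∈ X, g ∈ TL t ∧ ps t g = x :=
  ⟨fun ⟨g, hg, e⟩ => ⟨g, hg, g.2, (ps_eq t g.2).trans e⟩,
    fun ⟨g, hg, h, e⟩ => ⟨⟨g, h⟩, hg, (ps_eq t h).symm.trans e⟩⟩

theorem ps_mem_im {X : Subgroup Γ} {g : Γ} (hg : g ∈ X) (h : g ∈ TL t) : ps t g ∈ im t X :=
  (mem_im t).2 ⟨g, hg, h, rfl⟩

theorem im_mono {X Y : Subgroup Γ} (h : X ≤ Y) : im t X ≤ im t Y :=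
  map_mono (subgroupOf_mono _ h)

theorem im_comm {X Y : Subgroup Γ} (hX : X ≤ TL t) (hY : Y ≤ TL t) :
    im t ⁅X, Y⁆ = ⁅im t X, im t Y⁆ := by
  rw [im, im, im, ← map_commutator]
  congr 1
  apply map_injective (TL t).subtype_injective
  rw [map_commutator, map_subgroupOf_eq_of_le hX, map_subgroupOf_eq_of_le hY,
    map_subgroupOf_eq_of_le ((commutator_mono hX hY).trans (CF.BG.der_le _))]

theorem im_der {X : Subgroup Γ} (hX : X ≤ TL t) (n : ℕ) : im t (der X n) = der (im t X) n := by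
  induction n with
  | zero => rfl
  | succ n ih =>
    rw [der_succ, im_comm t ((Fgs2.der_le X n).trans hX) ((Fgs2.der_le X n).trans hX), ih,
      der_succ]

theorem im_two {X : Subgroup Γ} (h : IsPGroup 2 X) : IsPGroup 2 (im t X) :=
  (h.comap_subtype).map _

/-- the preimage of a subgroup of the quotient -/
def pre (A : AddSubgroup (TV t)) : Subgroup Γ where
  carrier := {a | a ∈ Q ∧ mk t a ∈ A}
  one_mem' := ⟨Q.one_mem, by rw [mk_one]; exact A.zero_mem⟩
  mul_mem' := fun a b => ⟨Q.mul_mem a.1 b.1, by rw [mk_mul t a.1 b.1]; exact A.add_mem a.2 b.2⟩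
  inv_mem' := fun a => ⟨Q.inv_mem a.1, by rw [mk_inv t a.1]; exact A.neg_mem a.2⟩

theorem pre_le (A : AddSubgroup (TV t)) : pre t A ≤ Q := fun _ h => h.1

theorem isType_pre {A : AddSubgroup (TV t)} (h : ∀ a ∈ A, (∀ b ∈ A, form t a b = 0) → a = 0) :
    IsType (pre t A) R η where
  le r hr := ⟨t.le hr, by rw [(mk_eq_zero t (t.le hr)).2 hr]; exact A.zero_mem⟩
  der := (commutator_mono (pre_le t A) (pre_le t A)).trans t.der
  char := t.char
  rad n hn := ⟨fun e m hm => (t.rad n hn.1).1 e m hm.1, fun e => (mk_eq_zero t hn.1).1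
    (h _ hn.2 fun b hb => by
      obtain ⟨b, hb', rfl⟩ := mk_surj t b
      exact (form_eq_zero t hn.1 hb').2 (e b ⟨hb', hb⟩))⟩

theorem relIndex_pre (A : AddSubgroup (TV t)) : R.relIndex (pre t A) = Nat.card A := by
  let f : pre t A →* Multiplicative A := MonoidHom.mk' (fun a => Multiplicative.ofAdd ⟨_, a.2.2⟩)
    fun a b => Subtype.ext (mk_mul t a.2.1 b.2.1)
  have h1 : f.ker = R.subgroupOf (pre t A) := Subgroup.ext fun a =>
    Subtype.ext_iff.trans (mk_eq_zero t a.2.1)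
  have h2 : f.range = ⊤ := top_le_iff.1 fun v _ => by
    obtain ⟨a, ha, e⟩ := mk_surj t v.toAdd
    exact ⟨⟨a, ha, e ▸ v.toAdd.2⟩, Subtype.ext e⟩
  rw [relIndex, ← h1, index_ker, h2, card_top]; rfl

theorem norm_pre {A : AddSubgroup (TV t)} {g : Γ} (hg : g ∈ TL t)
    (h : ∀ a ∈ A, ps t g • a ∈ A) : g ∈ 𝐍 (pre t A) :=
  mem_normalizer_fintype fun a ha => ⟨conj_mem_of_norm hg.1 ha.1, by
    rw [← ps_mk t hg ha.1]; exact h _ ha.2⟩

end CF.Bk
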