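/-
Exceptional `2`-elements.
-/
import Cfsg.Agent.Fgs1.BkTy
import Cfsg.Agent.S3784
set_option autoImplicit false
set_option linter.unusedSectionVars false

namespace CF.Bk
open Module Subgroup Cfsg CF.BG CF.Fgs1 CF.Fgs2 Polynomial
open scoped commutatorElement

theorem perm_count {α : Type*} [Finite α] (f : Equiv.Perm α) (F : Set α) (h : ℕ)
    (hF : ∀ b, f b ∈ F ↔ b ∈ F) (hf : ∀ b, b ∉ F → ∀ i, 0 < i → i < h → (f ^ i) b ≠ b) {b₀ : α}
    (h0 : b₀ ∈ F) (h1 : f b₀ ≠ b₀) :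
    ∃ s : Finset α, (∀ b, ∃ i : ℕ, ∃ c ∈ s, (f ^ i) c = b) ∧
      h * s.card + h + Nat.card F ≤ Nat.card α + h * Nat.card F := by
  classical
  let g : Equiv.Perm {b // b ∉ F} := f.subtypePerm fun b => (hF b).not
  have hg : ∀ (i : ℕ) (o : Option {b // b ∉ F}), (g.optionCongr ^ i) o = o.map (g ^ i) := by
    intro i o
    induction i with
    | zero => simp
    | succ i ih => rw [pow_succ', Equiv.Perm.mul_apply, ih, pow_succ']; cases o <;> simp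
  have hg' : ∀ (i : ℕ) (b : {b // b ∉ F}), ((g ^ i) b).1 = (f ^ i) b.1 := fun i b => by
    rw [Equiv.Perm.subtypePerm_pow]; rfl
  obtain ⟨s, hs, hc⟩ := perm_orbit_count g.optionCongr none rfl h fun b hb i i0 i1 e => by
    obtain ⟨b, rfl⟩ := Option.ne_none_iff_exists'.1 hb
    rw [hg, Option.map_some, Option.some_inj] at e
    exact hf b b.2 i i0 i1 (by rw [← hg', e])
  have hn : none ∈ s := by
    obtain ⟨i, c, hc, e⟩ := hs none
    rw [hg, Option.map_eq_none_iff] at e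
    exact e ▸ hc
  letI := Fintype.ofFinite α
  refine ⟨(Finset.eraseNone s).image Subtype.val ∪ F.toFinset.erase (f b₀), fun b => ?_, ?_⟩
  · by_cases hb : b ∈ F
    · by_cases e : b = f b₀
      · exact ⟨1, b₀, by simp [h0, h1.symm], by simp [e]⟩
      · exact ⟨0, b, by simp [hb, e], rfl⟩
    · obtain ⟨i, c, hc, e⟩ := hs (some ⟨b, hb⟩)
      rw [hg, Option.map_eq_some_iff] at e
      obtain ⟨c, rfl, e⟩ := e
      exact ⟨i, c, Finset.mem_union_left _ (Finset.mem_image_of_mem _ (by simpa using hc)),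
        by rw [← hg', e]⟩
  · have e1 := Finset.card_union_le ((Finset.eraseNone s).image Subtype.val)
      (F.toFinset.erase (f b₀))
    have e2 := Finset.card_image_le (s := Finset.eraseNone s) (f := Subtype.val)
    have e3 := Finset.card_eraseNone_of_mem hn
    have e4 := Finset.card_erase_add_one (s := F.toFinset) (Set.mem_toFinset.2 ((hF b₀).2 h0))
    have e5 := Finset.card_pos.2 ⟨_, hn⟩
    have e6 := Fintype.card_subtype_compl (· ∈ F)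
    have e7 := Fintype.card_subtype_le (· ∈ F)
    rw [Set.toFinset_card] at e4
    simp only [Nat.card_eq_fintype_card, Fintype.card_option] at hc ⊢
    obtain ⟨c, e8⟩ : ∃ c, s.card = c + 1 := ⟨s.card - 1, by omega⟩
    rw [e8] at hc e3
    have := Nat.mul_le_mul_left h (e1.trans (Nat.add_le_add_right (e2.trans e3.le) _))
    rw [← e4] at e6 e7 ⊢
    simp only [Nat.add_sub_cancel, mul_add, mul_one] at this hc ⊢
    omega

theorem Sy.card_eq {G V Z : Type*} [Group G] [AddCommGroup V] [AddCommGroup Z]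
    [DistribMulAction G V] [Finite V] {β : V →+ V →+ Z} (y : Sy G β) {s : G} (hs : s * s = 1) :
    Nat.card V = Nat.card (Ng V s) * Nat.card {v : V | s • v = v} := by
  rw [← Nat.card_prod]
  refine (Nat.card_congr (Equiv.ofBijective
    (fun x : Ng V s × {v : V | s • v = v} => x.1.1 + x.2.1) ⟨fun a b e => ?_, fun v => ?_⟩)).symm
  · have e1 : a.1.1 - b.1.1 = b.2.1 - a.2.1 := by
      rw [sub_eq_sub_iff_add_eq_add, add_comm b.2.1]; exact e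
    have e2 := y.eq_zero (AddSubgroup.sub_mem _ a.1.2 b.1.2) (by rw [e1, smul_sub, a.2.2, b.2.2])
    exact Prod.ext (Subtype.ext (sub_eq_zero.1 e2)) (Subtype.ext (sub_eq_zero.1 (e1 ▸ e2)).symm)
  · obtain ⟨a, ha, c, hc, rfl⟩ := y.dec hs v
    exact ⟨(⟨a, ha⟩, ⟨c, hc⟩), rfl⟩

variable {Γ : Type*} [Group Γ] [Finite Γ] {k : Type*} [Field k] {W : Type*} [AddCommGroup W]
  [Module k W] {H Q R : Subgroup Γ} {η : Γ → k} {ρ : Γ → End k W}

theorem rad_eq [Nontrivial W] (h : RepOn H ρ) (hQ : Q ≤ H) (t : IsType Q R η)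
    (hsc : ∀ z ∈ R, ∀ v, ρ z v = η z • v) : Rad Q ρ = R := by
  ext z
  rw [h.mem_rad' hQ]
  constructor
  · rintro ⟨hz, a⟩
    rw [t.rad z hz]
    intro m hm
    obtain ⟨v, hv⟩ := exists_ne (0 : W)
    exact wt_eq_one (ρ := ρ) (B := R) (fun z hz => hsc z hz v) hv (t.comm_mem hz hm)
      (by rw [a m hm]; rfl)
  · intro hz
    refine ⟨t.le hz, fun m hm => ?_⟩
    ext v
    rw [hsc _ (t.comm_mem (t.le hz) hm), (t.rad z (t.le hz)).mp hz m hm, one_smul]; rfl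

theorem odd_of {q : ℕ} (hq : q.Prime) (q2 : q ≠ 2) (pQ : IsPGroup q Q) : Odd (♯Q) := by
  haveI := Fact.mk hq
  obtain ⟨n, hn⟩ := IsPGroup.iff_card.1 pQ
  rw [hn]; exact (hq.odd_of_ne_two q2).pow

theorem cast_odd [CharP k 2] {n : ℕ} (o : Odd n) : (n : k) ≠ 0 := fun e =>
  o.not_two_dvd_nat ((CharP.cast_eq_zero_iff k 2 n).1 e)

variable [IsAlgClosed k] [CharP k 2] [FiniteDimensional k W]

theorem exc0 [Nontrivial W] (h : RepOn H ρ) (hQ : Q ≤ H) (t : IsType Q R η)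
    (hsc : ∀ z ∈ R, ∀ v, ρ z v = η z • v) {q : ℕ} (hq : q.Prime) (q2 : q ≠ 2) (pQ : IsPGroup q Q)
    {y : Γ} (hy : y ∈ H) (hL : y ∈ TL t) {a : ℕ} (ho : ps t y ^ 2 ^ (a + 1) = 1)
    (hne : ps t y ^ 2 ^ a ≠ 1) {g : k[X]} (g0 : g ≠ 0) (hg : aeval (ρ y) g = 0)
    (hd : g.natDegree < 2 ^ (a + 1)) :
    Nat.card (Ng (TV t) (ps t y ^ 2 ^ a)) = q ^ 2 ∧ q + 1 = 2 ^ (a + 1) ∧
      ∀ v : TV t, (ps t y ^ 2 ^ a) • v = v → ps t y • v = v := by
  have o := odd_of hq q2 pQ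
  have Y := sy t o
  have hk : ((♯Q : ℕ) : k) ≠ 0 := cast_odd o
  have hs : ps t y ^ 2 ^ a * ps t y ^ 2 ^ a = 1 := by rw [← pow_add, ← two_mul, ← pow_succ', ho]
  have fx : ∀ (v : TV t) (i : ℕ), 0 < i → i < 2 ^ (a + 1) → (ps t y ^ i) • v = v →
      (ps t y ^ 2 ^ a) • v = v := fun v i i0 i1 e =>
    (zpowers_le (H := MulAction.stabilizer _ v)).2 e
      (pow_mem_zpowers_pow Nat.prime_two ho i0.ne' i1)
  have c : Commute (ps t y) (ps t y ^ 2 ^ a) := Commute.self_pow _ _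
  generalize ps t y ^ 2 ^ a = s at *
  have cj : ∀ m ∈ Q, ∀ i : ℕ, mk t (y ^ i * m * (y ^ i)⁻¹) = (ps t y ^ i) • mk t m :=
    fun m hm i => by rw [← ps_pow t hL, ps_mk t (pow_mem hL i) hm]
  have cm : ∀ m ∈ Q, ∀ i : ℕ, y ^ i * m * (y ^ i)⁻¹ ∈ Q := fun m hm i =>
    conj_mem_of_norm (pow_mem hL.1 i) hm
  have tA := isType_pre t (A := Ng (TV t) s) fun a ha => Y.nd_ng hs ha
  have lA := pre_le t (Ng (TV t) s)
  have rA := rad_eq h (lA.trans hQ) tA hsc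
  have r := rad_eq h hQ t hsc
  obtain ⟨D, D1, e1, -, e2⟩ := h.hh_semi (lA.trans hQ) (cast_card_ne_zero hk lA)
    (fun a ha b hb => ⟨_, hsc _ (tA.comm_mem ha hb)⟩) (fun z hz => ⟨_, hsc z (rA ▸ hz)⟩) hy
    (norm_pre t hL fun a ha => ng_of_comm c ha) (2 ^ (a + 1)) (by
      rw [rA]
      intro m hm hR i i0 i1 e
      rw [← mk_eq_iff t hm.1 (cm m hm.1 i), cj m hm.1] at e
      exact hR ((mk_eq_zero t hm.1).1 (Y.eq_zero hm.2 (fx _ i i0 i1 e.symm)))) (by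
      rw [rA]
      refine fun e => hne (Y.ext_ng hs (fun v hv => ?_) fun v hv => by rw [hv, one_smul])
      obtain ⟨m, hm, rfl⟩ := mk_surj t v
      rw [(mk_eq_zero t hm).2 (e.ge ⟨hm, hv⟩), smul_zero, smul_zero])
  obtain ⟨e3, e4⟩ := (e2 g g0 hg).resolve_left hd.not_ge
  rw [rA] at e1
  obtain ⟨m, m1, rfl⟩ := exists_pow_of_sq hq (pQ.to_le lA) D1 e1
  obtain rfl : m = 1 := by
    rcases Cfsg.Agent.S3784.result 2 q (a + 1) m Nat.prime_two hq (by omega) m1 e3.symm with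
      e | e | e
    · exact e.2.1
    · exact absurd e.1 q2
    · exact absurd (e.1 ▸ dvd_pow_self 2 a.succ_ne_zero : 2 ∣ 9) (by decide)
  rw [pow_one] at e1 e3
  rw [relIndex_pre] at e1
  refine ⟨e1.symm, e3, fun v hv => by_contra fun hv' => ?_⟩
  obtain ⟨S, hS, hc⟩ := perm_count (MulAction.toPerm (ps t y)) {v : TV t | s • v = v} (2 ^ (a + 1))
    (fun b => by
      show s • ps t y • b = ps t y • b ↔ s • b = b
      rw [← mul_smul, ← c.eq, mul_smul, smul_left_cancel_iff])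
    (fun b hb i i0 i1 e => hb (fx b i i0 i1 (by
      rwa [← MulAction.toPermHom_apply, ← map_pow] at e))) hv hv'
  classical
  obtain ⟨D, e5, -, e6⟩ := h.hh_orbits hQ hk (fun a ha b hb => ⟨_, hsc _ (t.comm_mem ha hb)⟩)
    (fun z hz => ⟨_, hsc z (r ▸ hz)⟩) hy hL.1 (S.image (out t)) fun m hm => by
      obtain ⟨i, b, hb, e⟩ := hS (mk t m)
      refine ⟨i, _, Finset.mem_image_of_mem _ hb, out_mem t b, ?_⟩
      rw [r, ← mk_eq_iff t (cm _ (out_mem t b) i) hm, cj _ (out_mem t b), mk_out, ← e,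
        ← MulAction.toPermHom_apply, ← map_pow]
      rfl
  have e7 := (e6 g g0 hg).trans (Nat.mul_le_mul_left _ Finset.card_image_le)
  rw [e5, r, ← card_tv t, show g.natDegree = q by omega] at e7
  rw [← e3] at hc
  rw [Y.card_eq hs, ← e1] at e7 hc
  have := hq.pos
  nlinarith [Nat.mul_le_mul_left (q + 1) e7, Nat.mul_le_mul_left q hc]

theorem exc (h : RepOn H ρ) (hQ : Q ≤ H) (t : IsType Q R η) {U : Submodule k W} (hU : U ≠ ⊥)
    (l : U ≤ Wt ρ R η) (sU : Stab ρ Q U) {q : ℕ} (hq : q.Prime) (q2 : q ≠ 2) (pQ : IsPGroup q Q)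
    {y : Γ} (hy : y ∈ H) (hL : y ∈ TL t) (sy : ∀ u ∈ U, ρ y u ∈ U) {a : ℕ}
    (ho : ps t y ^ 2 ^ (a + 1) = 1) (hne : ps t y ^ 2 ^ a ≠ 1) {g : k[X]} (g0 : g ≠ 0)
    (hg : ∀ u ∈ U, aeval (ρ y) g u = 0) (hd : g.natDegree < 2 ^ (a + 1)) :
    Nat.card (Ng (TV t) (ps t y ^ 2 ^ a)) = q ^ 2 ∧ q + 1 = 2 ^ (a + 1) ∧
      ∀ v : TV t, (ps t y ^ 2 ^ a) • v = v → ps t y • v = v := by
  have hQ' := h.le_stbz hQ sU
  have hy' : y ∈ Stbz H ρ U := h.mem_stbz.mpr ⟨hy, sy⟩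
  obtain ⟨σ, hσ, e⟩ := (h.mono (stbz_le H ρ _)).restrict (h.stab_stbz U)
  haveI : Nontrivial U := Submodule.nontrivial_iff_ne_bot.mpr hU
  refine exc0 hσ hQ' t (fun z hz v => Subtype.ext (by
    rw [e z (hQ' (t.le hz)), l v.2 z hz]; rfl)) hq q2 pQ hy' hL ho hne g0 ?_ hd
  ext u
  rw [aeval_restrict (e y hy'), hg u u.2]; rfl

theorem descend (h : RepOn H ρ) (hQ : Q ≤ H) (t : IsType Q R η) (hk : ((♯Q : ℕ) : k) ≠ 0)
    (hU : Wt ρ R η ≠ ⊥) {x : Γ} (hx : x ∈ H) (n : x ∈ 𝐍 Q) {l : ℕ} (ho : x ^ 2 ^ (l + 1) = 1)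
    (hg : aeval (ρ x) (∑ i ∈ Finset.range (2 ^ (l + 1)), (X : k[X]) ^ i) = 0) :
    ∃ s a, l = s + a ∧ x ^ 2 ^ s ∈ StabCh R η ∧ ∃ g : k[X], g ≠ 0 ∧ g.natDegree < 2 ^ (a + 1) ∧
      ∀ u ∈ Wt ρ R η, aeval (ρ (x ^ 2 ^ s)) g u = 0 := by
  obtain ⟨u, hu, hu0⟩ := (Submodule.ne_bot_iff _).1 hU
  obtain ⟨a, ha, hper⟩ := exists_period (StabCh R η) x
  obtain ⟨s, hs, rfl⟩ := (Nat.dvd_prime_pow Nat.prime_two).mp
    ((hper (2 ^ (l + 1))).mp (by rw [ho]; simp))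
  have hpos := Nat.two_pow_pos (l + 1)
  obtain ⟨g', h0, h1, h2⟩ : ∃ g' : k[X], g' ≠ 0 ∧
      2 ^ s * g'.natDegree ≤ (∑ i ∈ Finset.range (2 ^ (l + 1)), (X : k[X]) ^ i).natDegree ∧
      ∀ u ∈ Wt ρ R η, aeval (ρ (x ^ 2 ^ s)) g' u = 0 := by
    rw [h.pow hx]
    refine poly_descend (e := proj ρ R η) ha (cast_card_ne_zero hk t.le) (h.injective hx)
      (fun m hm v hv => ?_) (fun m hm v hv => ?_) (geom_ne_zero hpos) (fun v _ => by rw [hg]; rfl)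
    · rw [← h.pow hx]
      exact proj_of_mem t.char
        (h.map_wt_stab (t.le.trans hQ) (H.pow_mem hx m) ((hper m).mpr hm) hv)
    · rw [← h.pow hx]
      exact h.proj_type_eq_zero hQ t (H.pow_mem hx m) ((𝐍 Q).pow_mem n m)
        (fun e => hm ((hper m).mp e)) hv
  have h3 : 2 ^ s * g'.natDegree < 2 ^ (l + 1) := by
    have := h1.trans (natDegree_geom _)
    omega
  have hsl : s ≤ l := by
    by_contra e
    rw [show s = l + 1 by omega] at h3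
    exact absurd (Nat.le_mul_of_pos_right _ (natDegree_pos_of_aeval hu0 h0 (h2 u hu))) h3.not_ge
  obtain ⟨a, rfl⟩ := Nat.exists_eq_add_of_le hsl
  rw [add_assoc, pow_add, Nat.mul_lt_mul_left ha] at h3
  exact ⟨s, a, rfl, (hper _).mpr dvd_rfl, g', h0, h3, h2⟩

/-- the structure of an exceptional element -/
theorem exc_elt (h : RepOn H ρ) (hQ : Q ≤ H) (t : IsType Q R η) (hU : Wt ρ R η ≠ ⊥) {q : ℕ}
    (hq : q.Prime) (q2 : q ≠ 2) (pQ : IsPGroup q Q) {x : Γ} (hx : x ∈ H) (n : x ∈ 𝐍 Q) {l : ℕ}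
    (ho : x ^ 2 ^ (l + 2) = 1)
    (hg : aeval (ρ x) (∑ i ∈ Finset.range (2 ^ (l + 2)), (X : k[X]) ^ i) = 0) :
    x ^ 2 ^ (l + 1) ∈ TL t ∧ (ps t (x ^ 2 ^ (l + 1)) = 1 ∨
      x ^ 2 ^ l ∈ TL t ∧ IsW (TV t) (ps t (x ^ 2 ^ l))) := by
  obtain ⟨s, a, e, hs, g, g0, hd, hg⟩ :=
    descend h hQ t (cast_odd (odd_of hq q2 pQ)) hU hx n ho hg
  have hL : x ^ 2 ^ s ∈ TL t := ⟨pow_mem n _, hs⟩
  have e1 : x ^ 2 ^ (l + 1) = (x ^ 2 ^ s) ^ 2 ^ a := by rw [e, pow_add, pow_mul]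
  refine ⟨e1 ▸ pow_mem hL _, or_iff_not_imp_left.2 fun hne => ?_⟩
  rw [e1, ps_pow t hL] at hne
  have ho' : ps t (x ^ 2 ^ s) ^ 2 ^ (a + 1) = 1 := by
    rw [← ps_pow t hL, ← pow_mul, ← pow_add, ← add_assoc, ← e, ho, ps_one]
  obtain ⟨h1, h2, h3⟩ := exc h hQ t hU le_rfl (h.stab_type hQ t) hq q2 pQ (pow_mem hx _) hL
    (fun u hu => h.map_wt_stab (t.le.trans hQ) (pow_mem hx _) hs hu) ho' hne g0 hg hd
  obtain ⟨b, rfl⟩ : ∃ b, a = b + 1 := Nat.exists_eq_add_one.2 (Nat.pos_of_ne_zero (by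
    rintro rfl
    have := hq.two_le
    omega))
  have e2 : x ^ 2 ^ l = (x ^ 2 ^ s) ^ 2 ^ b := by
    rw [show l = s + b by omega, pow_add, pow_mul]
  rw [e2, ps_pow t hL]
  have e3 : ps t (x ^ 2 ^ s) ^ 2 ^ b * ps t (x ^ 2 ^ s) ^ 2 ^ b = ps t (x ^ 2 ^ s) ^ 2 ^ (b + 1) := by
    rw [← pow_add, ← two_mul, ← pow_succ']
  refine ⟨pow_mem hL _, ?_, fun v hv => ?_⟩
  · rw [e3]
    exact ⟨by rw [← pow_add, ← two_mul, ← pow_succ', ho'], q, hq, h1⟩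
  · rw [e3] at hv
    exact pow_mem (show _ ∈ MulAction.stabilizer (TG t) v from h3 v hv) _

end CF.Bk
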