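/-
Sections and the `2`-length.
-/
import Cfsg.Agent.Fgs2.HHExp
set_option autoImplicit false
set_option linter.unusedSectionVars false

namespace CF.Bk
open Subgroup Cfsg CF.BG CF.Fgs1 CF.Fgs2
open scoped commutatorElement

variable {H : Type*} [Group H] [Finite H] {M X Y : Subgroup H}

theorem odd_mem_core {G : Type*} [Group G] [Finite G] {x : G} (hx : x ∈ pPrimePCore 2 G)
    (o : Odd (orderOf x)) : x ∈ pPrimeCore 2 G := by
  haveI := Fact.mk Nat.prime_two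
  have h1 : (x : G ⧸ pPrimeCore 2 G) ∈ pCore 2 _ := hx
  obtain ⟨m, hm⟩ := exists_pow_of_mem CF.Solv.pCore_isPGroup h1
  rw [← QuotientGroup.eq_one_iff, ← orderOf_eq_one_iff]
  exact Nat.eq_one_of_dvd_coprimes (Nat.Coprime.pow_right m (Nat.coprime_two_right.2 o))
    (orderOf_map_dvd (QuotientGroup.mk' _) x) (orderOf_dvd_of_pow_eq_one hm)

theorem two_eq_one {G : Type*} [Group G] [Finite G] {x : G} (hx : x ∈ pPrimeCore 2 G)
    (h : ∃ m, x ^ 2 ^ m = 1) : x = 1 := by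
  obtain ⟨m, hm⟩ := h
  rw [← orderOf_eq_one_iff]
  exact Nat.eq_one_of_dvd_coprimes (Nat.Coprime.pow_right m CF.Solv.pPrimeCore_coprime)
    (orderOf_dvd_natCard _ hx) (orderOf_dvd_of_pow_eq_one hm)

theorem exists_odd_pow {G : Type*} [Group G] [Finite G] (x : G) :
    ∃ m, Odd (orderOf (x ^ 2 ^ m)) := by
  obtain ⟨m, n, o, e⟩ := Nat.exists_eq_two_pow_mul_odd (orderOf_pos x).ne'
  exact ⟨m, o.of_dvd_nat (orderOf_dvd_of_pow_eq_one (by rw [← pow_mul, ← e, pow_orderOf_eq_one]))⟩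

/-- pairs congruent modulo `X` -/
def Gm (M X : Subgroup H) (n : M ≤ 𝐍 X) : Subgroup (H × H) where
  carrier := {p | p.2 ∈ M ∧ p.1 * p.2⁻¹ ∈ X}
  one_mem' := ⟨M.one_mem, by simp⟩
  mul_mem' := fun {a b} ha hb => ⟨M.mul_mem ha.1 hb.1, by
    convert X.mul_mem ha.2 (conj_mem_of_norm (n ha.1) hb.2) using 1
    simp only [Prod.fst_mul, Prod.snd_mul]; group⟩
  inv_mem' := fun {a} ha => ⟨M.inv_mem ha.1, by
    convert conj_mem_of_norm' (n ha.1) (X.inv_mem ha.2) using 1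
    simp only [Prod.fst_inv, Prod.snd_inv]; group⟩

/-- `X / Y` is a section of `2`-power order normalized by `M` -/
structure Sec (M X Y : Subgroup H) : Prop where
  le : X ≤ M
  nX : M ≤ 𝐍 X
  nY : M ≤ 𝐍 Y
  two : IsPGroup 2 X

namespace Sec

/-- the kernel -/
def N (s : Sec M X Y) : Subgroup (Gm M X s.nX) :=
  (Gm (M ⊓ centMod X Y) Y (inf_le_left.trans s.nY)).subgroupOf _

theorem mem_N (s : Sec M X Y) {p : Gm M X s.nX} :
    p ∈ s.N ↔ (∀ u ∈ X, ⁅p.1.2, u⁆ ∈ Y) ∧ p.1.1 * p.1.2⁻¹ ∈ Y :=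
  ⟨fun h => ⟨h.1.2.2, h.2⟩, fun h => ⟨⟨p.2.1, s.nY p.2.1, h.1⟩, h.2⟩⟩

instance (s : Sec M X Y) : s.N.Normal := ⟨fun p hp g => by
  obtain ⟨⟨a, b⟩, hb, hab⟩ := p
  obtain ⟨⟨g, h⟩, hh, hgh⟩ := g
  rw [mem_N] at hp ⊢
  have h1 : ∀ u ∈ X, ⁅h * b * h⁻¹, u⁆ ∈ Y := fun u hu => by
    convert conj_mem_of_norm (s.nY hh) (hp.1 _ (conj_mem_of_norm' (s.nX hh) hu)) using 1
    simp only [commutatorElement_def]; group
  refine ⟨h1, ?_⟩
  have hg : g ∈ M := by simpa using M.mul_mem (s.le hgh) hh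
  convert Y.mul_mem (conj_mem_of_norm (s.nY hg) hp.2) (Y.inv_mem (h1 _ hgh)) using 1
  simp only [commutatorElement_def, Subgroup.coe_mul, Subgroup.coe_inv, Prod.fst_mul, Prod.snd_mul,
    Prod.fst_inv, Prod.snd_inv]
  group⟩

/-- the semidirect product of the section with the induced group -/
abbrev Q (s : Sec M X Y) := Gm M X s.nX ⧸ s.N

theorem solv (s : Sec M X Y) [Group.IsSolvable H] : Group.IsSolvable s.Q := inferInstance

theorem fst_mem (s : Sec M X Y) (p : Gm M X s.nX) : p.1.1 ∈ M := by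
  simpa using M.mul_mem (s.le p.2.2) p.2.1

theorem exp (s : Sec M X Y) {l : ℕ}
    (h1 : ∀ x ∈ M, (∃ m, x ^ 2 ^ m = 1) → ∀ u ∈ X, ⁅x ^ 2 ^ l, u⁆ ∈ Y)
    (h2 : ∀ x ∈ M, (∃ m, x ^ 2 ^ m = 1) → ∀ u ∈ X, (u * x) ^ 2 ^ l * (x ^ 2 ^ l)⁻¹ ∈ Y) :
    ExpLE 2 l s.Q := fun x ⟨_, hm⟩ => by
  haveI := Fact.mk Nat.prime_two
  obtain ⟨T, hT, e⟩ := exists_pGroup_map_eq (QuotientGroup.mk'_surjective _) (isPGroup_zpowers hm)
  obtain ⟨y, hy, rfl⟩ : x ∈ T.map _ := e ▸ mem_zpowers x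
  obtain ⟨n, hn⟩ := exists_pow_of_mem hT hy
  have hn' : ∃ m, y.1.2 ^ 2 ^ m = 1 := ⟨n, congrArg (fun p => p.1.2) hn⟩
  rw [← map_pow, QuotientGroup.mk'_apply, QuotientGroup.eq_one_iff, mem_N]
  exact ⟨h1 _ y.2.1 hn', by simpa using h2 _ y.2.1 hn' _ y.2.2⟩

theorem der (s : Sec M X Y) {d : ℕ} (h : ∀ S, S ≤ M → IsPGroup 2 S → X ≤ S →
    ⁅X ⊓ der S d, der S d⁆ ≤ Y ∧ ⁅der S (d + 1), X⁆ ≤ Y) : DerLE 2 (d + 1) s.Q := fun S' hS' => by
  haveI := Fact.mk Nat.prime_two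
  obtain ⟨T, hT, rfl⟩ := exists_pGroup_map_eq (QuotientGroup.mk'_surjective _) hS'
  let f1 := (MonoidHom.fst H H).comp (Gm M X s.nX).subtype
  let f2 := (MonoidHom.snd H H).comp (Gm M X s.nX).subtype
  have l2 : T.map f2 ≤ M := by rintro _ ⟨p, -, rfl⟩; exact p.2.1
  obtain ⟨h1, h2⟩ := h (T.map f2 ⊔ X) (sup_le l2 s.le)
    ((hT.map f2).to_sup_of_normal_right' s.two (l2.trans s.nX)) le_sup_right
  have l1 : T.map f1 ≤ T.map f2 ⊔ X := by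
    rintro _ ⟨p, hp, rfl⟩
    have := mul_mem (mem_sup_right (S := T.map f2) p.2.2) (mem_sup_left ⟨p, hp, rfl⟩)
    rwa [show p.1.1 * p.1.2⁻¹ * f2 p = f1 p from inv_mul_cancel_right _ _] at this
  have m1 : ∀ {n}, ∀ p ∈ Fgs2.der T n, p.1.1 ∈ Fgs2.der (T.map f2 ⊔ X) n := fun p hp =>
    Fgs2.der_mono l1 _ (map_der T f1 _ ▸ mem_map_of_mem f1 hp)
  have m2 : ∀ {n}, ∀ p ∈ Fgs2.der T n, p.1.2 ∈ Fgs2.der (T.map f2 ⊔ X) n := fun p hp =>
    Fgs2.der_mono le_sup_left _ (map_der T f2 _ ▸ mem_map_of_mem f2 hp)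
  rw [← map_der, Subgroup.map_eq_bot_iff, QuotientGroup.ker_mk']
  refine commutator_le.2 fun p hp r hr => (mem_N s).2 ⟨fun u hu => h2 (commutator_mem_commutator
    (m2 (n := d + 1) _ (commutator_mem_commutator hp hr)) hu), ?_⟩
  have k : ∀ p ∈ Fgs2.der T d, ∀ b ∈ Fgs2.der (T.map f2 ⊔ X) d, ⁅p.1.1 * p.1.2⁻¹, b⁆ ∈ Y :=
    fun p hp b hb => h1 (commutator_mem_commutator
      (mem_inf.2 ⟨p.2.2, mul_mem (m1 p hp) (inv_mem (m2 p hp))⟩) hb)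
  have k1 := k p hp _ (CF.BG.der_le _ (commutator_mem_commutator (m2 p hp) (m1 r hr)))
  have k2 := Y.inv_mem (k r hr _ (m2 p hp))
  have k3 := k r hr _ (CF.BG.der_le _ (commutator_mem_commutator (m2 p hp) (m2 r hr)))
  have k4 := conj_mem_of_norm (s.nY (CF.BG.der_le _ (commutator_mem_commutator p.2.1 r.2.1)))
    (k p hp _ (m1 r hr))
  have e : (⁅p, r⁆ : Gm M X s.nX).1.1 * (⁅p, r⁆ : Gm M X s.nX).1.2⁻¹ =
    ⁅p.1.1, r.1.1⁆ * ⁅p.1.2, r.1.2⁆⁻¹ := rfl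
  rw [e]
  convert Y.mul_mem (Y.mul_mem (Y.mul_mem k1 k2) k3) k4 using 1
  simp only [commutatorElement_def]
  group

/-- the diagonal map -/
def diag (s : Sec M X Y) : M →* s.Q := (QuotientGroup.mk' _).comp
  ((M.subtype.prod M.subtype).codRestrict _ fun m => ⟨m.2, by simp⟩)

theorem diag_comm (s : Sec M X Y) {m : M} (h1 : s.diag m ∈ pPrimeCore 2 s.Q) {u : H} (hu : u ∈ X) :
    ⁅(m : H), u⁆ ∈ Y := by
  let P : Subgroup (Gm M X s.nX) := ((MonoidHom.snd H H).comp (Gm M X s.nX).subtype).ker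
  have h2 : IsPGroup 2 P := fun p => by
    obtain ⟨n, hn⟩ := exists_pow_of_mem s.two p.1.2.2
    have e : p.1.1.2 = 1 := p.2
    refine ⟨n, Subtype.ext (Subtype.ext (Prod.ext ?_ ?_))⟩
    · simpa [e] using hn
    · simp [e]
  haveI : (P.map (QuotientGroup.mk' s.N)).Normal :=
    Normal.map inferInstance _ (QuotientGroup.mk'_surjective s.N)
  let a : Gm M X s.nX := ⟨(u, 1), M.one_mem, by simpa using hu⟩
  let b : Gm M X s.nX := ⟨(m, m), m.2, by simp⟩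
  have h3 : QuotientGroup.mk' s.N a ∈ pCore 2 s.Q :=
    CF.Solv.le_pCore (h2.map _) (mem_map_of_mem _ (show a ∈ P from rfl))
  have h4 : s.diag m = QuotientGroup.mk' s.N b := rfl
  have h5 := (CF.Solv.pPrimeCore_le_centralizer_pCore h1 _ h3).symm
  rw [h4, ← commutatorElement_eq_one_iff_mul_comm, ← map_commutatorElement,
    QuotientGroup.mk'_apply, QuotientGroup.eq_one_iff, mem_N] at h5
  have e : (⁅b, a⁆ : Gm M X s.nX).1.1 * (⁅b, a⁆ : Gm M X s.nX).1.2⁻¹ =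
    ⁅(m : H), u⁆ * ⁅(m : H), (1 : H)⁆⁻¹ := rfl
  have h6 := h5.2
  rwa [e, commutatorElement_one_right, inv_one, mul_one] at h6

theorem pl (s : Sec M X Y) {l : ℕ} (h : PLengthLE 2 (l + 1) s.Q) :
    ∃ K : Subgroup M, K.Normal ∧ PL 2 l K ∧
      ∀ m ∈ K, Odd (orderOf m) → ∀ u ∈ X, ⁅(m : H), u⁆ ∈ Y := by
  haveI := Fact.mk Nat.prime_two
  have h1 : PL 2 l (pPrimePCore 2 s.Q) := PL.pred (pLen_iff.1 h)
  exact ⟨(pPrimePCore 2 s.Q).comap s.diag, inferInstance, h1.comap _, fun m hm o u hu =>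
    s.diag_comm (odd_mem_core hm (o.of_dvd_nat (orderOf_map_dvd _ _))) hu⟩

end Sec
theorem final [Group.IsSolvable H] {T D Z : Subgroup H} (hT : Syl 2 T (O2 {2}ᶜ {2} ⊤))
    (s1 : Sec (𝐍 T) T D) (s2 : Sec (𝐍 T) D Z) (s3 : Sec (𝐍 T) Z ⊥) {l : ℕ}
    (h1 : PLengthLE 2 (l + 1) s1.Q) (h2 : PLengthLE 2 (l + 1) s2.Q)
    (h3 : PLengthLE 2 (l + 1) s3.Q) : PLengthLE 2 (l + 1) H := by
  haveI := Fact.mk Nat.prime_two
  obtain ⟨K1, n1, p1, c1⟩ := s1.pl h1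
  obtain ⟨K2, n2, p2, c2⟩ := s2.pl h2
  obtain ⟨K3, n3, p3, c3⟩ := s3.pl h3
  have st : StepP 2 ((pPrimeCore 2 H).subgroupOf (𝐍 T)) (K1 ⊓ K2 ⊓ K3) := fun m hm => by
    obtain ⟨a, o⟩ := exists_odd_pow m
    refine ⟨a, ?_⟩
    have hm' := pow_mem hm (2 ^ a)
    generalize m ^ 2 ^ a = m at o hm'
    have k : ∀ {X Y : Subgroup H}, Sec (𝐍 T) X Y → (∀ u ∈ X, ⁅(m : H), u⁆ ∈ Y) →
        ⁅X, zpowers (m : H)⁆ ≤ Y := fun s h => by
      rw [commutator_comm]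
      exact (le_centMod.1 (zpowers_le.2 ⟨s.nY m.2, h⟩)).2
    have c : ∀ {X : Subgroup H}, IsPGroup 2 X → (♯(zpowers (m : H))).Coprime (♯X) := fun h => by
      obtain ⟨n, hn⟩ := IsPGroup.iff_card.1 h
      rw [hn, Nat.card_zpowers, orderOf_coe]
      exact (Nat.coprime_two_right.2 o).pow_right n
    have e := cent_of_stable (c s2.two) (k s1 (c1 m hm'.1.1 o)) (cent_of_stable (c s3.two)
      (k s2 (c2 m hm'.1.2 o)) (cent_symm (comm_eq_bot.1 (le_bot_iff.1 (k s3 (c3 m hm'.2 o))))))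
    refine odd_mem_core (x := (m : H)) ?_ (by rwa [orderOf_coe])
    rw [pPrimePCore_eq Nat.prime_two]
    exact Sol.cent_le_O2 (inferInstanceAs (Group.IsSolvable (⊤ : Subgroup H))) hT ⟨mem_top _, e (mem_zpowers _)⟩
  have hs : Function.Surjective ((QuotientGroup.mk' (pPrimeCore 2 H)).comp (𝐍 T).subtype) := by
    intro x
    obtain ⟨g, rfl⟩ := QuotientGroup.mk'_surjective _ x
    have e := hT.syl_frattini_sup (O2_normal _ _ ⊤)
    rw [← hT.O_sup_eq, top_inf_eq, sup_assoc, sup_eq_right.2 (le_norm_self T),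
      ← pPrimeCore_eq Nat.prime_two] at e
    obtain ⟨a, ha, b, hb, rfl⟩ := mem_sup_of_normal_left.1 (e.ge (mem_top g))
    exact ⟨⟨b, hb⟩, by simp [(QuotientGroup.eq_one_iff a).2 ha]⟩
  have := (((p1.inf p2).inf p3).of_stepP st).map hs
  refine pLen_of_quotient_coprime (pLen_iff.2 (this.mono ?_)) CF.Solv.pPrimeCore_coprime
  rintro _ ⟨x, hx, rfl⟩
  exact (QuotientGroup.eq_one_iff _).2 hx

end CF.Bk
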