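/-
The global structure of the group generated by the exceptional involutions.
-/
import Cfsg.Agent.Fgs1.BkExc
import Cfsg.Agent.Fgs1.BkSec
import Cfsg.Agent.BG2.P4c
set_option autoImplicit false
set_option linter.unusedSectionVars false

namespace CF.Bk
open Module Subgroup Cfsg CF.BG CF.Fgs1 CF.Fgs2 Polynomial
open scoped commutatorElement

theorem Sy.gross' {G V Z : Type*} [Group G] [AddCommGroup V] [AddCommGroup Z]
    [DistribMulAction G V] [Finite V] {β : V →+ V →+ Z} [FaithfulSMul G V] [Finite G]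
    [Group.IsSolvable G] (y : Sy G β) {w : G} (h : IsW V w) : w * w ∈ pPrimePCore 2 G := by
  haveI := Fact.mk Nat.prime_two
  have h4 : w ^ 2 ^ 2 = 1 := by
    rw [← h.1.1, show 2 ^ 2 = 4 from rfl]; simp only [pow_succ, pow_zero, one_mul, mul_assoc]
  obtain ⟨S, hS⟩ := (isPGroup_zpowers h4).exists_le_sylow
  have hs := QuotientGroup.mk'_surjective (pPrimeCore 2 G)
  have hP : pCore 2 (G ⧸ pPrimeCore 2 G) ≤ S.mapSurjective hs :=
    CF.Solv.pCore_isPGroup.le_sylow_of_normal _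
  have pi : PiGrp {2} (pCore 2 (G ⧸ pPrimeCore 2 G)) :=
    piGrp_of_isPGroup Nat.prime_two CF.Solv.pCore_isPGroup
  have hn : ⊤ ≤ 𝐍 (𝚽 (pCore 2 (G ⧸ pPrimeCore 2 G))) := le_norm_Phi le_normalizer_of_normal
  haveI : (centMod (pCore 2 (G ⧸ pPrimeCore 2 G)) (𝚽 (pCore 2 (G ⧸ pPrimeCore 2 G)))).Normal :=
    normalIn_top.1 ⟨le_top, le_norm_of_cj fun g _ => by
      rw [cj_centMod, cj_eq_self.2 (hn (mem_top g)), cj_eq_self.2 (le_normalizer_of_normal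
        (mem_top g))]⟩
  refine le_pCore_of_comm_le (CF.Solv.centralizer_pCore_le CF.Solv.pPrimeCore_quotient_pPrimeCore)
    ((commutator_comm _ _).le.trans (comm_centMod_le _ _))
    (mem_centMod.2 ⟨hn (mem_top _), fun x hx => ?_⟩)
  obtain ⟨u, hu, rfl⟩ := hP hx
  rw [← commutatorElement_inv, inv_mem_iff, ← map_commutatorElement]
  rcases y.gross S.2 (hS (mem_zpowers w)) hu h with e | e <;> rw [e]
  · rw [map_one]; exact one_mem _
  · rw [map_mul, ← sq, map_commutatorElement]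
    exact pi.pow_mem_Phi (commutator_le_left _ ⊤ (commutator_mem_commutator hx (mem_top _)))

variable {H : Type*} [Group H] [Finite H] {k : Type*} [Field k] {W : Type*} [AddCommGroup W]
  [Module k W]

/-- the types of normal subgroups of odd prime power order occurring in `ρ` -/
structure TY (ρ : H →* End k W) where
  Q : Subgroup H
  R : Subgroup H
  η : H → k
  q : ℕ
  hq : q.Prime
  q2 : q ≠ 2
  pQ : IsPGroup q Q
  n : ⊤ ≤ 𝐍 Q
  t : IsType Q R η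
  ne : Wt ρ R η ≠ ⊥

variable {ρ : H →* End k W}

theorem TY.sy (μ : TY ρ) : Sy (TG μ.t) (form μ.t) := Bk.sy μ.t (odd_of μ.hq μ.q2 μ.pQ)

/-- the conjugate type -/
def TY.conj (μ : TY ρ) (g : H) : TY ρ :=
  { μ with
    R := cj g μ.R
    η := cjf g μ.η
    t := μ.t.conj (μ.n (mem_top g))
    ne := fun e => μ.ne ((Submodule.eq_bot_iff _).2 fun w hw =>
      (repOn_hom ρ).injective (mem_top g) (by
        rw [(Submodule.eq_bot_iff _).1 e _ ((repOn_hom ρ).map_wt' le_top (mem_top g) hw),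
          map_zero])) }

/-- the preimage of a subgroup of the induced group -/
noncomputable def cm {Q R : Subgroup H} {η : H → k} (t : IsType Q R η) (Y : Subgroup (TG t)) :
    Subgroup H := (Y.comap (ph t)).map (TL t).subtype

theorem mem_cm {Q R : Subgroup H} {η : H → k} {t : IsType Q R η} {Y : Subgroup (TG t)} {g : H} :
    g ∈ cm t Y ↔ g ∈ TL t ∧ ps t g ∈ Y :=
  ⟨fun ⟨x, hx, e⟩ => e ▸ ⟨x.2, (ps_eq t x.2).symm ▸ hx⟩,
    fun ⟨h, e⟩ => ⟨⟨g, h⟩, by rwa [ps_eq t h] at e, rfl⟩⟩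

theorem comm_le_ker {Q R A : Subgroup H} {η : H → k} (t : IsType Q R η) (hA : A ≤ TL t)
    (c : (♯A).Coprime (♯Q)) (s : Sol A) (h : ∀ a ∈ A, ps t a = 1) : ⁅Q, A⁆ ≤ t.char.ker := by
  have n := hA.trans inf_le_left
  have h1 : ⁅Q, A⁆ ≤ R := by
    rw [commutator_comm]
    exact commutator_le.2 fun a ha => (ps_eq_one t (hA ha)).1 (h a ha)
  rw [← comm_comm_eq n c (Or.inl s)]
  exact fun b hb => ⟨h1 (comm_comm_eq n c (Or.inl s) ▸ hb), t.char.eq_one_of_le_stabCh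
    (hA.trans inf_le_right) (commutator_mono h1 le_rfl hb)⟩

variable [IsAlgClosed k] [CharP k 2] [FiniteDimensional k W] [Group.IsSolvable H]

theorem faith (h0 : pCore 2 H = ⊥) (hρ : Function.Injective ρ) {c : H} (hc : ∃ m, c ^ 2 ^ m = 1)
    (h : ∀ μ : TY ρ, c ∈ TL μ.t ∧ ps μ.t c = 1) : c = 1 := by
  obtain ⟨m, hm⟩ := hc
  have pi := card_zpowers_pi Nat.prime_two hm
  rw [pCore_eq Nat.prime_two] at h0
  have h1 : 𝐅 (⊤ : Subgroup H) ≤ 𝐂 (zpowers c) := F_le_of_forall fun q hq _ => by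
    by_cases q2 : q = 2
    · rw [q2, h0]; exact bot_le
    obtain ⟨Q, l, n, h1, -, h2⟩ := BG2.exists_critical_odd hq q2 (O_pi {q} (⊤ : Subgroup H))
    have n' : ⊤ ≤ 𝐍 Q := (O_normal {q} ⊤).2.trans n
    have pQ := (O_pi {q} (⊤ : Subgroup H)).le l
    refine cent_symm (h2 _ (le_top.trans (O_normal {q} ⊤).2) (pi.to_compl_single q2)
      (cent_symm (comm_eq_bot.1 (by_contra fun e => ?_))))
    obtain ⟨b, hb, hb1⟩ := exists_ne_one e hρ
    have nA : zpowers c ≤ 𝐍 Q := le_top.trans n'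
    have o := odd_of hq q2 pQ.isPGroup
    obtain ⟨R, η, t, -, u, hu, hbu⟩ := (repOn_hom ρ).exists_type le_top (cast_odd o)
      (fun z hz => ((repOn_hom ρ).mem_rad le_top).2 ⟨CF.BG.der_le Q hz, fun m hm => by
        rw [← map_mul, ← map_mul, mem_cent.1 (h1 (commutator_mono le_rfl l hz)).2 m hm]⟩)
      (comm_le_left nA hb) hb1
    obtain ⟨h3, h4⟩ := h ⟨Q, R, η, q, hq, q2, pQ.isPGroup, n', t,
      (Submodule.ne_bot_iff _).2 ⟨u, hu, fun a => hbu (by rw [a, map_zero])⟩⟩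
    have := comm_le_ker t (zpowers_le.2 h3) (pi.coprime (pQ.to_compl_single (Ne.symm q2))) pi.sol
      (fun a ha => (mem_cm.1 (zpowers_le (H := cm t ⊥).2 (mem_cm.2 ⟨h3, h4⟩) ha)).2) hb
    exact hbu (by rw [hu b this.1, this.2, one_smul])
  have h2 := (le_inf le_top (cent_symm h1)).trans
    (Sol.cent_F_le (inferInstanceAs (Group.IsSolvable (⊤ : Subgroup H))))
  exact (le_O_of_le_F h2 pi).trans h0.le (mem_zpowers c)

/-- a system of exceptional involutions -/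
structure ES (ρ : H →* End k W) (E : Subgroup H → Set H) : Prop where
  h0 : pCore 2 H = ⊥
  inj : Function.Injective ρ
  top : ∀ M, E M ⊆ E ⊤
  conj : ∀ M, ∀ g ∈ M, ∀ e ∈ E M, g * e * g⁻¹ ∈ E M
  mem : ∀ M, ∀ e ∈ E M, e ∈ M ∧ ∃ m, e ^ 2 ^ m = 1
  loc : ∀ M, ∀ e ∈ E M, ∀ μ : TY ρ, e ∈ TL μ.t ∧ (ps μ.t e = 1 ∨ ∃ w ∈ M, w ∈ TL μ.t ∧
    IsW (TV μ.t) (ps μ.t w) ∧ ps μ.t w * ps μ.t w = ps μ.t e)

theorem norm_closure {M : Subgroup H} {s : Set H} (h : ∀ g ∈ M, ∀ e ∈ s, g * e * g⁻¹ ∈ s) :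
    M ≤ 𝐍 (closure s) := le_norm_iff.2 fun g hg _ hc =>
  mem_cj_inv.1 ((closure_le (cj g⁻¹ (closure s))).2
    (fun e he => mem_cj_inv.2 (Subgroup.subset_closure (h g hg e he))) hc)

namespace ES
variable {E : Subgroup H → Set H}

theorem gross (s : ES ρ E) : closure (E ⊤) ≤ pPrimePCore 2 H := by
  haveI := Fact.mk Nat.prime_two
  have n := norm_closure (s.conj ⊤)
  have h1 : ∀ μ : TY ρ, closure (E ⊤) ≤ cm μ.t (pPrimePCore 2 _) := fun μ =>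
    (closure_le _).2 fun e he => mem_cm.2 ⟨(s.loc _ e he μ).1, by
      haveI : Group.IsSolvable (TG μ.t) := solvable_of_surjective (ph_surj μ.t)
      rcases (s.loc _ e he μ).2 with h | ⟨w, -, -, h, h'⟩
      · rw [h]; exact one_mem _
      · rw [← h']; exact μ.sy.gross' h⟩
  let B := closure {x | x ∈ closure (E ⊤) ∧ Odd (orderOf x)}
  have h2 : ∀ μ : TY ρ, B ≤ cm μ.t (pPrimeCore 2 _) := fun μ => (closure_le _).2 fun x hx => by
    obtain ⟨a, b⟩ := mem_cm.1 (h1 μ hx.1)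
    refine mem_cm.2 ⟨a, odd_mem_core b (hx.2.of_dvd_nat (orderOf_dvd_of_pow_eq_one ?_))⟩
    rw [← ps_pow _ a, pow_orderOf_eq_one, ps_one]
  haveI : B.Normal := normalIn_top.1 ⟨le_top, norm_closure fun g hg e he =>
    ⟨conj_mem_of_norm (n hg) he.1, by rw [orderOf_conj]; exact he.2⟩⟩
  have h3 : B ≤ pPrimeCore 2 H := CF.Solv.le_pPrimeCore (ExpLE.coprime fun x ⟨m, hm⟩ => by
    have hm' : (x : H) ^ 2 ^ m = 1 := by simpa using congrArg Subtype.val hm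
    rw [pow_zero, pow_one]
    refine Subtype.ext (faith s.h0 s.inj ⟨m, hm'⟩ fun μ => ?_)
    obtain ⟨a, b⟩ := mem_cm.1 (h2 μ x.2)
    exact ⟨a, two_eq_one b ⟨m, by rw [← ps_pow _ a, hm', ps_one]⟩⟩)
  haveI : (closure (E ⊤)).Normal := normalIn_top.1 ⟨le_top, n⟩
  refine StepP.le_comap (QuotientGroup.mk'_surjective _) fun x hx => ?_
  rw [QuotientGroup.ker_mk']
  exact (exists_odd_pow x).imp fun m o => h3 (Subgroup.subset_closure ⟨pow_mem hx _, o⟩)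

theorem le_TL (s : ES ρ E) (M : Subgroup H) (μ : TY ρ) : closure (E M) ≤ TL μ.t :=
  (closure_le _).2 fun e he => (s.loc M e he μ).1

theorem le_T (s : ES ρ E) {T : Subgroup H} (hT : Syl 2 T (O2 {2}ᶜ {2} ⊤)) :
    closure (E (𝐍 T)) ≤ T := (closure_le _).2 fun e he => by
  obtain ⟨h1, m, hm⟩ := s.mem _ e he
  have h2 := s.gross (Subgroup.subset_closure (s.top _ he))
  rw [pPrimePCore_eq Nat.prime_two] at h2
  exact (hT.of_le (le_inf hT.le (le_norm_self T)) inf_le_left).mem_normal inf_le_right ⟨h2, h1⟩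
    (PiGrp.elt (card_zpowers_pi Nat.prime_two hm) (mem_zpowers e))

end ES

theorem wd {M D : Subgroup H} (n : M ≤ 𝐍 D) (μ : TY ρ) {w : H} (hw : w ∈ M) (hL : w ∈ TL μ.t)
    (h : IsW (TV μ.t) (ps μ.t w)) (h' : ps μ.t w * ps μ.t w ∈ im μ.t D) :
    Wd (TV μ.t) (im μ.t D) (ps μ.t w) :=
  ⟨h, mem_normalizer_fintype fun x hx => by
    obtain ⟨d, hd, hd', rfl⟩ := (mem_im _).1 hx
    rw [← ps_conj _ hL hd']
    exact ps_mem_im _ (conj_mem_of_norm (n hw) hd) (mul_mem (mul_mem hL hd') (inv_mem hL)), h'⟩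

theorem ES.ld {E : Subgroup H → Set H} (s : ES ρ E) {M : Subgroup H}
    (h : IsPGroup 2 (closure (E M))) (μ : TY ρ) : LD (form μ.t) (im μ.t (closure (E M))) where
  sy := μ.sy
  two := im_two _ h
  gen x hx := by
    obtain ⟨d, hd, -, rfl⟩ := (mem_im _).1 hx
    refine (mem_cm.1 ((closure_le (cm μ.t _)).2 (fun e he => mem_cm.2 ⟨(s.loc _ e he μ).1, ?_⟩)
      hd)).2
    rcases (s.loc _ e he μ).2 with h | ⟨w, hw, hL, h, h'⟩
    · rw [h]; exact one_mem _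
    · exact Subgroup.subset_closure ⟨_, wd (norm_closure (s.conj M)) μ hw hL h
        (h' ▸ ps_mem_im _ (Subgroup.subset_closure he) (s.loc _ e he μ).1), h'.symm⟩

/-- the elements of `D` lying locally in the derived group -/
noncomputable def ZD (ρ : H →* End k W) (D : Subgroup H) : Subgroup H :=
  D ⊓ ⨅ μ : TY ρ, cm μ.t ⁅im μ.t D, im μ.t D⁆

theorem mem_ZD {D : Subgroup H} (hD : ∀ μ : TY ρ, D ≤ TL μ.t) {d : H} :
    d ∈ ZD ρ D ↔ d ∈ D ∧ ∀ μ : TY ρ, ps μ.t d ∈ ⁅im μ.t D, im μ.t D⁆ :=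
  ⟨fun h => ⟨h.1, fun μ => (mem_cm.1 (mem_iInf.1 h.2 μ)).2⟩,
    fun h => ⟨h.1, mem_iInf.2 fun μ => mem_cm.2 ⟨hD μ h.1, h.2 μ⟩⟩⟩

theorem norm_ZD {M D : Subgroup H} (hD : ∀ μ : TY ρ, D ≤ TL μ.t) (n : M ≤ 𝐍 D) :
    M ≤ 𝐍 (ZD ρ D) := le_norm_iff.2 fun g hg d hd => by
  rw [mem_ZD hD] at hd ⊢
  refine ⟨conj_mem_of_norm (n hg) hd.1, fun μ => ?_⟩
  have h1 := hd.2 (μ.conj g⁻¹)
  rw [← im_comm _ (hD _) (hD _)] at h1 ⊢
  obtain ⟨c, hc, hc', e⟩ := (mem_im _).1 h1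
  have m1 := conj_mem_of_norm (norm_commutator n n hg) hc
  have m2 := hD μ (CF.BG.der_le D m1)
  have m3 := hD μ (conj_mem_of_norm (n hg) hd.1)
  rw [← inv_mul_eq_one, ← ps_inv _ hc', ← ps_mul _ (inv_mem hc') (hD _ hd.1),
    ps_eq_one _ (mul_mem (inv_mem hc') (hD _ hd.1))] at e
  refine (mem_im _).2 ⟨_, m1, m2, ?_⟩
  rw [← inv_mul_eq_one, ← ps_inv _ m2, ← ps_mul _ (inv_mem m2) m3,
    ps_eq_one _ (mul_mem (inv_mem m2) m3)]
  intro a ha
  convert mem_cj_inv.1 (e _ (conj_mem_of_norm' (μ.n (mem_top g)) ha)) using 1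
  simp only [commutatorElement_def]; group

theorem der_le_ZD {D : Subgroup H} (hD : ∀ μ : TY ρ, D ≤ TL μ.t) : ⁅D, D⁆ ≤ ZD ρ D := fun d hd =>
  (mem_ZD hD).2 ⟨CF.BG.der_le D hd, fun μ => by
    rw [← im_comm _ (hD _) (hD _)]; exact ps_mem_im _ hd (hD μ (CF.BG.der_le D hd))⟩

theorem ES.final {E : Subgroup H → Set H} (s : ES ρ E) {l : ℕ}
    (h : ∀ T D : Subgroup H, D = closure (E (𝐍 T)) → IsPGroup 2 D →
      (∀ μ : TY ρ, LD (form μ.t) (im μ.t D)) → ∀ (s1 : Sec (𝐍 T) T D) (s2 : Sec (𝐍 T) D (ZD ρ D))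
      (s3 : Sec (𝐍 T) (ZD ρ D) ⊥), PLengthLE 2 (l + 1) s1.Q ∧ PLengthLE 2 (l + 1) s2.Q ∧
        PLengthLE 2 (l + 1) s3.Q) : PLengthLE 2 (l + 1) H := by
  obtain ⟨T, hT⟩ := exists_syl 2 (O2 {2}ᶜ {2} (⊤ : Subgroup H))
  have l1 := s.le_T hT
  have pT := hT.pi.isPGroup
  have pD := pT.to_le l1
  have n := norm_closure (s.conj (𝐍 T))
  have nZ := norm_ZD (s.le_TL _) n
  have s1 : Sec (𝐍 T) T (closure (E (𝐍 T))) := ⟨le_norm_self T, le_rfl, n, pT⟩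
  have s2 : Sec (𝐍 T) _ (ZD ρ (closure (E (𝐍 T)))) := ⟨l1.trans (le_norm_self T), n, nZ, pD⟩
  have s3 : Sec (𝐍 T) (ZD ρ (closure (E (𝐍 T)))) ⊥ :=
    ⟨inf_le_left.trans s2.le, nZ, by simp, pD.to_inf_left⟩
  obtain ⟨a, b, c⟩ := h T _ rfl pD (s.ld pD) s1 s2 s3
  exact Bk.final hT s1 s2 s3 a b c

end CF.Bk
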