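/-
The `2`-length is bounded by the logarithm of the exponent of a Sylow `2`-subgroup.
-/
import Cfsg.Agent.Fgs1.BkGl
import Cfsg.Agent.Hyp.FTProof
set_option autoImplicit false
set_option linter.unusedSectionVars false

namespace CF.Bk
open Module Subgroup Cfsg CF.BG CF.Fgs1 CF.Fgs2 Polynomial
open scoped commutatorElement

universe u
variable {H : Type u} [Group H] [Finite H] {k : Type*} [Field k] {W : Type*} [AddCommGroup W]
  [Module k W] {ρ : H →* End k W}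

theorem pow_cong {D : Subgroup H} {x g : H} (hx : x ∈ 𝐍 D) (h : x⁻¹ * g ∈ D) (n : ℕ) :
    (x ^ n)⁻¹ * g ^ n ∈ D := by
  induction n with
  | zero => simp
  | succ n ih =>
    convert D.mul_mem (conj_mem_of_norm' hx ih) h using 1
    rw [pow_succ, pow_succ]; group

theorem two_mul_elt {X : Subgroup H} (hX : IsPGroup 2 X) {x u : H} (n : x ∈ 𝐍 X)
    (hx : ∃ m, x ^ 2 ^ m = 1) (hu : u ∈ X) : ∃ m, (u * x) ^ 2 ^ m = 1 := by
  haveI := Fact.mk Nat.prime_two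
  obtain ⟨m, hm⟩ := hx
  exact exists_pow_of_mem ((isPGroup_zpowers hm).to_sup_of_normal_right' hX (zpowers_le.2 n))
    (mul_mem (mem_sup_right hu) (mem_sup_left (mem_zpowers x)))

variable [IsAlgClosed k] [CharP k 2] [FiniteDimensional k W] [Group.IsSolvable H]

theorem exp_step (h0 : pCore 2 H = ⊥) (hρ : Function.Injective ρ) {l : ℕ}
    (ho : ExpLE 2 (l + 2) H) (hg : ∀ x : H, (∃ m, x ^ 2 ^ m = 1) →
      aeval (ρ x) (∑ i ∈ Finset.range (2 ^ (l + 2)), (X : k[X]) ^ i) = 0)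
    (ih : ∀ (G : Type u) [Group G] [Finite G] [Group.IsSolvable G], ExpLE 2 (l + 1) G →
      PLengthLE 2 (l + 1) G) : PLengthLE 2 (l + 1) H := by
  have ex := fun (x : H) (hx : ∃ m, x ^ 2 ^ m = 1) (μ : TY ρ) => exc_elt (repOn_hom ρ) le_top μ.t
    μ.ne μ.hq μ.q2 μ.pQ (mem_top x) (μ.n (mem_top x)) (ho x hx) (hg x hx)
  have sq : ∀ x : H, x ^ 2 ^ l * x ^ 2 ^ l = x ^ 2 ^ (l + 1) := fun x => by
    rw [← pow_add, ← two_mul, ← pow_succ']
  have s : ES ρ fun M => {e | ∃ x ∈ M, (∃ m, x ^ 2 ^ m = 1) ∧ e = x ^ 2 ^ (l + 1)} :=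
    { h0 := h0
      inj := hρ
      top := fun _ _ ⟨x, _, h⟩ => ⟨x, mem_top x, h⟩
      conj := by
        rintro M g hg _ ⟨x, hx, ⟨m, hm⟩, rfl⟩
        exact ⟨_, mul_mem (mul_mem hg hx) (inv_mem hg),
          ⟨m, by rw [conj_pow, hm, mul_one, mul_inv_cancel]⟩, conj_pow.symm⟩
      mem := by
        rintro M _ ⟨x, hx, ⟨m, hm⟩, rfl⟩
        exact ⟨pow_mem hx _, m, by rw [← pow_mul, mul_comm, pow_mul, hm, one_pow]⟩
      loc := by
        rintro M _ ⟨x, hx, h, rfl⟩ μ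
        exact ⟨(ex x h μ).1, (ex x h μ).2.imp_right fun a =>
          ⟨_, pow_mem hx _, a.1, a.2, by rw [← ps_mul _ a.1 a.1, sq]⟩⟩ }
  refine s.final fun T D hD pD ld s1 s2 s3 => ?_
  have hL : ∀ μ : TY ρ, D ≤ TL μ.t := hD ▸ s.le_TL _
  have mD : ∀ x ∈ 𝐍 T, (∃ m, x ^ 2 ^ m = 1) → x ^ 2 ^ (l + 1) ∈ D := fun x hx h =>
    hD ▸ Subgroup.subset_closure ⟨x, hx, h, rfl⟩
  have inv : ∀ x : H, (∃ m, x ^ 2 ^ m = 1) → ∀ μ : TY ρ,
      ps μ.t (x ^ 2 ^ (l + 1)) * ps μ.t (x ^ 2 ^ (l + 1)) = 1 := fun x h μ => by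
    rw [← ps_mul _ (ex x h μ).1 (ex x h μ).1, ← pow_add, ← two_mul, ← pow_succ', ho x h, ps_one]
  have key : ∀ x ∈ 𝐍 T, (∃ m, x ^ 2 ^ m = 1) → ∀ μ : TY ρ, ps μ.t (x ^ 2 ^ (l + 1)) ≠ 1 →
      ∀ g : H, (x ^ 2 ^ l)⁻¹ * g ^ 2 ^ l ∈ D → ∃ w, Wd (TV μ.t) (im μ.t D) w ∧
        ps μ.t (x ^ 2 ^ (l + 1)) = w * w ∧ g ^ 2 ^ l ∈ TL μ.t ∧
        ps μ.t (g ^ 2 ^ l) = w * ps μ.t ((x ^ 2 ^ l)⁻¹ * g ^ 2 ^ l) := fun x hx h μ ne g hg => by
    obtain ⟨a, b⟩ := (ex x h μ).2.resolve_left ne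
    have e := sq x ▸ ps_mul _ a a
    exact ⟨_, wd s2.nX μ (pow_mem hx _) a b (e ▸ ps_mem_im _ (mD x hx h) (ex x h μ).1), e,
      by simpa using mul_mem a (hL μ hg), by rw [← ps_mul _ a (hL μ hg), mul_inv_cancel_left]⟩
  have k2 : ∀ x ∈ 𝐍 T, (∃ m, x ^ 2 ^ m = 1) → ∀ g : H, (∃ m, g ^ 2 ^ m = 1) → x⁻¹ * g ∈ D →
      ∀ μ : TY ρ, ps μ.t (x ^ 2 ^ (l + 1)) ≠ 1 →
      ps μ.t (x ^ 2 ^ (l + 1)) * ps μ.t (g ^ 2 ^ (l + 1)) ∈ ⁅im μ.t D, im μ.t D⁆ :=
    fun x hx h g h' hg μ ne => by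
      have m := pow_cong (s2.nX hx) hg (2 ^ l)
      obtain ⟨w, hw, e1, a, e2⟩ := key x hx h μ ne g m
      have e3 := sq g ▸ ps_mul _ a a
      rw [e1, e3, e2]
      refine (ld μ).l2 hw (ps_mem_im _ m (hL μ m)) ?_
      rw [← e2]
      exact (ex g h' μ).2.imp (fun b => e3 ▸ b) fun b => b.2.1
  have k3 : ∀ x ∈ 𝐍 T, (∃ m, x ^ 2 ^ m = 1) → ∀ g : H, x⁻¹ * g ∈ ZD ρ D →
      ∀ μ : TY ρ, ps μ.t (x ^ 2 ^ (l + 1)) ≠ 1 →
      ps μ.t (g ^ 2 ^ (l + 1)) = ps μ.t (x ^ 2 ^ (l + 1)) := fun x hx h g hg μ ne => by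
    have m := pow_cong (s2.nY hx) hg (2 ^ l)
    obtain ⟨w, hw, e1, a, e2⟩ := key x hx h μ ne g m.1
    have z := (ld μ).der_le (((mem_ZD hL).1 m).2 μ)
    rw [e1, ← sq, ps_mul _ a a, e2, (z.2.2 w hw).mul_mul_mul_comm, z.2.1, mul_one]
  have cg : ∀ {Y : Subgroup H} {x u : H}, x ∈ 𝐍 Y → u ∈ Y → x⁻¹ * (u * x) ∈ Y ∧
      (u * x)⁻¹ * x ∈ Y := fun hx hu => by
    have := conj_mem_of_norm' hx hu
    rw [mul_assoc] at this
    exact ⟨this, by simpa using inv_mem this⟩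
  haveI := s1.solv
  haveI := s2.solv
  haveI := s3.solv
  refine ⟨ih _ (s1.exp (fun x hx h u hu => ?_) fun x hx h u hu => ?_),
    ih _ (s2.exp (fun x hx h u hu => ?_) fun x hx h u hu => ?_),
    ih _ (s3.exp (fun x hx h u hu => ?_) fun x hx h u hu => ?_)⟩
  · exact comm_le_left (s1.le.trans s1.nY) (commutator_mem_commutator (mD x hx h) hu)
  · exact mul_mem (mD _ (mul_mem (s1.le hu) hx) (two_mul_elt s1.two hx h hu)) (inv_mem (mD x hx h))
  · exact der_le_ZD hL (commutator_mem_commutator (mD x hx h) hu)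
  · have hg := mul_mem (s2.le hu) hx
    have h' := two_mul_elt s2.two (s2.nX hx) h hu
    refine (mem_ZD hL).2 ⟨mul_mem (mD _ hg h') (inv_mem (mD x hx h)), fun μ => ?_⟩
    rw [ps_mul _ (ex _ h' μ).1 (inv_mem (ex x h μ).1), ps_inv _ (ex x h μ).1]
    by_cases a : ps μ.t (x ^ 2 ^ (l + 1)) = 1
    · by_cases b : ps μ.t ((u * x) ^ 2 ^ (l + 1)) = 1
      · rw [a, b, inv_one, mul_one]; exact one_mem _
      · rw [inv_of_sq (inv x h μ)]
        exact k2 _ hg h' x h (cg (s2.nX hx) hu).2 μ b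
    · rw [← inv_of_sq (inv _ h' μ), ← mul_inv_rev]
      exact inv_mem (k2 x hx h _ h' (cg (s2.nX hx) hu).1 μ a)
  · have m := mD x hx h
    have m' := CF.BG.der_le D (commutator_mem_commutator m hu.1)
    refine faith h0 hρ (exists_pow_of_mem pD m') fun μ => ⟨hL μ m', ?_⟩
    rw [ps_comm _ (hL μ m) (hL μ hu.1), commutatorElement_eq_one_iff_commute]
    exact ((ld μ).comm_of ((ld μ).der_le (((mem_ZD hL).1 hu).2 μ)).2.2
      (ps_mem_im _ m (hL μ m))).symm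
  · have hg := mul_mem (s3.le hu) hx
    have h' := two_mul_elt s3.two (s3.nX hx) h hu
    have m := mul_mem (mD _ hg h') (inv_mem (mD x hx h))
    refine faith h0 hρ (exists_pow_of_mem pD m) fun μ => ⟨hL μ m, ?_⟩
    rw [ps_mul _ (ex _ h' μ).1 (inv_mem (ex x h μ).1), ps_inv _ (ex x h μ).1, mul_inv_eq_one]
    by_cases a : ps μ.t (x ^ 2 ^ (l + 1)) = 1
    · by_contra b
      exact b (k3 _ hg h' x (cg (s3.nX hx) hu).2 μ (a ▸ b)).symm
    · exact k3 x hx h _ (cg (s3.nX hx) hu).1 μ a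

theorem pLen_exp (e : ℕ) : ∀ (G : Type u) [Group G] [Finite G] [Group.IsSolvable G],
    ExpLE 2 e G → PLengthLE 2 e G := by
  haveI := Fact.mk Nat.prime_two
  induction e with
  | zero => exact fun G _ _ _ h => pLen_zero_iff.2 h.coprime
  | succ e ih =>
    intro G _ _ _ h
    rcases e with _ | l
    · refine pLen_of_exp (CF.Solv.isPSolvable_of_isSolvable 2) h fun q m a hq _ h1 h2 h3 h4 => ?_
      obtain rfl : a = 1 := by omega
      have := Nat.one_lt_pow (n := m) (by omega) hq.one_lt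
      omega
    have h1 := h.of_surjective (QuotientGroup.mk'_surjective (pPrimeCore 2 G))
    obtain ⟨U, σ, d⟩ := exists_dual (CF.Solv.centralizer_pCore_le (p := 2)
      (CF.Solv.pPrimeCore_quotient_pPrimeCore (G := G)))
    exact pLen_of_quotient_coprime (pLen_of_quotient_pGroup (exp_step CF.Solv.pCore_quotient_pCore
      d.inj (h1.of_surjective (QuotientGroup.mk'_surjective _)) (fun x hx => h1.geom d hx) ih)
      CF.Solv.pCore_isPGroup) CF.Solv.pPrimeCore_coprime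

theorem solvable_of_two {G : Type*} [Group G] [Finite G] (h : IsPSolvable 2 G) :
    Group.IsSolvable G := by
  obtain ⟨n, H, h0, h1, -, hn, h⟩ := h
  have key : ∀ i, Sol (H i) := fun i => by
    induction i using Fin.induction with
    | zero => rw [h0]; exact inferInstanceAs (Group.IsSolvable (⊥ : Subgroup G))
    | succ i ih =>
      have n : H i.succ ≤ 𝐍 (H i.castSucc) := le_normalizer_of_normal
      refine Sol.of_qt ih n ?_
      rcases h i with ⟨m, e⟩ | e <;> rw [← card_qt n] at e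
      · exact (piGrp_of_isPGroup Nat.prime_two (IsPGroup.of_card e)).sol
      · exact CF.Hyp.isSolvable_of_odd (Nat.coprime_two_right.1 e)
  have := key (Fin.last n)
  rw [h1] at this
  exact solvable_of_surjective (f := (⊤ : Subgroup G).subtype) fun x => ⟨⟨x, mem_top x⟩, rfl⟩

end CF.Bk
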