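/-
`2`-groups of isometries of planes of order `9`.
-/
import Cfsg.Agent.Fgs1.BkExp
import Cfsg.Agent.Transfer.KInf
set_option autoImplicit false
set_option linter.unusedSectionVars false

namespace CF.Bk
open Subgroup Cfsg CF.BG CF.Fgs1 CF.Fgs2
open scoped commutatorElement

section grp
variable {G : Type*} [Group G]

theorem exists_u [Finite G] {Y : Subgroup G} (hY : IsPGroup 2 Y) (na : ¬ Abel ⁅Y, Y⁆) {z : G}
    (hz : z * z = 1) (hc : ∀ x, Commute x z) : ∃ u ∈ ⁅Y, Y⁆, u * u = 1 ∧ u ≠ 1 ∧ u ≠ z ∧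
      (∀ x ∈ ⁅Y, Y⁆, Commute x u) ∧ ∀ x ∈ Y, ⁅u, x⁆ = 1 ∨ ⁅u, x⁆ = z := by
  haveI := Fact.mk Nat.prime_two
  have hD := hY.to_le (CF.BG.der_le Y)
  obtain ⟨A, -, ⟨l, n, a⟩, hm⟩ := exists_maximal
    (P := fun A => A ≤ ⁅Y, Y⁆ ∧ Y ≤ 𝐍 A ∧ Abel A) (H := ⊥) ⟨bot_le, by simp, bot_le⟩
  have h1 : ⁅Y, Y⁆ ⊓ 𝐂 A ≤ A := by_contra fun h => by
    obtain ⟨x, hx, hx', e⟩ := CF.Transfer.exists_notMem_commutator_le hD.to_inf_left hY
      (norm_inf_cent (der_normal Y).2 n) h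
    refine hx' ((hm (A ⊔ zpowers x) ⟨sup_le l (zpowers_le.2 hx.1), ?_,
      a.sup (cyc_zpowers x).abel (cent_symm (zpowers_le.2 hx.2))⟩ le_sup_left).le
      (mem_sup_right (mem_zpowers x)))
    refine le_norm_iff.2 fun g hg y hy => mem_cj_inv.1 ((sup_le (fun b hb => mem_cj_inv.2
      (mem_sup_left (conj_mem_of_norm (n hg) hb))) (zpowers_le.2 (mem_cj_inv.2 ?_)) :
        A ⊔ zpowers x ≤ cj g⁻¹ (A ⊔ zpowers x)) hy)
    rw [show g * x * g⁻¹ = ⁅x, g⁆⁻¹ * x by simp only [commutatorElement_def]; group]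
    exact mul_mem (mem_sup_left (inv_mem (e (commutator_mem_commutator (mem_zpowers x) hg))))
      (mem_sup_right (mem_zpowers x))
  have pA := hD.to_le l
  have h2 : ¬ 𝛀 2 A ≤ zpowers z := fun h => na (a.mono ((le_inf le_rfl (Cyc.der_le_cent
    (a.cyc_of_pRank (piGrp_of_isPGroup Nat.prime_two pA) (by
      rw [← pRank_Om]; exact ((cyc_zpowers z).mono h).pRank_le 2)) n)).trans h1))
  obtain ⟨u, hu, hu', e⟩ := CF.Transfer.exists_notMem_commutator_le (pA.to_le (Om_le 2 A)) hY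
    (le_norm_Om 2 n) h2
  rw [a.mem_Om, sq] at hu
  have h4 : ⁅⁅zpowers u, Y⁆, Y⁆ = ⊥ := comm_eq_bot.2 (e.trans (zpowers_le.2 fun x _ => hc x))
  refine ⟨u, l hu.1, hu.2, fun h => hu' (h ▸ one_mem _), fun h => hu' (h ▸ mem_zpowers _),
    fun x hx => (comm_eq_bot.1 (commutator_commutator_eq_bot_of_rotate
      (commutator_comm Y (zpowers u) ▸ h4) h4) hx u (mem_zpowers u)).symm, fun x hx => ?_⟩
  obtain ⟨i, hi⟩ := e (commutator_mem_commutator (mem_zpowers u) hx)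
  have h3 : z ^ (2 : ℤ) = 1 := by rw [zpow_two, hz]
  rw [← hi]
  obtain ⟨j, rfl | rfl⟩ := Int.even_or_odd' i <;> simp [zpow_add, zpow_mul, h3]

theorem class_two {A : Subgroup G} [A.Normal] (h1 : ∀ g h, g ∉ A → h ∉ A → g * h ∈ A)
    (h2 : ∀ a ∈ A, a * a = 1) (x y g : G) : ⁅⁅x, y⁆, g⁆ = 1 := by
  have ab : ∀ a ∈ A, ∀ b ∈ A, Commute a b := fun a ha b hb => by
    have := inv_of_sq (h2 _ (mul_mem ha hb))
    rw [mul_inv_rev, inv_of_sq (h2 a ha), inv_of_sq (h2 b hb)] at this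
    exact this.symm
  have k : ∀ a ∈ A, ∀ y g, Commute ⁅a, y⁆ g := fun a ha y g => by
    by_cases hy : y ∈ A
    · rw [commutatorElement_eq_one_iff_commute.2 (ab a ha y hy)]; exact Commute.one_left g
    have m := Normal.conj_mem inferInstance a ha y
    have e : ⁅a, y⁆ = a * (y * a * y⁻¹) := by
      rw [commutatorElement_def, inv_of_sq (h2 a ha)]; simp only [mul_assoc]
    by_cases hg : g ∈ A
    · exact ab _ (e ▸ mul_mem ha m) g hg
    have c : Commute ⁅a, y⁆ y := by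
      rw [e]
      calc a * (y * a * y⁻¹) * y = a * (y * y) * y⁻¹ * a := by group
        _ = y * (y * a * y⁻¹ * a) := by rw [(ab a ha _ (h1 y y hy hy)).eq]; group
        _ = _ := by rw [← (ab a ha _ m).eq]
    rw [← inv_mul_cancel_right g y]
    exact (ab _ (e ▸ mul_mem ha m) _ (h1 g y⁻¹ hg (by rwa [inv_mem_iff]))).mul_right c
  rw [commutatorElement_eq_one_iff_commute]
  by_cases hx : x ∈ A
  · exact k x hx y g
  by_cases hy : y ∈ A
  · rw [← commutatorElement_inv]; exact (k y hy x g).inv_left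
  have m := h1 x⁻¹ y (by rwa [inv_mem_iff]) hy
  rw [show ⁅x, y⁆ = x * ⁅x⁻¹ * y, x⁆⁻¹ * x⁻¹ by simp only [commutatorElement_def]; group,
    ← (k _ m x x).inv_left.eq, mul_inv_cancel_right]
  exact (k _ m x g).inv_left

theorem root_of_unique {T : Subgroup G} {s v : G} (h : ∀ w ∈ T, w * w = 1 → w = 1 ∨ w = s)
    (hv : v ∈ T) {m : ℕ} (hm : v ^ 2 ^ m = 1) (h2 : v * v ≠ 1) : ∃ i, v ^ i * v ^ i = s := by
  induction m generalizing v with
  | zero => exact absurd (by rw [← pow_one v, ← pow_zero 2, hm, mul_one]) h2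
  | succ m ih =>
    by_cases e : v * v * (v * v) = 1
    · exact ⟨1, by rw [pow_one]; exact (h _ (mul_mem hv hv) e).resolve_left h2⟩
    · obtain ⟨i, hi⟩ := ih (mul_mem hv hv) (by rw [← sq, ← pow_mul, ← pow_succ', hm]) e
      exact ⟨2 * i, by rw [pow_mul, sq, hi]⟩

theorem exists_root [Finite G] {T : Subgroup G} {s d : G} (hT : IsPGroup 2 T)
    (h : ∀ w ∈ T, w * w = 1 → w = 1 ∨ w = s) (hd : d ∈ ⁅T, T⁆) (d1 : d ≠ 1) :
    ∃ w ∈ T, w * w = s := by
  haveI := Fact.mk Nat.prime_two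
  obtain ⟨v, hv, e⟩ : ∃ v ∈ T, v * v ≠ 1 := by
    by_contra! e
    refine d1 (commutator_le (H₃ := ⊥).2 (fun a ha b hb => ?_) hd)
    rw [mem_bot, show ⁅a, b⁆ = a * a * (a⁻¹ * b * (a⁻¹ * b)) * (b * b)⁻¹ by
      simp only [commutatorElement_def]; group, e a ha, e b hb, e _ (mul_mem (inv_mem ha) hb)]
    simp
  obtain ⟨m, hm⟩ := exists_pow_of_mem hT hv
  obtain ⟨i, hi⟩ := root_of_unique h hv hm e
  exact ⟨_, pow_mem hv i, hi⟩

end grp

variable {G V Z : Type*} [Group G] [AddCommGroup V] [AddCommGroup Z] [DistribMulAction G V]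

/-- vectors fixed by `s` -/
def Fx (V : Type*) [AddCommGroup V] [DistribMulAction G V] (s : G) : AddSubgroup V :=
  (DistribSMul.toAddMonoidHom V s).eqLocus (AddMonoidHom.id V)

theorem mem_fx {s : G} {v : V} : v ∈ Fx V s ↔ s • v = v := Iff.rfl

theorem fx_of_comm {s g : G} (c : Commute g s) {v : V} (h : v ∈ Fx V s) : g • v ∈ Fx V s := by
  rw [mem_fx, ← mul_smul, ← c.eq, mul_smul, mem_fx.1 h]

/-- the elements acting as `± 1` on the negative space of `s` -/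
def PMs (V : Type*) [AddCommGroup V] [DistribMulAction G V] (s : G) : Subgroup G where
  carrier := {v | (∀ a ∈ Ng V s, v • a = a) ∨ ∀ a ∈ Ng V s, v • a = -a}
  one_mem' := Or.inl fun a _ => one_smul G a
  mul_mem' := by
    rintro a b (h | h) (h' | h')
    · exact Or.inl fun v hv => by rw [mul_smul, h' v hv, h v hv]
    · exact Or.inr fun v hv => by rw [mul_smul, h' v hv, smul_neg, h v hv]
    · exact Or.inr fun v hv => by rw [mul_smul, h' v hv, h v hv]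
    · exact Or.inl fun v hv => by rw [mul_smul, h' v hv, smul_neg, h v hv, neg_neg]
  inv_mem' := by
    rintro a (h | h)
    · exact Or.inl fun v hv => by rw [inv_smul_eq_iff, h v hv]
    · exact Or.inr fun v hv => by rw [inv_smul_eq_iff, smul_neg, h v hv, neg_neg]

theorem pms_conj {s v : G} (g : G) (h : v ∈ PMs V s) : g * v * g⁻¹ ∈ PMs V (g * s * g⁻¹) := by
  refine h.imp (fun h a ha => ?_) fun h a ha => ?_ <;>
    rw [mul_smul, mul_smul, h _ (ng_conj.1 ha)]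
  · rw [smul_inv_smul]
  · rw [smul_neg, smul_inv_smul]

/-- the pointwise stabilizer -/
abbrev FS (G : Type*) [Group G] [DistribMulAction G V] (N : AddSubgroup V) : Subgroup G :=
  fixingSubgroup G (N : Set V)

theorem mem_fs {N : AddSubgroup V} {g : G} : g ∈ FS G N ↔ ∀ a ∈ N, g • a = a :=
  mem_fixingSubgroup_iff G

variable [Finite V] {β : V →+ V →+ Z} [FaithfulSMul G V] [Finite G]

namespace Sy

theorem nd_fx (y : Sy G β) {s : G} (hs : s * s = 1) {c : V} (hc : c ∈ Fx V s)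
    (h : ∀ b ∈ Fx V s, β c b = 0) : c = 0 := y.nd c fun v => by
  obtain ⟨b, hb, c, hc', rfl⟩ := y.dec hs v
  rw [map_add, h c hc', y.orth hc hb, add_zero]

theorem comm_of_fs (y : Sy G β) {s v : G} (hs : s * s = 1) (h : v ∈ FS G (Fx V s)) :
    Commute v s := y.comm_of_ng hs fun a ha => by
  obtain ⟨b, hb, c, hc, e⟩ := y.dec hs (v • a)
  rwa [e, y.nd_fx hs hc fun d hd => by
    have := y.iso v d a
    rw [mem_fs.1 h d hd, e, map_add, y.orth hd hb, y.orth hd ha, zero_add] at this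
    exact y.symm this, add_zero]

theorem eq_or_of_fs (y : Sy G β) {s v : G} (hs : Pn V s) (h : v ∈ FS G (Fx V s)) (h2 : v * v = 1) :
    v = 1 ∨ v = s :=
  (y.pm hs (fun _ ha => ng_of_comm (y.comm_of_fs hs.1 h) ha) fun a _ => smul_smul_of_sq h2 a).imp
    (fun e => y.ext_ng hs.1 (fun a ha => by rw [e a ha, one_smul]) fun c hc => by
      rw [mem_fs.1 h c hc, one_smul])
    fun e => y.ext_ng hs.1 (fun a ha => by rw [e a ha, mem_ng.1 ha]) fun c hc => by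
      rw [mem_fs.1 h c hc, hc]

theorem semireg (y : Sy G β) {s x : G} (hs : Pn V s) (c : Commute x s) {m : ℕ}
    (hm : x ^ 2 ^ m = 1) {a : V} (ha : a ∈ Ng V s) (a0 : a ≠ 0) (h : x • a = a) :
    x ∈ FS G (Ng V s) := by
  replace hm : x ^ 2 ^ m ∈ FS G (Ng V s) := hm ▸ one_mem _
  induction m with
  | zero => simpa using hm
  | succ m ih =>
    refine ih (mem_fs.2 ((y.pm hs (fun _ hb => ng_of_comm (c.pow_left _) hb) fun b hb => ?_
      ).resolve_right fun e => a0 (y.odd a ?_)))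
    · rw [← mul_smul, ← pow_add, ← two_mul, ← pow_succ', mem_fs.1 hm b hb]
    · rw [← eq_neg_iff_add_eq_zero, ← e a ha]
      exact (pow_mem (show x ∈ MulAction.stabilizer G a from h) _ :).symm

theorem full (y : Sy G β) {s : G} (hs : s * s = 1) (h9 : Nat.card (Ng V s) = 9) {X T : Subgroup G}
    (hX : IsPGroup 2 X) (c : ∀ x ∈ X, Commute x s) (hT : T ≤ X) :
    (FS G (Ng V s)).relIndex T ∣ 4 ∨ ∀ x ∈ X, ∃ d ∈ T, d⁻¹ * x ∈ FS G (Ng V s) := by
  haveI := Fact.mk Nat.prime_two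
  have p : Pn V s := ⟨hs, 3, Nat.prime_three, h9⟩
  obtain ⟨a, ha, a0⟩ := p.exists_ne
  have sr : ∀ x ∈ X, x • a = a → x ∈ FS G (Ng V s) := fun x hx e =>
    (exists_pow_of_mem hX hx).elim fun m hm => y.semireg p (c x hx) hm ha a0 e
  have e1 : (FS G (Ng V s)).subgroupOf T = MulAction.stabilizer T a :=
    Subgroup.ext fun x => ⟨fun h => mem_fs.1 h a ha, fun h => sr x (hT x.2) h⟩
  have m : ∀ x ∈ X, x • a ∈ (Ng V s : Set V) \ {0} := fun x hx =>
    ⟨ng_of_comm (c x hx) ha, fun e => a0 ((smul_eq_zero_iff_eq x).1 e)⟩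
  have l : MulAction.orbit T a ⊆ (Ng V s : Set V) \ {0} := by
    rintro _ ⟨x, rfl⟩; exact m x (hT x.2)
  have e2 : ((Ng V s : Set V) \ {0}).ncard = 8 := by
    rw [Set.ncard_diff_singleton_of_mem (zero_mem _), ← Nat.card_coe_set_eq]
    exact congrArg (· - 1) h9
  obtain ⟨n, hn⟩ := (hX.to_le hT).index (MulAction.stabilizer T a)
  rw [relIndex, e1, hn]
  rw [MulAction.index_stabilizer] at hn
  have l1 := Set.ncard_le_ncard l
  by_cases h : n ≤ 2
  · exact Or.inl (pow_dvd_pow 2 h)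
  refine Or.inr fun x hx => ?_
  obtain ⟨d, hd⟩ := (Set.eq_of_subset_of_ncard_le l (by
    rw [e2, hn]; exact Nat.pow_le_pow_right two_pos (not_le.1 h))).ge (m x hx)
  exact ⟨d, d.2, sr _ (mul_mem (inv_mem (hT d.2)) hx) (by
    rw [mul_smul, inv_smul_eq_iff]; exact hd.symm)⟩

theorem plane (y : Sy G β) {s : G} (hs : s * s = 1) (h9 : Nat.card (Ng V s) = 9) {X T : Subgroup G}
    (hX : IsPGroup 2 X) (c : ∀ x ∈ X, Commute x s) (hT : T ≤ X) (h : ¬ ⁅T, T⁆ ≤ FS G (Ng V s)) :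
    ∀ x ∈ X, x * x ∈ PMs V s ∧ ∃ d ∈ T, d⁻¹ * x ∈ FS G (Ng V s) := fun x hx => by
  have n : X ≤ 𝐍 (FS G (Ng V s)) := le_norm_iff.2 fun g hg v hv => mem_fs.2 fun a ha => by
    rw [mul_smul, mul_smul, mem_fs.1 hv _ (ng_of_comm (c g hg).inv_left ha), smul_inv_smul]
  have pi := piGrp_of_isPGroup Nat.prime_two hX
  refine ⟨y.pm ⟨hs, 3, Nat.prime_three, h9⟩ (fun a ha => ng_of_comm (c _ (mul_mem hx hx)) ha)
    fun a ha => ?_, (y.full hs h9 hX c hT).resolve_left (fun e => h ?_) x hx⟩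
  · rcases y.full hs h9 hX c (zpowers_le.2 hx) with ⟨j, hj⟩ | e
    · haveI := (normalIn_inf_right ((zpowers_le.2 hx).trans n)).normal
      have := pow_mem (pow_index_mem (H := (FS G (Ng V s) ⊓ zpowers x).subgroupOf (zpowers x))
        ⟨x, mem_zpowers x⟩) j
      rw [inf_subgroupOf_right, ← pow_mul, ← relIndex, ← hj] at this
      rw [← mul_smul, ← sq, ← sq, ← pow_mul]
      exact mem_fs.1 this a ha
    · refine absurd ((commutator_mono hT hT).trans ((abel_qt_iff n).1 (Cyc.abel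
        ((cyc_qt_iff n).2 ⟨x, hx, fun g hg => ?_⟩)))) h
      obtain ⟨d, hd, e⟩ := e g hg
      simpa using mul_mem (mem_sup_right hd) (mem_sup_left (T := zpowers x) e)
  · rw [← abel_qt_iff (hT.trans n)]
    refine ((pi.le hT).qt _).abel_of_logn ?_
    rw [card_qt (hT.trans n)]
    exact (logn_le_of_dvd e (by norm_num)).trans (logn_pow Nat.prime_two 2).le

theorem four (y : Sy G β) {u z v : G} (hz : ∀ a : V, z • a = -a) (hu : u * u = 1)
    (h1 : v ∈ PMs V u) (h2 : v ∈ PMs V (u * z)) : v = 1 ∨ v = z ∨ v = u ∨ v = u * z := by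
  have m : ∀ c : V, u • c = c → c ∈ Ng V (u * z) := fun c hc => by
    rw [mem_ng, mul_smul, hz, smul_neg, hc]
  rcases h1 with h1 | h1 <;> rcases h2 with h2 | h2
  · exact Or.inl (y.ext_ng hu (fun a ha => by rw [h1 a ha, one_smul]) fun c hc => by
      rw [h2 c (m c hc), one_smul])
  · exact Or.inr (Or.inr (Or.inr (y.ext_ng hu (fun a ha => by
      rw [h1 a ha, mul_smul, hz, smul_neg, mem_ng.1 ha, neg_neg]) fun c hc => by
      rw [h2 c (m c hc), mem_ng.1 (m c hc)])))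
  · exact Or.inr (Or.inr (Or.inl (y.ext_ng hu (fun a ha => by rw [h1 a ha, mem_ng.1 ha])
      fun c hc => by rw [h2 c (m c hc), hc])))
  · exact Or.inr (Or.inl (y.ext_ng hu (fun a ha => by rw [h1 a ha, hz]) fun c hc => by
      rw [h2 c (m c hc), hz]))

theorem exists_eight (y : Sy G β) {Y : Subgroup G} (hY : IsPGroup 2 Y) {z u : G}
    (hz : ∀ a : V, z • a = -a) (z2 : z ∈ ⁅⁅Y, Y⁆, ⁅Y, Y⁆⁆) (u1 : u ∈ ⁅Y, Y⁆) (hu : u * u = 1)
    (c : ∀ x ∈ Y, ⁅u, x⁆ = 1 ∨ ⁅u, x⁆ = z) (cu : ∀ x ∈ ⁅Y, Y⁆, Commute x u)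
    (h1 : Nat.card (Ng V u) = 9) (h2 : Nat.card (Ng V (u * z)) = 9) :
    ∃ h ∈ Y, h * h ∈ ⁅Y, Y⁆ ∧ h * h * (h * h) = z := by
  have cz : ∀ g : G, Commute g z := fun g => eq_of_smul_eq_smul fun a : V => by
    rw [mul_smul, mul_smul, hz, hz, smul_neg]
  have zz : z * z = 1 := eq_of_smul_eq_smul fun a : V => by rw [mul_smul, hz, hz, neg_neg, one_smul]
  have hu' : u * z * (u * z) = 1 := by rw [(cz u).symm.mul_mul_mul_comm, hu, zz, one_mul]
  have dY := CF.BG.der_le Y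
  let X := Y ⊓ centralizer {u}
  have mX : ∀ {x}, x ∈ X ↔ x ∈ Y ∧ Commute x u := by
    simp only [X, mem_inf, mem_centralizer_singleton_iff]; rfl
  have sw : ∀ g ∈ Y, g ∉ X → g * u * g⁻¹ = u * z ∧ g * (u * z) * g⁻¹ = u := fun g hg h => by
    have e := (c g hg).resolve_left fun e =>
      h (mX.2 ⟨hg, (commutatorElement_eq_one_iff_commute.1 e).symm⟩)
    have e' : g * u * g⁻¹ = u * z := by
      rw [← e, commutatorElement_def, inv_of_sq hu]; simp only [← mul_assoc, hu, one_mul]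
    exact ⟨e', by rw [← conj_mul, e', (cz g).eq, mul_inv_cancel_right, mul_assoc, zz, mul_one]⟩
  have lX : ⁅Y, Y⁆ ≤ X := fun x hx => mX.2 ⟨dY hx, cu x hx⟩
  have nt : ∀ {s : G}, Nat.card (Ng V s) = 9 → z ∉ FS G (Ng V s) := fun e h => by
    rw [(AddSubgroup.eq_bot_iff_forall _).2 fun a ha => y.odd a
      (neg_eq_iff_add_eq_zero.1 ((hz a).symm.trans (mem_fs.1 h a ha))), AddSubgroup.card_bot] at e
    omega
  have p1 := y.plane hu h1 hY.to_inf_left (fun x hx => (mX.1 hx).2) lX fun h => nt h1 (h z2)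
  have p2 := y.plane hu' h2 hY.to_inf_left (fun x hx => (mX.1 hx).2.mul_right (cz x)) lX
    fun h => nt h2 (h z2)
  let Z := PMs V u ⊓ PMs V (u * z)
  have lZ : Z ≤ ⁅Y, Y⁆ := fun v hv => by
    rcases y.four hz hu hv.1 hv.2 with rfl | rfl | rfl | rfl
    exacts [one_mem _, CF.BG.der_le _ z2, u1, mul_mem u1 (CF.BG.der_le _ z2)]
  have nZ : Y ≤ 𝐍 Z := le_norm_iff.2 fun g hg v hv => by
    have a := pms_conj g hv.1
    have b := pms_conj g hv.2
    by_cases h : g ∈ X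
    · rw [(mX.1 h).2.eq, mul_inv_cancel_right] at a
      rw [((mX.1 h).2.mul_right (cz g)).eq, mul_inv_cancel_right] at b
      exact ⟨a, b⟩
    · exact ⟨(sw g hg h).2 ▸ b, (sw g hg h).1 ▸ a⟩
  have mm : ∀ g ∈ Y, ∀ h ∈ Y, g ∉ X → h ∉ X → g * h ∈ X := fun g hg h hh a b =>
    mX.2 ⟨mul_mem hg hh, mul_inv_eq_iff_eq_mul.1 (by
      rw [mul_inv_rev, show g * h * u * (h⁻¹ * g⁻¹) = g * (h * u * h⁻¹) * g⁻¹ by group,
        (sw h hh b).1, (sw g hg a).2])⟩
  haveI := (normalIn_inf_right nZ).normal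
  rw [inf_subgroupOf_right] at this
  have q1 : ∀ {x : Y}, (x : Y ⧸ Z.subgroupOf Y) = 1 ↔ (x : G) ∈ Z := QuotientGroup.eq_one_iff _
  obtain ⟨h, hh, hZ⟩ : ∃ h ∈ Y, h * h ∉ Z := by
    by_contra! e
    have l : ⁅Y, Y⁆ ≤ Z := commutator_le.2 fun a ha b hb => by
      convert mul_mem (mul_mem (e a ha) (e _ (mul_mem (inv_mem ha) hb))) (e _ (inv_mem hb)) using 1
      simp only [commutatorElement_def]; group
    refine nt h1 ((commutator_le (H₃ := ⊥).2 (fun a ha b hb => ?_) z2).symm ▸ one_mem _)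
    rw [mem_bot, commutatorElement_eq_one_iff_commute]
    rcases y.four hz hu (l hb).1 (l hb).2 with rfl | rfl | rfl | rfl
    exacts [Commute.one_right _, cz a, cu a ha, (cu a ha).mul_right (cz a)]
  have hX : h ∉ X := fun e => hZ ⟨(p1 h e).1, (p2 h e).1⟩
  have m := mm h hh h hh hX hX
  haveI : (X.subgroupOf Y).Normal := ⟨fun x hx g => by
    by_cases hg : (g : G) ∈ X
    · exact mul_mem (mul_mem hg hx) (inv_mem hg)
    · exact mm _ (mul_mem g.2 x.2) _ (inv_mem g.2)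
        (fun e => hg ((mul_mem_cancel_right (mem_subgroupOf.1 hx)).1 e)) fun e => hg (X.inv_mem_iff.1 e)⟩
  haveI := Normal.map this _ (QuotientGroup.mk'_surjective (Z.subgroupOf Y))
  have c2 : ⁅Y, Y⁆ ≤ centMod Y Z := commutator_le.2 fun a ha b hb =>
    mem_centMod.2 ⟨nZ (dY (commutator_mem_commutator ha hb)), fun g hg =>
      (q1 (x := ⁅⁅(⟨a, ha⟩ : Y), (⟨b, hb⟩ : Y)⁆, (⟨g, hg⟩ : Y)⁆)).1 (class_two
        (A := (X.subgroupOf Y).map (QuotientGroup.mk' (Z.subgroupOf Y))) (fun g h a b => by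
          obtain ⟨g, rfl⟩ := QuotientGroup.mk'_surjective _ g
          obtain ⟨h, rfl⟩ := QuotientGroup.mk'_surjective _ h
          exact ⟨g * h, mm _ g.2 _ h.2 (fun e => a ⟨g, e, rfl⟩) fun e => b ⟨h, e, rfl⟩, rfl⟩) (by
          rintro _ ⟨x, hx, rfl⟩
          exact (q1 (x := x * x)).2 ⟨(p1 x hx).1, (p2 x hx).1⟩)
        ((⟨a, ha⟩ : Y) : Y ⧸ _) (⟨b, hb⟩ : Y) (⟨g, hg⟩ : Y))⟩
  refine ⟨h, hh, ?_, ?_⟩
  · obtain ⟨d, hd, e⟩ := (p1 _ m).2
    have e1 : d⁻¹ * (h * h) ∈ PMs V u := Or.inl (mem_fs.1 e)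
    have e2 := mul_mem ((mem_centMod.1 (c2 (inv_mem hd))).2 h hh).2
      ((sw h hh hX).1 ▸ pms_conj h e1)
    rw [show ⁅d⁻¹, h⁆ * (h * (d⁻¹ * (h * h)) * h⁻¹) = d⁻¹ * (h * h) by
      simp only [commutatorElement_def]; group] at e2
    exact (mul_mem_cancel_left (inv_mem hd)).1 (lZ ⟨e1, e2⟩)
  · have c4 : Commute h (h * h * (h * h)) :=
      ((Commute.refl h).mul_right (Commute.refl h)).mul_right
        ((Commute.refl h).mul_right (Commute.refl h))
    rcases y.four hz hu (p1 _ m).1 (p2 _ m).1 with e | e | e | e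
    · exact absurd ⟨y.pm ⟨hu, 3, Nat.prime_three, h1⟩ (fun a ha => ng_of_comm (mX.1 m).2 ha)
        fun a _ => smul_smul_of_sq e a, y.pm ⟨hu', 3, Nat.prime_three, h2⟩
        (fun a ha => ng_of_comm ((mX.1 m).2.mul_right (cz _)) ha) fun a _ => smul_smul_of_sq e a⟩ hZ
    · exact e
    · exact absurd (mX.2 ⟨hh, e ▸ c4⟩) hX
    · exact absurd (mX.2 ⟨hh, mul_inv_cancel_right u z ▸ (e ▸ c4).mul_right (cz h).inv_right⟩) hX

end Sy
end CF.Bk
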