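/-
The local analysis for the bound of the `2`-length by the derived length.
-/
import Cfsg.Agent.Fgs1.BkDer1
import Cfsg.Agent.Perm.Module
set_option autoImplicit false
set_option linter.unusedSectionVars false

namespace CF.Bk
open Module Subgroup Cfsg CF.BG CF.Fgs1 CF.Fgs2 Polynomial
open scoped commutatorElement

variable {H : Type*} [Group H] [Finite H] {k : Type*} [Field k] {W : Type*} [AddCommGroup W]
  [Module k W] {ρ : H →* End k W} {Q R X Y : Subgroup H} {η : H → k} {U : Submodule k W}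

/-- `v` is killed by the product of the augmentation ideals of the derived subgroups -/
def KK (ρ : H →* End k W) (X : Subgroup H) : ℕ → W → Prop
  | 0, v => v = 0
  | n + 1, v => ∀ s ∈ der X n, KK ρ X n (ρ s v - v)

theorem KK.shift {u : H} (hu : u ∈ X) (hY : Y ≤ ⁅X, X⁆) (hU : Stab ρ X U)
    (c : ∀ y ∈ Y, ∀ v ∈ U, ρ y (ρ u v) = ρ u (ρ y v)) (n : ℕ) :
    ∀ v ∈ U, KK ρ X (n + 1) v → KK ρ Y n (ρ u v - v) := by
  induction n with
  | zero => exact fun v _ h => h u hu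
  | succ n ih =>
    intro v hv h s hs
    have h1 : s ∈ der X (n + 1) := by rw [add_comm, der_add]; exact Fgs2.der_mono hY n hs
    convert ih _ (sub_mem (hU s (Fgs2.der_le _ _ h1) v hv) hv) (h s h1) using 1
    rw [map_sub, map_sub, c s (Fgs2.der_le _ _ hs) v hv]; abel

theorem comm_mem_of_fix (t : IsType Q R η) (hU : U ≠ ⊥) (l : U ≤ Wt ρ R η) (sQ : Stab ρ Q U)
    {x : H} (n : x ∈ 𝐍 Q) (h : ∀ v ∈ U, ρ x v = v) : ∀ a ∈ Q, ⁅x, a⁆ ∈ R := fun a ha => by
  have r := repOn_hom ρ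
  have nF := r.norm_fixer (A := Q) le_top (S := U) sQ
  have m : ⁅x, a⁆ ∈ Q := comm_le_right (zpowers_le.2 n) (commutator_mem_commutator (mem_zpowers x) ha)
  have f : ∀ y ∈ Fixer ⊤ ρ U, ∀ b ∈ Q, ⁅y, b⁆ ∈ Fixer ⊤ ρ U := fun y hy b hb =>
    comm_le_left nF (commutator_mem_commutator hy hb)
  obtain ⟨v, hv, v0⟩ := (Submodule.ne_bot_iff _).1 hU
  exact (t.rad _ m).2 fun c hc => wt_eq_one (l hv) v0 (t.comm_mem m hc)
    ((r.mem_fixer.1 (f _ (f x (r.mem_fixer.2 ⟨mem_top x, h⟩) a ha) c hc)).2 v hv)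

theorem comm_wt (t : IsType Q R η) (o : Odd (♯Q)) {x : H} (hx : x ∈ TL t) (h2 : ∃ m, x ^ 2 ^ m = 1)
    (h : ps t x = 1) {a : H} (ha : a ∈ Q) {v : W} (hv : v ∈ Wt ρ R η) :
    ρ a (ρ x v) = ρ x (ρ a v) := by
  obtain ⟨m, hm⟩ := h2
  have r := repOn_hom ρ
  have := comm_le_ker t (zpowers_le.2 hx) (by
      rw [Nat.card_zpowers]
      exact ((Nat.coprime_two_left.2 o).pow_left m).coprime_dvd_left (orderOf_dvd_of_pow_eq_one hm))
    (cyc_zpowers x).abel.sol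
    (fun a ha => (mem_cm.1 (zpowers_le (H := cm t ⊥).2 (mem_cm.2 ⟨hx, h⟩) ha)).2)
    (commutator_mem_commutator ha (mem_zpowers x))
  have e := r.map_wt_stab le_top (mem_top x) hx.2 (r.stab_type le_top t a ha v hv) _ this.1
  rw [this.2, one_smul, ← End.mul_apply, ← End.mul_apply, ← map_mul, ← map_mul] at e
  rw [← e, ← End.mul_apply, ← map_mul]
  congr 2
  simp only [commutatorElement_def]; group

theorem comm_mem_of_ps (t : IsType Q R η) {g a : H} (hg : g ∈ TL t) (ha : a ∈ Q) :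
    ps t g • mk t a = mk t a ↔ ⁅g, a⁆ ∈ R := by
  rw [ps_mk t hg ha, ← sub_eq_zero, sub_eq_add_neg, ← mk_inv t ha, ← mk_mul t
    (conj_mem_of_norm hg.1 ha) (inv_mem ha), mk_eq_zero t (mul_mem (conj_mem_of_norm hg.1 ha)
    (inv_mem ha)), commutatorElement_def]

theorem neg_iff (t : IsType Q R η) {g a : H} (hg : g ∈ TL t) (ha : a ∈ Q) :
    ps t g • mk t a = - mk t a ↔ g * a * g⁻¹ * a ∈ R := by
  rw [ps_mk t hg ha, eq_neg_iff_add_eq_zero, ← mk_mul t (conj_mem_of_norm hg.1 ha) ha,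
    mk_eq_zero t (mul_mem (conj_mem_of_norm hg.1 ha) ha)]

/-- a `2`-group stabilizing a type and a submodule of the weight space -/
structure Cfg (ρ : H →* End k W) (t : IsType Q R η) (X : Subgroup H) (U : Submodule k W) :
    Prop where
  two : IsPGroup 2 X
  le : X ≤ TL t
  ne : U ≠ ⊥
  wt : U ≤ Wt ρ R η
  sQ : Stab ρ Q U
  sX : Stab ρ X U

/-- `X` acts on `U` through the induced group -/
def Red (ρ : H →* End k W) (t : IsType Q R η) (X : Subgroup H) (U : Submodule k W) : Prop :=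
  ∀ x ∈ X, ∀ y ∈ X, ps t x = ps t y → ∀ v ∈ U, ρ x v = ρ y v

variable [CharP k 2] {t : IsType Q R η}

theorem Cfg.red (c : Cfg ρ t X U) (o : Odd (♯Q)) : ∃ U' ≤ U, Cfg ρ t X U' ∧ Red ρ t X U' := by
  haveI := Fact.mk Nat.prime_two
  have r := repOn_hom ρ
  have n : X ≤ 𝐍 (X ⊓ cm t ⊥) := le_norm_iff.2 fun g hg x hx =>
    ⟨X.mul_mem (X.mul_mem hg hx.1) (inv_mem hg), mem_cm.2 ⟨mul_mem (mul_mem (c.le hg) (c.le hx.1))
      (inv_mem (c.le hg)), by
        rw [ps_conj t (c.le hg) (c.le hx.1), mem_bot.1 (mem_cm.1 hx.2).2]; simp⟩⟩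
  obtain ⟨v, hv, v0, e⟩ := CF.Perm.exists_fixed_vector (c.two.to_inf_left (K := cm t ⊥))
    (ρ.comp (X ⊓ cm t ⊥).subtype) U (fun g => c.sX g g.2.1) c.ne
  refine ⟨U ⊓ FixV ρ (X ⊓ cm t ⊥), inf_le_left, ⟨c.two, c.le, (Submodule.ne_bot_iff _).2
    ⟨v, ⟨hv, fun g hg => e ⟨g, hg⟩⟩, v0⟩, inf_le_left.trans c.wt, fun a ha w hw =>
    ⟨c.sQ a ha w hw.1, fun x hx => ?_⟩, fun x hx w hw => ⟨c.sX x hx w hw.1,
      r.stab_fixV le_top le_top n x hx w hw.2⟩⟩, fun x hx y hy e w hw => ?_⟩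
  · rw [← comm_wt t o (c.le hx.1) (exists_pow_of_mem c.two hx.1) (mem_cm.1 hx.2).2 ha (c.wt hw.1),
      hw.2 x hx]
  · have := hw.2 (y⁻¹ * x) ⟨X.mul_mem (inv_mem hy) hx, mem_cm.2 ⟨c.le (mul_mem (inv_mem hy) hx), by
      rw [ps_mul t (c.le (inv_mem hy)) (c.le hx), ps_inv t (c.le hy), e]; simp⟩⟩
    rw [← mul_inv_cancel_left y x, map_mul, End.mul_apply, this]

theorem Red.comm (c : Cfg ρ t X U) (r : Red ρ t X U) {x y : H} (hx : x ∈ X) (hy : y ∈ X)
    (h : Commute (ps t x) (ps t y)) {v : W} (hv : v ∈ U) : ρ x (ρ y v) = ρ y (ρ x v) := by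
  rw [← End.mul_apply, ← End.mul_apply, ← map_mul, ← map_mul]
  exact r _ (mul_mem hx hy) _ (mul_mem hy hx) (by
    rw [ps_mul t (c.le hx) (c.le hy), ps_mul t (c.le hy) (c.le hx), h.eq]) v hv

theorem Cfg.sub (c : Cfg ρ t X U) (r : Red ρ t X U) (o : Odd (♯Q)) {u : H} (hu : u ∈ X)
    (h2 : ps t u * ps t u = 1) (h1 : ps t u ≠ 1) (hY : Y ≤ X)
    (h : ∀ y ∈ Y, Commute (ps t y) (ps t u)) :
    Cfg ρ (isType_pre t fun _ => (sy t o).nd_fx h2) Y (U.map (ρ u - 1)) := by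
  haveI := Fact.mk Nat.prime_two
  have l : ∀ y ∈ X, Commute (ps t y) (ps t u) →
      y ∈ TL (isType_pre t fun _ => (sy t o).nd_fx h2) := fun y hy e =>
    ⟨norm_pre t (c.le hy) fun a ha => fx_of_comm e ha, (c.le hy).2⟩
  refine ⟨c.two.to_le hY, fun y hy => l y (hY hy) (h y hy), fun e => h1 ((ps_eq_one t (c.le hu)).2
    (comm_mem_of_fix t c.ne c.wt c.sQ (c.le hu).1 fun v hv => sub_eq_zero.1
      ((Submodule.eq_bot_iff _).1 e _ ⟨v, hv, rfl⟩))), ?_, ?_, ?_⟩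
  · rintro _ ⟨v, hv, rfl⟩
    exact c.wt (sub_mem (c.sX u hu v hv) hv)
  · rintro a ha _ ⟨v, hv, rfl⟩
    refine ⟨_, c.sQ a ha.1 v hv, ?_⟩
    simp only [LinearMap.sub_apply, End.one_apply, map_sub]
    rw [comm_wt _ (o.of_dvd_nat (card_dvd_of_le (pre_le t _))) (l u hu (Commute.refl _))
      (exists_pow_of_mem c.two hu) ((ps_eq_one _ (l u hu (Commute.refl _))).2 fun b hb =>
        (comm_mem_of_ps t (c.le hu) hb.1).1 hb.2) ha (c.wt hv)]
  · rintro y hy _ ⟨v, hv, rfl⟩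
    refine ⟨_, c.sX y (hY hy) v hv, ?_⟩
    simp only [LinearMap.sub_apply, End.one_apply, map_sub]
    rw [r.comm c (hY hy) hu (h y hy) hv]

variable [IsAlgClosed k] [FiniteDimensional k W]

theorem plocal {q : ℕ} (hq : q.Prime) (q2 : q ≠ 2) (n : ℕ) : ∀ {Q X : Subgroup H}
    {U : Submodule k W} {t : IsType Q R η}, IsPGroup q Q → Cfg ρ t X U → ∀ z ∈ der X n,
    (∀ a ∈ Q, z * a * z⁻¹ * a ∈ R) → ¬ Q ≤ R → (∀ v ∈ U, KK ρ X n (ρ z v - v)) →
    n = 1 ∧ R.relIndex Q = 9 := by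
  induction n with
  | zero =>
    intro Q X U t pQ c z hz hn hR hK
    refine absurd (fun a ha => (mk_eq_zero t ha).1 ((sy t (odd_of hq q2 pQ)).eq_zero
      ((neg_iff t (c.le hz) ha).2 (hn a ha)) ((comm_mem_of_ps t (c.le hz) ha).2
      (comm_mem_of_fix t c.ne c.wt c.sQ (c.le hz).1 (fun v hv => sub_eq_zero.1 (hK v hv)) a ha))))
      hR
  | succ n ih =>
    intro Q X U t pQ c z hz hn hR hK
    have o := odd_of hq q2 pQ
    have y := sy t o
    obtain ⟨U, l, c, r⟩ := c.red o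
    replace hK := fun v hv => hK v (l hv)
    have zX := Fgs2.der_le _ _ hz
    have hz' : ∀ a : TV t, ps t z • a = -a := fun a => by
      obtain ⟨a, ha, rfl⟩ := mk_surj t a
      exact (neg_iff t (c.le zX) ha).2 (hn a ha)
    have cz : ∀ g : TG t, Commute g (ps t z) := fun g => eq_of_smul_eq_smul fun a : TV t => by
      rw [mul_smul, mul_smul, hz', hz', smul_neg]
    have zz : ps t z * ps t z = 1 := eq_of_smul_eq_smul fun a : TV t => by
      rw [mul_smul, hz', hz', neg_neg, one_smul]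
    have z1 : ps t z ≠ 1 := fun e => hR fun a ha => (mk_eq_zero t ha).1
      (y.eq_zero (hz' _) (by rw [e, one_smul]))
    have ct : Nat.card (Ng (TV t) (ps t z)) = R.relIndex Q := by
      rw [(AddSubgroup.eq_top_iff' (Ng (TV t) (ps t z))).2 hz', AddSubgroup.card_top, card_tv]
    have step : ∀ u ∈ X, ps t u * ps t u = 1 → ps t u ≠ 1 → ps t u ≠ ps t z → ∀ Y ≤ ⁅X, X⁆,
        z ∈ der Y n → (∀ x ∈ Y, Commute (ps t x) (ps t u)) →
        n = 1 ∧ Nat.card (Fx (TV t) (ps t u)) = 9 := fun u hu h2 h1 h3 Y hY m h => by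
      have lY := hY.trans (CF.BG.der_le X)
      rw [← relIndex_pre]
      refine ih (pQ.to_le (pre_le t _)) (c.sub r o hu h2 h1 lY h) z m (fun a ha => hn a ha.1)
        (fun e => h3 (y.ext_ng h2 (fun a ha => by rw [mem_ng.1 ha, hz']) fun b hb => ?_)) ?_
      · obtain ⟨b, hb', rfl⟩ := mk_surj t b
        rw [(mk_eq_zero t hb').2 (e ⟨hb', hb⟩), smul_zero, smul_zero]
      · rintro _ ⟨v, hv, rfl⟩
        convert KK.shift hu hY c.sX (fun x hx v hv => r.comm c (lY hx) hu (h x hx) hv) n _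
          (sub_mem (c.sX z zX v hv) hv) (hK v hv) using 1
        simp only [LinearMap.sub_apply, End.one_apply, map_sub]
        rw [r.comm c hu zX (cz _) hv]; abel
    have ex := fun (x : H) (hx : x ∈ X) (a : ℕ) => exc (repOn_hom ρ) le_top t c.ne c.wt c.sQ hq q2
      pQ (mem_top x) (c.le hx) (c.sX x hx) (a := a)
    have pl : ∀ (m : ℕ) [NeZero m], (Polynomial.X ^ m - 1 : k[X]) ≠ 0 ∧
        (Polynomial.X ^ m - 1 : k[X]).natDegree = m ∧ ∀ (x : H) (v : W),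
        aeval (ρ x) (Polynomial.X ^ m - 1 : k[X]) v = ρ (x ^ m) v - v := fun m _ =>
      ⟨X_pow_sub_C_ne_zero (NeZero.pos m) 1, natDegree_X_pow_sub_C, fun x v => by simp⟩
    have dm : ps t z ∈ der (im t X) (n + 1) := im_der t c.le _ ▸ ps_mem_im t hz (c.le zX)
    rcases n with _ | n
    · obtain ⟨w, hw, e⟩ := exists_root (s := ps t z) (im_two t c.two) (fun w hw h2 => by
        obtain ⟨u, hu, -, rfl⟩ := (mem_im t).1 hw
        by_contra! h
        exact absurd (step u hu h2 h.1 h.2 _ (zpowers_le.2 hz) (mem_zpowers z) fun x hx =>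
          mem_centralizer_singleton_iff.1 (mem_cm.1 (zpowers_le (H := cm t _).2
            (mem_cm.2 ⟨c.le zX, mem_centralizer_singleton_iff.2 (cz _).symm⟩) hx)).2).1
          zero_ne_one) dm z1
      obtain ⟨x, hx, -, rfl⟩ := (mem_im t).1 hw
      have e' : ps t x ^ 2 ^ 1 = ps t z := by rw [← e, pow_one, sq]
      obtain ⟨h1, h2, -⟩ := ex x hx 1 (by rw [pow_succ, pow_mul, e', sq, zz]) (e' ▸ z1)
        (mul_ne_zero (pl 1).1 (pl 2).1) (fun v hv => by
          rw [map_mul, End.mul_apply, (pl 2).2.2, r _ (pow_mem hx 2) z zX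
            (by rw [ps_pow t (c.le hx), ← e, sq]) v hv, (pl 1).2.2, pow_one]
          exact hK v hv x hx) (by
          rw [natDegree_mul (pl 1).1 (pl 2).1, (pl 1).2.1, (pl 2).2.1]; decide)
      rw [e', ct] at h1
      exact ⟨rfl, by rw [h1, show q = 3 by omega]; rfl⟩
    exfalso
    have d2 : ps t z ∈ ⁅⁅im t X, im t X⁆, ⁅im t X, im t X⁆⁆ := by
      rw [show n + 1 + 1 = 2 + n by omega, der_add] at dm
      exact Fgs2.der_le _ _ dm
    obtain ⟨u', m, h2, h1, h3, cu, cu'⟩ := exists_u (im_two t c.two)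
      (fun a => z1 ((CF.BG.der_eq_bot.2 a).le d2)) zz cz
    obtain ⟨u, hu, hu', rfl⟩ := (mem_im t).1 (im_comm t c.le c.le ▸ m)
    have uX := CF.BG.der_le X hu
    have zm : z ∈ der ⁅X, X⁆ (n + 1) := by rwa [add_comm (n + 1), der_add] at hz
    have cu2 : ∀ x ∈ ⁅X, X⁆, Commute (ps t x) (ps t u) := fun x hx =>
      cu _ (im_comm t c.le c.le ▸ ps_mem_im t hx (c.le (CF.BG.der_le X hx)))
    obtain ⟨n0, a1⟩ := step u uX h2 h1 h3 _ le_rfl zm cu2
    obtain ⟨-, a2⟩ := step (u * z) (mul_mem uX zX)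
      (by rw [ps_mul t hu' (c.le zX), (cz _).symm.mul_mul_mul_comm, h2, zz, one_mul])
      (by rw [ps_mul t hu' (c.le zX), Ne, mul_eq_one_iff_eq_inv, inv_of_sq zz]; exact h3)
      (by rw [ps_mul t hu' (c.le zX)]; simpa using h1) _ le_rfl zm fun x hx => by
        rw [ps_mul t hu' (c.le zX)]; exact (cu2 x hx).mul_right (cz _)
    rw [ps_mul t hu' (c.le zX), show Fx (TV t) (ps t u * ps t z) = Ng (TV t) (ps t u) from
      AddSubgroup.ext fun v => by
        rw [mem_fx, mem_ng, mul_smul, hz', smul_neg, neg_eq_iff_eq_neg]] at a2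
    rw [show Fx (TV t) (ps t u) = Ng (TV t) (ps t u * ps t z) from AddSubgroup.ext fun v => by
      rw [mem_fx, mem_ng, mul_smul, hz', smul_neg, neg_inj]] at a1
    obtain ⟨h, hh, e1, e2⟩ := y.exists_eight (im_two t c.two) hz' d2 m h2 cu' cu a2 a1
    obtain ⟨x, hx, -, rfl⟩ := (mem_im t).1 hh
    obtain ⟨s, hs, -, e3⟩ := (mem_im t).1 (im_comm t c.le c.le ▸ e1)
    obtain rfl : n = 0 := by omega
    have e' : ps t x ^ 2 ^ 2 = ps t z := by rw [← e2, ← sq, ← sq, ← pow_mul]; rfl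
    obtain ⟨b1, b2, -⟩ := ex x hx 2 (by rw [pow_succ, pow_mul, e', sq, zz]) (e' ▸ z1)
      (mul_ne_zero (pl 1).1 (mul_ne_zero (pl 2).1 (pl 4).1)) (fun v hv => by
        rw [map_mul, map_mul, End.mul_apply, End.mul_apply, (pl 4).2.2, r _ (pow_mem hx 4) z zX
          (by rw [ps_pow t (c.le hx), ← e']; rfl) v hv, (pl 2).2.2, r _ (pow_mem hx 2) s
          (CF.BG.der_le X hs) (by rw [ps_pow t (c.le hx), e3, sq]) _ (sub_mem (c.sX z zX v hv) hv),
          (pl 1).2.2, pow_one]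
        exact hK v hv s hs x hx) (by
        rw [natDegree_mul (pl 1).1 (mul_ne_zero (pl 2).1 (pl 4).1), natDegree_mul (pl 2).1 (pl 4).1,
          (pl 1).2.1, (pl 2).2.1, (pl 4).2.1]; decide)
    have := AddSubgroup.card_dvd_of_le (show Ng (TV t) (ps t u) ≤ Ng (TV t) (ps t z) from
      fun v _ => hz' v)
    rw [a2, ← e', b1, show q = 7 by omega] at this
    omega

end CF.Bk
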