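/-
The `2`-length is bounded by the derived length of a Sylow `2`-subgroup.
-/
import Cfsg.Agent.Fgs1.BkDer2
import Cfsg.Agent.Fgs2.HHDer
set_option autoImplicit false
set_option linter.unusedSectionVars false

namespace CF.Bk
open Module Subgroup Cfsg CF.BG CF.Fgs1 CF.Fgs2 Polynomial
open scoped commutatorElement

universe u
variable {H : Type u} [Group H] [Finite H] {k : Type*} [Field k] {W : Type*} [AddCommGroup W]
  [Module k W] {ρ : H →* End k W} {Q R S : Subgroup H} {η : H → k}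

theorem der_anti (S : Subgroup H) {i j : ℕ} (h : i ≤ j) : der S j ≤ der S i := by
  obtain ⟨c, rfl⟩ := Nat.exists_eq_add_of_le h
  rw [der_add]; exact Fgs2.der_le _ _

theorem KK.perm (t : IsType Q R η) (hS : IsPGroup 2 S) (n : S ≤ 𝐍 Q) (m : ℕ)
    (h : ∀ i < m, ¬ der S i ≤ StabCh R η) :
    ∀ v ∈ Submodule.span k {w | ∃ g ∈ der S m, ∃ u ∈ Wt ρ R η, w = ρ g u}, KK ρ S m v →
      proj ρ R η v = 0 := by
  induction m with
  | zero => exact fun v _ e => by rw [show v = 0 from e, map_zero]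
  | succ m ih =>
    intro v hv hK
    obtain ⟨s, hs, hs'⟩ := SetLike.not_le_iff_exists.1 fun e : der S m ≤
        der S m ⊓ StabCh R η ⊔ der S (m + 1) => h m m.lt_succ_self ((eq_of_le_sup_Phi inf_le_left
      (e.trans (sup_le_sup_left (piGrp_of_isPGroup Nat.prime_two
        (hS.to_le (Fgs2.der_le S m))).der_le_Phi _))).ge.trans inf_le_right)
    have key : proj ρ R η (ρ s v) = 0 ∧ ρ s v - v ∈
        Submodule.span k {w | ∃ g ∈ der S m, ∃ u ∈ Wt ρ R η, w = ρ g u} := by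
      clear hK
      induction hv using Submodule.span_induction with
      | mem w hw =>
        obtain ⟨g, hg, u, hu, rfl⟩ := hw
        have m1 := mul_mem hs (der_succ_le S m hg)
        rw [← End.mul_apply (ρ s), ← map_mul]
        exact ⟨(repOn_hom ρ).proj_type_eq_zero le_top t (mem_top _) (n (Fgs2.der_le _ _ m1))
          (fun e => hs' ((mul_mem_cancel_right (mem_sup_right hg)).1 (mem_sup_left ⟨m1, e⟩))) hu,
          sub_mem (Submodule.subset_span ⟨_, m1, u, hu, rfl⟩)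
            (Submodule.subset_span ⟨_, der_succ_le S m hg, u, hu, rfl⟩)⟩
      | zero => simp
      | add a b _ _ ha hb =>
        rw [map_add, map_add, ha.1, hb.1, add_zero, add_sub_add_comm]
        exact ⟨rfl, add_mem ha.2 hb.2⟩
      | smul c a _ ha =>
        rw [map_smul, map_smul, ha.1, smul_zero, ← smul_sub]
        exact ⟨rfl, Submodule.smul_mem _ c ha.2⟩
    have := ih (fun i hi => h i (hi.trans m.lt_succ_self)) _ key.2 (hK s hs)
    rwa [map_sub, key.1, zero_sub, neg_eq_zero] at this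

variable [CharP k 2]

theorem KK.eq_zero (t : IsType Q R η) (o : Odd (♯Q)) (hS : IsPGroup 2 S) (n : S ≤ 𝐍 Q) {m : ℕ}
    (h : ∀ i < m, ¬ der S i ≤ StabCh R η) {v : W} (hv : v ∈ Wt ρ R η) (hK : KK ρ S m v) : v = 0 := by
  have := KK.perm t hS n m h v (Submodule.subset_span ⟨1, one_mem _, v, hv, by simp⟩) hK
  rw [proj_of_mem t.char hv] at this
  exact (smul_eq_zero.1 this).resolve_left (cast_card_ne_zero (cast_odd o) t.le)

theorem KK.descend (t : IsType Q R η) (o : Odd (♯Q)) (hS : IsPGroup 2 S) (n : S ≤ 𝐍 Q) {j : ℕ}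
    (hj : der S j ≤ StabCh R η) (h : ∀ i < j, ¬ der S i ≤ StabCh R η) (m : ℕ) :
    ∀ v ∈ Wt ρ R η, KK ρ S (j + m) v → KK ρ (der S j) m v := by
  induction m with
  | zero => exact fun v hv hK => KK.eq_zero t o hS n h hv hK
  | succ m ih =>
    exact fun v hv hK s hs => ih _ (sub_mem ((repOn_hom ρ).map_wt_stab le_top (mem_top s)
      (hj (Fgs2.der_le _ _ hs)) hv) hv) (hK s (der_add S j m ▸ hs))

variable [IsAlgClosed k] [FiniteDimensional k W]

theorem der_loc (μ : TY ρ) (hS : IsPGroup 2 S) {l : ℕ} (hK : ∀ v, KK ρ S (l + 2) v)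
    (h2 : ∀ a ∈ der S (l + 1), a * a = 1) : der S (l + 1) ≤ TL μ.t ∧
    ((∀ a ∈ der S (l + 1), ps μ.t a = 1) ∨ der S l ≤ TL μ.t ∧ ∃ z : TG μ.t, Pn (TV μ.t) z ∧
      im μ.t (der S l) ≤ FS _ (Fx (TV μ.t) z)) := by
  classical
  have o := odd_of μ.hq μ.q2 μ.pQ
  have n := le_top.trans μ.n (a := S)
  have h1 : der S (l + 1) ≤ StabCh μ.R μ.η := by_contra fun e =>
    μ.ne ((Submodule.eq_bot_iff _).2 fun v hv => KK.eq_zero μ.t o hS n
      (fun i hi a => e ((der_anti S (Nat.le_of_lt_succ hi)).trans a)) hv (hK v))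
  refine ⟨le_inf (le_top.trans μ.n) h1, or_iff_not_imp_left.2 fun e => ?_⟩
  have ex : ∃ j, der S j ≤ StabCh μ.R μ.η := ⟨_, h1⟩
  obtain ⟨m, hm⟩ := Nat.exists_eq_add_of_le (Nat.find_min' ex h1)
  have hj := Nat.find_spec ex
  have hK' := fun v hv => KK.descend μ.t o hS n hj (fun i => Nat.find_min ex) (m + 1) v hv
    (by rw [← add_assoc, ← hm]; exact hK v)
  rw [hm, der_add] at h2 e
  generalize Nat.find ex = j at *
  have c : Cfg ρ μ.t (der S j) (Wt ρ μ.R μ.η) := ⟨hS.to_le (Fgs2.der_le _ _),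
    le_inf (le_top.trans μ.n) hj, μ.ne, le_rfl, (repOn_hom ρ).stab_type le_top μ.t,
    (repOn_hom ρ).stab_wt_of_le le_top le_top hj⟩
  have pi := piGrp_of_isPGroup Nat.prime_two (im_two μ.t c.two)
  obtain ⟨⟨_, hz0, cz⟩, z1⟩ := ne_bot_iff_exists_ne_one.1 (pi.inf_cent_ne_bot
    (pi.le (Fgs2.der_le _ m)) (norm_der' _ m) fun a => e fun x hx => a.le
      (im_der μ.t c.le m ▸ ps_mem_im μ.t hx (c.le (Fgs2.der_le _ _ hx))))
  obtain ⟨z, hz, hz', rfl⟩ := (mem_im _).1 (im_der μ.t c.le m ▸ hz0)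
  replace z1 : ps μ.t z ≠ 1 := fun a => z1 (Subtype.ext a)
  have zz : ps μ.t z * ps μ.t z = 1 := by rw [← ps_mul _ hz' hz', h2 z hz, ps_one]
  replace cz : ∀ x ∈ der S j, Commute (ps μ.t x) (ps μ.t z) := fun x hx =>
    cz _ (ps_mem_im _ hx (c.le hx))
  obtain ⟨U, lU, c, r⟩ := c.red o
  obtain ⟨rfl, h9⟩ := plocal μ.hq μ.q2 m (μ.pQ.to_le (pre_le μ.t _))
    (t := isType_pre μ.t fun _ => μ.sy.nd_ng zz) ⟨c.two, fun x hx => ⟨norm_pre _ (c.le hx)
      fun a ha => ng_of_comm (cz x hx) ha, (c.le hx).2⟩, c.ne, c.wt,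
      fun a ha => c.sQ a ha.1, c.sX⟩ z hz (fun a ha => (neg_iff μ.t hz' ha.1).1 ha.2)
    (fun e => z1 (μ.sy.ext_ng zz (fun v hv => by
      obtain ⟨a, ha, rfl⟩ := mk_surj μ.t v
      rw [(mk_eq_zero _ ha).2 (e ⟨ha, hv⟩), smul_zero, smul_zero]) fun v hv => by
      rw [hv, one_smul])) fun v hv => hK' v (lU hv) z hz
  obtain rfl : l = j := by omega
  have c0 := c.sub r o (Fgs2.der_le _ _ hz) zz z1 le_rfl cz
  refine ⟨c.le, _, ⟨zz, 3, Nat.prime_three, (relIndex_pre _ _).symm.trans h9⟩, fun x hx => ?_⟩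
  obtain ⟨x, hx0, hx', rfl⟩ := (mem_im _).1 hx
  refine mem_fs.2 fun v hv => ?_
  obtain ⟨a, ha, rfl⟩ := mk_surj μ.t v
  refine (comm_mem_of_ps μ.t hx' ha).2
    (comm_mem_of_fix (isType_pre μ.t fun _ => μ.sy.nd_fx zz) c0.ne c0.wt c0.sQ (c0.le hx0).1 ?_ a ⟨ha, hv⟩)
  rintro _ ⟨v, hv, rfl⟩
  exact sub_eq_zero.1 (hK' v (lU hv) z hz x hx0)

variable [Group.IsSolvable H]

theorem der_step (h0 : pCore 2 H = ⊥) (hρ : Function.Injective ρ) {l : ℕ}
    (hK : ∀ S : Subgroup H, IsPGroup 2 S → ∀ v, KK ρ S (l + 2) v)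
    (h2 : ∀ S : Subgroup H, IsPGroup 2 S → ∀ a ∈ der S (l + 1), a * a = 1)
    (ih : ∀ (G : Type u) [Group G] [Finite G] [Group.IsSolvable G], DerLE 2 (l + 1) G →
      PLengthLE 2 (l + 1) G) : PLengthLE 2 (l + 1) H := by
  haveI := Fact.mk Nat.prime_two
  have ex := fun S hS (μ : TY ρ) => der_loc μ hS (hK S hS) (h2 S hS)
  have inv : ∀ S : Subgroup H, IsPGroup 2 S → ∀ μ : TY ρ, ∀ a ∈ der S (l + 1), ps μ.t a * ps μ.t a = 1 :=
    fun S hS μ a ha => by
      rw [← ps_mul _ ((ex S hS μ).1 ha) ((ex S hS μ).1 ha), h2 S hS a ha, ps_one]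
  have s : ES ρ fun M => {e | ∃ S ≤ M, IsPGroup 2 S ∧ e ∈ der S (l + 1)} :=
    { h0 := h0
      inj := hρ
      top := fun _ _ ⟨S, _, h⟩ => ⟨S, le_top, h⟩
      conj := by
        rintro M g hg e ⟨S, hS, p, he⟩
        exact ⟨S.map (MulAut.conj g).toMonoidHom, by
          rintro _ ⟨x, hx, rfl⟩; exact mul_mem (mul_mem hg (hS hx)) (inv_mem hg), p.map _,
          map_der S (MulAut.conj g).toMonoidHom _ ▸ mem_map_of_mem _ he⟩
      mem := by
        rintro M e ⟨S, hS, p, he⟩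
        exact ⟨hS (Fgs2.der_le _ _ he), exists_pow_of_mem p (Fgs2.der_le _ _ he)⟩
      loc := by
        rintro M e ⟨S, hS, p, he⟩ μ
        refine ⟨(ex S p μ).1 he, or_iff_not_imp_left.2 fun e1 => ?_⟩
        obtain ⟨a, z, hz, b⟩ := (ex S p μ).2.resolve_left fun a => e1 (a e he)
        have m := ps_mem_im _ he ((ex S p μ).1 he)
        obtain rfl := (μ.sy.eq_or_of_fs hz (b (im_mono _ (der_succ_le S l) m))
          (inv S p μ e he)).resolve_left e1
        obtain ⟨_, hw, e2⟩ := exists_root (im_two _ (p.to_le (Fgs2.der_le S l)))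
          (fun w hw => μ.sy.eq_or_of_fs hz (b hw)) (im_comm _ a a ▸ m) e1
        obtain ⟨w, hw', h, rfl⟩ := (mem_im _).1 hw
        exact ⟨w, hS (Fgs2.der_le _ _ hw'), h, ⟨e2 ▸ hz, e2 ▸ mem_fs.1 (b hw)⟩, e2⟩ }
  refine s.final fun T D hD pD ld s1 s2 s3 => ?_
  have hL : ∀ μ : TY ρ, D ≤ TL μ.t := hD ▸ s.le_TL _
  have mD : ∀ S ≤ 𝐍 T, IsPGroup 2 S → der S (l + 1) ≤ D := fun S hS p x hx =>
    hD ▸ Subgroup.subset_closure ⟨S, hS, p, hx⟩
  have key : ∀ S : Subgroup H, IsPGroup 2 S → ∀ μ : TY ρ, ∀ x ∈ der S l, ∀ b ∈ der S l, ps μ.t ⁅x, b⁆ ≠ 1 →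
      x ∈ TL μ.t ∧ ps μ.t x * ps μ.t x ≠ 1 ∧
        ∃ i, ps μ.t x ^ i * ps μ.t x ^ i = ps μ.t ⁅x, b⁆ := fun S p μ x hx b hb e => by
    have m := commutator_mem_commutator hx hb
    obtain ⟨a, z, hz, c⟩ := (ex S p μ).2.resolve_left fun a => e (a _ m)
    have m1 := c (ps_mem_im _ hx (a hx))
    have h1 : ps μ.t x * ps μ.t x ≠ 1 := fun h => e (by
      rw [ps_comm _ (a hx) (a hb), commutatorElement_eq_one_iff_commute]
      rcases μ.sy.eq_or_of_fs hz m1 h with h | h <;> rw [h]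
      exacts [Commute.one_left _, (μ.sy.comm_of_fs hz.1 (c (ps_mem_im _ hb (a hb)))).symm])
    obtain ⟨n, hn⟩ := exists_pow_of_mem p (Fgs2.der_le _ _ hx)
    rw [(μ.sy.eq_or_of_fs hz (c (ps_mem_im _ (der_succ_le S l m) (a (der_succ_le S l m))))
      (inv S p μ _ m)).resolve_left e]
    exact ⟨a hx, h1, root_of_unique (fun w => μ.sy.eq_or_of_fs hz) m1
      (by rw [← ps_pow _ (a hx), hn, ps_one]) h1⟩
  haveI := s1.solv
  haveI := s2.solv
  haveI := s3.solv
  refine ⟨ih _ (s1.der fun S hS p l1 => ⟨?_, ?_⟩), ih _ (s2.der fun S hS p l1 => ⟨?_, ?_⟩),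
    ih _ (s3.der fun S hS p l1 => ⟨?_, ?_⟩)⟩
  · exact (commutator_mono inf_le_right le_rfl).trans (mD S hS p)
  · exact (commutator_mono (mD S hS p) le_rfl).trans (comm_le_left (s1.le.trans s1.nY))
  · refine commutator_le.2 fun x hx b hb => (mem_ZD hL).2
      ⟨mD S hS p (commutator_mem_commutator hx.2 hb), fun μ => ?_⟩
    by_cases e : ps μ.t ⁅x, b⁆ = 1
    · rw [e]; exact one_mem _
    obtain ⟨a, -, i, hi⟩ := key S p μ x hx.2 b hb e
    exact hi ▸ (ld μ).sq_mem (pow_mem (ps_mem_im _ hx.1 a) i)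
  · exact (commutator_mono (mD S hS p) le_rfl).trans (der_le_ZD hL)
  · refine commutator_le.2 fun x hx b hb => ?_
    have m := mD S hS p (commutator_mem_commutator hx.2 hb)
    exact faith h0 hρ (exists_pow_of_mem pD m) fun μ => ⟨hL μ m, by_contra fun e =>
      (key S p μ x hx.2 b hb e).2.1 ((ld μ).der_le (((mem_ZD hL).1 hx.1).2 μ)).2.1⟩
  · refine commutator_le.2 fun x hx u hu => ?_
    have m := mD S hS p hx
    have m' := CF.BG.der_le D (commutator_mem_commutator m hu.1)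
    refine faith h0 hρ (exists_pow_of_mem pD m') fun μ => ⟨hL μ m', ?_⟩
    rw [ps_comm _ (hL μ m) (hL μ hu.1), commutatorElement_eq_one_iff_commute]
    exact ((ld μ).comm_of ((ld μ).der_le (((mem_ZD hL).1 hu).2 μ)).2.2
      (ps_mem_im _ m (hL μ m))).symm

theorem der_quot {G : Type u} [Group G] [Finite G] [Group.IsSolvable G]
    (hc : 𝐂 (pCore 2 G) ≤ pCore 2 G) {d : ℕ} (h : DerLE 2 (d + 1) G)
    (ih : ∀ (G : Type u) [Group G] [Finite G] [Group.IsSolvable G], DerLE 2 d G →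
      PLengthLE 2 d G) : PLengthLE 2 d (G ⧸ pCore 2 G) := by
  haveI := Fact.mk Nat.prime_two
  have lift : ∀ T : Subgroup (G ⧸ pCore 2 G), IsPGroup 2 T → ∃ S : Subgroup G, IsPGroup 2 S ∧
      pCore 2 G ≤ S ∧ ∀ n, der T n = (der S n).map (QuotientGroup.mk' _) := fun T hT =>
    ⟨T.comap (QuotientGroup.mk' _), hT.comap_of_ker_isPGroup _
      (by rw [QuotientGroup.ker_mk']; exact CF.Solv.pCore_isPGroup), CF.Solv.le_comap_mk' _ _,
      fun n => by rw [map_der, map_comap_eq_self_of_surjective (QuotientGroup.mk'_surjective _)]⟩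
  rcases d with _ | l
  · refine ih _ fun T hT => ?_
    obtain ⟨S, hS, hP, e⟩ := lift T hT
    rw [e, Subgroup.map_eq_bot_iff, QuotientGroup.ker_mk']
    exact ((CF.BG.der_eq_bot.1 (h S hS)).cent le_rfl hP).trans hc
  obtain ⟨U, σ, D⟩ := exists_dual hc
  have hP : ∀ {b v : G}, v ∈ pCore 2 G → ⁅b, v⁆ ∈ pCore 2 G := fun hv =>
    commutator_le_right ⊤ _ (commutator_mem_commutator (mem_top _) hv)
  refine der_step CF.Solv.pCore_quotient_pCore D.inj (fun T hT => ?_) (fun T hT => ?_) ih <;>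
    obtain ⟨S, hS, l1, e⟩ := lift T hT
  · have key : ∀ n, ∀ w : U, (∀ x ∈ pCore 2 G, x ∈ der S n → w.1 x = 0) → KK σ T n w := by
      intro n
      induction n with
      | zero => exact fun w a => D.ext w fun x hx => a x hx (l1 hx)
      | succ n ih =>
        intro w a s hs
        rw [e] at hs
        obtain ⟨s, hs, rfl⟩ := hs
        exact ih _ fun x hx hx' => (D.comm s w hx).trans
          (a _ (hP hx) (commutator_mem_commutator (inv_mem hs) hx'))
    exact fun w => key _ w fun x _ hx => by rw [(h S hS).le hx, D.one]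
  · rw [e]
    rintro _ ⟨a, ha, rfl⟩
    have h1 : (σ a - 1) * (σ a - 1) = 0 := LinearMap.ext fun w => D.ext _ fun v hv => by
      rw [End.mul_apply, D.comm _ _ hv, D.comm _ _ (hP hv), (h S hS).le
        (commutator_mem_commutator (inv_mem ha) (comm_le_left (l1.trans (norm_der' _ _))
          (commutator_mem_commutator (inv_mem ha) hv))), D.one]
    have : aeval (σ a) ((X - 1) ^ 2 : (kp 2)[X]) = 0 := by
      rw [map_pow, map_sub, aeval_X, map_one, sq, h1]
    rw [sub_pow_char, one_pow, map_sub, map_pow, aeval_X, map_one, sub_eq_zero] at this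
    exact D.inj (by rw [map_mul, map_one, ← this, sq]; rfl)

theorem pLen_der (d : ℕ) : ∀ (G : Type u) [Group G] [Finite G] [Group.IsSolvable G],
    DerLE 2 d G → PLengthLE 2 d G := by
  haveI := Fact.mk Nat.prime_two
  induction d with
  | zero =>
    exact fun G _ _ _ a => pLen_zero_iff.2 (ExpLE.coprime fun x ⟨_, hm⟩ => by
      simpa using (a _ (isPGroup_zpowers hm)).le (mem_zpowers x))
  | succ d ih =>
    exact fun G _ _ _ h => pLen_of_quotient_coprime (pLen_of_quotient_pGroup (der_quot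
      (CF.Solv.centralizer_pCore_le CF.Solv.pPrimeCore_quotient_pPrimeCore)
      (h.of_surjective (QuotientGroup.mk'_surjective _)) ih) CF.Solv.pCore_isPGroup)
      CF.Solv.pPrimeCore_coprime

end CF.Bk
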