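import Cfsg.Agent.Char.FrobSchur
import Cfsg.Agent.Char.Kernel
import Cfsg.Agent.Clifford.Det

/-! Groups with an element `u` such that `χ 1 - χ u = 4` or `χ u = 0` for all `χ ≠ 1`. -/

set_option autoImplicit false
set_option linter.unusedSectionVars false

namespace CF.Fgs1
open CF.Char Cfsg
open scoped ComplexConjugate _root_.Classical

variable {G : Type*} [Group G] [Fintype G] {u g : G} {Θ χ ψ η ρ φ H H' : G → ℂ} {d e v w : ℤ}

local notation "⟪" a ", " b "⟫" => classInner a b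
local notation "Ch" => IsCharacter G
local notation "Ir" => IsIrrCharacter G

theorem ip_mul (a b c : G → ℂ) : ⟪a * b, c⟫ = ⟪a, star b * c⟫ := inner_mul_left a b c
theorem ch_star (h : Ch Θ) : Ch (star Θ) := char_conj h
theorem ir_star (h : Ir Θ) : Ir (star Θ) := irr_conj h
theorem ir_one : Ir (1 : G → ℂ) := irr_one
theorem ip_star (a b : G → ℂ) : ⟪star a, star b⟫ = ⟪b, a⟫ := inner_conj_conj a b

theorem exists_roots_det (h : Ch Θ) {n : ℕ} (hn : Θ 1 = n) (g : G) : ∃ ω : Fin n → ℂ,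
    (∀ i, ω i * conj (ω i) = 1) ∧ Θ g = ∑ i, ω i ∧ Θ (g * g) = ∑ i, ω i ^ 2 ∧
      Clifford.detHom h g = ∏ i, ω i := by
  obtain ⟨m, r, rfl⟩ := id h
  obtain ⟨b, ω, h1, h2, h3⟩ := exists_eigenbasis_rep r (isOfFinOrder_of_finite g)
  have e : Module.finrank ℂ (Fin m → ℂ) = n := by exact_mod_cast r.char_one.symm.trans hn
  subst e
  refine ⟨ω, fun i => ?_, by simpa using h3 1, by simpa [sq] using h3 2, ?_⟩
  · rw [Complex.mul_conj, Complex.normSq_eq_norm_sq,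
      norm_eq_one_of_pow_eq_one' (orderOf_pos g).ne' (h1 i)]; simp
  · exact (Clifford.detChar_character r g).trans
      (Clifford.det_eq_prod_of_eigenbasis b (r g) ω (by simpa using h2 1))

/-- the hypothesis -/
def H4 (u : G) : Prop := ∀ χ, IsIrrCharacter G χ → χ ≠ 1 → χ 1 - χ u = 4 ∨ χ u = 0

theorem H4.lin (h : H4 u) (l : G →* ℂˣ) (g : G) : (l g : ℂ) = 1 := by
  by_contra c
  rcases h _ (irr_linear l) (fun e => c (congrFun e g)) with k | k
  · have := linear_norm l u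
    rw [show (l u : ℂ) = -3 by simp at k; linear_combination -k] at this
    norm_num at this
  · exact (l u).ne_zero k

theorem H4.eq_one (h : H4 u) (c : Ch χ) (e : χ 1 = 1) : χ = 1 := by
  obtain ⟨l, rfl⟩ := exists_linear_of_one c e
  exact funext (h.lin l)

theorem H4.sq2 (h : H4 u) (c : Ch χ) (e : χ 1 = 2) (g : G) : χ (g * g) = χ g ^ 2 - 2 := by
  obtain ⟨ω, -, h1, h2, h3⟩ := exists_roots_det c (n := 2) e g
  rw [h.lin] at h3
  simp only [Fin.sum_univ_two, Fin.prod_univ_two] at h1 h2 h3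
  rw [h1, h2]; linear_combination 2 * h3

theorem H4.sq3 (h : H4 u) (c : Ch χ) (e : χ 1 = 3) (g : G) :
    χ (g * g) = χ g ^ 2 - 2 * conj (χ g) := by
  obtain ⟨ω, h0, h1, h2, h3⟩ := exists_roots_det c (n := 3) e g
  rw [h.lin] at h3
  simp only [Fin.sum_univ_three, Fin.prod_univ_three] at h1 h2 h3
  rw [h1, h2, map_add, map_add]
  linear_combination (2 * (ω 0 * ω 1 + ω 0 * ω 2 + ω 1 * ω 2) - 2 * (ω 0 * ω 1 + ω 0 * ω 2 + ω 1 * ω 2)) * h3
    + 2 * (conj (ω 0) + conj (ω 1) + conj (ω 2)) * h3 + 2 * ω 1 * ω 2 * h0 0 + 2 * ω 0 * ω 2 * h0 1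
    + 2 * ω 0 * ω 1 * h0 2

theorem H4.not_mem (h : H4 u) (c : Ir χ) (n : χ ≠ 1) : χ u ≠ χ 1 := fun e => by
  rcases h χ c n with k | k
  · rw [e] at k; norm_num at k
  · exact irr_one_ne_zero c (e ▸ k)

theorem ip_sq (c : Ir χ) : ⟪χ * star χ, 1⟫ = 1 := by
  rw [ip_mul, star_star, mul_one, inner_irr_self c]

theorem H4.no2 (h : H4 u) (c : Ir χ) (e : χ 1 = 2) : χ u ≠ -2 := fun k => by
  have c1 := char_mul (irr_isCharacter c) (ch_star (irr_isCharacter c))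
  have c2 := char_sub_of_inner_ne_zero c1 ir_one (by rw [ip_sq c]; exact one_ne_zero)
  obtain ⟨φ, hφ, n⟩ := exists_irr_inner_ne_zero (char_isClassFunction c2)
    fun z => by have := congrFun z 1; simp [e] at this; norm_num at this
  refine h.not_mem hφ (fun z => n ?_) ((mem_charKer_iff (irr_isCharacter hφ)).1
    (charKer_le_of_inner_ne_zero c2 hφ n ((mem_charKer_iff c2).2 (by simp [e, k]))))
  rw [z, Char.inner_sub_left, ip_sq c, inner_irr_self ir_one, sub_self]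

/-- a character of degree `d` with value `v` at `u` and `u ^ 2` in the kernel -/
structure Ty (u : G) (d v : ℤ) (Θ : G → ℂ) : Prop where
  ch : IsCharacter G Θ
  deg : Θ 1 = d
  val : Θ u = v
  sq : Θ (u * u) = d

theorem Ty.nonneg (h : Ty u d v Θ) : 0 ≤ d := by
  obtain ⟨n, e⟩ := char_one_eq_nat h.ch
  rw [h.deg] at e
  have : d = n := by exact_mod_cast e
  omega

theorem Ty.zero (h : Ty u 0 v Θ) : Θ = 0 := char_eq_zero_of_one_eq_zero h.ch (by simpa using h.deg)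

theorem Ty.star (h : Ty u d v Θ) : Ty u d v (star Θ) :=
  ⟨ch_star h.ch, by simp [h.deg], by simp [h.val], by simp [h.sq]⟩

theorem Ty.mul (h : Ty u d v Θ) (k : Ty u e w χ) : Ty u (d * e) (v * w) (Θ * χ) :=
  ⟨char_mul h.ch k.ch, by simp [h.deg, k.deg], by simp [h.val, k.val], by simp [h.sq, k.sq]⟩

theorem Ty.sub' (h : Ty u d v Θ) (k : Ty u e w χ) (c : Ch (Θ - χ)) : Ty u (d - e) (v - w) (Θ - χ) :=
  ⟨c, by simp [h.deg, k.deg], by simp [h.val, k.val], by simp [h.sq, k.sq]⟩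

theorem Ty.sub (h : Ty u d v Θ) (k : Ty u e w χ) (c : Ir χ) (n : ⟪Θ, χ⟫ ≠ 0) :
    Ty u (d - e) (v - w) (Θ - χ) := h.sub' k (char_sub_of_inner_ne_zero h.ch c n)

theorem ty_one : Ty u 1 1 (1 : G → ℂ) := ⟨char_const_one, by simp, by simp, by simp⟩

theorem Ty.ne (h : Ty u d v Θ) (k : Ty u e w χ) (n : d ≠ e) : Θ ≠ χ := fun c =>
  n (by exact_mod_cast h.deg.symm.trans (c ▸ k.deg))

theorem Ty.ip (h : Ty u d v Θ) (k : Ty u e w χ) (a : Ir Θ) (b : Ir χ) (n : d ≠ e) : ⟪Θ, χ⟫ = 0 :=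
  inner_irr_ne a b (h.ne k n)

theorem H4.cases (h : H4 u) (c : Ir χ) (n : χ ≠ 1) (s : χ (u * u) = χ 1) :
    ∃ d v, Ty u d v χ ∧ 3 ≤ d ∧ (v = d - 4 ∨ v = 0 ∧ 4 ≤ d) := by
  have ch := irr_isCharacter c
  obtain ⟨m, m0, e⟩ := irr_one_eq_nat c
  have m1 : m ≠ 1 := fun k => n (h.eq_one ch (by simp [e, k]))
  rcases h χ c n with k | k
  · refine ⟨m, m - 4, ⟨ch, e, by push_cast; linear_combination e - k, s.trans e⟩, ?_, .inl rfl⟩
    by_contra l
    obtain rfl : m = 2 := by omega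
    exact h.no2 c e (by push_cast at e; linear_combination e - k)
  · have m2 : m ≠ 2 := by
      rintro rfl
      rw [h.sq2 ch e, k, e] at s; norm_num at s
    have m3 : m ≠ 3 := by
      rintro rfl
      rw [h.sq3 ch e, k, e] at s; norm_num at s
    exact ⟨m, 0, ⟨ch, e, by simpa, s.trans e⟩, by omega, .inr ⟨rfl, by omega⟩⟩

theorem H4.peel (h : H4 u) (t : Ty u d v Θ) (o : ⟪Θ, 1⟫ = 0) (n : d ≠ 0) :
    ∃ χ e w, Ir χ ∧ Ty u e w χ ∧ 3 ≤ e ∧ (w = e - 4 ∨ w = 0 ∧ 4 ≤ e) ∧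
      Ty u (d - e) (v - w) (Θ - χ) ∧ ⟪Θ - χ, 1⟫ = 0 := by
  obtain ⟨φ, hφ, k⟩ := exists_irr_inner_ne_zero (char_isClassFunction t.ch)
    fun z => n (by have := t.deg; rw [z, Pi.zero_apply] at this; exact_mod_cast this.symm)
  have n1 : φ ≠ 1 := fun z => k (z ▸ o)
  obtain ⟨e, w, a, b, c⟩ := h.cases hφ n1 ((mem_charKer_iff (irr_isCharacter hφ)).1
    (charKer_le_of_inner_ne_zero t.ch hφ k ((mem_charKer_iff t.ch).2 (t.sq.trans t.deg.symm))))
  exact ⟨φ, e, w, hφ, a, b, c, t.sub a hφ k, by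
    rw [Char.inner_sub_left, o, inner_irr_ne hφ ir_one n1, sub_self]⟩

theorem H4.small (h : H4 u) (t : Ty u d v Θ) (o : ⟪Θ, 1⟫ = 0) (n : d ≠ 0) (l : d ≤ 5) :
    Ir Θ ∧ 3 ≤ d ∧ (v = d - 4 ∨ v = 0 ∧ 4 ≤ d) := by
  obtain ⟨χ, e, w, a, b, c, k, t2, o2⟩ := h.peel t o n
  by_cases z : d - e = 0
  · rw [z] at t2
    obtain rfl := sub_eq_zero.1 t2.zero
    obtain rfl := sub_eq_zero.1 z
    obtain rfl : v = w := by exact_mod_cast t.val.symm.trans b.val
    exact ⟨a, c, k⟩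
  · obtain ⟨_, _, _, -, -, c2, -, t3, -⟩ := h.peel t2 o2 z
    have := t3.nonneg
    omega

theorem H4.six (h : H4 u) (t : Ty u 6 2 Θ) (o : ⟪Θ, 1⟫ = 0) : Ir Θ := by
  obtain ⟨χ, e, w, a, b, c, k, t2, o2⟩ := h.peel t o (by decide)
  by_cases z : 6 - e = 0
  · rw [z] at t2
    exact sub_eq_zero.1 t2.zero ▸ a
  · have := h.small t2 o2 z (by omega)
    omega

theorem H4.neg (h : H4 u) (n : ℕ) : ∀ {d v : ℤ} {Θ}, d < n → Ty u d v Θ → ⟪Θ, 1⟫ = 0 → v < 0 →
    ∃ χ, Ir χ ∧ Ty u 3 (-1) χ ∧ Ty u (d - 3) (v + 1) (Θ - χ) ∧ ⟪Θ - χ, 1⟫ = 0 := by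
  induction n with
  | zero => exact fun l t => by have := t.nonneg; omega
  | succ n ih =>
    intro d v Θ l t o k
    obtain ⟨χ, e, w, a, b, c, j, t2, o2⟩ := h.peel t o (by
      rintro rfl
      have := t.val
      rw [t.zero, Pi.zero_apply] at this
      have : 0 = v := by exact_mod_cast this
      omega)
    by_cases z : e = 3
    · obtain rfl : w = -1 := by omega
      subst z
      exact ⟨χ, a, b, by simpa using t2, o2⟩
    obtain ⟨ψ, a2, b2, t3, o3⟩ := ih (by omega) t2 o2 (by omega)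
    have e1 : Θ - ψ = Θ - χ - ψ + χ := by ring
    refine ⟨ψ, a2, b2, by simpa using t.sub' b2 (e1 ▸ char_add t3.ch b.ch), ?_⟩
    rw [Char.inner_sub_left, o, b2.ip ty_one a2 ir_one (by decide), sub_self]

theorem ip_ne (a : Ch Θ) (b : Ir χ) : ⟪Θ + χ, χ⟫ ≠ 0 := by
  obtain ⟨n, e⟩ := inner_char_eq_nat a (irr_isCharacter b)
  rw [Char.inner_add_left, e, inner_irr_self b]
  exact_mod_cast n.succ_ne_zero

theorem H4.real (h : H4 u) (c : Ir χ) (t : Ty u 3 (-1) χ) : star χ = χ := by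
  by_contra nr
  have cs := ir_star c
  have s := h.sq3 t.ch t.deg
  obtain ⟨σ, hσ⟩ : ∃ σ, σ = χ * χ - star χ := ⟨_, rfl⟩
  have tσ : Ty u 6 2 σ := hσ ▸ (t.mul t).sub' t.star (by
    convert char_symSq t.ch using 2; simp [s]; ring)
  have o1 := t.ip ty_one c ir_one (by decide)
  have o2 := t.star.ip ty_one cs ir_one (by decide)
  have iσ := h.six tσ (by
    rw [hσ, Char.inner_sub_left, ip_mul, mul_one, inner_irr_ne c cs (Ne.symm nr), o2, sub_self])
  obtain ⟨θ, hθ⟩ : ∃ θ, θ = χ * star χ - 1 := ⟨_, rfl⟩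
  have tθ : Ty u 8 0 θ := hθ ▸ (t.mul t.star).sub ty_one ir_one (by rw [ip_sq c]; exact one_ne_zero)
  have oθ : ⟪θ, 1⟫ = 0 := by rw [hθ, Char.inner_sub_left, ip_sq c, inner_irr_self ir_one, sub_self]
  have e1 : χ * star χ = θ + 1 := by rw [hθ]; ring
  have e2 : χ * χ = σ + star χ := by rw [hσ]; ring
  have iθ : Ir θ := (irr_iff_inner_self tθ.ch).2 (by
    have : ⟪χ * star χ, χ * star χ⟫ = ⟪χ * χ, χ * χ⟫ := by
      rw [ip_mul, ip_mul, star_star]; congr 1; ring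
    rw [e1, e2] at this
    simp only [Char.inner_add_left, Char.inner_add_right, oθ, (inner_eq_zero_comm _ _).1 oθ,
      inner_irr_self ir_one, inner_irr_self iσ, inner_irr_self cs,
      tσ.ip t.star iσ cs (by decide), t.star.ip tσ cs iσ (by decide)] at this
    linear_combination this)
  have sθ : star θ = θ := by rw [hθ]; simp [mul_comm]
  have n1 : ⟪σ * χ, θ⟫ ≠ 0 := by
    have e : χ * θ = (fun g => (σ g ^ 2 - σ (g * g)) / 2) + χ + star σ := by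
      ext g; simp [hθ, hσ, s]; ring
    rw [ip_mul, ← ip_star, star_mul', star_star, sθ, e]
    exact ip_ne (char_add (char_altSq tσ.ch) t.ch) (ir_star iσ)
  have tY := (tσ.mul t).sub tθ iθ n1
  obtain ⟨ρ1, i1, t1, tY1, oY1⟩ := h.neg 11 (by decide) tY (by
    rw [Char.inner_sub_left, ip_mul, mul_one, tσ.ip t.star iσ cs (by decide), oθ, sub_self]) (by decide)
  obtain ⟨ρ2, i2, t2, tη, oη⟩ := h.neg 11 (by decide) tY1 oY1 (by decide)
  obtain ⟨η, hη⟩ : ∃ η, η = σ * χ - θ - ρ1 - ρ2 := ⟨_, rfl⟩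
  rw [← hη] at tη oη
  replace tη : Ty u 4 0 η := tη
  have iη := (h.small tη oη (by decide) (by decide)).1
  have n2 : ⟪star χ * η, σ⟫ ≠ 0 := by
    rw [Ne, inner_eq_zero_comm, ← ip_mul, show σ * χ = θ + ρ1 + ρ2 + η by rw [hη]; ring]
    exact ip_ne (char_add (char_add tθ.ch t1.ch) t2.ch) iη
  have tZ := (t.star.mul tη).sub tσ iσ n2
  obtain ⟨ρ3, i3, t3, tZ1, oZ1⟩ := h.neg 11 (by decide) tZ (by
    rw [Char.inner_sub_left, mul_comm, ip_mul, star_star, mul_one, tη.ip t iη c (by decide),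
      tσ.ip ty_one iσ ir_one (by decide), sub_self]) (by decide)
  obtain ⟨ρ4, h4⟩ : ∃ ρ4, ρ4 = star χ * η - σ - ρ3 := ⟨_, rfl⟩
  rw [← h4] at tZ1 oZ1
  replace tZ1 : Ty u 3 (-1) ρ4 := tZ1
  have i4 := (h.small tZ1 oZ1 (by decide) (by decide)).1
  have tW := (tη.mul tη.star).sub ty_one ir_one (by rw [ip_sq iη]; exact one_ne_zero)
  obtain ⟨m, hm⟩ := inner_char_eq_nat tW.ch tθ.ch
  obtain ⟨k, hk⟩ := inner_char_eq_nat t3.ch tZ1.ch
  have e3 : ⟪star χ * η, star χ * η⟫ = 1 + m := by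
    rw [mul_comm _ η, ip_mul, star_star, mul_left_comm, e1, ← star_star η, ← ip_mul, star_star,
      Char.inner_add_right, ip_sq iη, ← hm, Char.inner_sub_left, (inner_eq_zero_comm _ _).1 oθ]
    ring
  rw [show star χ * η = σ + ρ3 + ρ4 by rw [h4]; ring] at e3
  simp only [Char.inner_add_left, Char.inner_add_right, inner_irr_self iσ, inner_irr_self i3,
    inner_irr_self i4, tσ.ip t3 iσ i3 (by decide), tσ.ip tZ1 iσ i4 (by decide),
    t3.ip tσ i3 iσ (by decide), tZ1.ip tσ i4 iσ (by decide), inner_char_comm tZ1.ch t3.ch, hk] at e3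
  have e4 : m = 2 + 2 * k := by
    have : (m : ℂ) = 2 + 2 * k := by linear_combination -e3
    exact_mod_cast this
  obtain ⟨j, hj⟩ := char_one_eq_nat (char_sub_inner_smul tW.ch iθ)
  rw [hm, Pi.sub_apply, tW.deg, Pi.smul_apply, tθ.deg] at hj
  have : (15 : ℂ) = j + m * 8 := by simp at hj; linear_combination hj
  have : 15 = j + m * 8 := by exact_mod_cast this
  omega

/-- the exterior square -/
noncomputable def alt (H : G → ℂ) : G → ℂ := fun g => (H g ^ 2 - H (g * g)) / 2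

/-- a character of degree three -/
structure T3 (u : G) (χ H : G → ℂ) : Prop where
  ir : IsIrrCharacter G χ
  ty : Ty u 3 (-1) χ
  re : star χ = χ
  irH : IsIrrCharacter G H
  tyH : Ty u 5 1 H
  sq : χ * χ = 1 + χ + H
  mul : χ * H = H + alt H

theorem H4.t3 (h : H4 u) (c : Ir χ) (t : Ty u 3 (-1) χ) : ∃ H, T3 u χ H := by
  have r := h.real c t
  have s : ∀ g, χ (g * g) = χ g ^ 2 - 2 * χ g := fun g => by
    rw [h.sq3 t.ch t.deg, show conj (χ g) = χ g from congrFun r g]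
  have o1 := t.ip ty_one c ir_one (by decide)
  have o2 : ⟪χ * χ - χ, 1⟫ = 1 := by
    rw [Char.inner_sub_left, ip_mul, mul_one, r, inner_irr_self c, o1, sub_zero]
  have tH := ((t.mul t).sub' t (by convert char_symSq t.ch using 2; simp [s]; ring)).sub ty_one
    ir_one (by rw [o2]; exact one_ne_zero)
  refine ⟨_, c, t, r, (h.small tH (by rw [Char.inner_sub_left, o2, inner_irr_self ir_one, sub_self])
    (by decide) (by decide)).1, tH, by ring, ?_⟩
  ext g; simp [alt, s]; ring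

theorem T3.reH (a : T3 u χ H) : star H = H := by
  rw [show H = χ * χ - 1 - χ by rw [a.sq]; ring]; simp [a.re]

theorem T3.ip_alt (a : T3 u χ H) : ⟪alt H, χ⟫ = 1 := by
  rw [show alt H = H * χ - H by rw [mul_comm, a.mul]; ring, Char.inner_sub_left, ip_mul, a.re, a.sq]
  simp [Char.inner_add_right, inner_irr_self a.irH, a.tyH.ip a.ty a.irH a.ir,
    a.tyH.ip ty_one a.irH ir_one]

theorem T3.norm (a : T3 u χ H) (b : T3 u ψ H') :
    ⟪χ * ψ, χ * ψ⟫ = 1 + ⟪χ, ψ⟫ + ⟪H, H'⟫ := by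
  have : ⟪χ * ψ, χ * ψ⟫ = ⟪χ * χ, ψ * ψ⟫ := by rw [ip_mul, ip_mul, a.re, b.re]; congr 1; ring
  rw [this, a.sq, b.sq]
  simp [Char.inner_add_right, Char.inner_add_left, inner_irr_self ir_one,
    a.tyH.ip b.ty a.irH b.ir, a.tyH.ip ty_one a.irH ir_one, a.ty.ip b.tyH a.ir b.irH,
    a.ty.ip ty_one a.ir ir_one, ty_one.ip b.ty ir_one b.ir, ty_one.ip b.tyH ir_one b.irH]

/-- the characters of `A₅` -/
structure T5 (u : G) (χ ψ η H : G → ℂ) : Prop where
  a : T3 u χ H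
  b : T3 u ψ H
  ne : χ ≠ ψ
  ir : IsIrrCharacter G η
  ty : Ty u 4 0 η
  alt : alt H = χ + ψ + η
  m1 : χ * ψ = H + η
  m2 : χ * η = ψ + H + η

theorem H4.t5 (h : H4 u) (a : T3 u χ H) : ∃ ψ η, T5 u χ ψ η H := by
  have e0 : alt H = χ * H - H := by rw [a.mul]; ring
  have tL : Ty u 10 (-2) (alt H) := e0 ▸ (a.ty.mul a.tyH).sub' a.tyH (e0 ▸ char_altSq a.tyH.ch)
  obtain ⟨ψ, i1, t1, tη, oη⟩ := h.neg 11 (by decide)
    (tL.sub a.ty a.ir (by rw [a.ip_alt]; exact one_ne_zero)) (by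
      rw [e0, Char.inner_sub_left, Char.inner_sub_left, ip_mul, mul_one, a.reH,
        a.ty.ip a.tyH a.ir a.irH (by decide), a.tyH.ip ty_one a.irH ir_one (by decide),
        a.ty.ip ty_one a.ir ir_one (by decide)]; simp) (by decide)
  obtain ⟨η, hη⟩ : ∃ η, η = alt H - χ - ψ := ⟨_, rfl⟩
  rw [← hη] at tη oη
  replace tη : Ty u 4 0 η := tη
  have iη := (h.small tη oη (by decide) (by decide)).1
  have e1 : alt H = χ + ψ + η := by rw [hη]; ring
  have ne : χ ≠ ψ := by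
    rintro rfl
    have := a.ip_alt
    rw [e1] at this
    simp [Char.inner_add_left, inner_irr_self i1, tη.ip t1 iη i1] at this
  obtain ⟨H', b⟩ := h.t3 i1 t1
  have n1 : ⟪χ * ψ, H⟫ ≠ 0 := by
    rw [mul_comm, ip_mul, a.re, a.mul, e1, Ne, inner_eq_zero_comm,
      show H + (χ + ψ + η) = H + χ + η + ψ by ring]
    exact ip_ne (char_add (char_add a.tyH.ch a.ty.ch) tη.ch) i1
  have t2 := (a.ty.mul t1).sub a.tyH a.irH n1
  obtain ⟨η', h2⟩ : ∃ η', η' = χ * ψ - H := ⟨_, rfl⟩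
  rw [← h2] at t2
  replace t2 : Ty u 4 0 η' := t2
  have i2 := (h.small t2 (by
    rw [h2, Char.inner_sub_left, ip_mul, mul_one, b.re, inner_irr_ne a.ir i1 ne,
      a.tyH.ip ty_one a.irH ir_one (by decide), sub_self]) (by decide) (by decide)).1
  have e2 : χ * ψ = H + η' := by rw [h2]; ring
  obtain rfl : H = H' := irr_eq_of_inner_ne_zero a.irH b.irH fun z => by
    have := a.norm b
    rw [e2, z, inner_irr_ne a.ir i1 ne] at this
    simp [Char.inner_add_left, Char.inner_add_right, inner_irr_self a.irH, inner_irr_self i2,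
      t2.ip a.tyH i2 a.irH, a.tyH.ip t2 a.irH i2] at this
  have e3 : χ * η' = ψ + H + η' := by
    rw [h2]; linear_combination ψ * a.sq + b.mul - a.mul
  obtain rfl : η' = η := irr_eq_of_inner_ne_zero i2 iη fun z => by
    have : ⟪η' * χ, H⟫ = 0 := by
      rw [ip_mul, a.re, a.mul, e1]
      simp [Char.inner_add_right, z, t2.ip a.tyH i2 a.irH, t2.ip a.ty i2 a.ir, t2.ip t1 i2 i1]
    rw [mul_comm, e3, show ψ + H + η' = ψ + η' + H by ring] at this
    exact ip_ne (char_add t1.ch t2.ch) a.irH this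
  exact ⟨ψ, η', a, b, ne, iη, tη, e1, e2, e3⟩

theorem H4.three (h : H4 u) (c : Ir χ) (e : χ 1 = 3) (n : χ u ≠ 0) : Ty u 3 (-1) χ := by
  have ch := irr_isCharacter c
  have k : χ u = -1 := by
    have := (h χ c (by rintro rfl; norm_num at e)).resolve_right n
    linear_combination e - this
  exact ⟨ch, by simpa, by simpa, by rw [h.sq3 ch e, k]; norm_num⟩

theorem T5.uniq (t : T5 u χ ψ η H) (h : H4 u) (c : Ir ρ) (k : Ty u 3 (-1) ρ) : ρ = χ ∨ ρ = ψ := by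
  by_contra! n
  obtain ⟨H', b⟩ := h.t3 c k
  by_cases e : H = H'
  · subst e
    have := b.ip_alt
    rw [t.alt] at this
    simp [Char.inner_add_left, inner_irr_ne t.a.ir c n.1.symm, inner_irr_ne t.b.ir c n.2.symm,
      t.ty.ip k t.ir c] at this
  have t2 := t.a.ty.mul k
  rcases h _ ((irr_iff_inner_self t2.ch).2 (by
    rw [t.a.norm b, inner_irr_ne t.a.ir c n.1.symm, inner_irr_ne t.a.irH b.irH e]; simp))
    (t2.ne ty_one (by decide)) with j | j
  all_goals simp only [t2.deg, t2.val] at j; norm_num at j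

theorem H4.val (h : H4 u) (c : Ir χ) (n : χ ≠ 1) (k : ¬ Ty u 3 (-1) χ) :
    0 ≤ (χ 1 * χ u).re ∧ ((χ 1 * χ u).re = 0 → χ u = 0) := by
  by_cases z : χ u = 0
  · simp [z]
  obtain ⟨m, m0, e⟩ := irr_one_eq_nat c
  have j := (h χ c n).resolve_right z
  have v : χ u = m - 4 := by linear_combination e - j
  have m1 : m ≠ 1 := fun k => n (h.eq_one (irr_isCharacter c) (by simp [e, k]))
  have m2 : m ≠ 2 := by rintro rfl; exact h.no2 c e (by rw [v]; norm_num)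
  have m3 : m ≠ 3 := by rintro rfl; exact k (h.three c e z)
  have m4 : m ≠ 4 := by rintro rfl; exact z (by rw [v]; norm_num)
  have : (5 : ℝ) ≤ m := by exact_mod_cast (by omega : 5 ≤ m)
  have : (χ 1 * χ u).re = m * (m - 4) := by simp [e, v]
  rw [this]
  exact ⟨by nlinarith, fun z => by nlinarith⟩

theorem H4.exists_t5 (h : H4 u) (u1 : u ≠ 1) : ∃ χ ψ η H, T5 u χ ψ η H := by
  obtain ⟨χ, c, k⟩ : ∃ χ, Ir χ ∧ Ty u 3 (-1) χ := by
    by_contra! n
    have := congrArg Complex.re (sum_irr_one_mul_of_ne u1)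
    rw [Complex.re_sum] at this
    refine (Finset.sum_pos' (fun φ _ => ?_) ⟨oneIrr G, Finset.mem_univ _, by simp [coe_oneIrr]⟩).ne' this
    by_cases e : (φ : G → ℂ) = 1
    · simp [e]
    · exact (h.val φ.2 e (n _ φ.2)).1
  obtain ⟨H, a⟩ := h.t3 c k
  obtain ⟨ψ, η, t⟩ := h.t5 a
  exact ⟨_, _, _, _, t⟩

theorem T5.sum (t : T5 u χ ψ η H) {M : Type*} [AddCommMonoid M] (f : (G → ℂ) → M) :
    ∃ s : Finset (IrrCharacter G), (∀ φ ∈ s, (φ : G → ℂ) ≠ 1 ∧ φ ≠ χ ∧ φ ≠ ψ ∧ φ ≠ H) ∧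
      (∀ φ : IrrCharacter G, (φ : G → ℂ) ≠ 1 → φ ≠ χ → φ ≠ ψ → φ ≠ H → φ ∈ s) ∧
      ∑ φ : IrrCharacter G, f φ = ∑ φ ∈ s, f φ + (f 1 + (f χ + (f ψ + f H))) := by
  refine ⟨Finset.univ \ {⟨1, ir_one⟩, ⟨χ, t.a.ir⟩, ⟨ψ, t.b.ir⟩, ⟨H, t.a.irH⟩},
    by simp [Subtype.ext_iff], by simp +contextual [Subtype.ext_iff], ?_⟩
  rw [← Finset.sum_sdiff (Finset.subset_univ _), Finset.sum_insert, Finset.sum_insert, Finset.sum_pair]
  all_goals simp [Subtype.ext_iff, t.ne, t.a.ty.ne t.a.tyH, t.b.ty.ne t.a.tyH, ty_one.ne t.a.ty,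
    ty_one.ne t.b.ty, ty_one.ne t.a.tyH]

theorem T5.vanish (t : T5 u χ ψ η H) (h : H4 u) (u1 : u ≠ 1) (c : Ir φ) (n1 : φ ≠ 1) (n2 : φ ≠ χ)
    (n3 : φ ≠ ψ) (n4 : φ ≠ H) : φ u = 0 := by
  obtain ⟨s, h1, h2, e⟩ := t.sum fun φ => (φ 1 * φ u).re
  have k : ∀ φ ∈ s, ¬ Ty u 3 (-1) φ := fun φ m k =>
    (t.uniq h φ.2 k).elim (h1 φ m).2.1 (h1 φ m).2.2.1
  rw [← Complex.re_sum, sum_irr_one_mul_of_ne u1, t.a.ty.deg, t.a.ty.val, t.b.ty.deg, t.b.ty.val,
    t.a.tyH.deg, t.a.tyH.val] at e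
  have m := h2 ⟨φ, c⟩ n1 n2 n3 n4
  refine (h.val c n1 (k _ m)).2 ((Finset.sum_eq_zero_iff_of_nonneg fun φ m =>
    (h.val φ.2 (h1 φ m).1 (k φ m)).1).1 ?_ _ m)
  norm_num at e ⊢
  linarith

theorem T5.ker (t : T5 u χ ψ η H) (a : χ g = 3) : ψ g = 3 ∧ η g = 4 ∧ H g = 5 := by
  have c : H g = 5 := by
    have := congrFun t.a.sq g
    simp [a] at this; linear_combination -this
  have t2 := t.a.ty.mul t.a.tyH
  have k := (mem_charKer_iff t2.ch).2 (show (χ * H) g = _ by rw [t2.deg]; simp [a, c]; norm_num)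
  have d : ψ g = 3 := ((mem_charKer_iff t.b.ty.ch).1 (charKer_le_of_inner_ne_zero t2.ch t.b.ir (by
    rw [t.a.mul, t.alt, show H + (χ + ψ + η) = H + χ + η + ψ by ring]
    exact ip_ne (char_add (char_add t.a.tyH.ch t.a.ty.ch) t.ty.ch) t.b.ir) k)).trans
      (by simp [t.b.ty.deg])
  have := congrFun t.m1 g
  simp [a, c, d] at this
  exact ⟨d, by linear_combination -this, c⟩

theorem T5.conj (t : T5 u χ ψ η H) (h : H4 u) (u1 : u ≠ 1) (a : χ g = -1) (b : χ (g * g) = 3) :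
    IsConj g u ∧ Nat.card (Subgroup.centralizer ({g} : Set G)) = 4 := by
  have c : H g = 1 := by
    have := congrFun t.a.sq g
    simp [a] at this; linear_combination -this
  have d : ψ g = -1 := by
    have e1 := h.sq3 t.b.ty.ch (by simp [t.b.ty.deg]) g
    rw [(t.ker b).1, show conj (ψ g) = ψ g from congrFun t.b.re g] at e1
    have e2 := congrFun t.b.sq g
    simp [c] at e2
    linear_combination e2 + e1
  obtain ⟨s, h1, -, e⟩ := t.sum fun φ => φ g * conj (φ u)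
  rw [sum_irr_mul_conj, Finset.sum_eq_zero fun φ m => by
    rw [t.vanish h u1 φ.2 (h1 φ m).1 (h1 φ m).2.1 (h1 φ m).2.2.1 (h1 φ m).2.2.2]; simp,
    a, c, d, t.a.ty.val, t.b.ty.val, t.a.tyH.val] at e
  split_ifs at e with k
  · have : ((Nat.card (Subgroup.centralizer ({g} : Set G)) : ℕ) : ℂ) = 4 := by rw [e]; norm_num
    exact ⟨k, by exact_mod_cast this⟩
  · norm_num at e

end CF.Fgs1
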