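import Cfsg.Agent.Fgs1.Deg4
import Cfsg.Agent.Fgs1.FPF6
import Cfsg.Agent.Classical.SL25
import Cfsg.Agent.Bender.App
import Cfsg.Agent.Bender.RAbel

/-! The group theoretic part of the `χ 1 - χ u = 4` theorem. -/

set_option autoImplicit false
set_option linter.unusedSectionVars false

namespace CF.Fgs1
open Subgroup CF.BG CF.Char Cfsg
open scoped _root_.Classical

variable {G : Type*} [Group G] {u w x y k : G}

theorem mem_four {H : Subgroup G} [Finite G] (h : ♯H = 4) {a b c d : G} (ha : a ∈ H) (hb : b ∈ H)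
    (hc : c ∈ H) (hd : d ∈ H) (n1 : a ≠ b) (n2 : a ≠ c) (n3 : a ≠ d) (n4 : b ≠ c) (n5 : b ≠ d)
    (n6 : c ≠ d) (hk : k ∈ H) : k = a ∨ k = b ∨ k = c ∨ k = d := by
  have : ({a, b, c, d} : Set G) = H := Set.eq_of_subset_of_ncard_le
    (by simp [Set.insert_subset_iff, *]) (by
      rw [Set.ncard_eq_four.2 ⟨a, b, c, d, n1, n2, n3, n4, n5, n6, rfl⟩, ← h]; rfl)
  simpa using this.ge hk

theorem inv_of_sq (h : x * k * (x * k) = x * x) : x * k * x⁻¹ = k⁻¹ := by
  calc x * k * x⁻¹ = k⁻¹ * x⁻¹ * (x * k * (x * k)) * x⁻¹ := by group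
    _ = _ := by rw [h]; group

theorem inv3 (a : x * k * x⁻¹ = k⁻¹) (b : y * k * y⁻¹ = k⁻¹) (c : x * y * k * (x * y)⁻¹ = k⁻¹) :
    k * k = 1 ∧ k * x = x * k := by
  have : k⁻¹ = k := by
    calc k⁻¹ = x * (y * k * y⁻¹) * x⁻¹ := by rw [← c]; group
      _ = (x * k * x⁻¹)⁻¹ := by rw [b]; group
      _ = k := by rw [a, inv_inv]
  exact ⟨mul_eq_one_iff_eq_inv.2 this.symm, by rw [this, mul_inv_eq_iff_eq_mul] at a; exact a.symm⟩

local notation "A₅" => alternatingGroup (Fin 5)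

theorem A5_sq (a : A₅) (h : a ^ 4 = 1) : a * a = 1 := by
  have : ∀ a : Equiv.Perm (Fin 5), a.sign = 1 → a ^ 4 = 1 → a * a = 1 := by decide +kernel
  exact Subtype.ext (this a a.2 (congrArg Subtype.val h))

theorem grp60 [Finite G] (π : G →* A₅) (hπ : Function.Surjective π) (i1 : π u ≠ 1)
    (i2 : π (u * u) = 1) (h : ∀ g, π g ≠ 1 → π (g * g) = 1 → IsConj g u ∧ ♯(𝐂₁ g) = 4) :
    IsMulCommutative (oddCore G) ∧ ((Nonempty (G ⧸ oddCore G ≃* Matrix.ProjectiveSpecialLinearGroup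
      (Fin 2) (ZMod 5)) ∧ orderOf u = 2) ∨ (Nonempty (G ⧸ oddCore G ≃* Matrix.SpecialLinearGroup
      (Fin 2) (ZMod 5)) ∧ orderOf u = 4)) := by
  obtain ⟨T⟩ : Nonempty (Sylow 2 G) := inferInstance
  have c4 : ♯((T : Subgroup G).map π) = 4 := by
    have := (T.mapSurjective hπ).card_eq_multiplicity
    rw [Classical.card_A5, show (60 : ℕ).factorization 2 = 2 by decide +kernel] at this
    exact this
  have sq : ∀ w ∈ (T : Subgroup G), π (w * w) = 1 := fun w hw => by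
    rw [map_mul]
    exact A5_sq _ (orderOf_dvd_iff_pow_eq_one.1 (c4 ▸ orderOf_dvd_natCard _ (mem_map_of_mem π hw)))
  obtain ⟨x, hx, y, hy, x1, y1, xy⟩ : ∃ x ∈ (T : Subgroup G), ∃ y ∈ (T : Subgroup G),
      π x ≠ 1 ∧ π y ≠ 1 ∧ π (x * y) ≠ 1 := by
    obtain ⟨_, ⟨x, hx, rfl⟩, x1⟩ := exists_mem_ne_one (H := (T : Subgroup G).map π)
      fun e => by simp [e] at c4
    have i : Bender.Iv (π x) := ⟨x1, by rw [← map_mul, sq x hx]⟩
    obtain ⟨_, ⟨y, hy, rfl⟩, n⟩ := SetLike.not_le_iff_exists.1 fun l : (T : Subgroup G).map π ≤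
      zpowers (π x) => by have := card_le_of_le l; rw [c4, i.card] at this; omega
    refine ⟨x, hx, y, hy, x1, fun e => n (e ▸ one_mem _), fun e => n ?_⟩
    rw [map_mul, mul_eq_one_iff_inv_eq] at e
    exact e ▸ inv_mem (mem_zpowers _)
  have OK : oddCore G ≤ π.ker := by
    rw [← Subgroup.map_eq_bot_iff]
    refine ((inferInstance : (oddCore G).Normal).map π hπ).eq_bot_or_eq_top.resolve_right fun e => ?_
    have := Odd.of_dvd_nat Bender.oddCore_odd (card_map_dvd _ π)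
    rw [e, card_top, Classical.card_A5] at this
    exact absurd this (by decide)
  have ord : ∀ g, π g ≠ 1 → π (g * g) = 1 → orderOf g = orderOf u := fun g a b => by
    obtain ⟨c, e⟩ := (h g a b).1
    exact e.orderOf_eq
  have mk : ∀ w k, π w ≠ 1 → π (w * w) = 1 → π k = 1 → orderOf (w * k) = orderOf u :=
    fun w k a b c => ord _ (by simpa [c] using a) (by simpa [c] using b)
  have d4 : orderOf u ∣ 2 ^ 2 := by
    rw [show 2 ^ 2 = 4 from rfl, ← (h u i1 i2).2]
    exact orderOf_dvd_natCard _ (mem_cent1.2 rfl)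
  obtain ⟨j, hj, e⟩ := (Nat.dvd_prime_pow Nat.prime_two).1 d4
  interval_cases j
  · exact (i1 (by rw [orderOf_eq_one_iff.1 e, map_one])).elim
  · have s : ∀ w k, π w ≠ 1 → π (w * w) = 1 → π k = 1 → w * k * (w * k) = 1 := fun w k a b c => by
      rw [← pow_two, ← pow_one 2, ← e, ← mk w k a b c, pow_orderOf_eq_one]
    have s1 : ∀ w ∈ (T : Subgroup G), π w ≠ 1 → w * w = 1 := fun w hw a => by
      simpa using s w 1 a (sq w hw) (map_one _)
    have iv : ∀ w ∈ (T : Subgroup G), π w ≠ 1 → ∀ k, π k = 1 → w * k * w⁻¹ = k⁻¹ :=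
      fun w hw a k c => inv_of_sq ((s w k a (sq w hw) c).trans (s1 w hw a).symm)
    have inj : π.ker = ⊥ := eq_bot_iff.2 fun k hk => by
      have c := (inv3 (iv x hx x1 k hk) (iv y hy y1 k hk) (iv _ (mul_mem hx hy) xy k hk)).2
      have cy : y * x = x * y := by
        rw [← inv_eq_of_mul_eq_one_right (s1 _ (mul_mem hx hy) xy), mul_inv_rev,
          inv_eq_of_mul_eq_one_right (s1 x hx x1), inv_eq_of_mul_eq_one_right (s1 y hy y1)]
      rcases mem_four (h x x1 (sq x hx)).2 (one_mem _) (mem_cent1.2 rfl) (mem_cent1.2 cy)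
        (mul_mem (mem_cent1.2 rfl) (mem_cent1.2 cy)) (by rintro rfl; simp at x1)
        (by rintro rfl; simp at y1) (fun e => by simp [← e] at xy)
        (by rintro rfl; exact xy (sq _ hx)) (fun e => by simp at e; simp [e] at y1)
        (fun e => by simp at e; simp [e] at x1) (mem_cent1.2 c) with rfl | rfl | rfl | rfl
      exacts [one_mem _, (x1 hk).elim, (y1 hk).elim, (xy hk).elim]
    have O1 : oddCore G = ⊥ := le_bot_iff.1 (inj ▸ OK)
    obtain ⟨f⟩ := Classical.PSL2_five_equiv (F := ZMod 5) (by simp)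
    refine ⟨O1 ▸ inferInstance, .inl ⟨⟨?_⟩, e⟩⟩
    exact (QuotientGroup.quotientMulEquivOfEq (O1.trans inj.symm)).trans
      ((QuotientGroup.quotientKerEquivOfSurjective π hπ).trans f.symm)
  have o4 : ∀ w k, π w ≠ 1 → π (w * w) = 1 → π k = 1 →
      Bender.Iv (w * k * (w * k)) := fun w k a b c => by
    have := (mk w k a b c).trans e
    refine ⟨fun z => ?_, by rw [← pow_orderOf_eq_one (w * k), this]; simp [pow_succ, mul_assoc]⟩
    exact absurd (this ▸ orderOf_dvd_of_pow_eq_one ((pow_two _).trans z)) (by decide)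
  have cw : ∀ w k, π w ≠ 1 → π (w * w) = 1 → π k = 1 → k * w = w * k → k = 1 ∨ k = w * w :=
    fun w k a b c d => by
    have i := o4 w 1 a b (map_one _)
    have m : w ∈ 𝐂₁ w := mem_cent1.2 rfl
    rw [mul_one] at i
    have a3 : π (w * w * w) ≠ 1 := by rwa [map_mul, b, one_mul]
    rcases mem_four (h w a b).2 (one_mem _) (mul_mem m m) m (mul_mem (mul_mem m m) m) i.ne.symm
      (by rintro rfl; simp at a) (fun e => a3 (by rw [← e, map_one])) (fun e => a (e ▸ b))
      (fun e => a3 (e ▸ b)) (fun e => i.ne (by simpa using e)) (mem_cent1.2 d) with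
      rfl | rfl | rfl | rfl
    exacts [.inl rfl, .inr rfl, (a c).elim, (a3 c).elim]
  have s2 := syl_sylow_top T
  obtain ⟨z, hz, iz⟩ := Bender.exists_iv (X := 𝐙 (T : Subgroup G)) fun o =>
    s2.pi.center_ne_bot (fun e => by simp [e] at c4) (card_eq_one'.1
      (PiNat.eq_one s2.pi.inf_left ((piNat_compl_single_iff_coprime Nat.prime_two).2
        (Nat.coprime_two_right.2 o))))
  have zK : π z = 1 := by_contra fun a => (o4 z 1 a (by rw [iz.sq, map_one]) (map_one _)).ne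
    (by rw [mul_one, iz.sq])
  have sz : ∀ w ∈ (T : Subgroup G), π w ≠ 1 → w * w = z := fun w hw a =>
    ((cw w z a (sq w hw) zK (mem_cent.1 hz.2 w hw).symm).resolve_left iz.ne).symm
  have hS : ∀ k ∈ (T : Subgroup G) ⊓ π.ker, k = 1 ∨ k = z := fun k hk => by
    have iv : ∀ w ∈ (T : Subgroup G), π w ≠ 1 → w * k * w⁻¹ = k⁻¹ := fun w hw a =>
      inv_of_sq ((sz _ (mul_mem hw hk.1) (by simpa [MonoidHom.mem_ker.1 hk.2] using a)).trans (sz w hw a).symm)
    exact sz x hx x1 ▸ cw x k x1 (sq x hx) hk.2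
      (inv3 (iv x hx x1) (iv y hy y1) (iv _ (mul_mem hx hy) xy)).2
  have nK : π.ker ⊴ ⊤ := normalIn_top.2 inferInstance
  have s3 := s2.inf_normal nK
  have sd := (s3.burnside fun g hg => mem_cent.2 fun k hk => by
    rcases hS k hk with rfl | rfl
    · simp
    rcases hS _ (conj_mem_of_norm hg.2 hk) with e | e
    · exact (iz.conj g).ne e |>.elim
    · rw [mul_inv_eq_iff_eq_mul] at e; exact e.symm).sdprod s3
  rw [← O_inf_normal nK, ← pPrimeCore_eq Nat.prime_two, inf_eq_left.2 OK] at sd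
  have cz : oddCore G ⊓ 𝐂₁ z = ⊥ := eq_bot_iff.2 fun k hk => by
    have iv : ∀ w ∈ (T : Subgroup G), π w ≠ 1 → w * k * w⁻¹ = k⁻¹ := fun w hw a => by
      have i := o4 w k a (sq w hw) (OK hk.1)
      have m : w⁻¹ * k * w * k ∈ oddCore G ⊓ 𝐂₁ z := by
        have c : w ∈ 𝐂₁ z := mem_cent1.2 (mem_cent.1 hz.2 w hw)
        exact mul_mem (mem_inf.2 ⟨Normal.conj_mem' inferInstance _ hk.1 _,
          mul_mem (mul_mem (inv_mem c) (mem_inf.1 hk).2) c⟩) hk
      have e1 : w * k * (w * k) = z * (w⁻¹ * k * w * k) := by rw [← sz w hw a]; group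
      refine inv_of_sq ?_
      rw [e1] at i ⊢
      rw [sz w hw a, Suz.eq_one_of_odd_of_mul_self (Suz.odd_orderOf_of_mem Bender.oddCore_odd m.1)
        (x := w⁻¹ * k * w * k) ?_, mul_one]
      have := i.sq
      rwa [mul_assoc, ← mul_assoc _ z, mem_cent1.1 m.2, mul_assoc, ← mul_assoc z, iz.sq, one_mul] at this
    exact Suz.eq_one_of_odd_of_mul_self (Suz.odd_orderOf_of_mem Bender.oddCore_odd hk.1)
      (inv3 (iv x hx x1) (iv y hy y1) (iv _ (mul_mem hx hy) xy)).1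
  have iv := fun g => Bender.inv_of_cent_bot (g := g) iz.sq Bender.oddCore_odd
    (by rw [normalizer_eq_top]; trivial) cz
  have ker : ∀ g, π g = 1 → (g : G ⧸ oddCore G) = 1 ∨ (g : G ⧸ oddCore G) = z := fun g c => by
    obtain ⟨k, hk, a, ha, rfl⟩ := sd.exists_mul c
    rw [QuotientGroup.mk_mul, (QuotientGroup.eq_one_iff k).2 hk, one_mul]
    exact (hS a ha).imp (by rintro rfl; rfl) (by rintro rfl; rfl)
  have z1 : (z : G ⧸ oddCore G) ≠ 1 := fun e =>
    iz.not_mem Bender.oddCore_odd ((QuotientGroup.eq_one_iff z).1 e)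
  refine ⟨⟨⟨fun a b => Subtype.ext ?_⟩⟩, .inr ⟨Fpf.DC.equiv_SL25 (z := (z : G ⧸ oddCore G))
    (π := QuotientGroup.lift _ π OK) ⟨?_, z1, fun g => ?_, fun a => ?_, fun g => ?_, fun g => ?_⟩, e⟩⟩
  · have := iv _ (mul_mem a.2 b.2)
    rw [show z * (a * b) * z⁻¹ = (z * a * z⁻¹) * (z * b * z⁻¹) by group, iv _ a.2, iv _ b.2,
      ← mul_inv_rev, inv_inj] at this
    exact this.symm
  · rw [← QuotientGroup.mk_mul, iz.sq]; rfl
  · obtain ⟨g, rfl⟩ := QuotientGroup.mk_surjective g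
    rcases ker (g * z * g⁻¹) (by simp [zK]) with e | e
    · exact (z1 (by simpa using e)).elim
    · simpa [mul_inv_eq_iff_eq_mul] using e
  · obtain ⟨g, rfl⟩ := hπ a
    exact ⟨g, rfl⟩
  · obtain ⟨g, rfl⟩ := QuotientGroup.mk_surjective g
    refine ⟨ker g, fun e => ?_⟩
    rcases e with e | e <;> rw [e]
    exacts [map_one _, zK]
  · obtain ⟨g, rfl⟩ := QuotientGroup.mk_surjective g
    intro e
    have m := (QuotientGroup.eq_one_iff (g * g)).1 e
    exact ker g (by_contra fun a => (o4 g 1 a (OK m) (map_one _)).not_mem Bender.oddCore_odd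
      (by simpa using m))

theorem T5.index [Fintype G] {χ ψ η H : G → ℂ} (t : T5 u χ ψ η H) : (charKer χ).index = 60 := by
  obtain ⟨Θ, hΘ⟩ : ∃ Θ, Θ = 1 + (3 : ℂ) • χ + (3 : ℂ) • ψ + (4 : ℂ) • η + (5 : ℂ) • H := ⟨_, rfl⟩
  have mk : ∀ g, g ∈ charKer χ ↔ χ g = 3 := fun g => by
    rw [mem_charKer_iff t.a.ty.ch, t.a.ty.deg]; norm_num
  have e1 : ∀ g, Θ g = if g ∈ charKer χ then 60 else 0 := fun g => by
    split_ifs with c
    · obtain ⟨a, b, d⟩ := t.ker ((mk g).1 c)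
      simp [hΘ, a, b, d, (mk g).1 c]; norm_num
    refine (mul_eq_zero.1 (?_ : (χ g - 3) * Θ g = 0)).resolve_left fun z => c ((mk g).2 (sub_eq_zero.1 z))
    have a1 := congrFun t.a.sq g
    have a2 := congrFun t.m1 g
    have a3 := congrFun t.m2 g
    have a4 := congrFun (t.alt ▸ t.a.mul) g
    simp only [hΘ, Pi.add_apply, Pi.mul_apply, Pi.smul_apply, Pi.one_apply, smul_eq_mul] at *
    linear_combination 3 * a1 + 3 * a2 + 4 * a3 + 5 * a4
  have e2 : classInner Θ 1 = 1 := by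
    simp [hΘ, Char.inner_add_left, Char.inner_smul_left, inner_irr_self ir_one,
      t.a.ty.ip ty_one t.a.ir ir_one, t.b.ty.ip ty_one t.b.ir ir_one, t.ty.ip ty_one t.ir ir_one,
      t.a.tyH.ip ty_one t.a.irH ir_one]
  have e3 : ∑ g, Θ g = ♯(charKer χ) * 60 := by
    simp only [e1]
    rw [← Finset.sum_filter, Finset.sum_const, nsmul_eq_mul, Nat.card_eq_fintype_card,
      Fintype.card_subtype]
  rw [classInner, inv_mul_eq_iff_eq_mul₀ (by exact_mod_cast Nat.card_pos.ne'), mul_one] at e2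
  simp only [Pi.one_apply, map_one, mul_one, e3] at e2
  rw [← (charKer χ).card_mul_index] at e2
  exact (Nat.eq_of_mul_eq_mul_left Nat.card_pos (by exact_mod_cast e2)).symm

theorem H4.main [Fintype G] (h : H4 u) (u1 : u ≠ 1) :
    IsMulCommutative (oddCore G) ∧ ((Nonempty (G ⧸ oddCore G ≃* Matrix.ProjectiveSpecialLinearGroup
      (Fin 2) (ZMod 5)) ∧ orderOf u = 2) ∨ (Nonempty (G ⧸ oddCore G ≃* Matrix.SpecialLinearGroup
      (Fin 2) (ZMod 5)) ∧ orderOf u = 4)) := by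
  obtain ⟨χ, ψ, η, H, t⟩ := h.exists_t5 u1
  have := charKer_normal (char_isClassFunction t.a.ty.ch)
  have mk : ∀ g : G, (g : G ⧸ charKer χ) = 1 ↔ χ g = 3 := fun g => by
    rw [QuotientGroup.eq_one_iff, mem_charKer_iff t.a.ty.ch, t.a.ty.deg]; norm_num
  have p : commutator G = ⊤ := by
    rw [← index_eq_one, ← card_linear, Nat.card_eq_one_iff_unique]
    exact ⟨⟨fun a b => MonoidHom.ext fun g => Units.ext ((h.lin a g).trans (h.lin b g).symm)⟩,
      inferInstance⟩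
  obtain ⟨f⟩ := Classical.equiv_A5_of_not_isSolvable (G := G ⧸ charKer χ) t.index fun s => by
    have : Nontrivial (G ⧸ charKer χ) := Finite.one_lt_card_iff_nontrivial.1
      (by rw [← index_eq_card, t.index]; decide)
    refine (Group.IsSolvable.commutator_lt_top_of_nontrivial (G ⧸ charKer χ)).ne ?_
    have := map_commutator_eq G (QuotientGroup.mk' (charKer χ))
    rwa [p, ← MonoidHom.range_eq_map, QuotientGroup.range_mk', eq_comm] at this
  have k : ∀ g, (f.toMonoidHom.comp (QuotientGroup.mk' _)) g = 1 ↔ χ g = 3 := fun g => by simp [mk]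
  refine grp60 (f.toMonoidHom.comp (QuotientGroup.mk' _)) (f.surjective.comp
    (QuotientGroup.mk'_surjective _)) (by rw [Ne, k, t.a.ty.val]; norm_num)
    (by rw [k, t.a.ty.sq]; norm_num) fun g a b => t.conj h u1 ?_ ((k _).1 b)
  have e := h.sq3 t.a.ty.ch (by simp [t.a.ty.deg]) g
  rw [(k _).1 b, show (starRingEnd ℂ) (χ g) = χ g from congrFun t.a.re g] at e
  exact eq_neg_of_add_eq_zero_left ((mul_eq_zero.1 (by linear_combination -e : (χ g - 3) * (χ g + 1) = 0)
    ).resolve_left fun z => a ((k g).2 (sub_eq_zero.1 z)))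

end CF.Fgs1
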