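import Cfsg.Agent.Char.Triple
import Cfsg.Agent.CType.Basic

/-! Fully ramified characters over a central subgroup: the commutator form. -/

set_option autoImplicit false

namespace CF.Ga

open Cfsg CF.Char CF.Clifford CF.CType Subgroup
open scoped commutatorElement

universe u

section
variable {Z H : Type*} [Group Z] [Group H] [Finite H] {E : NormalEmb Z H} {χ : H → ℂ} {θ : Z → ℂ} {e : ℕ}

theorem cnt_of_fr (h : FR E χ θ e) : cnt 0 E.ι θ = 1 := by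
  have := Finite.of_injective _ E.inj
  have := Fintype.ofFinite Z
  have := Fintype.ofFinite H
  rw [cnt, Nat.card_eq_one_iff_exists]
  refine ⟨⟨⟨χ, h.irr⟩, not_zero_dvd_charDegree h.irr, ov_iff.2 ?_⟩, fun ψ => Subtype.ext (Subtype.ext
    (h.uniq ψ.1.2 (ov_iff.1 ψ.2.2)))⟩
  change classInner (fun n => χ (E.ι n)) θ ≠ 0
  rw [h.res, CF.Char.inner_smul_left, inner_irr_self h.irrθ, mul_one]
  exact_mod_cast h.pos.ne'

theorem fr_of_cnt (hθ : IsIrrCharacter Z θ) (hi : E.Invariant θ) (h : cnt 0 E.ι θ = 1) : ∃ χ e, FR E χ θ e := by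
  have := Finite.of_injective _ E.inj
  have := Fintype.ofFinite Z
  have := Fintype.ofFinite H
  rw [cnt, Nat.card_eq_one_iff_exists] at h
  obtain ⟨⟨χ, h0, h1⟩, h2⟩ := h
  obtain ⟨e, -, he⟩ := E.exists_nat_res_eq_of_invariant χ.2 hθ hi (ov_iff.1 h1)
  exact ⟨χ, e, χ.2, hθ, he, (E.fullyRamified_iff_unique χ.2 hθ he).2 fun ψ a b =>
    congrArg Subtype.val (congrArg Subtype.val (h2 ⟨⟨ψ, a⟩, not_zero_dvd_charDegree a, ov_iff.2 b⟩))⟩

end

theorem exists_central {Z H Q : Type u} [Group Z] [Group H] [Group Q] [Finite H] {E : NormalEmb Z H} {χ : H → ℂ}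
    {θ : Z → ℂ} {e : ℕ} (h : FR E χ θ e) (π : H →* Q) (hπ : Function.Surjective π) (hk : π.ker = E.ι.range) :
    ∃ (Γ : Type u) (_ : Group Γ) (_ : Finite Γ) (A : Subgroup Γ) (_ : A.Normal) (μ : A →* ℂˣ) (ρ : Γ →* Q) (ξ : Γ → ℂ) (f : ℕ),
      A ≤ center Γ ∧ Function.Surjective ρ ∧ ρ.ker = A ∧ FR (NormalEmb.sub A) ξ (fun a => μ a) f := by
  have := Finite.of_injective _ E.inj
  have := Fintype.ofFinite Z
  have := Fintype.ofFinite H
  obtain ⟨Z', Γ, _, _, _, F, μ, ρ, T⟩ := exists_tripIso E h.irrθ h.inv π hπ hk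
  have e1 := T.cs_eq h.irrθ (Or.inr rfl) ⊤
  rw [comap_top, comap_top, cs_top, cs_top, cnt_of_fr h] at e1
  obtain ⟨ξ, f, k⟩ := fr_of_cnt (E := F) (irr_linear μ) (fun g n => by
    rw [show F.c g n = n from F.inj (by rw [F.ι_c, mem_center_iff.1 (T.central n) g, mul_inv_cancel_right])]) e1.symm
  refine ⟨Γ, _, inferInstance, F.ι.range, inferInstance, μ.comp (MonoidHom.ofInjective F.inj).symm.toMonoidHom, ρ, ξ, f,
    ?_, T.surj, T.ker, k.irr, irr_linear _, funext fun a => ?_, k.sq.trans (by simp [NormalEmb.index])⟩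
  · rintro _ ⟨z, rfl⟩; exact T.central z
  · obtain ⟨z, rfl⟩ := (MonoidHom.ofInjective F.inj).surjective a
    simpa [MonoidHom.ofInjective_apply] using congrFun k.res z

variable {Γ : Type*} [Group Γ] {A : Subgroup Γ} {μ : A →* ℂˣ} {g h x y : Γ}

open Classical in
/-- The linear character extended by `1`. -/
noncomputable def mv (μ : A →* ℂˣ) (x : Γ) : ℂˣ := if h : x ∈ A then μ ⟨x, h⟩ else 1

theorem mv_of (hx : x ∈ A) : mv μ x = μ ⟨x, hx⟩ := dif_pos hx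

theorem mv_mul (hx : x ∈ A) (hy : y ∈ A) : mv μ (x * y) = mv μ x * mv μ y := by
  rw [mv_of hx, mv_of hy, mv_of (mul_mem hx hy), ← map_mul]; rfl

theorem mv_one : mv μ (1 : Γ) = 1 := by rw [mv_of A.one_mem]; exact map_one μ

theorem mv_pow (hx : x ∈ A) (n : ℕ) : mv μ (x ^ n) = mv μ x ^ n := by
  rw [mv_of hx, mv_of (pow_mem hx n), ← map_pow]; rfl

/-- Nondegeneracy on the subgroup `M`. -/
def ND (μ : A →* ℂˣ) (M : Subgroup Γ) : Prop := ∀ x ∈ M, x ∉ A → ∃ g ∈ M, ⁅g, x⁆ ∈ A ∧ mv μ ⁅g, x⁆ ≠ 1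

section
variable (hA : A ≤ center Γ)
include hA

theorem cm (hx : x ∈ A) (g : Γ) : g * x = x * g := mem_center_iff.1 (hA hx) g

theorem cm_right (hx : ⁅g, x⁆ ∈ A) (hy : ⁅g, y⁆ ∈ A) : ⁅g, x * y⁆ = ⁅g, x⁆ * ⁅g, y⁆ := by
  have := cm hA hy x
  simp only [commutatorElement_def] at *
  calc _ = g * x * g⁻¹ * x⁻¹ * (x * (g * y * g⁻¹ * y⁻¹)) * x⁻¹ := by group
    _ = _ := by rw [this]; group

theorem cm_left (hx : ⁅h, x⁆ ∈ A) : ⁅g * h, x⁆ = ⁅h, x⁆ * ⁅g, x⁆ := by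
  have := cm hA hx g
  simp only [commutatorElement_def] at *
  calc _ = g * (h * x * h⁻¹ * x⁻¹) * (x * g⁻¹ * x⁻¹) := by group
    _ = _ := by rw [this]; group

theorem cm_pow (hx : ⁅g, x⁆ ∈ A) (n : ℕ) : ⁅g, x ^ n⁆ = ⁅g, x⁆ ^ n := by
  induction n with
  | zero => simp
  | succ n ih => rw [pow_succ, cm_right hA (ih ▸ pow_mem hx n) hx, ih, pow_succ]

theorem cm_of_mem (hx : x ∈ A) (g : Γ) : ⁅g, x⁆ = 1 := commutatorElement_eq_one_iff_mul_comm.2 (cm hA hx g)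

theorem cm_conj (hx : ⁅g, x⁆ ∈ A) (h : Γ) : ⁅h * g * h⁻¹, h * x * h⁻¹⁆ = ⁅g, x⁆ := by
  rw [← conjugate_commutatorElement, cm hA hx h, mul_inv_cancel_right]

variable [Finite Γ] {M : Subgroup Γ} (hM : A ≤ M) {φ : M → ℂ}
include hM

theorem scal (hφ : IsIrrCharacter M φ) (ho : Ov (inclusion hM) (fun a => μ a) φ) (hx : x ∈ A) (y : M) :
    φ (⟨x, hM hx⟩ * y) = mv μ x * φ y := by
  have := Fintype.ofFinite A
  rw [mv_of hx]
  exact scalar_of_inner (inclusion hM) (fun z => mem_center_iff.2 fun g => Subtype.ext (cm hA z.2 g)) hφ (ov_iff.1 ho)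
    ⟨x, hx⟩ y

theorem scal_conj (hφ : IsIrrCharacter M φ) (ho : Ov (inclusion hM) (fun a => μ a) φ) {y : M} (hx : ⁅g, (y : Γ)⁆ ∈ A)
    (hy : g * y * g⁻¹ ∈ M) : φ ⟨_, hy⟩ = mv μ ⁅g, (y : Γ)⁆ * φ y := by
  rw [← scal hA hM hφ ho hx]
  exact congrArg φ (Subtype.ext (by simp [commutatorElement_def]))

theorem ND.vanish (n : ND μ M) (hφ : IsIrrCharacter M φ) (ho : Ov (inclusion hM) (fun a => μ a) φ) {y : M}
    (hy : (y : Γ) ∉ A) : φ y = 0 := by
  obtain ⟨g, hg, h1, h2⟩ := n y y.2 hy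
  have h3 := scal_conj hA hM hφ ho h1 (mul_mem (mul_mem hg y.2) (inv_mem hg))
  rw [show φ ⟨g * y * g⁻¹, _⟩ = φ y from classFun_conj (irr_isClassFunction hφ) y ⟨g, hg⟩] at h3
  by_contra k
  exact h2 (Units.ext ((mul_eq_right₀ k).1 h3.symm))

theorem lin (hφ : IsIrrCharacter M φ) (ho : Ov (inclusion hM) (fun a => μ a) φ)
    (h : ∀ x ∈ M, ∀ y ∈ M, ⁅x, y⁆ ∈ A ∧ mv μ ⁅x, y⁆ = 1) :
    ∃ ν : M →* ℂˣ, φ = (fun y => (ν y : ℂ)) ∧ ∀ x (hx : x ∈ A), ν ⟨x, hM hx⟩ = mv μ x := by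
  have h1 : φ 1 = 1 := by
    rw [irr_one_eq_one_iff hφ, commutator_def, commutator_le]
    intro u _ v _ y
    exact (scal hA hM hφ ho (h u u.2 v v.2).1 y).trans (by rw [(h u u.2 v v.2).2, Units.val_one, one_mul])
  obtain ⟨ν, rfl⟩ := exists_linear_of_one (irr_isCharacter hφ) h1
  refine ⟨ν, rfl, fun x hx => Units.ext ?_⟩
  simpa using scal hA hM hφ ho hx 1

theorem exists_lin (h : ∀ x ∈ M, ∀ y ∈ M, ⁅x, y⁆ ∈ A ∧ mv μ ⁅x, y⁆ = 1) :
    ∃ ν : M →* ℂˣ, ∀ x (hx : x ∈ A), ν ⟨x, hM hx⟩ = mv μ x :=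
  let ⟨_, a, b⟩ := exists_irr_ov (inclusion hM) (inclusion_injective hM) (irr_linear μ)
  let ⟨ν, _, c⟩ := lin hA hM a b h
  ⟨ν, c⟩

theorem ND.sq (n : ND μ M) : IsSquare (A.relIndex M) := by
  have : A.Normal := normal_of_le_center hA
  have := Fintype.ofFinite A
  have := Fintype.ofFinite M
  obtain ⟨φ, a, b⟩ := exists_irr_ov (inclusion hM) (inclusion_injective hM) (irr_linear μ)
  set E := (NormalEmb.sub A).restrict M fun n => hM n.2
  obtain ⟨e, -, he⟩ := E.exists_nat_res_eq_of_invariant a (irr_linear μ) (fun g z => by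
    rw [show E.c g z = z from Subtype.ext (show (g : Γ) * z * (g : Γ)⁻¹ = z by rw [cm hA z.2, mul_inv_cancel_right])])
    (ov_iff.1 b)
  have := (E.fullyRamified_iff_vanish a (irr_linear μ) he).2 fun g hg => n.vanish hA hM a b fun k => hg ⟨⟨g, k⟩, rfl⟩
  rw [NormalEmb.index_restrict_sub] at this
  exact ⟨e, by rw [← this, pow_two]⟩

end

theorem nd_of_fr {L : Type*} [Group L] [Finite L] [Finite Γ] (hA : A ≤ center Γ) {E : NormalEmb A L} {ξ : L → ℂ} {e : ℕ}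
    (k : FR E ξ (fun a => μ a) e) (f : L →* Γ) (hf : Function.Injective f) (hι : ∀ a, f (E.ι a) = a) : ND μ f.range := by
  classical
  rintro _ ⟨x, rfl⟩ hx
  by_contra c
  push Not at c
  let ρ := QuotientGroup.mk' E.ι.range
  have hc : ∀ z, E.ι z ∈ center L := fun z => mem_center_iff.2 fun g => hf (by
    rw [map_mul, map_mul, hι, cm hA z.2])
  have h1 := cnt_mul_central E hc μ ρ (QuotientGroup.ker_mk' _) (QuotientGroup.mk'_surjective _)
  rw [cnt_of_fr k, one_mul] at h1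
  have x1 : ρ x ≠ 1 := fun e => by
    obtain ⟨a, rfl⟩ := (QuotientGroup.eq_one_iff x).1 e
    exact hx (hι a ▸ a.2)
  have g1 : ∀ y : L, (∀ g z, E.ι z = g * y * g⁻¹ * y⁻¹ → μ z = 1) → ∀ z, Commute (ρ y) z →
      ExtTo E.ι (fun z => μ z) ((closure {ρ y, z}).comap ρ) := fun y hy z hz => by
    obtain ⟨g, rfl⟩ := QuotientGroup.mk'_surjective _ z
    obtain ⟨w, hw⟩ : g * y * g⁻¹ * y⁻¹ ∈ E.ι.range := by
      rw [← QuotientGroup.ker_mk' E.ι.range, MonoidHom.mem_ker, ← commutatorElement_def, map_commutatorElement,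
        commutatorElement_eq_one_iff_commute]
      exact hz.symm
    exact (extTo_central_iff E hc μ ρ (QuotientGroup.ker_mk' _) hw).2 (hy g w hw)
  have g2 := g1 1 fun g z e => by rw [show z = 1 from E.inj (by simpa using e), map_one]
  have g3 := g1 x fun g z e => by
    have e' : (z : Γ) = ⁅f g, f x⁆ := by rw [← hι, e]; simp [commutatorElement_def]
    have := c (f g) ⟨g, rfl⟩ (e' ▸ z.2)
    rwa [← e', mv_of z.2] at this
  rw [map_one] at g2
  have := Nat.card_le_card_of_injective (fun o : Option (L ⧸ E.ι.range) => (o.elim ⟨(ρ x, 1), Commute.one_right _, g3⟩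
    fun y => ⟨(1, y), Commute.one_left _, g2⟩ : {x : (L ⧸ E.ι.range) × (L ⧸ E.ι.range) // Commute x.1 x.2 ∧
      ∀ z, Commute x.1 z → ExtTo E.ι (fun z => μ z) ((closure {x.1, z}).comap ρ)})) (by
    rintro (_ | a) (_ | b) e
    · rfl
    · exact absurd (congrArg (·.1.1) e) x1
    · exact absurd (congrArg (·.1.1) e).symm x1
    · exact congrArg some (congrArg (·.1.2) e))
  rw [← h1, Finite.card_option] at this
  omega

end CF.Ga
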