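import Cfsg.Agent.Fgs1.LieHKK
import Cfsg.Agent.Fgs1.FitLen
import Cfsg.Agent.S0515

/-!
# Coprime action of an elementary abelian group: bounds on the class of `γ_k(G)` and `G^(d)`
-/

set_option autoImplicit false

namespace CF.Fgs1.Lie

open Subgroup Cfsg CF.Coprime CF.Fgs1.FitLen
open scoped commutatorElement

universe u

variable {G : Type*} [Group G]

local notation "γ" => Subgroup.lowerCentralSeries

/-- `B` is cocyclic in `A`. -/
def Cocyc (A B : Subgroup G) : Prop := ∃ a ∈ A, B ⊔ zpowers a = A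

theorem Cocyc.le {A B : Subgroup G} (h : Cocyc A B) : B ≤ A := by
  obtain ⟨a, -, h⟩ := h
  exact h ▸ le_sup_left

theorem act_mem_Λ {p : ℕ} {H N U : Subgroup G} (hU : U ≤ normalizer (N : Set G)) {v : Lx p H}
    (hv : v ∈ Λ p H U) (j : ℕ) : ∀ ys : List (Lx p H), (∀ y ∈ ys, y ∈ Λ p H N) →
      ys.length = j + 1 → act ys v ∈ Λ p H (γ N j) := by
  induction j with
  | zero =>
    intro ys hy hl
    obtain ⟨y, rfl⟩ := List.length_eq_one_iff.mp hl
    exact Λ_mono (le_normalizer_iff_commutator_le_left.mp hU)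
      (lie_mem_Λ (hy y List.mem_cons_self) hv)
  | succ j ih =>
    intro ys hy hl
    obtain ⟨y, ys, rfl⟩ := List.exists_cons_of_length_eq_add_one hl
    refine Λ_mono (commutator_comm _ _).le (lie_mem_Λ (hy y List.mem_cons_self)
      (ih ys (fun z hz => hy z (List.mem_cons_of_mem _ hz)) (by simpa using hl)))

theorem D_iter_Λ {p : ℕ} {H : Subgroup G} (s : ℕ) :
    ∀ U : Subgroup G, D^[s] (Λ p H U : Set (Lx p H)) ⊆ Λ p H (der^[s] U) := by
  induction s with
  | zero => exact fun U => subset_rfl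
  | succ s ih =>
    intro U
    refine subset_trans (D_iter_mono ?_ s) (ih (der U))
    rintro _ ⟨x, hx, y, hy, rfl⟩
    exact lie_mem_Λ hx hy

theorem exists_cocyc_fixed [Finite G] {p : ℕ} [hp : Fact p.Prime] {H B : Subgroup G}
    (hB : B ≤ normalizer (H : Set G)) {x : Lx p H}
    (hx : ∀ b (hb : b ∈ B), ∃ t : ZMod p, x ∈ eig (TT p (H := H) ⟨b, hB hb⟩) t) :
    ∃ B', ∃ h : Cocyc B B', ∀ b (hb : b ∈ B'), TT p (H := H) ⟨b, hB (h.le hb)⟩ x = x := by
  let S : Subgroup (normalizer (H : Set G)) :=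
    { carrier := {g | TT p g x = x}
      one_mem' := by simp
      mul_mem' := fun {a b} (ha : TT p a x = x) (hb : TT p b x = x) => show TT p (a * b) x = x by
        rw [map_mul, Module.End.mul_apply, hb, ha]
      inv_mem' := fun {a} (ha : TT p a x = x) => show TT p a⁻¹ x = x by
        conv_lhs => rw [← ha]
        rw [← Module.End.mul_apply, ← map_mul, inv_mul_cancel, map_one, Module.End.one_apply] }
  have key : Cocyc B (B ⊓ S.map (normalizer (H : Set G)).subtype) := by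
    by_cases h : ∀ b (hb : b ∈ B), TT p (H := H) ⟨b, hB hb⟩ x = x
    · refine ⟨1, one_mem _, le_antisymm (sup_le inf_le_left (by simp)) fun b hb => ?_⟩
      exact mem_sup_left (mem_inf.mpr ⟨hb, ⟨b, hB hb⟩, h b hb, rfl⟩)
    push Not at h
    obtain ⟨a, ha, hax⟩ := h
    obtain ⟨t₀, ht₀⟩ := hx a ha
    have h0 : t₀ ≠ 0 := fun h => hax (mem_eig_zero.mp (h ▸ ht₀))
    refine ⟨a, ha, le_antisymm (sup_le inf_le_left (zpowers_le.mpr ha)) fun b hb => ?_⟩
    obtain ⟨t, ht⟩ := hx b hb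
    set k := (-t / t₀).val with hk
    have h1 : (⟨b, hB hb⟩ * ⟨a, hB ha⟩ ^ k : normalizer (H : Set G)) ∈ S := by
      show TT p _ x = x
      rw [map_mul, map_pow, Module.End.mul_apply, pow_apply_of_eig ht₀, map_smul, mem_eig.mp ht,
        smul_smul, ← ε_add, hk, ZMod.natCast_zmod_val, div_mul_cancel₀ _ h0, neg_add_cancel,
        ε_zero, one_smul]
    have h2 : b * a ^ k ∈ B ⊓ S.map (normalizer (H : Set G)).subtype :=
      mem_inf.mpr ⟨mul_mem hb (pow_mem ha k), _, h1, rfl⟩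
    have := mul_mem_sup h2 (inv_mem (pow_mem (mem_zpowers a) k))
    rwa [mul_inv_cancel_right] at this
  refine ⟨_, key, fun b hb => ?_⟩
  obtain ⟨g, hg, rfl⟩ := hb.2
  exact hg

/-- The bound on the nilpotency class. -/
def bd (p q c s : ℕ) : ℕ := (2 ^ q * (c + 1) + 1) ^ chainBd p (2 ^ q) (c + 1) s q

theorem lcs_le_of_special [Finite G] {p : ℕ} [hp : Fact p.Prime] {H A : Subgroup G}
    [hA : IsMulCommutative A] (hexp : ∀ a ∈ A, a ^ p = 1) (hAH : A ≤ normalizer (H : Set G))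
    (hcop : (Nat.card H).Coprime p) (𝒮 : Set (Subgroup G)) (Nb : G → Subgroup G) {c s : ℕ}
    (h1 : ∀ J ∈ 𝒮, J ≤ H ∧ A ≤ normalizer (J : Set G)) (h2 : H ≤ sSup 𝒮)
    (h3 : ∀ J₁ ∈ 𝒮, ∀ J₂ ∈ 𝒮, ∀ A', Cocyc A A' → ∃ J ∈ 𝒮, ⁅J₁, J₂⁆ ⊓ centralizer (A' : Set G) ≤ J)
    (h4 : ∀ J ∈ 𝒮, ∃ B ≤ A, p ^ 2 ≤ Nat.card B ∧ ∀ b ∈ B, b ≠ 1 → J ≤ Nb b)
    (h5 : ∀ a ∈ A, a ≠ 1 → γ (Nb a) c = ⊥ ∧ H ⊓ centralizer {a} ≤ normalizer (Nb a : Set G))
    (h6 : der^[s] (H ⊓ centralizer (A : Set G)) = ⊥) :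
    γ H (bd p (Nat.card A) c s) ≤ γ H (bd p (Nat.card A) c s + 1) := by
  classical
  have : NeZero p := ⟨hp.out.ne_zero⟩
  have := Fintype.ofFinite A
  obtain ⟨m, hm⟩ := exists_inv (p := p) hcop.symm
  have hcomm : ∀ B ≤ A, IsMulCommutative B := fun B hB => isMulCommutative_of_le hA hB
  have fixed : ∀ {B U : Subgroup G} (hB : B ≤ A), A ≤ normalizer (U : Set G) → ∀ {x : Lx p H},
      x ∈ Λ p H U → (∀ b (hb : b ∈ B), TT p (H := H) ⟨b, hAH (hB hb)⟩ x = x) →
      x ∈ Λ p H (U ⊓ centralizer (B : Set G)) := by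
    intro B U hB hU x hx hf
    have := (CF.Solv.isPGroup_of_forall_pow_eq_one (fun a ha => hexp a (hB ha))).isNilpotent
    exact mem_Λ_fixed (hB.trans hAH) (hB.trans hU)
      (coprime_of_exp (fun a ha => hexp a (hB ha)) hcop) hx hf
  let Hom : Lx p H → Prop := fun x => ∀ a (ha : a ∈ A), ∃ t : ZMod p,
    x ∈ eig (TT p (H := H) ⟨a, hAH ha⟩) t
  have diag : ∀ U : Subgroup G, A ≤ normalizer (U : Set G) → ∀ x ∈ Λ p H U,
      x ∈ AddSubgroup.closure {x ∈ Λ p H U | Hom x} := by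
    intro U hU x hx
    have := le_closure_eig hm ((Finset.univ : Finset A).toList.map
      fun a : A => TT p (H := H) ⟨a, hAH a.2⟩) ?_ ?_ (W := Λ p H U) ?_ hx
    · refine AddSubgroup.closure_mono ?_ this
      exact fun y hy => ⟨hy.1, fun a ha => hy.2 _ (List.mem_map.mpr ⟨⟨a, ha⟩, by simp, rfl⟩)⟩
    · intro S hS
      obtain ⟨a, -, rfl⟩ := List.mem_map.mp hS
      exact TT_pow_eq_one _ (hexp a a.2)
    · intro S hS S' hS'
      obtain ⟨a, -, rfl⟩ := List.mem_map.mp hS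
      obtain ⟨b, -, rfl⟩ := List.mem_map.mp hS'
      rw [← map_mul, ← map_mul]
      congr 1
      exact Subtype.ext (comm_of_mem hA a.2 b.2)
    · intro S hS y hy
      obtain ⟨a, -, rfl⟩ := List.mem_map.mp hS
      exact TT_mem_Λ _ (hU a.2) hy
  let X : Set (Lx p H) := {x | (∃ J ∈ 𝒮, x ∈ Λ p H J) ∧ Hom x}
  have hX : Cl X := by
    rintro x ⟨⟨J₁, hJ₁, hx⟩, hx'⟩ y ⟨⟨J₂, hJ₂, hy⟩, hy'⟩
    have hh : Hom ⁅x, y⁆ := fun a ha => by
      obtain ⟨t, ht⟩ := hx' a ha
      obtain ⟨u, hu⟩ := hy' a ha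
      exact ⟨_, closed_eig _ t u x ht y hu⟩
    obtain ⟨A', hA', hf⟩ := exists_cocyc_fixed hAH hh
    obtain ⟨J, hJ, hle⟩ := h3 J₁ hJ₁ J₂ hJ₂ A' hA'
    exact ⟨⟨J, hJ, Λ_mono hle (fixed hA'.le ((le_inf (h1 _ hJ₁).2 (h1 _ hJ₂).2).trans
      (CF.Solv.normalizer_inf_le_normalizer_commutator _ _)) (lie_mem_Λ hx hy) hf)⟩, hh⟩
  have hXtop : ∀ x, x ∈ AddSubgroup.closure X := by
    let W : Submodule (Rp p) (Lx p H) :=
      { AddSubgroup.closure X with
        smul_mem' := fun r x hx => by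
          refine (AddSubgroup.closure_le ((AddSubgroup.closure X).comap
            (DistribSMul.toAddMonoidHom _ r))).mpr ?_ hx
          rintro y ⟨⟨J, hJ, hy⟩, hy'⟩
          refine AddSubgroup.subset_closure ⟨⟨J, hJ, Submodule.smul_mem _ r hy⟩, fun a ha => ?_⟩
          obtain ⟨t, ht⟩ := hy' a ha
          exact ⟨t, Submodule.smul_mem _ r ht⟩ }
    refine mem_of_gen (W := W) (S := {x | ∃ J ∈ 𝒮, x ∈ J}) (h2.trans (sSup_le fun J hJ x hx =>
      subset_closure ⟨J, hJ, hx⟩)) (fun x ⟨J, hJ, hx⟩ => (h1 J hJ).1 hx) ?_ ?_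
    · rintro x ⟨J, hJ, hx⟩
      refine AddSubgroup.closure_mono ?_ (diag J (h1 J hJ).2 _ (emb_mem_Λ (i := 0) hx ((h1 J hJ).1 hx)))
      exact fun y hy => ⟨⟨J, hJ, hy.1⟩, hy.2⟩
    · exact fun x hx y hy => lie_mem_of_closure_left (fun s hs => hX.inv_closure s hs y hy) hx
  have hcol : ∀ x : Lx p H, ∃ B : Subgroup G, x ∈ X → B ≤ A ∧ p ^ 2 ≤ Nat.card B ∧
      ∀ b ∈ B, b ≠ 1 → x ∈ Λ p H (Nb b) := by
    intro x
    by_cases hx : x ∈ X
    · obtain ⟨⟨J, hJ, hx⟩, -⟩ := hx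
      obtain ⟨B, hB, hB', hB''⟩ := h4 J hJ
      exact ⟨B, fun _ => ⟨hB, hB', fun b hb hb1 => Λ_mono (hB'' b hb hb1) hx⟩⟩
    · exact ⟨⊥, fun h => absurd h hx⟩
  choose β hβ using hcol
  have := kills_of_chain (p := p) (fun x => (Finset.univ.filter fun a : A => (a : G) ∈ β x))
    (n := c + 1) (s := s) ((Finset.univ : Finset A).toList.map
      fun (a : A) t => (eig (TT p (H := H) ⟨a, hAH a.2⟩) t).toAddSubgroup) ?_ hX ?_ ?_ ?_
  · rw [Fintype.card_finset, List.length_map, Finset.length_toList, Finset.card_univ,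
      ← Nat.card_eq_fintype_card] at this
    exact lcs_le_of_kills (this.mono (fun x _ => hXtop x) le_rfl le_rfl)
  · intro g hg
    obtain ⟨a, -, rfl⟩ := List.mem_map.mp hg
    exact closed_eig _
  · intro g hg x hx
    obtain ⟨a, -, rfl⟩ := List.mem_map.mp hg
    exact hx.2 a a.2
  · intro i
    refine Kills.mono (kills_closure (S := {x ∈ Λ p H H | Hom x}) ?_) le_rfl
      (fun x _ => diag H hAH x (mem_Λ_top x)) le_rfl
    rintro ys hy hl v ⟨hv, hv'⟩
    obtain ⟨y, hy0⟩ := List.exists_mem_of_length_eq_add_one hl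
    obtain ⟨hBA, hB, -⟩ := hβ y (hy y hy0).1
    obtain ⟨B', hB', hf⟩ := exists_cocyc_fixed (hBA.trans hAH) fun b hb => hv' b (hBA hb)
    have hB'0 : B' ≠ ⊥ := by
      rintro rfl
      obtain ⟨a, ha, e⟩ := hB'
      have := hcomm _ hBA
      have h7 := card_le_of_cocyclic hp.out.pos (fun a ha => hexp a (hBA ha)) ha e
      rw [card_bot] at h7
      nlinarith [hp.out.two_le]
    obtain ⟨⟨b, hb⟩, hb1⟩ := ne_bot_iff_exists_ne_one.mp hB'0
    have hb1 : b ≠ 1 := fun h => hb1 (Subtype.ext h)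
    have hbA := hBA (hB'.le hb)
    have h7 := fixed (B := zpowers b) (zpowers_le.mpr hbA) hAH hv
      fun b' hb' => hf b' (zpowers_le.mpr hb hb')
    rw [centralizer_zpowers] at h7
    have h8 := act_mem_Λ (h5 b hbA hb1).2 h7 c ys (fun z hz => by
      refine (hβ z (hy z hz).1).2.2 b ?_ hb1
      have e := (hy z hz).2.trans (hy y hy0).2.symm
      have := Finset.ext_iff.mp e ⟨b, hbA⟩
      simpa [hB'.le hb] using this) hl
    rwa [(h5 b hbA hb1).1, Λ_bot] at h8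
  · refine subset_trans (D_iter_mono (Y := Λ p H (H ⊓ centralizer (A : Set G))) ?_ s)
      ((D_iter_Λ s _).trans (by rw [h6, Λ_bot]; rfl))
    intro x hx
    exact fixed le_rfl hAH (mem_Λ_top x) fun b hb => mem_eig_zero.mp
      (hx.2 _ (List.mem_map.mpr ⟨⟨b, hb⟩, by simp, rfl⟩))

theorem isNilpotent_of_special (G : Type u) [Group G] [Finite G] :
    ∀ (X H : Subgroup G) (𝒮 : Set (Subgroup G)), X.Normal → H.Normal → Group.IsSolvable X →
      H ≤ X → H ≤ sSup 𝒮 → (∀ J ∈ 𝒮, J ≤ H ∧ ∃ B : Subgroup G, IsMulCommutative B ∧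
        ¬ IsCyclic B ∧ (Nat.card B).Coprime (Nat.card X) ∧ ∀ b ∈ B, b ≠ 1 → ∃ N : Subgroup G,
          J ≤ N ∧ N ≤ centralizer {b} ∧ Group.IsNilpotent N ∧
          X ⊓ centralizer {b} ≤ normalizer (N : Set G)) → Group.IsNilpotent H := by
  refine CF.Solv.group_induction (P := fun G _ _ => ∀ (X H : Subgroup G) (𝒮 : Set (Subgroup G)),
    X.Normal → H.Normal → Group.IsSolvable X →
      H ≤ X → H ≤ sSup 𝒮 → (∀ J ∈ 𝒮, J ≤ H ∧ ∃ B : Subgroup G, IsMulCommutative B ∧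
        ¬ IsCyclic B ∧ (Nat.card B).Coprime (Nat.card X) ∧ ∀ b ∈ B, b ≠ 1 → ∃ N : Subgroup G,
          J ≤ N ∧ N ≤ centralizer {b} ∧ Group.IsNilpotent N ∧
          X ⊓ centralizer {b} ≤ normalizer (N : Set G)) → Group.IsNilpotent H) ?_ G
  intro G _ _ ih X H 𝒮 hXn hHn hs hHX hS h
  by_cases hX : X = ⊥
  · rw [le_bot_iff.mp (hHX.trans hX.le)]; infer_instance
  set F := fittingSubgroup G ⊓ X with hF
  have hF0 : F ≠ ⊥ := CF.Solv.fitting_inf_ne_bot X hX
  have hFn : Group.IsNilpotent F := CF.Solv.isNilpotent_of_le inf_le_left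
  have hπ := QuotientGroup.mk'_surjective F
  have hq : Group.IsNilpotent (H.map (QuotientGroup.mk' F)) := by
    refine ih _ (CF.Solv.card_quotient_lt hF0) (X.map (QuotientGroup.mk' F)) _
      ((fun J => J.map (QuotientGroup.mk' F)) '' 𝒮) (hXn.map _ hπ) (hHn.map _ hπ)
      (CF.Solv.isSolvable_map _ _) (map_mono hHX) ?_ ?_
    · rw [map_le_iff_le_comap]
      exact hS.trans (sSup_le fun J hJ => map_le_iff_le_comap.mp (le_sSup ⟨J, hJ, rfl⟩))
    · rintro _ ⟨J, hJ, rfl⟩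
      obtain ⟨hJH, B, hB1, hB2, hB3, hB4⟩ := h J hJ
      refine ⟨map_mono hJH, B.map (QuotientGroup.mk' F), inferInstance, fun hc => hB2 ?_,
        (hB3.coprime_dvd_left (card_map_dvd _ _)).coprime_dvd_right (card_map_dvd _ _), ?_⟩
      · refine isCyclic_of_injective ((QuotientGroup.mk' F).subgroupMap B) ?_
        rw [injective_iff_map_eq_one]
        intro b hb
        have h0 : (b : G) ∈ F := (QuotientGroup.eq_one_iff _).mp (congrArg Subtype.val hb)
        have h1 : (b : G) ∈ B ⊓ X := ⟨b.2, h0.2⟩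
        rw [inf_eq_bot_of_coprime hB3] at h1
        exact Subtype.ext h1
      · rintro _ ⟨b, hb, rfl⟩ hb1
        obtain ⟨N, h1, h2, h3, h4⟩ := hB4 b hb (fun h => hb1 (by rw [h, map_one]))
        refine ⟨N.map (QuotientGroup.mk' F), map_mono h1, ?_, CF.Solv.isNilpotent_map _ _, ?_⟩
        · rintro _ ⟨x, hx, rfl⟩
          rw [mem_centralizer_singleton_iff, ← map_mul, ← map_mul,
            mem_centralizer_singleton_iff.mp (h2 hx)]
        · rw [← centralizer_zpowers, ← MonoidHom.map_zpowers, ← map_mk'_inf_centralizer F _ X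
            le_normalizer_of_normal (hB3.coprime_dvd_left (card_dvd_of_le (zpowers_le.mpr hb)))
            (Or.inr hs), centralizer_zpowers]
          exact (map_mono h4).trans (le_normalizer_map _)
  refine CF.Solv.isNilpotent_of_le_fitting (hS.trans (sSup_le fun J hJ => ?_))
  obtain ⟨hJH, B, hB1, hB2, hB3, hB4⟩ := h J hJ
  refine CF.Solv.le_of_forall_isPGroup_le fun r hr P hPJ hP =>
    le_fitting_of_centralizes r F H P hq (hPJ.trans hJH) hP ?_
  set V := pPrimeCore r G ⊓ F with hV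
  have hVX : V ≤ X := inf_le_right.trans inf_le_right
  refine le_of_forall_centralizer_le B V hB2 le_normalizer_of_normal
    (hB3.coprime_dvd_right (card_dvd_of_le hVX)) _ fun b hb hb1 => ?_
  obtain ⟨N, h1, h2, h3, h4⟩ := hB4 b hb hb1
  have hPN := hPJ.trans h1
  have hPW : P ≤ normalizer ((V ⊓ centralizer {b} : Subgroup G) : Set G) :=
    (le_inf le_normalizer_of_normal ((hPN.trans h2).trans le_normalizer)).trans
      inf_normalizer_le_normalizer_inf
  have := hP.isNilpotent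
  have e := commutator_commutator_eq P _ hPW (CF.Solv.coprime_card_of_isPGroup hP
    (CF.Solv.pPrimeCore_coprime.coprime_dvd_left
      (card_dvd_of_le (inf_le_left.trans inf_le_left)))) (Or.inl inferInstance)
  have h5 := le_nr_of_commutator ((commutator_mono le_rfl hPN).trans
    (le_normalizer_iff_commutator_le_right.mp ((inf_le_inf_right _ hVX).trans h4))) hPN e
  rwa [nr_eq_bot_iff.mpr h3, le_bot_iff, commutator_eq_bot_iff_le_centralizer] at h5

theorem commutator_sSup_le {𝒮 : Set (Subgroup G)} {K N : Subgroup G}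
    (h : ∀ J ∈ 𝒮, ⁅J, K⁆ ≤ N) (hn : sSup 𝒮 ≤ normalizer (N : Set G)) : ⁅sSup 𝒮, K⁆ ≤ N := by
  let Q : Subgroup G :=
    { carrier := {x | x ∈ normalizer (N : Set G) ∧ ∀ k ∈ K, ⁅x, k⁆ ∈ N}
      one_mem' := ⟨one_mem _, fun k _ => by simp⟩
      mul_mem' := fun {a b} ha hb => ⟨mul_mem ha.1 hb.1, fun k hk => by
        have : ⁅a * b, k⁆ = a * ⁅b, k⁆ * a⁻¹ * ⁅a, k⁆ := by
          simp only [commutatorElement_def]; group
        rw [this]
        exact mul_mem (conj_mem_of_mem_normalizer ha.1 (hb.2 k hk)) (ha.2 k hk)⟩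
      inv_mem' := fun {a} ha => ⟨inv_mem ha.1, fun k hk => by
        have : ⁅a⁻¹, k⁆ = a⁻¹ * ⁅a, k⁆⁻¹ * a := by simp only [commutatorElement_def]; group
        rw [this]
        exact inv_conj_mem_of_mem_normalizer ha.1 (inv_mem (ha.2 k hk))⟩ }
  have : sSup 𝒮 ≤ Q := sSup_le fun J hJ x hx =>
    ⟨hn (le_sSup hJ hx), fun k hk => h J hJ (commutator_mem_commutator hx hk)⟩
  exact commutator_le.mpr fun x hx k hk => (this hx).2 k hk

/-- One step in the construction of the special subgroups. -/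
def Sp (A : Subgroup G) (𝒮 𝒯 : Set (Subgroup G)) : Set (Subgroup G) :=
  {J | ∃ J₁ ∈ 𝒮, ∃ J₂ ∈ 𝒯, ∃ A', Cocyc A A' ∧ J = ⁅J₁, J₂⁆ ⊓ centralizer (A' : Set G)}

theorem commutator_le_sSup_Sp [Finite G] {A X : Subgroup G} [IsMulCommutative A]
    (hcop : (Nat.card A).Coprime (Nat.card X)) {𝒮 𝒯 : Set (Subgroup G)}
    (h1 : ∀ J ∈ 𝒮, J ≤ X ∧ A ≤ normalizer (J : Set G))
    (h2 : ∀ J ∈ 𝒯, J ≤ X ∧ A ≤ normalizer (J : Set G)) (h3 : sSup 𝒮 ≤ sSup 𝒯)
    (h4 : ∀ J ∈ Sp A 𝒮 𝒯, ∃ J' ∈ 𝒮, J ≤ J') : ⁅sSup 𝒮, sSup 𝒯⁆ ≤ sSup (Sp A 𝒮 𝒯) := by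
  set N := sSup (Sp A 𝒮 𝒯) with hN
  have k1 : ∀ J ∈ 𝒮, ∀ T ∈ 𝒯, ⁅J, T⁆ ≤ N := by
    intro J hJ T hT
    refine le_of_forall_cocyclic A _ ((le_inf (h1 J hJ).2 (h2 T hT).2).trans
      (CF.Solv.normalizer_inf_le_normalizer_commutator _ _)) (hcop.coprime_dvd_right
      (card_dvd_of_le ((commutator_mono (h1 J hJ).1 (h2 T hT).1).trans (der_le 1 X)))) N
      fun B a ha e => le_sSup ⟨J, hJ, T, hT, B, ⟨a, ha, e⟩, rfl⟩
  have k2 : sSup 𝒯 ≤ normalizer (N : Set G) := by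
    refine sSup_le fun T hT t ht => CF.Transfer.mem_normalizer_of_cj_le ?_
    rw [CF.Transfer.cj_le_iff]
    refine sSup_le fun J hJ x hx => CF.Transfer.mem_cj_inv.mpr ?_
    obtain ⟨J', hJ', hle⟩ := h4 J hJ
    have : t * x * t⁻¹ = ⁅x, t⁆⁻¹ * x := by simp only [commutatorElement_def]; group
    rw [this]
    exact mul_mem (inv_mem (k1 J' hJ' T hT (commutator_mem_commutator (hle hx) ht)))
      (le_sSup hJ hx)
  refine commutator_sSup_le (fun J hJ => ?_) (h3.trans k2)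
  rw [commutator_comm]
  exact commutator_sSup_le (fun T hT => (commutator_comm _ _).le.trans (k1 J hJ T hT)) k2

/-- The special subgroups of degree zero. -/
def fam0 (X A : Subgroup G) : Set (Subgroup G) :=
  {J | ∃ A', Cocyc A A' ∧ J = X ⊓ centralizer (A' : Set G)}

/-- The special subgroups. -/
def fam (b : Bool) (X A : Subgroup G) : ℕ → Set (Subgroup G)
  | 0 => fam0 X A
  | j + 1 => Sp A (fam b X A j) (if b then fam b X A j else fam0 X A)

/-- The derived series (`b = true`) or the lower central series (`b = false`). -/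
def wd (b : Bool) : ℕ → Subgroup G → Subgroup G
  | 0, U => U
  | j + 1, U => ⁅wd b j U, if b then wd b j U else U⁆

/-- The exponents. -/
def ex (b : Bool) : ℕ → ℕ
  | 0 => 1
  | j + 1 => ex b j + if b then ex b j else 1

theorem wd_true (j : ℕ) (U : Subgroup G) : wd true j U = der^[j] U := by
  induction j with
  | zero => rfl
  | succ j ih => rw [Function.iterate_succ_apply', ← ih]; rfl

theorem wd_false (j : ℕ) (U : Subgroup G) : wd false j U = γ U j := by
  induction j with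
  | zero => rfl
  | succ j ih => rw [Subgroup.lowerCentralSeries_succ, ← ih]; rfl

theorem ex_true (j : ℕ) : ex true j = 2 ^ j := by
  induction j with
  | zero => rfl
  | succ j ih => rw [ex, ih, if_pos rfl]; ring

theorem ex_false (j : ℕ) : ex false j = j + 1 := by
  induction j with
  | zero => rfl
  | succ j ih => rw [ex, ih]; rfl

theorem map_wd {G' : Type*} [Group G'] (f : G →* G') (b : Bool) (j : ℕ) (U : Subgroup G) :
    (wd b j U).map f = wd b j (U.map f) := by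
  cases b
  · rw [wd_false, wd_false, map_lowerCentralSeries]
  · rw [wd_true, wd_true, map_der]

theorem wd_mono (b : Bool) (j : ℕ) {U V : Subgroup G} (h : U ≤ V) : wd b j U ≤ wd b j V := by
  cases b
  · rw [wd_false, wd_false]; exact lcs_mono h j
  · rw [wd_true, wd_true]; exact der_mono j h

theorem der_le_wd (b : Bool) (j : ℕ) (U : Subgroup G) : der^[j] U ≤ wd b j U := by
  cases b
  · rw [wd_false]; exact der_le_lcs j U
  · rw [wd_true]

theorem wd_le (b : Bool) (j : ℕ) (U : Subgroup G) : wd b j U ≤ U := by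
  cases b
  · rw [wd_false]; exact CF.Fgs2.lcs_le U j
  · rw [wd_true]; exact der_le j U

theorem normalizer_le_wd (b : Bool) (j : ℕ) (U : Subgroup G) :
    normalizer (U : Set G) ≤ normalizer (wd b j U : Set G) := by
  intro g hg
  rw [← CF.Solv.conj_smul_eq_iff, CF.Solv.conj_smul_eq_map] at hg ⊢
  rw [map_wd, hg]

section Fam

variable [Finite G] {p : ℕ} [hp : Fact p.Prime] {X A : Subgroup G} [hXn : X.Normal]
  [hA : IsMulCommutative A] (b : Bool)

omit [Finite G] in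
theorem fam_basic (j : ℕ) : ∀ J ∈ fam b X A j, (J ≤ X ∧ A ≤ normalizer (J : Set G)) ∧
    (∃ J' ∈ fam b X A 0, J ≤ J') := by
  have h0 : ∀ J ∈ fam b X A 0, J ≤ X ∧ A ≤ normalizer (J : Set G) := by
    rintro _ ⟨A', hA', rfl⟩
    exact ⟨inf_le_left, (le_inf le_normalizer_of_normal
      (le_normalizer_centralizer_of_comm hA'.le)).trans inf_normalizer_le_normalizer_inf⟩
  induction j with
  | zero => exact fun J hJ => ⟨h0 J hJ, J, hJ, le_rfl⟩
  | succ j ih =>
    rintro _ ⟨J₁, hJ₁, J₂, hJ₂, A', hA', rfl⟩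
    have h2 : J₂ ≤ X ∧ A ≤ normalizer (J₂ : Set G) := by
      cases b
      · exact h0 _ hJ₂
      · exact (ih _ hJ₂).1
    have h3 : ⁅J₁, J₂⁆ ≤ X := (commutator_mono (ih _ hJ₁).1.1 h2.1).trans (der_le 1 X)
    exact ⟨⟨inf_le_left.trans h3, (le_inf ((le_inf (ih _ hJ₁).1.2 h2.2).trans
      (CF.Solv.normalizer_inf_le_normalizer_commutator _ _))
      (le_normalizer_centralizer_of_comm hA'.le)).trans inf_normalizer_le_normalizer_inf⟩,
      _, ⟨A', hA', rfl⟩, inf_le_inf_right _ h3⟩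

omit [Finite G] in
theorem fam_succ_le (j : ℕ) : ∀ J ∈ fam b X A (j + 1), ∃ J' ∈ fam b X A j, J ≤ J' := by
  induction j with
  | zero => exact fun J hJ => (fam_basic b 1 J hJ).2
  | succ j ih =>
    rintro _ ⟨J₁, hJ₁, J₂, hJ₂, A', hA', rfl⟩
    obtain ⟨K₁, hK₁, h1⟩ := ih _ hJ₁
    obtain ⟨K₂, hK₂, h2⟩ : ∃ K₂ ∈ (if b then fam b X A j else fam b X A 0), J₂ ≤ K₂ := by
      cases b
      · exact ⟨J₂, hJ₂, le_rfl⟩
      · exact ih _ hJ₂
    exact ⟨_, ⟨K₁, hK₁, K₂, hK₂, A', hA', rfl⟩, inf_le_inf_right _ (commutator_mono h1 h2)⟩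

theorem sSup_fam (hcop : (Nat.card A).Coprime (Nat.card X)) (j : ℕ) :
    sSup (fam b X A j) = wd b j X := by
  have h0 : sSup (fam b X A 0) = X := le_antisymm (sSup_le fun J hJ => (fam_basic b 0 J hJ).1.1)
    (le_of_forall_cocyclic A X le_normalizer_of_normal hcop _
      fun B a ha e => le_sSup ⟨B, ⟨a, ha, e⟩, rfl⟩)
  induction j with
  | zero => exact h0
  | succ j ih =>
    have e : sSup (if b then fam b X A j else fam b X A 0) = if b then wd b j X else X := by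
      cases b
      · exact h0
      · exact ih
    rw [wd, ← e, ← ih]
    apply le_antisymm
    · refine sSup_le ?_
      rintro _ ⟨J₁, hJ₁, J₂, hJ₂, A', -, rfl⟩
      exact inf_le_left.trans (commutator_mono (le_sSup hJ₁) (le_sSup hJ₂))
    · refine commutator_le_sSup_Sp hcop (fun J hJ => (fam_basic b j J hJ).1) ?_ ?_
        (fam_succ_le b j)
      · cases b
        · exact fun J hJ => (fam_basic false 0 J hJ).1
        · exact fun J hJ => (fam_basic true j J hJ).1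
      · rw [e, ih]
        cases b
        · exact wd_le _ _ _
        · exact le_rfl

omit hXn in
theorem fam_index (hexp : ∀ a ∈ A, a ^ p = 1) (j : ℕ) : ∀ J ∈ fam b X A j,
    ∃ B ≤ A, B.relIndex A ≤ p ^ ex b j ∧ J ≤ wd b j (X ⊓ centralizer (B : Set G)) := by
  have h0 : ∀ J ∈ fam b X A 0,
      ∃ B ≤ A, B.relIndex A ≤ p ^ 1 ∧ J ≤ X ⊓ centralizer (B : Set G) := by
    rintro _ ⟨A', hA', rfl⟩
    refine ⟨A', hA'.le, ?_, le_rfl⟩
    obtain ⟨a, ha, e⟩ := id hA'
    have h1 := card_le_of_cocyclic hp.out.pos hexp ha e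
    rw [← CF.Solv.card_mul_relIndex hA'.le, mul_comm] at h1
    exact (Nat.le_of_mul_le_mul_right h1 Nat.card_pos).trans (pow_one p).ge
  induction j with
  | zero => exact h0
  | succ j ih =>
    rintro _ ⟨J₁, hJ₁, J₂, hJ₂, A', -, rfl⟩
    obtain ⟨B₁, hB₁, h1, h1'⟩ := ih _ hJ₁
    obtain ⟨B₂, hB₂, h2, h2'⟩ : ∃ B ≤ A, B.relIndex A ≤ p ^ (if b then ex b j else 1) ∧
        J₂ ≤ if b then wd b j (X ⊓ centralizer (B : Set G)) else X ⊓ centralizer (B : Set G) := by
      cases b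
      · exact h0 _ hJ₂
      · exact ih _ hJ₂
    have e1 : X ⊓ centralizer (B₁ : Set G) ≤ X ⊓ centralizer ((B₁ ⊓ B₂ : Subgroup G) : Set G) :=
      inf_le_inf_left _ (centralizer_le (SetLike.coe_subset_coe.mpr inf_le_left))
    have e2 : X ⊓ centralizer (B₂ : Set G) ≤ X ⊓ centralizer ((B₁ ⊓ B₂ : Subgroup G) : Set G) :=
      inf_le_inf_left _ (centralizer_le (SetLike.coe_subset_coe.mpr inf_le_right))
    refine ⟨B₁ ⊓ B₂, inf_le_left.trans hB₁, ?_, inf_le_left.trans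
      (commutator_mono (h1'.trans (wd_mono b j e1)) (h2'.trans ?_))⟩
    · rw [ex, pow_add]
      exact relIndex_inf_le.trans (Nat.mul_le_mul h1 h2)
    · cases b
      · exact e2
      · exact wd_mono true j e2

theorem lcs_wd_eq_bot [Group.IsSolvable X] (hexp : ∀ a ∈ A, a ^ p = 1)
    (hcop : (Nat.card X).Coprime p) {d c k : ℕ} (hk : Nat.card A = p ^ k) (hd : ex b d + 2 ≤ k)
    (h : ∀ a ∈ A, a ≠ 1 → γ (wd b d (X ⊓ centralizer {a})) c = ⊥) :
    γ (wd b d X) (bd p (p ^ k) c (c + d)) = ⊥ := by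
  have hcop' := coprime_of_exp hexp hcop
  have h4 : ∀ J ∈ fam b X A d, ∃ B ≤ A, p ^ 2 ≤ Nat.card B ∧
      ∀ a ∈ B, a ≠ 1 → J ≤ wd b d (X ⊓ centralizer {a}) := by
    intro J hJ
    obtain ⟨B, hB, h1, h2⟩ := fam_index b hexp d J hJ
    refine ⟨B, hB, ?_, fun a ha _ => h2.trans (wd_mono b d (inf_le_inf_left _
      (centralizer_le (by simpa using ha))))⟩
    have h3 := CF.Solv.card_mul_relIndex hB
    have h5 : p ^ 2 * p ^ ex b d ≤ Nat.card B * p ^ ex b d := by
      rw [← pow_add]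
      exact (Nat.pow_le_pow_right hp.out.pos (by omega)).trans
        ((hk.symm.trans h3.symm).le.trans (Nat.mul_le_mul_left _ h1))
    exact Nat.le_of_mul_le_mul_right h5 (pow_pos hp.out.pos _)
  have hH : ∀ J ∈ fam b X A d, J ≤ wd b d X := fun J hJ => sSup_fam b hcop' d ▸ le_sSup hJ
  have hHn : (wd b d X).Normal :=
    normalizer_eq_top_iff.mp (eq_top_iff.mpr (le_normalizer_of_normal.trans (normalizer_le_wd b d X)))
  have hnil : Group.IsNilpotent (wd b d X) := by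
    refine isNilpotent_of_special G X _ (fam b X A d) hXn hHn inferInstance (wd_le _ _ _)
      (sSup_fam b hcop' d).ge fun J hJ => ⟨hH J hJ, ?_⟩
    obtain ⟨B, hB, h1, h2⟩ := h4 J hJ
    refine ⟨B, isMulCommutative_of_le hA hB, CF.Solv.not_isCyclic_of_isElementaryAbelian
      ⟨isMulCommutative_of_le hA hB, fun a ha => hexp a (hB ha)⟩ ?_,
      hcop'.coprime_dvd_left (card_dvd_of_le hB), fun a ha ha1 => ⟨_, h2 a ha ha1,
        (wd_le _ _ _).trans inf_le_right, (isNilpotent_iff_lowerCentralSeries _).mpr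
          ⟨c, h a (hB ha) ha1⟩, le_normalizer.trans (normalizer_le_wd _ _ _)⟩⟩
    nlinarith [hp.out.two_le]
  rw [← hk]
  refine lcs_eq_bot_of_le (lcs_le_of_special hexp le_normalizer_of_normal
    (hcop.coprime_dvd_left (card_dvd_of_le (wd_le _ _ _))) (fam b X A d)
    (fun a => wd b d (X ⊓ centralizer {a})) (fun J hJ => ⟨hH J hJ, (fam_basic b d J hJ).1.2⟩)
    (sSup_fam b hcop' d).ge ?_ h4 (fun a ha ha1 => ⟨h a ha ha1, (inf_le_inf_right _
      (wd_le _ _ _)).trans (le_normalizer.trans (normalizer_le_wd _ _ _))⟩) ?_)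
  · intro J₁ hJ₁ J₂ hJ₂ A' hA'
    obtain ⟨K₂, hK₂, h2⟩ : ∃ K₂ ∈ (if b then fam b X A d else fam b X A 0), J₂ ≤ K₂ := by
      cases b
      · exact (fam_basic false d _ hJ₂).2
      · exact ⟨J₂, hJ₂, le_rfl⟩
    obtain ⟨J, hJ, hle⟩ := fam_succ_le b d _ ⟨J₁, hJ₁, K₂, hK₂, A', hA', rfl⟩
    exact ⟨J, hJ, (inf_le_inf_right _ (commutator_mono le_rfl h2)).trans hle⟩
  · have hA0 : A ≠ ⊥ := by
      rintro rfl
      rw [card_bot] at hk
      exact absurd hk.symm (Nat.one_lt_pow (by omega) hp.out.one_lt).ne'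
    obtain ⟨⟨a, ha⟩, ha1⟩ := ne_bot_iff_exists_ne_one.mp hA0
    refine eq_bot_iff.mpr (der_add_le (K := wd b d (X ⊓ centralizer {a})) ?_
      ((der_le_lcs _ _).trans (h a ha fun h => ha1 (Subtype.ext h)).le))
    exact (der_mono d (inf_le_inf (wd_le _ _ _) (centralizer_le (by simpa using ha)))).trans
      (der_le_wd _ _ _)

end Fam

theorem isSolvable_of_der {U : Subgroup G} {n : ℕ} (h : der^[n] U = ⊥) : Group.IsSolvable U := by
  refine ⟨n, ?_⟩
  rw [← der_top, ← map_eq_bot_iff_of_injective _ U.subtype_injective, map_der,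
    ← MonoidHom.range_eq_map, range_subtype, h]

theorem lcs_wd_eq_bot_aut [Finite G] {p : ℕ} (hp : p.Prime) (b : Bool) {d c k : ℕ}
    (hd : ex b d + 2 ≤ k) (hcop : (Nat.card G).Coprime p) (A : Subgroup (MulAut G))
    (hA : IsElementaryAbelian p A) (hk : Nat.card A = p ^ k)
    (h : ∀ a ∈ A, a ≠ 1 → γ (wd b d (⊤ : Subgroup
      ((a : MulAut G).toMonoidHom.eqLocus (MonoidHom.id G)))) c = ⊥) :
    γ (wd b d (⊤ : Subgroup G)) (bd p (p ^ k) c (c + d)) = ⊥ := by
  have : Fact p.Prime := ⟨hp⟩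
  set φ := A.subtype with hφ
  have hcop' : (Nat.card (sdL φ ⊤)).Coprime p := by rwa [card_sdL, card_top]
  have hAc := hA.1
  have hcomm : IsMulCommutative (sdR φ ⊤) := (isMulCommutative_sdR_iff φ).mpr inferInstance
  have hexp' : ∀ a ∈ sdR φ ⊤, a ^ p = 1 := by
    rintro _ ⟨a, -, rfl⟩
    rw [← map_pow, show a ^ p = 1 from Subtype.ext (hA.2 a a.2), map_one]
  have hk' : Nat.card (sdR φ ⊤) = p ^ k := by rwa [card_sdR, card_top]
  have h' : ∀ a ∈ sdR φ ⊤, a ≠ 1 → γ (wd b d (sdL φ ⊤ ⊓ centralizer {a})) c = ⊥ := by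
    rintro _ ⟨a, -, rfl⟩ ha
    have h1 := h a a.2 (fun e => ha (by rw [show a = 1 from Subtype.ext e, map_one]))
    have h2 := congrArg (Subgroup.map (SemidirectProduct.inl.comp
      ((a : MulAut G).toMonoidHom.eqLocus (MonoidHom.id G)).subtype : _ →* G ⋊[φ] A)) h1
    rw [Subgroup.map_bot, map_lowerCentralSeries, map_wd, ← Subgroup.map_map,
      ← MonoidHom.range_eq_map, range_subtype] at h2
    have e : (a : MulAut G).toMonoidHom.eqLocus (MonoidHom.id G) = fixSub φ (zpowers a) := by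
      ext x
      exact (mem_fixSub_zpowers φ).symm
    rw [sdL_inf_centralizer_singleton, top_inf_eq, ← e]
    exact h2
  have h1 : 1 ≤ ex b d := by
    cases b
    · rw [ex_false]; omega
    · rw [ex_true]; exact Nat.one_le_two_pow
  have hs : Group.IsSolvable (sdL φ ⊤) := Cfsg.Agent.S0515.result p (sdR φ ⊤) (sdL φ ⊤) hcomm hexp'
    (hk' ▸ Nat.pow_le_pow_right hp.pos (by omega)) hcop' le_normalizer_of_normal fun a ha ha1 =>
      isSolvable_of_der (n := c + d) (eq_bot_iff.mpr (der_add_le (der_le_wd b d _)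
        ((der_le_lcs _ _).trans (h' a ha ha1).le)))
  have := lcs_wd_eq_bot b hexp' hcop' hk' hd h'
  rwa [← map_wd, ← map_lowerCentralSeries,
    map_eq_bot_iff_of_injective _ SemidirectProduct.inl_injective] at this

end CF.Fgs1.Lie
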