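import Mathlib
import Cfsg.Agent.Solv.Fitting

/-! Fixed spaces in quasi-primitive solvable linear groups. -/

set_option autoImplicit false

open Subgroup
open scoped commutatorElement

namespace CF.Fgs1.PrimLin

variable {F G V : Type*} [Field F] [Group G] [AddCommGroup V] [Module F V]

/-- The fixed space of an element. -/
def fx (ρ : Representation F G V) (g : G) : Submodule F V := LinearMap.ker (ρ g - 1)

theorem mem_fx {ρ : Representation F G V} {g : G} {v : V} : v ∈ fx ρ g ↔ ρ g v = v := by
  simp [fx, sub_eq_zero]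

/-- The fixed space of a subgroup. -/
def fxs (ρ : Representation F G V) (B : Subgroup G) : Submodule F V where
  carrier := {v | ∀ b ∈ B, ρ b v = v}
  add_mem' {x y} hx hy b hb := by rw [map_add, hx b hb, hy b hb]
  zero_mem' b _ := map_zero _
  smul_mem' c x hx b hb := by rw [map_smul, hx b hb]

theorem mem_fxs {ρ : Representation F G V} {B : Subgroup G} {v : V} :
    v ∈ fxs ρ B ↔ ∀ b ∈ B, ρ b v = v := Iff.rfl

theorem rho_mul_apply (ρ : Representation F G V) (a b : G) (v : V) :
    ρ (a * b) v = ρ a (ρ b v) := by rw [map_mul]; rfl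

theorem rho_inv_apply (ρ : Representation F G V) (a : G) (v : V) : ρ a⁻¹ (ρ a v) = v := by
  rw [← rho_mul_apply, inv_mul_cancel, map_one]; rfl

theorem rho_apply_inv (ρ : Representation F G V) (a : G) (v : V) : ρ a (ρ a⁻¹ v) = v := by
  rw [← rho_mul_apply, mul_inv_cancel, map_one]; rfl

theorem rho_inj (ρ : Representation F G V) (a : G) : Function.Injective (ρ a) :=
  Function.LeftInverse.injective (rho_inv_apply ρ a)

theorem fx_conj (ρ : Representation F G V) (g y : G) :
    fx ρ (y * g * y⁻¹) = (fx ρ g).map (ρ y) := by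
  ext v
  rw [mem_fx, Submodule.mem_map]
  constructor
  · intro h
    refine ⟨ρ y⁻¹ v, ?_, rho_apply_inv ρ y v⟩
    rw [mem_fx]
    apply rho_inj ρ y
    rw [rho_apply_inv, ← rho_mul_apply, ← rho_mul_apply, h]
  · rintro ⟨w, hw, rfl⟩
    rw [mem_fx] at hw
    rw [rho_mul_apply, rho_mul_apply, rho_inv_apply, hw]

theorem finrank_fx_conj (ρ : Representation F G V) (g y : G) :
    Module.finrank F (fx ρ (y * g * y⁻¹)) = Module.finrank F (fx ρ g) := by
  rw [fx_conj]
  exact (Submodule.equivMapOfInjective _ (rho_inj ρ y) _).finrank_eq.symm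

/-- `2 dim C(g) ≤ dim V + dim C([g, y])`. -/
theorem two_mul_le [FiniteDimensional F V] (ρ : Representation F G V) (g y : G) :
    2 * Module.finrank F (fx ρ g) ≤ Module.finrank F V + Module.finrank F (fx ρ ⁅g, y⁆) := by
  have h1 := Submodule.finrank_sup_add_finrank_inf_eq (fx ρ g) (fx ρ (y * g * y⁻¹))
  have h2 : Module.finrank F ↥(fx ρ g ⊔ fx ρ (y * g * y⁻¹)) ≤ Module.finrank F V :=
    Submodule.finrank_le _
  have h3 : fx ρ g ⊓ fx ρ (y * g * y⁻¹) ≤ fx ρ ⁅g, y⁆ := by
    intro v hv
    obtain ⟨ha, hb⟩ := Submodule.mem_inf.mp hv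
    rw [mem_fx] at ha hb ⊢
    have e : ⁅g, y⁆ = g * (y * g * y⁻¹)⁻¹ := by rw [commutatorElement_def]; group
    have hb' : ρ (y * g * y⁻¹)⁻¹ v = v := by
      conv_lhs => rw [← hb]
      exact rho_inv_apply _ _ _
    rw [e, rho_mul_apply, hb', ha]
  have h4 := Submodule.finrank_mono h3
  rw [finrank_fx_conj] at h1
  omega

/-- Every nontrivial element of an abelian normal subgroup acts without nonzero fixed vectors. -/
def QP (ρ : Representation F G V) : Prop :=
  ∀ A : Subgroup G, A.Normal → (∀ a ∈ A, ∀ b ∈ A, a * b = b * a) → ∀ a ∈ A, a ≠ 1 → fx ρ a = ⊥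

/-- A nilpotent normal subgroup `C` in which every abelian normal subgroup of `G` is central has class at most two. -/
theorem class_le_two [Finite G] (C : Subgroup G) [C.Normal] [Group.IsNilpotent C]
    (h : ∀ B : Subgroup G, B.Normal → B ≤ C → (∀ a ∈ B, ∀ b ∈ B, a * b = b * a) →
      B ≤ centralizer (C : Set G)) : ⁅C, C⁆ ≤ centralizer (C : Set G) := by
  -- the lower central series of `C` inside `G`
  have hnorm : ∀ k, (C.lowerCentralSeries k).Normal := by
    intro k
    induction k with
    | zero => simpa using ‹C.Normal›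
    | succ k ih =>
      rw [Subgroup.lowerCentralSeries_succ]
      exact Subgroup.commutator_normal _ _
  have hle : ∀ k, C.lowerCentralSeries k ≤ C := by
    intro k
    induction k with
    | zero => simp
    | succ k ih =>
      rw [Subgroup.lowerCentralSeries_succ]
      exact (commutator_mono ih le_rfl).trans (commutator_le_inf _ _ |>.trans inf_le_left)
  have hanti : ∀ k, C.lowerCentralSeries (k + 1) ≤ C.lowerCentralSeries k := by
    intro k
    rw [Subgroup.lowerCentralSeries_succ]
    haveI := hnorm k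
    exact commutator_le_left _ _
  obtain ⟨c, hc⟩ : ∃ c, C.lowerCentralSeries c = ⊥ := by
    obtain ⟨c, hc⟩ := (Subgroup.nilpotent_iff_lowerCentralSeries (G := C)).mp inferInstance
    refine ⟨c, ?_⟩
    have := congrArg (Subgroup.map C.subtype) hc
    rw [Subgroup.map_lowerCentralSeries, Subgroup.map_bot] at this
    simpa [← MonoidHom.range_eq_map] using this
  -- descend
  have key : ∀ m, C.lowerCentralSeries (m + 2) = ⊥ → C.lowerCentralSeries 2 = ⊥ := by
    intro m
    induction m with
    | zero => exact id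
    | succ m ih =>
      intro hm
      apply ih
      -- `γ (m+1)` is abelian
      have hcomm : ⁅C.lowerCentralSeries (m + 1), C.lowerCentralSeries 1⁆ = ⊥ := by
        have e1 : C.lowerCentralSeries 1 = ⁅C, C⁆ := by
          rw [Subgroup.lowerCentralSeries_succ]; simp
        rw [e1, commutator_comm]
        apply commutator_commutator_eq_bot_of_rotate
        · rw [commutator_comm C]
          have := hm
          rw [Subgroup.lowerCentralSeries_succ, Subgroup.lowerCentralSeries_succ] at this
          exact this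
        · have := hm
          rw [Subgroup.lowerCentralSeries_succ, Subgroup.lowerCentralSeries_succ] at this
          exact this
      have hle1 : ∀ j, C.lowerCentralSeries (j + 1) ≤ C.lowerCentralSeries 1 := by
        intro j
        induction j with
        | zero => exact le_rfl
        | succ j ih => exact (hanti _).trans ih
      have hab : ∀ a ∈ C.lowerCentralSeries (m + 1), ∀ b ∈ C.lowerCentralSeries (m + 1),
          a * b = b * a := by
        intro a ha b hb
        have : ⁅a, b⁆ ∈ ⁅C.lowerCentralSeries (m + 1), C.lowerCentralSeries 1⁆ :=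
          commutator_mem_commutator ha (hle1 m hb)
        rw [hcomm, mem_bot] at this
        exact commutatorElement_eq_one_iff_mul_comm.mp this
      have := h _ (hnorm _) (hle _) hab
      rw [Subgroup.lowerCentralSeries_succ, commutator_eq_bot_iff_le_centralizer]
      exact this
  have h2 : C.lowerCentralSeries 2 = ⊥ := by
    apply key c
    rw [eq_bot_iff, ← hc]
    exact (hanti _).trans (hanti _)
  rw [Subgroup.lowerCentralSeries_succ, Subgroup.lowerCentralSeries_succ,
    commutator_eq_bot_iff_le_centralizer] at h2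
  simpa using h2

/-- Nontrivial elements of a nilpotent normal subgroup fix at most half of the space. -/
theorem half [Finite G] [FiniteDimensional F V] {ρ : Representation F G V} (hq : QP ρ)
    (N : Subgroup G) [N.Normal] [Group.IsNilpotent N] {x : G} (hx : x ∈ N) (hx1 : x ≠ 1) :
    2 * Module.finrank F (fx ρ x) ≤ Module.finrank F V := by
  -- a maximal abelian normal subgroup inside `N`
  obtain ⟨A, ⟨hAn, hAN, hAc⟩, hmax⟩ := Set.Finite.exists_maximal
    (s := {A : Subgroup G | A.Normal ∧ A ≤ N ∧ ∀ a ∈ A, ∀ b ∈ A, a * b = b * a})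
    (Set.toFinite _) ⟨⊥, inferInstance, bot_le, by simp⟩
  have fin : ∀ y, ⁅x, y⁆ ∈ A → ⁅x, y⁆ ≠ 1 →
      2 * Module.finrank F (fx ρ x) ≤ Module.finrank F V := by
    intro y h1 h2
    have := two_mul_le ρ x y
    rw [hq A hAn hAc _ h1 h2, finrank_bot] at this
    exact this
  by_cases hxA : x ∈ A
  · rw [hq A hAn hAc x hxA hx1, finrank_bot]; omega
  by_cases hxc : x ∈ centralizer (A : Set G)
  swap
  · rw [mem_centralizer_iff] at hxc
    push Not at hxc
    obtain ⟨a, ha, hne⟩ := hxc
    refine fin a ?_ ?_
    · rw [commutatorElement_def]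
      exact A.mul_mem (hAn.conj_mem a ha x) (A.inv_mem ha)
    · intro h
      exact hne (commutatorElement_eq_one_iff_mul_comm.mp h).symm
  set C := N ⊓ centralizer (A : Set G) with hC
  haveI : C.Normal := by rw [hC]; infer_instance
  haveI : Group.IsNilpotent C :=
    CF.Solv.isNilpotent_of_le (inf_le_left : C ≤ N)
  have hBA : ∀ B : Subgroup G, B.Normal → B ≤ C → (∀ a ∈ B, ∀ b ∈ B, a * b = b * a) → B ≤ A := by
    intro B hBn hBC hBc
    have : A ⊔ B ≤ A := by
      apply hmax
      · refine ⟨inferInstance, sup_le hAN (hBC.trans inf_le_left), ?_⟩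
        intro u hu v hv
        rw [← SetLike.mem_coe, Subgroup.mul_normal] at hu hv
        obtain ⟨a, ha, b, hb, rfl⟩ := hu
        obtain ⟨a', ha', b', hb', rfl⟩ := hv
        have e1 : a' * b = b * a' := (hBC hb).2 a' ha'
        have e2 : a * b' = b' * a := (hBC hb').2 a ha
        have e3 := hAc a ha a' ha'
        have e4 := hBc b hb b' hb'
        calc a * b * (a' * b') = a * (b * a') * b' := by group
          _ = (a * a') * (b * b') := by rw [← e1]; group
          _ = (a' * a) * (b' * b) := by rw [e3, e4]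
          _ = a' * (a * b') * b := by group
          _ = a' * b' * (a * b) := by rw [e2]; group
      · exact le_sup_left
    exact le_sup_right.trans this
  have hAC : A ≤ centralizer (C : Set G) := by
    intro a ha
    rw [mem_centralizer_iff]
    intro c hc
    exact ((mem_centralizer_iff.mp hc.2) a ha).symm
  have hcl := class_le_two C (fun B hBn hBC hBc => (hBA B hBn hBC hBc).trans hAC)
  have hZ : C ⊓ centralizer (C : Set G) ≤ A := by
    apply hBA _ inferInstance inf_le_left
    intro a ha b hb
    exact (mem_centralizer_iff.mp hb.2) a ha.1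
  have hxC : x ∈ C := ⟨hx, hxc⟩
  have : x ∉ centralizer (C : Set G) := fun h => hxA (hZ ⟨hxC, h⟩)
  rw [mem_centralizer_iff] at this
  push Not at this
  obtain ⟨y, hy, hne⟩ := this
  refine fin y ?_ ?_
  · have hm : ⁅x, y⁆ ∈ ⁅C, C⁆ := commutator_mem_commutator hxC hy
    exact hZ ⟨(commutator_le_inf C C hm).1, hcl hm⟩
  · intro h
    exact hne (commutatorElement_eq_one_iff_mul_comm.mp h).symm

/-- Nontrivial elements of a quasi-primitive solvable group fix at most three quarters of the space. -/
theorem three_quarters [Finite G] [Group.IsSolvable G] [FiniteDimensional F V]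
    {ρ : Representation F G V} (hq : QP ρ) {g : G} (hg1 : g ≠ 1) :
    4 * Module.finrank F (fx ρ g) ≤ 3 * Module.finrank F V := by
  by_cases hg : g ∈ Cfsg.fittingSubgroup G
  · have := half hq (Cfsg.fittingSubgroup G) hg hg1
    omega
  have : g ∉ centralizer (Cfsg.fittingSubgroup G : Set G) :=
    fun h => hg (CF.Solv.centralizer_fitting_le h)
  rw [mem_centralizer_iff] at this
  push Not at this
  obtain ⟨y, hy, hne⟩ := this
  have h1 : ⁅g, y⁆ ∈ Cfsg.fittingSubgroup G := by
    rw [commutatorElement_def]
    exact Subgroup.mul_mem _ ((CF.Solv.fitting_normal G).conj_mem y hy g) (Subgroup.inv_mem _ hy)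
  have h2 : ⁅g, y⁆ ≠ 1 := fun h => hne (commutatorElement_eq_one_iff_mul_comm.mp h).symm
  have h3 := half hq (Cfsg.fittingSubgroup G) h1 h2
  have h4 := two_mul_le ρ g y
  omega

/-- Fixed spaces of the subgroups of an abelian group that are maximal with nonzero fixed space are independent. -/
theorem indep_fxs (ρ : Representation F G V) (A : Subgroup G)
    (hA : ∀ a ∈ A, ∀ b ∈ A, a * b = b * a) {ι : Type*} (B : ι → Subgroup G) (hBA : ∀ i, B i ≤ A)
    (hne : ∀ i j, i ≠ j → ¬ B i ≤ B j)
    (hmax : ∀ i, ∀ a ∈ A, ∀ v ∈ fxs ρ (B i), ρ a v = v → v = 0 ∨ a ∈ B i) :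
    iSupIndep fun i => fxs ρ (B i) := by
  classical
  rw [iSupIndep_iff_finset_sum_eq_zero_imp_eq_zero]
  intro s
  induction s using Finset.strongInduction with
  | H s ih =>
    intro v hv hsum i hi
    by_contra hvi
    by_cases hs : ∃ j ∈ s, j ≠ i
    · obtain ⟨j, hj, hji⟩ := hs
      obtain ⟨b, hbj, hbi⟩ := Set.not_subset.mp (hne j i hji)
      have := ih (s.erase j) (Finset.erase_ssubset hj) (fun k => ρ b (v k) - v k) ?_ ?_ i
        (Finset.mem_erase.mpr ⟨hji.symm, hi⟩)
      · rcases hmax i b (hBA j hbj) (v i) (hv i hi) (sub_eq_zero.mp this) with h | h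
        · exact hvi h
        · exact hbi h
      · intro k hk
        have hk' := Finset.mem_of_mem_erase hk
        refine Submodule.sub_mem _ ?_ (hv k hk')
        intro c hc
        rw [← rho_mul_apply, hA c (hBA k hc) b (hBA j hbj), rho_mul_apply, hv k hk' c hc]
      · have e : ∑ k ∈ s, (ρ b (v k) - v k) = 0 := by
          rw [Finset.sum_sub_distrib, ← map_sum, hsum]; simp
        rw [← Finset.add_sum_erase s _ hj, hv j hj b hbj, sub_self, zero_add] at e
        exact e
    · push Not at hs
      have : s = {i} := Finset.eq_singleton_iff_unique_mem.mpr ⟨hi, hs⟩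
      rw [this, Finset.sum_singleton] at hsum
      exact hvi hsum

theorem fxs_conj (ρ : Representation F G V) (B : Subgroup G) (g : G) :
    fxs ρ (B.map (MulAut.conj g).toMonoidHom) = (fxs ρ B).map (ρ g) := by
  ext v
  rw [mem_fxs, Submodule.mem_map]
  constructor
  · intro h
    refine ⟨ρ g⁻¹ v, ?_, rho_apply_inv ρ g v⟩
    intro b hb
    apply rho_inj ρ g
    rw [rho_apply_inv, ← rho_mul_apply, ← rho_mul_apply]
    exact h _ ⟨b, hb, rfl⟩
  · rintro ⟨w, hw, rfl⟩ _ ⟨b, hb, rfl⟩
    change ρ (g * b * g⁻¹) _ = _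
    rw [rho_mul_apply, rho_mul_apply, rho_inv_apply, hw b hb]

/-- A faithful irreducible representation is quasi-primitive or preserves a proper decomposition. -/
theorem qp_or_decomp [Finite G] [FiniteDimensional F V] (ρ : Representation F G V)
    (hf : Function.Injective ρ)
    (hirr : ∀ W : Submodule F V, (∀ g, W.map (ρ g) ≤ W) → W = ⊥ ∨ W = ⊤) :
    QP ρ ∨ ∃ (t m : ℕ) (D : Fin t → Submodule F V), 2 ≤ t ∧ 0 < m ∧
      (∀ i, Module.finrank F (D i) = m) ∧ iSupIndep D ∧ iSup D = ⊤ ∧
      ∀ g, ∃ σ : Equiv.Perm (Fin t), ∀ i, (D i).map (ρ g) = D (σ i) := by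
  classical
  by_cases hq : QP ρ
  · exact Or.inl hq
  right
  unfold QP at hq
  push Not at hq
  obtain ⟨A, hAn, hAc, a, ha, ha1, hfx⟩ := hq
  obtain ⟨B, haB, ⟨hBA, hB0⟩, hmax⟩ := Set.Finite.exists_le_maximal
    (s := {B : Subgroup G | B ≤ A ∧ fxs ρ B ≠ ⊥}) (Set.toFinite _) (a := zpowers a)
    ⟨zpowers_le.mpr ha, by
      intro h
      apply hfx
      rw [eq_bot_iff, ← h]
      intro v hv
      rintro _ ⟨k, rfl⟩
      rw [mem_fx] at hv
      have : zpowers a ≤ (MulAction.stabilizer (Module.End F V)ˣ v).comap ρ.asGroupHom := by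
        rw [zpowers_le]
        exact hv
      exact this ⟨k, rfl⟩⟩
  let S : Set (Subgroup G) := {B' | ∃ g : G, B' = B.map (MulAut.conj g).toMonoidHom}
  haveI : Fintype S := Fintype.ofFinite S
  let e := Fintype.equivFin S
  have hcardS : ∀ B' ∈ S, Nat.card B' = Nat.card B := by
    rintro _ ⟨g, rfl⟩
    exact Subgroup.card_map_of_injective (MulAut.conj g).injective
  have hBS : B ∈ S := ⟨1, by ext; simp⟩
  have hact : ∀ g : G, ∀ B' ∈ S, B'.map (MulAut.conj g).toMonoidHom ∈ S := by
    rintro g _ ⟨h, rfl⟩
    refine ⟨g * h, ?_⟩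
    rw [Subgroup.map_map]
    congr 1
    ext x
    simp [mul_assoc]
  have hmax' : ∀ a ∈ A, ∀ v ∈ fxs ρ B, ρ a v = v → v = 0 ∨ a ∈ B := by
    intro c hc v hv hcv
    by_cases hv0 : v = 0
    · exact Or.inl hv0
    right
    have : B ⊔ zpowers c ≤ B := by
      apply hmax
      · refine ⟨sup_le hBA (zpowers_le.mpr hc), ?_⟩
        intro h
        apply hv0
        have : v ∈ fxs ρ (B ⊔ zpowers c) := by
          have : B ⊔ zpowers c ≤ (MulAction.stabilizer (Module.End F V)ˣ v).comap ρ.asGroupHom := by
            refine sup_le (fun b hb => hv b hb) ?_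
            rw [zpowers_le]
            exact hcv
          exact fun b hb => this hb
        rw [h] at this
        exact this
      · exact le_sup_left
    exact this (mem_sup_right (mem_zpowers c))
  have hD : iSup (fun i => fxs ρ (e.symm i : Subgroup G)) = ⊤ := by
    refine (hirr (iSup (fun i => fxs ρ (e.symm i : Subgroup G))) ?_).resolve_left ?_
    swap
    · intro h
      apply hB0
      rw [eq_bot_iff, ← h]
      have := le_iSup (fun i => fxs ρ (e.symm i : Subgroup G)) (e ⟨B, hBS⟩)
      simpa using this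
    · intro g
      rw [Submodule.map_iSup]
      refine iSup_le fun i => ?_
      rw [← fxs_conj]
      have := le_iSup (fun i => fxs ρ (e.symm i : Subgroup G)) (e ⟨_, hact g _ (e.symm i).2⟩)
      simpa using this
  refine ⟨Fintype.card S, Module.finrank F (fxs ρ B), fun i => fxs ρ (e.symm i : Subgroup G),
    ?_, ?_, ?_, ?_, hD, ?_⟩
  · by_contra hlt
    have hsub : Subsingleton S := Fintype.card_le_one_iff_subsingleton.mp (by omega)
    have : iSup (fun i => fxs ρ (e.symm i : Subgroup G)) ≤ fxs ρ B := by
      refine iSup_le fun i => ?_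
      rw [Subsingleton.elim (e.symm i) ⟨B, hBS⟩]
    rw [hD, top_le_iff] at this
    apply ha1
    apply hf
    rw [map_one]
    ext v
    have hv : v ∈ fxs ρ B := by rw [this]; trivial
    exact hv a (haB (mem_zpowers a))
  · rw [Nat.pos_iff_ne_zero]
    exact fun h => hB0 (Submodule.finrank_eq_zero.mp h)
  · intro i
    obtain ⟨g, hg⟩ := (e.symm i).2
    change Module.finrank F (fxs ρ (e.symm i : Subgroup G)) = _
    rw [hg, fxs_conj]
    exact (Submodule.equivMapOfInjective _ (rho_inj ρ g) _).finrank_eq.symm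
  · apply indep_fxs ρ A hAc (fun i => (e.symm i : Subgroup G))
    · intro i
      obtain ⟨g, hg⟩ := (e.symm i).2
      rw [hg]
      rintro _ ⟨b, hb, rfl⟩
      exact hAn.conj_mem b (hBA hb) g
    · intro i j hij hle
      apply hij
      apply e.symm.injective
      apply Subtype.ext
      exact Subgroup.eq_of_le_of_card_ge hle (by rw [hcardS _ (e.symm i).2, hcardS _ (e.symm j).2])
    · intro i c hc v hv hcv
      obtain ⟨g, hg⟩ := (e.symm i).2
      rw [hg] at hv ⊢
      rw [fxs_conj] at hv
      obtain ⟨w, hw, rfl⟩ := hv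
      have h1 : ρ (g⁻¹ * c * g⁻¹⁻¹) w = w := by
        rw [inv_inv, rho_mul_apply, rho_mul_apply, hcv, rho_inv_apply]
      rcases hmax' _ (hAn.conj_mem c hc g⁻¹) w hw h1 with h | h
      · left; rw [h, map_zero]
      · right
        exact ⟨_, h, by simp [mul_assoc]⟩
  · intro g
    let f : S → S := fun B' => ⟨_, hact g _ B'.2⟩
    have hfi : Function.Injective f := by
      intro B1 B2 h
      apply Subtype.ext
      exact Subgroup.map_injective (MulAut.conj g).injective (congrArg Subtype.val h)
    let σ : Equiv.Perm S := Equiv.ofBijective f (Finite.injective_iff_bijective.mp hfi)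
    refine ⟨e.symm.trans (σ.trans e), fun i => ?_⟩
    rw [← fxs_conj]
    simp [σ, f]

end CF.Fgs1.PrimLin
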