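import Cfsg.Agent.BG.B11
import Cfsg.Agent.Perm.AltOn

/-! Groups whose Sylow subgroups have cyclic subgroups of index at most `gcd p 2`: generalities. -/

set_option autoImplicit false
set_option linter.unusedSectionVars false

namespace CF.SW
open Subgroup CF.BG
open scoped commutatorElement

universe u

/-- every `p`-subgroup has a cyclic subgroup of index dividing `gcd p 2` -/
def Hy (G : Type*) [Group G] : Prop :=
  ∀ p : ℕ, p.Prime → ∀ P : Subgroup G, PiGrp {p} P →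
    ∃ c ∈ P, (zpowers c).relIndex P ∣ Nat.gcd p 2

variable {G : Type*} [Group G] [Finite G] {H : Type*} [Group H] [Finite H]
  {A B L N P : Subgroup G} {p : ℕ}

theorem Hy.card (h : Hy G) (hp : p.Prime) (k : PiGrp {p} P) :
    ∃ c ∈ P, ♯P ∣ orderOf c * Nat.gcd p 2 := by
  obtain ⟨c, hc, d⟩ := h p hp P k
  refine ⟨c, hc, ?_⟩
  rw [← card_mul_relIndex (zpowers_le.2 hc), Nat.card_zpowers]
  exact Nat.mul_dvd_mul_left _ d

theorem Hy.of_surj (h : Hy G) {f : G →* H} (hf : Function.Surjective f) : Hy H := by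
  intro p hp P k
  obtain ⟨Q, hQ⟩ := exists_syl p (P.comap f)
  have e : Q.map f = P := by
    have := hQ.map f
    rw [map_comap_eq_self_of_surjective hf] at this
    exact this.eq_of_pi k
  obtain ⟨c, hc, d⟩ := h p hp Q hQ.pi
  refine ⟨f c, e ▸ mem_map_of_mem f hc, ?_⟩
  rw [← e, ← relIndex_comap]
  refine (relIndex_dvd_left Q ?_).trans d
  rw [zpowers_le]; exact mem_zpowers _

theorem Hy.of_inj (h : Hy H) {f : G →* H} (hf : Function.Injective f) : Hy G := by
  intro p hp P k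
  obtain ⟨_, ⟨c, hc, rfl⟩, d⟩ := h p hp (P.map f) (k.map f)
  refine ⟨c, hc, ?_⟩
  rwa [← MonoidHom.map_zpowers, relIndex_map_map_of_injective _ _ hf] at d

theorem Hy.sub (h : Hy G) (K : Subgroup G) : Hy K := h.of_inj K.subtype_injective

theorem Hy.quo (h : Hy G) (K : Subgroup G) : Hy (Quo K) := (h.sub (𝐍 K)).of_surj (qmk_surj K)

theorem gcd_two (hp : p.Prime) (h2 : p ≠ 2) : Nat.gcd p 2 = 1 :=
  (Nat.coprime_primes hp Nat.prime_two).2 h2

theorem Hy.cyc (h : Hy G) (hp : p.Prime) (h2 : p ≠ 2) (k : PiGrp {p} P) : Cyc P := by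
  obtain ⟨c, hc, d⟩ := h p hp P k
  rw [gcd_two hp h2, Nat.dvd_one, relIndex_eq_one] at d
  exact (cyc_zpowers c).mono d

theorem hy_of (hodd : ∀ p : ℕ, p.Prime → p ≠ 2 → ∀ P : Sylow p G, IsCyclic P)
    (h2 : ∀ S : Sylow 2 G, ∃ C : Subgroup ↥(S : Subgroup G), IsCyclic C ∧ C.index ∣ 2) : Hy G := by
  intro p hp P k
  obtain ⟨Q, hQ, l⟩ := exists_syl_le (M := ⊤) le_top k
  have : Fact p.Prime := ⟨hp⟩
  obtain ⟨S, rfl⟩ := hQ.exists_sylow_top
  by_cases e : p = 2
  · subst e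
    obtain ⟨C, c, d⟩ := h2 S
    have c' : Cyc (C.map (S : Subgroup G).subtype) :=
      (cyc_map_iff (subtype_injective _)).2 c
    obtain ⟨x, hx⟩ := (c'.mono (inf_le_left (b := P))).exists_gen
    refine ⟨x, (hx.le (mem_zpowers x)).2, ?_⟩
    rw [hx, inf_relIndex_right]
    have i : (C.map (S : Subgroup G).subtype).relIndex S = C.index := by
      rw [relIndex, subgroupOf, comap_map_eq_self_of_injective (subtype_injective _)]
    have n : (S : Subgroup G) ≤ 𝐍 (C.map (S : Subgroup G).subtype) := by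
      refine (normal_iff_map_subtype.1 ?_).norm
      rcases (Nat.dvd_prime Nat.prime_two).1 d with d | d
      · rw [index_eq_one.1 d]; infer_instance
      · exact normal_of_index_eq_two d
    exact ((relIndex_dvd_of_norm l n).trans (i ▸ d))
  · obtain ⟨x, hx⟩ := (Cyc.mono (hodd p hp e S) l).exists_gen
    exact ⟨x, hx.le (mem_zpowers x), by rw [hx, relIndex_self]; exact one_dvd _⟩

theorem Hy.sol (h : Hy G) (k : ∀ P, Syl 2 P B → Cyc P) : Sol B := by
  have : ZGrp B := zGrp_of_forall fun p hp _ => by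
    obtain ⟨P, hP⟩ := exists_syl p B
    refine ⟨P, hP, ?_⟩
    by_cases e : p = 2
    · subst e; exact k P hP
    · exact h.cyc hp e hP.pi
  exact (inferInstance : Group.IsSolvable B)

theorem pow_of_not_cyc (k : PiGrp {2} P) (c : ¬ Cyc P) :
    ∃ n, ♯P = 2 * (2 * n) ∧ ∀ y ∈ P, y ^ (2 * n) = 1 := by
  obtain ⟨e, he⟩ := k.card_pow
  have key : ∀ y ∈ P, ∃ j < e, orderOf y = 2 ^ j := fun y hy => by
    obtain ⟨j, hj, o⟩ := (Nat.dvd_prime_pow Nat.prime_two).1 (he ▸ orderOf_dvd_card' hy)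
    refine ⟨j, lt_of_le_of_ne hj fun q => c ?_, o⟩
    rw [← eq_of_card_eq (zpowers_le.2 hy) (by rw [Nat.card_zpowers, o, he, q])]
    exact cyc_zpowers y
  obtain ⟨j, hj, -⟩ := key 1 (one_mem _)
  rcases e with _ | _ | e
  · omega
  · exact absurd (cyc_of_prime (by rw [he]; exact Nat.prime_two)) c
  · refine ⟨2 ^ e, by rw [he]; ring, fun y hy => ?_⟩
    obtain ⟨j, hj, o⟩ := key y hy
    rw [← orderOf_dvd_iff_pow_eq_one, o, ← pow_succ']
    exact pow_dvd_pow 2 (by omega)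

/-- commuting subgroups meeting trivially, one of them nonsolvable, have coprime orders -/
theorem Hy.coprime (h : Hy G) (c : A ≤ 𝐂 B) (i : A ⊓ B = ⊥) (ns : ¬ Sol B) :
    (♯A).Coprime (♯B) := by
  refine coprime_of_primes fun p hp dA dB => ?_
  obtain ⟨a, ha, oa⟩ := exists_mem_orderOf_eq hp dA
  have key : ∀ P, Syl p P B → ∀ m, p ∣ m → (∀ y ∈ P, y ^ m = 1) → p * ♯P ∣ m * Nat.gcd p 2 := by
    intro P hP m dm hm
    have c1 : zpowers a ≤ 𝐂 P := cent_mono c (zpowers_le.2 ha) hP.le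
    have k1 : PiGrp {p} (zpowers a) := piGrp_of_card_prime hp (by rw [Nat.card_zpowers, oa])
    obtain ⟨x, hx, d⟩ := h.card hp (k1.sup hP.pi (.inl (norm_of_cent c1)))
    rw [card_sup_of_inf_bot (.inl (norm_of_cent c1))
      (eq_bot_mono i (inf_le_inf (zpowers_le.2 ha) hP.le)), Nat.card_zpowers, oa] at d
    refine d.trans (Nat.mul_dvd_mul_right (orderOf_dvd_of_pow_eq_one ?_) _)
    obtain ⟨u, hu, v, hv, rfl⟩ := (mem_sup_norm (norm_of_cent c1)).1 hx
    have cm : Commute u v := (mem_cent.1 (c1 hu) v hv).symm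
    rw [cm.mul_pow, hm v hv, mul_one, ← orderOf_dvd_iff_pow_eq_one]
    exact ((orderOf_dvd_of_mem_zpowers hu).trans oa.dvd).trans dm
  by_cases e : p = 2
  · subst e
    refine ns (h.sol fun P hP => by_contra fun nc => ?_)
    obtain ⟨n, hn, hy⟩ := pow_of_not_cyc hP.pi nc
    have := key P hP (2 * n) (dvd_mul_right _ _) hy
    have h0 := card_pos' P
    have := Nat.le_of_dvd (by simp; omega) this
    simp at this; omega
  · obtain ⟨P, hP⟩ := exists_syl p B
    have := key P hP (♯P) (hP.prime_dvd hp rfl dB) fun y hy =>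
      orderOf_dvd_iff_pow_eq_one.1 (orderOf_dvd_card' hy)
    rw [gcd_two hp e, mul_one] at this
    have h0 := card_pos' P
    have := Nat.le_of_dvd h0 this
    have := hp.two_le
    nlinarith

theorem Hy.even (h : Hy G) (ns : ¬ Sol B) : 2 ∣ ♯B := by
  by_contra d
  refine ns (h.sol fun P hP => ?_)
  rw [(hP.syl_eq_bot_iff Nat.prime_two).2 d]
  exact cyc_bot

theorem Hy.odd (h : Hy G) (c : A ≤ 𝐂 B) (i : A ⊓ B = ⊥) (ns : ¬ Sol B) : ¬ 2 ∣ ♯A := fun d =>
  not_dvd_of_coprime (h.coprime c i ns) Nat.prime_two d (h.even ns)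

theorem Hy.sol_of_odd (h : Hy G) (o : ¬ 2 ∣ ♯A) : Sol A := by_contra fun ns => o (h.even ns)

theorem cent_of_sol_aut (pf : ⁅L, L⁆ = L) (n : L ≤ 𝐍 N) (s : Group.IsSolvable (MulAut N)) :
    L ≤ 𝐂 N := by
  let f : L →* MulAut N := (Subgroup.normalizerMonoidHom N).comp (Subgroup.inclusion n)
  have h1 : Sol ((⊤ : Subgroup L).map f) := inferInstance
  have h2 : ⁅(⊤ : Subgroup L), (⊤ : Subgroup L)⁆ = ⊤ := by
    apply map_injective L.subtype_injective
    rw [map_commutator, map_top_subtype, pf]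
  have h3 := h1.eq_bot_of_le_der (by rw [← map_commutator, h2])
  intro x hx
  have h4 : (⟨x, hx⟩ : L) ∈ f.ker := (Subgroup.map_eq_bot_iff _).1 h3 trivial
  have h5 : Subgroup.inclusion n ⟨x, hx⟩ ∈ (Subgroup.normalizerMonoidHom N).ker := h4
  rw [normalizerMonoidHom_ker] at h5
  exact h5

theorem Hy.cent_abelem (h : Hy G) (hp : p.Prime) (a : Abelem p N) (pf : ⁅L, L⁆ = L)
    (n : L ≤ 𝐍 N) : L ≤ 𝐂 N := by
  by_cases e : p = 2
  · subst e
    obtain ⟨c, hc, d⟩ := h.card hp a.pi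
    have d2 : ♯N ∣ 4 := d.trans (Nat.mul_dvd_mul_right (orderOf_dvd_of_pow_eq_one (a.pow c hc)) _)
    have := CF.Perm.isSolvable_perm (X := N) (Nat.le_of_dvd (by norm_num) d2)
    exact cent_of_sol_aut pf n (solvable_of_solvable_injective (f := MulAut.toPerm N)
      fun a b e => MulEquiv.toEquiv_injective e)
  · exact pf ▸ (h.cyc hp e a.pi).der_le_cent n

theorem cent_aux (m : ℕ) : ∀ {G : Type u} [Group G] [Finite G] {L N : Subgroup G}, ♯N < m → Hy G →
    Sol N → ⁅L, L⁆ = L → L ≤ 𝐍 N → L ≤ 𝐂 N := by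
  induction m with
  | zero => intros; omega
  | succ m ih =>
    intro G _ _ L N lt h s pf n
    by_cases h1 : N = ⊥
    · subst h1; exact cent_symm bot_le
    obtain ⟨p, M, hp, M1, nM, LM, a⟩ := s.exists_abelem_norm h1 n
    have c1 := h.cent_abelem hp a pf LM
    have c2 := ih (L := qt M L) (N := qt M N) (by have := card_qt_lt nM M1; omega) (h.quo M)
      (s.qt M) (by rw [← qt_comm LM LM, pf]) (qt_norm M n)
    rw [qt_cent_iff LM nM.norm] at c2
    have c3 : ⁅⁅L, N⁆, L⁆ ≤ ⊥ := (comm_eq_bot'.2 (cent_mono c1 le_rfl c2)).le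
    have := three_subgroup (A := L) (B := L) (C := N) (N := ⊥) (norm_of_cent (cent_symm bot_le))
      (norm_of_cent (cent_symm bot_le)) (norm_of_cent (cent_symm bot_le)) c3
      (by rwa [Subgroup.commutator_comm N L])
    rw [pf] at this
    exact comm_eq_bot.1 (le_bot_iff.1 this)

/-- a perfect subgroup centralizes every solvable subgroup it normalizes -/
theorem Hy.cent (h : Hy G) (s : Sol N) (pf : ⁅L, L⁆ = L) (n : L ≤ 𝐍 N) : L ≤ 𝐂 N :=
  cent_aux _ (Nat.lt_succ_self _) h s pf n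

end CF.SW
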