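import Cfsg.Agent.Fgs1.SW1
import Cfsg.Agent.Transfer.Residual
import Cfsg.Agent.Classical.SmallIso
import Cfsg.Agent.Classical.Transport
import Cfsg.Agent.S0280
import Cfsg.Agent.S0434
import Cfsg.Agent.S0435

/-! Simple groups of 2-rank 2 with cyclic odd Sylow subgroups. -/

set_option autoImplicit false
set_option linter.unusedSectionVars false

namespace CF.SW
open Subgroup CF.BG Matrix
open scoped commutatorElement MatrixGroups

variable {G : Type*} [Group G] [Finite G] {p : ℕ}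

theorem Hy.exists_elt (h : Hy G) (hp : p.Prime) {k : ℕ} (d : p ^ k ∣ Nat.card G) :
    ∃ (c : G) (j : ℕ), orderOf c = p ^ j ∧ p ^ k ∣ p ^ j * Nat.gcd p 2 := by
  obtain ⟨P, hP⟩ := exists_syl p (⊤ : Subgroup G)
  obtain ⟨c, hc, e⟩ := h.card hp hP.pi
  obtain ⟨j, hj⟩ := (hP.pi.elt hc).exists_pow (orderOf_pos c).ne'
  exact ⟨c, j, hj, (hP.dvd_card (by rwa [card_top']) (piNat_pow_self hp k)).trans (hj ▸ e)⟩

theorem unip {F : Type*} [Field F] [hp : Fact p.Prime] [CharP F p] {n : ℕ} {Γ : Type*} [Group Γ]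
    [Finite Γ] (ρ : Γ →* SL(n, F)) (hρ : Function.Injective ρ) {x : Γ ⧸ center Γ} {j i : ℕ}
    (hx : orderOf x = p ^ j) (hi : n ≤ p ^ i) : x ^ p ^ i = 1 := by
  obtain ⟨s, rfl⟩ := QuotientGroup.mk_surjective x
  obtain ⟨y, -, ⟨l, hl⟩, hy⟩ := CF.Transfer.exists_pElt_lift (p := p) (QuotientGroup.mk' (center Γ))
    (isOfFinOrder_of_finite s) (k := j) hx
  replace hy : (y : Γ ⧸ center Γ) = s := hy
  rw [← hy, ← QuotientGroup.mk_pow]
  suffices y ^ p ^ i = 1 by rw [this]; rfl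
  rcases Nat.eq_zero_or_pos n with rfl | n0
  · exact hρ (Subsingleton.elim _ _)
  have : Nonempty (Fin n) := ⟨⟨0, n0⟩⟩
  have hpw : ∀ m, ((ρ y).1 - 1) ^ p ^ m = (ρ (y ^ p ^ m)).1 - 1 := fun m => by
    rw [sub_pow_char_pow_of_commute p m (Commute.one_right (ρ y).1), one_pow, map_pow]; rfl
  have hu : IsNilpotent ((ρ y).1 - 1) :=
    ⟨p ^ l, by rw [hpw, ← hl, pow_orderOf_eq_one, map_one]; exact sub_self _⟩
  have h3 := Matrix.aeval_self_charpoly ((ρ y).1 - 1)
  rw [show ((ρ y).1 - 1).charpoly = Polynomial.X ^ n by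
    simpa [sub_eq_zero] using (Matrix.isNilpotent_charpoly_sub_pow_of_isNilpotent hu).eq_zero] at h3
  have h4 : ((ρ y).1 - 1) ^ p ^ i = 0 := pow_eq_zero_of_le hi (by simpa using h3)
  rw [hpw, sub_eq_zero] at h4
  exact hρ (by rw [map_one]; exact Subtype.ext h4)

theorem not_sq {F : Type*} [Field F] [hp : Fact p.Prime] [CharP F p] (h2 : p ≠ 2) {n : ℕ}
    (hn : n ≤ 3) {Γ : Type*} [Group Γ] [Finite Γ] (ρ : Γ →* SL(n, F)) (hρ : Function.Injective ρ)
    (h : Hy (Γ ⧸ center Γ)) : ¬ p ^ 2 ∣ Nat.card (Γ ⧸ center Γ) := fun d => by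
  obtain ⟨c, j, o, e⟩ := h.exists_elt hp.out d
  have := unip ρ hρ o (i := 1) (by have := hp.out.two_le; rw [pow_one]; omega)
  rw [← orderOf_dvd_iff_pow_eq_one, o] at this
  rw [gcd_two hp.out h2, mul_one] at e
  exact absurd ((Nat.pow_dvd_pow_iff_le_right hp.out.one_lt).1 (e.trans this)) (by omega)

theorem ne_two {F : Type*} [Field F] [Fintype F] (h : Odd (Fintype.card F)) [CharP F p] :
    p ≠ 2 := by
  rintro rfl
  obtain ⟨n, -, hn⟩ := FiniteField.card F 2
  rw [hn] at h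
  exact (Nat.not_even_iff_odd.2 h) (even_two.pow_of_ne_zero n.ne_zero)

variable {F : Type*} [Field F] [Fintype F]

theorem char_dvd [CharP F p] : p ∣ Fintype.card F := by
  obtain ⟨n, -, hn⟩ := FiniteField.card F p
  exact hn ▸ dvd_pow_self p n.ne_zero

theorem cop_pred {q : ℕ} (hp : p.Prime) (d : p ∣ q) (h : 0 < q) : p.Coprime (q - 1) :=
  (Nat.Prime.coprime_iff_not_dvd hp).2 fun e => hp.one_lt.ne' (Nat.dvd_one.1 (by
    have := Nat.dvd_sub d e
    rwa [Nat.sub_sub_self h] at this))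

theorem psl2_prime (o : Odd (Fintype.card F)) (h : Hy PSL(2, F)) : (Fintype.card F).Prime := by
  obtain ⟨p, hp⟩ := CharP.exists F
  have : Fact p.Prime := ⟨CharP.char_is_prime F p⟩
  obtain ⟨n, pp, hn⟩ := FiniteField.card F p
  by_cases e : (n : ℕ) = 1
  · rwa [hn, e, pow_one]
  refine absurd ?_ (not_sq (ne_two o) (n := 2) (by omega) (MonoidHom.id _) Function.injective_id h)
  have c := CF.Classical.card_PSL_two (F := F)
  refine (Nat.Coprime.pow_left 2 ((cop_pred pp (char_dvd (F := F)) Fintype.card_pos).coprime_dvd_right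
    (Nat.gcd_dvd_right 2 _))).dvd_of_dvd_mul_left (Dvd.dvd.trans (Dvd.dvd.mul_right ?_ _) c.symm.dvd)
  rw [hn]
  exact pow_dvd_pow p (by have := n.pos; omega)

theorem not_psl3 (o : Odd (Fintype.card F)) (h : Hy PSL(3, F)) : False := by
  obtain ⟨p, hp⟩ := CharP.exists F
  have pp : Fact p.Prime := ⟨CharP.char_is_prime F p⟩
  refine absurd ?_ (not_sq (ne_two o) (n := 3) le_rfl (MonoidHom.id _) Function.injective_id h)
  have c := CF.Classical.card_PSL_fin (F := F) 3 (by omega)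
  have k := cop_pred pp.out (char_dvd (F := F)) Fintype.card_pos
  refine (Nat.Coprime.pow_left 2 k).dvd_of_dvd_mul_left ((Nat.Coprime.pow_left 2
    (k.coprime_dvd_right (Nat.gcd_dvd_right 3 _))).dvd_of_dvd_mul_left (c ▸ ?_))
  refine Dvd.dvd.trans ?_ (Finset.dvd_prod_of_mem _ (Finset.mem_univ (2 : Fin 3)))
  exact Nat.dvd_sub (pow_dvd_pow_of_dvd_of_le char_dvd (by omega)) (pow_dvd_pow_of_dvd char_dvd 2)

theorem cube_dvd_psu {q : ℕ} (hF : Fintype.card F = q ^ 2) : q ^ 3 ∣ Nat.card (Cfsg.PSU 3 F q) := by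
  have c := Cfsg.Agent.S0280.result hF 3 (by omega)
  have k : q.Coprime (q + 1) := by simp
  refine (Nat.Coprime.pow_left 3 k).dvd_of_dvd_mul_left ((Nat.Coprime.pow_left 3
    (k.coprime_dvd_right (Nat.gcd_dvd_right 3 _))).dvd_of_dvd_mul_left (c ▸ ?_))
  exact dvd_mul_right _ _

theorem not_psu3 {q : ℕ} (hF : Fintype.card F = q ^ 2) (o : Odd q) (h : Hy (Cfsg.PSU 3 F q)) :
    False := by
  obtain ⟨p, hp⟩ := CharP.exists F
  have pp : Fact p.Prime := ⟨CharP.char_is_prime F p⟩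
  refine absurd ?_ (not_sq (ne_two (F := F) (hF ▸ o.pow)) (n := 3) le_rfl (Subgroup.subtype _)
    (subtype_injective _) h)
  exact (pow_dvd_pow_of_dvd_of_le (pp.out.dvd_of_dvd_pow (hF ▸ char_dvd)) (by omega)).trans
    (cube_dvd_psu hF)

theorem not_psu34 (hF : Fintype.card F = 16) (h : Hy (Cfsg.PSU 3 F 4)) : False := by
  obtain ⟨p, hp⟩ := CharP.exists F
  have pp : Fact p.Prime := ⟨CharP.char_is_prime F p⟩
  obtain rfl : p = 2 := (Nat.prime_dvd_prime_iff_eq pp.out Nat.prime_two).1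
    (pp.out.dvd_of_dvd_pow (n := 4) ((char_dvd (F := F)).trans hF.dvd))
  obtain ⟨c, j, o, e⟩ := h.exists_elt Nat.prime_two (k := 6) (cube_dvd_psu (q := 4) hF)
  have := unip (F := F) (Subgroup.subtype _) (subtype_injective _) o (i := 2) (by norm_num)
  rw [← orderOf_dvd_iff_pow_eq_one, o] at this
  exact absurd (e.trans (Nat.mul_dvd_mul_right this _)) (by decide)

theorem not_A7 (h : Hy (alternatingGroup (Fin 7))) : False := by
  obtain ⟨c, j, o, e⟩ := h.exists_elt Nat.prime_three (k := 2) (by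
    have := two_mul_nat_card_alternatingGroup (α := Fin 7)
    rw [Nat.card_perm, Nat.card_eq_fintype_card (α := Fin 7), Fintype.card_fin] at this
    rw [show Nat.card (alternatingGroup (Fin 7)) = 2520 by
      simp only [Nat.factorial] at this; omega]
    decide)
  have : orderOf c ∣ 420 := by
    rw [← Subgroup.orderOf_coe, ← Equiv.Perm.lcm_cycleType, Multiset.lcm_dvd]
    intro b hb
    have h1 := Equiv.Perm.two_le_of_mem_cycleType hb
    have h2 : b ≤ 7 := (Multiset.le_sum_of_mem hb).trans (by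
      rw [Equiv.Perm.sum_cycleType]; simpa using Finset.card_le_univ (c.1).support)
    interval_cases b <;> decide
  exact absurd (e.trans (Nat.mul_dvd_mul_right (o ▸ this) _)) (by decide)

theorem not_M11 (hG : Cfsg.IsM11 G) (h : Hy G) : False := by
  have : Fact (Nat.Prime 3) := ⟨Nat.prime_three⟩
  obtain ⟨P⟩ : Nonempty (Sylow 3 G) := inferInstance
  have hP := syl_sylow_top P
  have c := h.cyc Nat.prime_three (by decide) hP.pi
  have c9 : ♯(P : Subgroup G) = 9 := by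
    rw [P.card_eq_multiplicity, hG.2]; decide +kernel
  have d := c.relIndex_cent_dvd (le_refl _)
  have e := card_inf_mul_relIndex (𝐂 (P : Subgroup G)) (𝐍 (P : Subgroup G))
  rw [Cfsg.Agent.S0434.result hG P] at e
  rw [c9, show Nat.totient 9 = 6 by decide] at d
  have d2 : 2 ∣ ♯(𝐂 (P : Subgroup G) ⊓ 𝐍 (P : Subgroup G)) := by
    by_contra n
    have : 4 ∣ 6 := ((Nat.Coprime.pow_left 2 ((Nat.Prime.coprime_iff_not_dvd Nat.prime_two).2
      n)).dvd_of_dvd_mul_left (e ▸ by decide)).trans d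
    omega
  obtain ⟨t, ht, o⟩ := exists_mem_orderOf_eq Nat.prime_two d2
  have := card_dvd (le_cent1_iff.2 ht.1)
  rw [c9, Cfsg.Agent.S0435.result hG t o] at this
  omega

theorem Hy.rank (h : Hy G) : Cfsg.PRankLE 2 2 G := fun A a e => by
  obtain ⟨c, hc, d⟩ := h.card Nat.prime_two (Abelem.mk' Nat.prime_two (.of_comm a) e).pi
  exact Nat.le_of_dvd (by norm_num)
    (d.trans (Nat.mul_dvd_mul_right (orderOf_dvd_of_pow_eq_one (e c hc)) _))

end CF.SW
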