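/-
Breadth and the order of the derived subgroup of a group of prime power order.
-/
import Cfsg.Agent.Fgs1.Blk2
import Cfsg.Agent.PLocal.Replace
set_option autoImplicit false
set_option linter.unusedSectionVars false

namespace CF.Blk
open Subgroup CF.BG CF.BG2
open scoped commutatorElement

variable {G : Type*} [Group G] [Finite G] {p : ℕ} {P C H K M : Subgroup G} {g y : G}

/-- the breadth of `x` with respect to `P` -/
noncomputable def br (p : ℕ) (P : Subgroup G) (x : G) : ℕ := logn p ((𝐂₁ x).relIndex P)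

theorem br_add (p : ℕ) (P : Subgroup G) (x : G) :
    logn p (♯P) = logn p (♯(𝐂₁ x ⊓ P : Subgroup G)) + br p P x := logn_inf_add _ _

theorem normal_of_logn (hp : p.Prime) (k : PiGrp {p} P) (hC : C ≤ P)
    (l : logn p (♯P) = logn p (♯C) + 1) : C ⊴ P :=
  ⟨hC, norm_of_relIndex_prime k.nil hC (by rwa [relIndex_eq_of_logn k hC l, pow_one])⟩

theorem sup_eq_of_logn (k : PiGrp {p} P) (hC : C ≤ P) (l : logn p (♯P) = logn p (♯C) + 1)
    (hK : K ≤ P) (n : ¬ K ≤ C) : C ⊔ K = P := by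
  have h := (k.le (sup_le hC hK)).logn_lt (left_lt_sup.2 n)
  exact k.eq_of_logn_le (sup_le hC hK) (by omega)

theorem br_mono (n : C ⊴ P) (x : G) : br p C x ≤ br p P x := by
  have h1 := br_add p P x
  have h2 := br_add p C x
  have h3 := logn_sup p (H := C) (K := 𝐂₁ x ⊓ P) (Or.inr (inf_le_right.trans n.norm))
  have h4 := logn_card_le (p := p) (sup_le n.le (inf_le_right (a := 𝐂₁ x)))
  rw [← inf_assoc, inf_eq_left.2 (inf_le_left.trans n.le), inf_comm C] at h3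
  omega

theorem exists_not_two (h : ¬ P ≤ H) (k : ¬ P ≤ K) : ∃ x ∈ P, x ∉ H ∧ x ∉ K := by
  obtain ⟨a, ha, a1⟩ := SetLike.not_le_iff_exists.1 h
  obtain ⟨b, hb, b1⟩ := SetLike.not_le_iff_exists.1 k
  by_cases a2 : a ∈ K
  · by_cases b2 : b ∈ H
    · exact ⟨a * b, P.mul_mem ha hb, fun e => a1 ((H.mul_mem_cancel_right b2).1 e),
        fun e => b1 ((K.mul_mem_cancel_left a2).1 e)⟩
    · exact ⟨b, hb, b2, b1⟩
  · exact ⟨a, ha, a1, a2⟩

theorem key (hp : p.Prime) (k : PiGrp {p} P) (hC : C ≤ P) (l : logn p (♯P) = logn p (♯C) + 1)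
    (hg : g ∈ P) (n : g ∉ C) : ∃ D ≤ C,
      logn p (♯⁅P, P⁆) + logn p (♯D) ≤ logn p (♯⁅C, C⁆) + logn p (♯C) ∧
      logn p (♯C) ≤ logn p (♯D) + br p P g ∧ ∀ c ∈ C, c ∉ D → br p C c + 1 ≤ br p P c := by
  have nC := normal_of_logn hp k hC l
  set T := ⁅C, C⁆ with hT
  have nT : T ⊴ P := ⟨(der_le C).trans hC, norm_commutator nC.norm nC.norm⟩
  have nT' : T ⊴ C := der_normal C
  have aV : Abel (qt T C) := (abel_qt_iff nT'.norm).2 le_rfl
  have ng := nT.norm hg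
  have na : qe T g ∈ 𝐍 (qt T C) := (nC.qt T).norm (qe_mem_qt hg ng)
  have gen : ∀ w ∈ P, w ∉ C → qt T P = qt T C ⊔ zpowers (qe T w) := fun w hw nw => by
    rw [← qt_zpowers (nT.norm hw), ← qt_sup nT'.norm (zpowers_le.2 (nT.norm hw)),
      sup_eq_of_logn k hC l (zpowers_le.2 hw) fun e => nw (e (mem_zpowers w))]
  have h1 := congrArg (logn p)
    (CF.PLocal.card_eq_card_centralizer_mul_card_commutator (abel_iff.1 aV) na)
  rw [logn_mul (card_ne_zero' _) (card_ne_zero' _)] at h1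
  have h2 : ⁅qt T P, qt T P⁆ ≤ ⁅qt T C, zpowers (qe T g)⁆ := by
    rw [gen g hg n]
    have a := norm_comm_left (qt T C) (zpowers (qe T g))
    have b := norm_comm_right (qt T C) (zpowers (qe T g))
    exact comm_sup_le (comm_sup_le' ((der_eq_bot.2 aV).le.trans bot_le) le_rfl a b)
      (comm_sup_le' (commutator_comm _ _).le ((der_eq_bot.2 (abel_zpowers _)).le.trans bot_le) a b)
      a b
  have h3 := logn_card_le (p := p) h2
  rw [← qt_comm nT.norm nT.norm] at h3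
  have h4 := logn_qt (p := p) (nT.of_le (commutator_mono hC hC) (der_le P))
  have h5 := logn_qt (p := p) nT'
  have h6 := logn_qp (p := p) (qt T C ⊓ 𝐂 (zpowers (qe T g)))
  refine ⟨qp T (qt T C ⊓ 𝐂 (zpowers (qe T g))), qp_le_of_le_qt nT' inf_le_left, by omega, ?_,
    fun c hc nc => ?_⟩
  · have h7 := br_add p C g
    have h8 := br_mono (p := p) nC g
    have h9 := logn_card_le (p := p) (show 𝐂₁ g ⊓ C ≤ qp T (qt T C ⊓ 𝐂 (zpowers (qe T g))) from
      fun c hc => mem_qp.2 ⟨nT'.norm hc.2, qe_mem_qt hc.2 (nT'.norm hc.2), by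
        rw [cent_zpowers]
        refine mem_cent1.2 ?_
        rw [← qe_mul (nT'.norm hc.2) ng, ← qe_mul ng (nT'.norm hc.2), mem_cent1.1 hc.1]⟩)
    omega
  · have h7 := br_add p C c
    have h8 := br_add p P c
    have h9 := logn_card_le (p := p) (show 𝐂₁ c ⊓ P ≤ 𝐂₁ c ⊓ C from fun w hw => ⟨hw.1, by
      by_contra nw
      have m := qe_mem_qt hc (nT'.norm hc)
      have : qt T P ≤ 𝐂₁ (qe T c) := by
        rw [gen w hw.2 nw]
        refine sup_le (aV.trans (cent_le_cent1 m)) (zpowers_le.2 ?_)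
        rw [mem_cent1, ← qe_mul (nT'.norm hc) (nT.norm hw.2), ← qe_mul (nT.norm hw.2) (nT'.norm hc),
          mem_cent1.1 hw.1]
      exact nc (mem_qp.2 ⟨nT'.norm hc, m, by
        rw [cent_zpowers]; exact mem_cent1_comm.1 (this (qe_mem_qt hg ng))⟩)⟩)
    omega

theorem third (hp : p.Prime) (k : PiGrp {p} P) (hH : H ≤ P) (lH : logn p (♯P) = logn p (♯H) + 1)
    (hM : M ≤ P) (lM : logn p (♯P) = logn p (♯M) + 1) (hy : y ∈ M) (n : y ∉ H) :
    ∃ C x, C ≤ P ∧ logn p (♯P) = logn p (♯C) + 1 ∧ y ∉ C ∧ C ⊓ M ≤ H ∧ x ∈ H ∧ x ∉ M ∧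
      x * y ∈ C := by
  have nH := normal_of_logn hp k hH lH
  have nM := normal_of_logn hp k hM lM
  obtain ⟨x, hx, nx⟩ := SetLike.not_le_iff_exists.1 fun e : H ≤ M =>
    n (((k.le hM).eq_of_logn_le e (by omega)).ge hy)
  have h1 := logn_sup p (Or.inl (hH.trans nM.norm))
  rw [sup_eq_of_logn k hH lH hM fun e => n (e hy)] at h1
  have xy := P.mul_mem (hH hx) (hM hy)
  have x1 : x * y ∉ M := fun e => nx ((M.mul_mem_cancel_right hy).1 e)
  have ph : 𝚽 P ≤ H := by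
    by_contra e
    have := eq_of_le_sup_Phi hH (sup_eq_of_logn k hH lH (Phi_le P) e).ge
    rw [this] at lH
    omega
  have h2 : (H ⊓ M ⊔ zpowers (x * y)) ⊓ M ≤ H := fun w hw => by
    obtain ⟨a, ha, b, hb, rfl⟩ := (mem_sup_norm' ((zpowers_le.2 xy).trans (nH.inf nM).norm)).1 hw.1
    have := mem_zpowers_pow hp (k.le (zpowers_le.2 xy)) hb fun e =>
      x1 (zpowers_le.2 ((M.mul_mem_cancel_left ha.2).1 hw.2) e)
    exact H.mul_mem ha.1 (zpowers_le.2 (ph (k.pow_mem_Phi xy)) this)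
  have h3 : H ⊓ M ⊔ zpowers (x * y) ≤ P := sup_le (inf_le_left.trans hH) (zpowers_le.2 xy)
  have h4 : y ∉ H ⊓ M ⊔ zpowers (x * y) := fun e => n (h2 ⟨e, hy⟩)
  have h5 := k.logn_lt (lt_of_le_of_ne h3 fun e => h4 (e.ge (hM hy)))
  have h6 := (k.le h3).logn_lt (left_lt_sup.2 fun e => x1 (e (mem_zpowers _)).2)
  exact ⟨_, x, h3, by omega, h4, h2, hx, nx, mem_sup_right (mem_zpowers _)⟩

theorem exists_max_le (k : PiGrp {p} P) (h : H < P) :
    ∃ M, H ≤ M ∧ M ≤ P ∧ logn p (♯P) = logn p (♯M) + 1 := by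
  have := k.logn_lt h
  obtain ⟨M, a, b, c⟩ := k.exists_logn_between h.le (n := logn p (♯P) - 1) (by omega) (by omega)
  exact ⟨M, a, b, by omega⟩

theorem exists_C (hp : p.Prime) (k : PiGrp {p} P) (c : ¬ Cyc P) (hH : H ≤ P)
    (lH : logn p (♯P) = logn p (♯H) + 1)
    (hK : K ≤ H ∨ K < P ∧ (p = 2 → logn p (♯K) + 2 ≤ logn p (♯P))) :
    ∃ C g, C ≤ P ∧ logn p (♯P) = logn p (♯C) + 1 ∧ g ∈ P ∧ g ∉ C ∧ g ∉ H ∧ g ∉ K ∧ C ⊓ K ≤ H ∧
      ¬ C ≤ H := by
  obtain ⟨M, y, hM, lM, hy, n, y2, hK'⟩ : ∃ M y, M ≤ P ∧ logn p (♯P) = logn p (♯M) + 1 ∧ y ∈ M ∧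
      y ∉ H ∧ (p = 2 → y ∉ K) ∧ (K ≤ H ∨ K ≤ M) := by
    by_cases e : K ≤ H
    · obtain ⟨y, hy, n⟩ := SetLike.not_le_iff_exists.1 fun e : P ≤ H => by
        have := logn_card_le (p := p) e
        omega
      obtain ⟨M, a, b, l⟩ := exists_max_le k (lt_of_le_of_ne (zpowers_le.2 hy)
        fun e => c (e ▸ cyc_zpowers y))
      exact ⟨M, y, b, l, a (mem_zpowers y), n, fun _ h => n (e h), Or.inl e⟩
    · obtain ⟨h1, h2⟩ := hK.resolve_left e
      obtain ⟨M, a, b, l⟩ := exists_max_le k h1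
      by_cases p2 : p = 2
      · obtain ⟨y, hy, y1, y2⟩ := exists_not_two (fun h : M ≤ H => e (a.trans h)) fun h : M ≤ K => by
          have := logn_card_le (p := p) h
          have := h2 p2
          omega
        exact ⟨M, y, b, l, hy, y1, fun _ => y2, Or.inr a⟩
      · obtain ⟨y, hy, n⟩ := SetLike.not_le_iff_exists.1 e
        exact ⟨M, y, b, l, a hy, n, fun h => absurd h p2, Or.inr a⟩
  obtain ⟨C, x, hC, lC, yC, cm, hx, nx, xy⟩ := third hp k hH lH hM lM hy n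
  have c1 : C ⊓ K ≤ H := hK'.elim inf_le_right.trans (fun h => (inf_le_inf_left _ h).trans cm)
  have c2 : ¬ C ≤ H := fun e => n ((H.mul_mem_cancel_left hx).1 (e xy))
  by_cases p2 : p = 2
  · exact ⟨C, y, hC, lC, hM hy, yC, n, y2 p2, c1, c2⟩
  have g1 : x * y * y ∉ H := fun e => by
    rw [mul_assoc, H.mul_mem_cancel_left hx, ← pow_two] at e
    refine n (zpowers_le.2 e (mem_zpowers_pow_iff.2 ?_))
    rw [← Nat.card_zpowers, (k.le (zpowers_le.2 (hM hy))).card_eq]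
    exact Nat.Coprime.pow_right _ ((Nat.coprime_primes Nat.prime_two hp).2 (Ne.symm p2))
  have g2 : x * y * y ∉ M := fun e => nx (by
    rwa [M.mul_mem_cancel_right hy, M.mul_mem_cancel_right hy] at e)
  exact ⟨C, x * y * y, hC, lC, P.mul_mem (hC xy) (hM hy),
    fun e => yC ((C.mul_mem_cancel_left xy).1 e), g1, fun e => hK'.elim (fun h => g1 (h e))
      (fun h => g2 (h e)), c1, c2⟩

theorem logn_inf_max (hp : p.Prime) (k : PiGrp {p} P) (hH : H ≤ P)
    (lH : logn p (♯P) = logn p (♯H) + 1) (hC : C ≤ P) (n : ¬ C ≤ H) :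
    logn p (♯C) = logn p (♯(C ⊓ H : Subgroup G)) + 1 := by
  have h1 := logn_sup p (Or.inr (hC.trans (normal_of_logn hp k hH lH).norm))
  rw [sup_eq_of_logn k hH lH hC n, inf_comm] at h1
  omega

theorem vl (hp : p.Prime) (m : ℕ) : ∀ (P : Subgroup G) (n : ℕ) (H K : Subgroup G),
    logn p (♯P) < m → PiGrp {p} P → H < P →
    (K ≤ H ∨ K < P ∧ (p = 2 → logn p (♯K) + 2 ≤ logn p (♯P))) →
    (∀ x ∈ P, x ∉ H → x ∉ K → br p P x < n) → logn p (♯⁅P, P⁆) ≤ n.choose 2 := by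
  induction m with
  | zero => intro P n H K h; omega
  | succ m ih =>
  intro P n H₀ K hm k h₀ hK₀ sm₀
  by_cases c : Cyc P
  · rw [der_eq_bot.2 c.abel]; simp [logn]
  obtain ⟨H, h₁, hH, lH⟩ := exists_max_le k h₀
  obtain ⟨C, g, hC, lC, hg, g1, g2, g3, ck, ch⟩ := exists_C hp k c hH lH
    (hK₀.imp_left fun h => h.trans h₁)
  have sm : ∀ x ∈ C, x ∉ C ⊓ H → br p P x < n := fun x hx e =>
    sm₀ x (hC hx) (fun h => e ⟨hx, h₁ h⟩) fun h => e ⟨hx, ck ⟨hx, h⟩⟩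
  have sg := sm₀ g hg (fun h => g2 (h₁ h)) g3
  obtain ⟨D, hD, d1, d2, d3⟩ := key hp k hC lC hg g1
  have nC := normal_of_logn hp k hC lC
  have kC := k.le hC
  have lE := logn_inf_max hp k hH lH hC ch
  have hE : C ⊓ H < C := inf_lt_left.2 ch
  generalize C ⊓ H = E at sm lE hE
  by_cases e : D = C
  · have := ih C n E E (by omega) kC hE (Or.inl le_rfl)
      fun x hx h _ => (br_mono nC x).trans_lt (sm x hx h)
    rw [e] at d1
    omega
  have lD := kC.logn_lt (lt_of_le_of_ne hD e)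
  obtain ⟨n, rfl⟩ := Nat.exists_eq_add_of_le' (show 1 ≤ n by omega)
  have ch : ∀ n : ℕ, (n + 1).choose 2 = n.choose 2 + n := fun n => by
    rw [Nat.choose_succ_succ', Nat.choose_one_right, add_comm]
  have sm' : ∀ x ∈ C, x ∉ E → x ∉ D → br p C x < n := fun x hx h h' => by
    have := sm x hx h
    have := d3 x hx h'
    omega
  rw [ch]
  by_cases q : D ≤ E ∨ D < C ∧ (p = 2 → logn p (♯D) + 2 ≤ logn p (♯C))
  · have := ih C n E D (by omega) kC hE q sm'
    omega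
  obtain ⟨d, hd, nd⟩ := SetLike.not_le_iff_exists.1 fun h => q (Or.inl h)
  have lD' : logn p (♯C) = logn p (♯D) + 1 := by
    by_contra h
    exact q (Or.inr ⟨lt_of_le_of_ne hD e, fun _ => by omega⟩)
  obtain ⟨F, x, hF, lF, dF, fd, hx, nx, xd⟩ := third hp kC hE.le lE hD lD' hd nd
  obtain ⟨D', hD', e1, e2, e3⟩ := key hp kC hF lF (hD hd) dF
  have nF := normal_of_logn hp kC hF lF
  have fe : ¬ F ≤ E := fun h => nd ((E.mul_mem_cancel_left hx).1 (h xd))
  have sf : ∀ f ∈ F, f ∉ F ⊓ E → br p C f < n := fun f hf h =>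
    sm' f (hF hf) (fun a => h ⟨hf, a⟩) fun a => h ⟨hf, fd ⟨hf, a⟩⟩
  have b1 := (br_mono nC d).trans_lt (sm d (hD hd) nd)
  have i1 := ih F n (F ⊓ E) (F ⊓ E) (by omega) (kC.le hF) (inf_lt_left.2 fe) (Or.inl le_rfl)
    fun f hf h _ => (br_mono nF f).trans_lt (sf f hf h)
  by_cases e' : F ≤ D'
  · have := logn_card_le (p := p) e'
    omega
  obtain ⟨f, hf, f1, f2⟩ := exists_not_two fe e'
  have f3 := sf f hf fun h => f1 h.2
  have f4 := e3 f hf f2
  by_cases a : logn p (♯D') + 2 ≤ logn p (♯F)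
  swap
  · omega
  obtain ⟨n, rfl⟩ := Nat.exists_eq_add_of_le' (show 1 ≤ n by omega)
  have := ih F n (F ⊓ E) D' (by omega) (kC.le hF) (inf_lt_left.2 fe)
    (Or.inr ⟨lt_of_le_not_ge hD' e', fun _ => a⟩) fun f hf h h' => by
      have := sf f hf h
      have := e3 f hf h'
      omega
  rw [ch]
  omega

end CF.Blk
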